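import Cfsg.Agent.Lib.Twisted.D4Group

/-! The action of the torus and the short root group on the unipotent radical of ³D₄(q). -/

set_option autoImplicit false
set_option linter.unusedSectionVars false

namespace CfsgLib.Twisted

open Cfsg.Lie
open CfsgLib.Chevalley (cert_D4 xG xG_mul rootsU)

namespace D4

variable {K : Type*} [Field K] {q : ℕ}

theorem commute_eZ_gen {s : ℕ} (hs : s ∈ [14, 15, 16, 17, 19, 20, 21, 22]) (z t : K) :
    Commute (eZ z) (X s t) := by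
  have k : ∀ s ∈ [14, 15, 16, 17, 19, 20, 21, 22],
      23 < 24 ∧ s < 24 ∧ s ≠ 23 ∧ s ≠ chevD4.neg 23 ∧ chevD4.commTerms 23 s = [] := by decide +kernel
  exact comm (k s hs) z t

theorem commute_eZ_eU (z u : K) : Commute (eZ z) (eU q u) :=
  ((commute_eZ_gen (by simp) _ _).mul_right (commute_eZ_gen (by simp) _ _)).mul_right
    (commute_eZ_gen (by simp) _ _)

theorem commute_eZ_eAB (z v : K) : Commute (eZ z) (eAB q v) :=
  ((commute_eZ_gen (by simp) _ _).mul_right (commute_eZ_gen (by simp) _ _)).mul_right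
    (commute_eZ_gen (by simp) _ _)

theorem commute_eZ_eB (z r : K) : Commute (eZ z) (eB r) := commute_eZ_gen (by simp) _ _

theorem commute_eZ_eY (z s : K) : Commute (eZ z) (eY s) := commute_eZ_gen (by simp) _ _

theorem eY_add (s s' : K) : eY (s + s') = eY s * eY s' := (xG_mul cert_D4 22 s s').symm

theorem eB_add (s s' : K) : eB (s + s') = eB s * eB s' := (xG_mul cert_D4 14 s s').symm

theorem conj_wA_eY (s : K) : wA * eY s * (wA : GL chevD4.Idx K)⁻¹ = eB s := by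
  simpa [eB, eY] using conj_wA (K := K) (s := 22) (s₁ := 21) (s₂ := 19) (s₃ := 14) (e := 1)
    (by decide +kernel) s

theorem conj_mul₃ {G : Type*} [Group G] (g a b c : G) :
    g * (a * b * c) * g⁻¹ = (g * a * g⁻¹) * (g * b * g⁻¹) * (g * c * g⁻¹) := by group

theorem tor_eU {a b c d : Kˣ} {l : K} (h1 : (a : K) * c / d = l) (h2 : (a : K) * d / c = l ^ q ^ 2)
    (h3 : (c : K) * d / a = l ^ q) (u : K) :
    tor a b c d * eU q u * (tor a b c d)⁻¹ = eU q (l * u) := by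
  rw [eU, eU, conj_mul₃, conj_tor (s := 21) (n₀ := 1) (n₁ := 0) (n₂ := 1) (n₃ := -1) (by decide +kernel),
    conj_tor (s := 20) (n₀ := 1) (n₁ := 0) (n₂ := -1) (n₃ := 1) (by decide +kernel),
    conj_tor (s := 17) (n₀ := -1) (n₁ := 0) (n₂ := 1) (n₃ := 1) (by decide +kernel), mul_pow, mul_pow,
    ← h2, ← h3, ← h1]
  simp only [zpow_one, zpow_zero, zpow_neg, mul_one, div_eq_mul_inv]
  ring_nf

theorem tor_eAB {a b c d : Kˣ} {l : K} (h1 : (a : K) * b / (c * d) = l)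
    (h2 : (b : K) * c / (a * d) = l ^ q) (h3 : (b : K) * d / (a * c) = l ^ q ^ 2) (v : K) :
    tor a b c d * eAB q v * (tor a b c d)⁻¹ = eAB q (l * v) := by
  rw [eAB, eAB, conj_mul₃, conj_tor (s := 19) (n₀ := 1) (n₁ := 1) (n₂ := -1) (n₃ := -1) (by decide +kernel),
    conj_tor (s := 16) (n₀ := -1) (n₁ := 1) (n₂ := 1) (n₃ := -1) (by decide +kernel),
    conj_tor (s := 15) (n₀ := -1) (n₁ := 1) (n₂ := -1) (n₃ := 1) (by decide +kernel), mul_pow, mul_pow,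
    ← h2, ← h3, ← h1]
  simp only [zpow_one, zpow_neg, mul_inv, div_eq_mul_inv]
  ring_nf

theorem tor_eB {a b c d : Kˣ} {l : K} (h : (b : K) ^ 2 / (a * c * d) = l) (r : K) :
    tor a b c d * eB r * (tor a b c d)⁻¹ = eB (l * r) := by
  rw [eB, conj_tor (s := 14) (n₀ := -1) (n₁ := 2) (n₂ := -1) (n₃ := -1) (by decide +kernel), ← h]
  simp only [zpow_ofNat, zpow_neg, mul_inv, div_eq_mul_inv, eB]
  ring_nf

theorem tor_eY {a b c d : Kˣ} {l : K} (h : (a : K) * c * d / b = l) (s : K) :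
    tor a b c d * eY s * (tor a b c d)⁻¹ = eY (l * s) := by
  rw [eY, conj_tor (s := 22) (n₀ := 1) (n₁ := -1) (n₂ := 1) (n₃ := 1) (by decide +kernel), ← h]
  simp only [zpow_neg, zpow_one, div_eq_mul_inv, eY]
  ring_nf

theorem tor_eZ (a b c d : Kˣ) (z : K) : tor a b c d * eZ z * (tor a b c d)⁻¹ = eZ ((b : K) * z) := by
  rw [eZ, conj_tor (s := 23) (n₀ := 0) (n₁ := 1) (n₂ := 0) (n₃ := 0) (by decide +kernel)]
  simp [eZ]

theorem torB_conj (b : Kˣ) (u s z : K) :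
    tor 1 b 1 1 * eU q u * (tor 1 b 1 1)⁻¹ = eU q u ∧
    tor 1 b 1 1 * eY s * (tor 1 b 1 1)⁻¹ = eY ((b : K)⁻¹ * s) ∧
    tor 1 b 1 1 * eZ z * (tor 1 b 1 1)⁻¹ = eZ ((b : K) * z) := by
  refine ⟨?_, tor_eY (by simp) _, tor_eZ _ _ _ _ _⟩
  rw [tor_eU (l := 1) (by simp) (by simp) (by simp), one_mul]

theorem torS_conj (c : Kˣ) (hc : (c : K) ^ q = c) (u v r s z : K) :
    tor c (c ^ 2) c c * eU q u * (tor c (c ^ 2) c c)⁻¹ = eU q ((c : K) * u) ∧
    tor c (c ^ 2) c c * eAB q v * (tor c (c ^ 2) c c)⁻¹ = eAB q ((c : K) * v) ∧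
    tor c (c ^ 2) c c * eB r * (tor c (c ^ 2) c c)⁻¹ = eB ((c : K) * r) ∧
    tor c (c ^ 2) c c * eY s * (tor c (c ^ 2) c c)⁻¹ = eY ((c : K) * s) ∧
    tor c (c ^ 2) c c * eZ z * (tor c (c ^ 2) c c)⁻¹ = eZ ((c : K) ^ 2 * z) := by
  have hc0 : (c : K) ≠ 0 := c.ne_zero
  have hc2 : (c : K) ^ q ^ 2 = c := by rw [show q ^ 2 = q * q from sq q, pow_mul, hc, hc]
  have e : ((c ^ 2 : Kˣ) : K) = (c : K) ^ 2 := Units.val_pow_eq_pow_val c 2
  refine ⟨tor_eU ?_ ?_ ?_ _, tor_eAB ?_ ?_ ?_ _, tor_eB ?_ _, tor_eY ?_ _, ?_⟩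
  all_goals first
    | (rw [tor_eZ, e])
    | ((try simp only [e, hc, hc2]); field_simp)

theorem torA_conj (c : Kˣ) (u v s z : K) (hc : (((c : K) ^ q) ^ q) ^ q = c) :
    tor c 1 (c ^ q) (c ^ q ^ 2) * eU q u * (tor c 1 (c ^ q) (c ^ q ^ 2))⁻¹ =
      eU q ((c : K) * (c : K) ^ q / (c : K) ^ q ^ 2 * u) ∧
    tor c 1 (c ^ q) (c ^ q ^ 2) * eAB q v * (tor c 1 (c ^ q) (c ^ q ^ 2))⁻¹ =
      eAB q ((c : K) / ((c : K) ^ q * (c : K) ^ q ^ 2) * v) ∧
    tor c 1 (c ^ q) (c ^ q ^ 2) * eY s * (tor c 1 (c ^ q) (c ^ q ^ 2))⁻¹ =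
      eY ((c : K) * (c : K) ^ q * (c : K) ^ q ^ 2 * s) ∧
    tor c 1 (c ^ q) (c ^ q ^ 2) * eZ z * (tor c 1 (c ^ q) (c ^ q ^ 2))⁻¹ = eZ z := by
  have hc0 : (c : K) ≠ 0 := c.ne_zero
  have hq2 : ∀ x : K, x ^ q ^ 2 = (x ^ q) ^ q := fun x => by rw [← pow_mul, sq]
  refine ⟨tor_eU ?_ ?_ ?_ _, tor_eAB ?_ ?_ ?_ _, tor_eY ?_ _, ?_⟩
  all_goals first
    | (rw [tor_eZ, Units.val_one, one_mul])
    | (simp only [Units.val_pow_eq_pow_val, Units.val_one, hq2, mul_pow, div_pow, hc, one_mul]; field_simp)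
    | (simp only [Units.val_pow_eq_pow_val, Units.val_one, hq2, mul_pow, div_pow, hc, one_mul])

variable [Fintype K] (hq : IsPrimePow q) (hK : Fintype.card K = q ^ 3)
include hq hK

theorem eAB_add (v v' : K) : eAB q (v + v') = eAB q v * eAB q v' := by
  simp only [eAB]
  rw [show q ^ 2 = q * q from sq q, pow_mul, pow_mul, pow_mul, pow_q_add hq hK, pow_q_add hq hK,
    show -(v + v') = -v + -v' by ring]
  generalize (v ^ q) ^ q = a
  generalize (v' ^ q) ^ q = a'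
  generalize v ^ q = b
  generalize v' ^ q = b'
  simp only [mul_assoc]
  rw [commM (r := 15) (s := 19) (by decide +kernel), commM (r := 16) (s := 19) (by decide +kernel),
    commM (r := 15) (s := 16) (by decide +kernel)]
  simp only [mergeM, xG_mul]

/-- the conjugate of `eB` by the short simple root group, in root group coordinates -/
theorem conj_eA_eB' (t : K) {r : K} (hr : r ∈ fixSub hq hK) :
    eA q t * eB r * (eA q t)⁻¹ = eB r * eAB q (t * r) *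
      eZ (-(t * t ^ q * t ^ q ^ 2 * r * r)) * eU q (t * t ^ q * r) *
      eY (-(t * t ^ q * t ^ q ^ 2 * r)) := by
  rw [mem_fixSub hq hK] at hr
  have hr2 : r ^ q ^ 2 = r := by rw [show q ^ 2 = q * q from sq q, pow_mul, hr, hr]
  have hc : ((t ^ q) ^ q) ^ q = t := pow_q_cube hq hK t
  rw [conj_eA_eB, eAB, eU, eB, eZ, eY]
  simp only [show q ^ 2 = q * q from sq q, pow_mul] at hr2 ⊢
  simp only [mul_pow, hr, hc]
  ring_nf

end D4

end CfsgLib.Twisted
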