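import Cfsg.Agent.Lib.Twisted.RepEigen

/-! Non-trivial eigencharacters, characters of finite fields, and counting independent eigenvectors. -/

set_option autoImplicit false

namespace CfsgLib.Twisted.RepEigen

variable {V : Type*} [AddCommGroup V] [Module ℂ V] [FiniteDimensional ℂ V]

/-- A non-trivially acting element of finite order has an eigenvalue different from one on a
common eigenvector of operators commuting on an invariant subspace. -/
theorem exists_eigen_ne_one {G : Type*} [Group G] [Finite G] (ρ : Representation ℂ G V)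
    (W : Submodule ℂ V) (hinv : ∀ g, ∀ w ∈ W, ρ g w ∈ W)
    (hcomm : ∀ g g', ∀ w ∈ W, ρ g (ρ g' w) = ρ g' (ρ g w))
    (g₀ : G) (hg₀ : ∃ w ∈ W, ρ g₀ w ≠ w) :
    ∃ (χ : G →* ℂ) (v : V), v ∈ W ∧ v ≠ 0 ∧ (∀ g, ρ g v = χ g • v) ∧ χ g₀ ≠ 1 := by
  classical
  let f : G → Module.End ℂ W := fun g => (ρ g).restrict (hinv g)
  have hf : ∀ g g', Commute (f g) (f g') := fun g g' =>
    LinearMap.ext fun w => Subtype.ext (hcomm g g' w w.2)
  have hne : LinearMap.range (f g₀ - 1) ≠ ⊥ := fun h => by
    obtain ⟨w, hw, hne⟩ := hg₀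
    have h1 := LinearMap.congr_fun (sub_eq_zero.1 (LinearMap.range_eq_bot.1 h)) ⟨w, hw⟩
    exact hne (congrArg Subtype.val h1)
  obtain ⟨⟨v, hvW⟩, ⟨⟨w, hw⟩, hvw⟩, hv0, hv⟩ := exists_common_eigen f hf (LinearMap.range (f g₀ - 1)) hne
    (fun g x ⟨y, hy⟩ => ⟨f g y, by
      rw [← hy]
      simp only [LinearMap.sub_apply, Module.End.one_apply, map_sub]
      have h := LinearMap.congr_fun (hf g₀ g).eq y
      simp only [Module.End.mul_apply] at h
      rw [h]⟩)
  choose c hc using hv
  have hv0' : v ≠ 0 := fun e => hv0 (Subtype.ext e)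
  have hc' : ∀ g, ρ g v = c g • v := fun g => congrArg Subtype.val (hc g)
  have hinj := smul_left_injective ℂ hv0'
  refine ⟨{ toFun := c
            map_one' := hinj (by simp only [← hc', map_one, Module.End.one_apply, one_smul])
            map_mul' := fun a b => hinj (by
              simp only [← hc', map_mul, Module.End.mul_apply]
              rw [hc' b, map_smul, hc' a, smul_smul, mul_comm]) }, v, hvW, hv0', hc', fun e => ?_⟩
  have hfix : ρ g₀ v = v := by
    rw [hc' g₀]
    exact (congrArg (· • v) e).trans (one_smul _ _)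
  have hvw' : ρ g₀ w - w = v := congrArg Subtype.val hvw
  have hpow : ∀ n : ℕ, ρ (g₀ ^ n) w = w + (n : ℂ) • v := by
    intro n
    induction n with
    | zero => simp
    | succ n ih =>
      rw [pow_succ', map_mul, Module.End.mul_apply, ih, map_add, map_smul, hfix,
        show ρ g₀ w = w + v by rw [← hvw']; abel, Nat.cast_succ, add_smul, one_smul]
      abel
  have h := hpow (orderOf g₀)
  rw [pow_orderOf_eq_one, map_one, Module.End.one_apply, left_eq_add, smul_eq_zero] at h
  rcases h with h | h
  · exact (orderOf_pos g₀).ne' (Nat.cast_eq_zero.1 h)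
  · exact hv0' h

/-- A non-degenerate pairing identifies a finite group with its dual. -/
theorem exists_pairing_eq {A : Type*} [AddCommGroup A] [Finite A] (f : A → AddChar A ℂ)
    (hf : Function.Injective f) (ψ : AddChar A ℂ) : ∃ a, f a = ψ :=
  (hf.bijective_of_nat_card_le (by
    have : Fintype A := Fintype.ofFinite A
    rw [Nat.card_eq_fintype_card, Nat.card_eq_fintype_card, AddChar.card_eq])).2 ψ

/-- Eigenvectors for distinct characters of `A`, none trivial on `Z`, and eigenvectors for distinct
characters of `B` inside the fixed points of `Z` are independent together. -/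
theorem card_add_card_le {G A B Z : Type*} [Monoid G] [Monoid A] [Monoid B]
    (ρ : Representation ℂ G V) (fA : A →* G) (fB : B →* G) (fZ : Z → A) (U : Submodule ℂ V)
    {ι κ : Type*} [Fintype ι] [Fintype κ] (φ : ι → (A →* ℂ)) (v : ι → V) (χ : κ → (B →* ℂ)) (w : κ → V)
    (hφ : Function.Injective φ) (hv : ∀ i, v i ≠ 0) (hev : ∀ i a, ρ (fA a) (v i) = φ i a • v i)
    (hχ : Function.Injective χ) (hw : ∀ j, w j ≠ 0) (hew : ∀ j b, ρ (fB b) (w j) = χ j b • w j)
    (hne : ∀ i, ∃ z, φ i (fZ z) ≠ 1) (hU : ∀ j, w j ∈ U) (hfix : ∀ u ∈ U, ∀ z, ρ (fA (fZ z)) u = u) :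
    Fintype.card ι + Fintype.card κ ≤ Module.finrank ℂ V := by
  classical
  have h1 : LinearIndependent ℂ v := linearIndependent_eigen (ρ.comp fA) φ v hφ hv hev
  have h2 : LinearIndependent ℂ w := linearIndependent_eigen (ρ.comp fB) χ w hχ hw hew
  have hdisj : Disjoint (Submodule.span ℂ (Set.range v)) (Submodule.span ℂ (Set.range w)) := by
    refine Disjoint.mono_right (Submodule.span_le.2 (by rintro _ ⟨j, rfl⟩; exact hU j) : _ ≤ U) ?_
    rw [Submodule.disjoint_def]
    intro x hx hxU
    obtain ⟨c, rfl⟩ := (Submodule.mem_span_range_iff_exists_fun ℂ).1 hx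
    refine Finset.sum_eq_zero fun i _ => ?_
    obtain ⟨z, hz⟩ := hne i
    have h := hfix _ hxU z
    rw [← sub_eq_zero, map_sum, ← Finset.sum_sub_distrib] at h
    simp only [map_smul, hev, smul_smul, ← sub_smul] at h
    have := Fintype.linearIndependent_iff.1 h1 _ h i
    rw [← mul_sub_one, mul_eq_zero] at this
    rw [this.resolve_right (sub_ne_zero.2 hz), zero_smul]
  have h3 := (h1.sum_type h2 hdisj).fintype_card_le_finrank
  rwa [Fintype.card_sum] at h3

end CfsgLib.Twisted.RepEigen
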