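import Cfsg.Agent.Lib.Twisted.OrbitWords

/-! The fixed field of `t ↦ t ^ q` in a field with `q ^ 3` elements, with trace and norm. -/

set_option autoImplicit false
set_option linter.unusedSectionVars false

namespace CfsgLib.Twisted.D4

variable {K : Type*} [Field K] [Fintype K] {q : ℕ}

/-- the fixed field of `t ↦ t ^ q` -/
def fixSub (hq : IsPrimePow q) (hK : Fintype.card K = q ^ 3) : Subfield K where
  carrier := {t | t ^ q = t}
  zero_mem' := zero_pow hq.pos.ne'
  one_mem' := one_pow q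
  add_mem' {a b} ha hb := by
    simp only [Set.mem_ofPred_eq] at ha hb ⊢
    have h := sub_pow_primePow hq three_ne_zero hK (a + b) b
    rw [add_sub_cancel_right, ha, hb] at h
    exact (eq_sub_iff_add_eq.1 h).symm
  mul_mem' {a b} ha hb := by
    simp only [Set.mem_ofPred_eq] at ha hb ⊢
    rw [mul_pow, ha, hb]
  neg_mem' {a} ha := by
    simp only [Set.mem_ofPred_eq] at ha ⊢
    rw [neg_pow, neg_one_pow_primePow hq three_ne_zero hK, ha, neg_one_mul]
  inv_mem' a ha := by
    simp only [Set.mem_ofPred_eq] at ha ⊢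
    rw [inv_pow, ha]

variable (hq : IsPrimePow q) (hK : Fintype.card K = q ^ 3)
include hq hK

theorem mem_fixSub {t : K} : t ∈ fixSub hq hK ↔ t ^ q = t := Iff.rfl

theorem pow_q_add (a b : K) : (a + b) ^ q = a ^ q + b ^ q := by
  have h := sub_pow_primePow hq three_ne_zero hK (a + b) b
  rw [add_sub_cancel_right] at h
  rw [h, sub_add_cancel]

theorem pow_q_neg (a : K) : (-a) ^ q = -a ^ q := by
  rw [neg_pow, neg_one_pow_primePow hq three_ne_zero hK, neg_one_mul]

theorem pow_q_cube (t : K) : ((t ^ q) ^ q) ^ q = t := by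
  rw [← pow_mul, ← pow_mul, show q * (q * q) = q ^ 3 by ring, ← hK, FiniteField.pow_card]

theorem card_fixSub : Nat.card (fixSub hq hK) = q := by
  classical
  have h2 := hq.two_le
  have hcyc : IsCyclic Kˣ := inferInstance
  have hu : Nat.card Kˣ = q ^ 3 - 1 := by
    rw [Nat.card_units, Nat.card_eq_fintype_card, hK]
  have hdvd : q - 1 ∣ q ^ 3 - 1 := by simpa using Nat.sub_dvd_pow_sub_pow q 1 3
  have hker := IsCyclic.card_powMonoidHom_ker Kˣ (q - 1)
  rw [hu, Nat.gcd_eq_right hdvd] at hker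
  let e : (fixSub hq hK)ˣ ≃ (powMonoidHom (q - 1) : Kˣ →* Kˣ).ker :=
    { toFun := fun x => ⟨Units.map (fixSub hq hK).subtype.toMonoidHom x, by
        refine MonoidHom.mem_ker.2 (Units.ext ?_)
        have hx : ((x : fixSub hq hK) : K) ^ q = (x : fixSub hq hK) := (x : fixSub hq hK).2
        have hx0 : ((x : fixSub hq hK) : K) ≠ 0 := fun e => x.ne_zero (Subtype.ext e)
        show ((x : fixSub hq hK) : K) ^ (q - 1) = 1
        refine mul_right_cancel₀ hx0 ?_
        rw [← pow_succ, Nat.sub_add_cancel (by omega : 1 ≤ q), hx, one_mul]⟩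
      invFun := fun y => Units.mk0 ⟨((y : Kˣ) : K), by
        have h := congrArg Units.val (MonoidHom.mem_ker.1 y.2)
        simp only [powMonoidHom_apply, Units.val_pow_eq_pow_val, Units.val_one] at h
        show ((y : Kˣ) : K) ^ q = _
        exact (congrArg (((y : Kˣ) : K) ^ ·) (show q = q - 1 + 1 by omega)).trans (by rw [pow_succ, h, one_mul])⟩
        (fun e => (y : Kˣ).ne_zero (congrArg Subtype.val e))
      left_inv := fun x => Units.ext (Subtype.ext rfl)
      right_inv := fun y => Subtype.ext (Units.ext rfl) }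
  have h1 := Nat.card_congr e
  rw [hker, Nat.card_units] at h1
  have : 0 < Nat.card (fixSub hq hK) := Nat.card_pos
  omega

/-- the trace pairing -/
def trPair (v u : K) : K := v * u ^ q + v ^ q * u ^ q ^ 2 + v ^ q ^ 2 * u

theorem trPair_mem (v u : K) : trPair (q := q) v u ∈ fixSub hq hK := by
  rw [mem_fixSub hq hK, trPair, pow_q_add hq hK, pow_q_add hq hK, mul_pow, mul_pow, mul_pow,
    show q ^ 2 = q * q from sq q, pow_mul, pow_mul, pow_q_cube hq hK, pow_q_cube hq hK]
  ring

theorem trPair_smul (v u : K) {l : K} (hl : l ∈ fixSub hq hK) :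
    trPair (q := q) v (l * u) = l * trPair (q := q) v u := by
  rw [mem_fixSub hq hK] at hl
  rw [trPair, trPair, mul_pow, mul_pow, show q ^ 2 = q * q from sq q, pow_mul l, hl, hl]
  ring

theorem trPair_sub (v v' u : K) :
    trPair (q := q) (v - v') u = trPair (q := q) v u - trPair (q := q) v' u := by
  rw [trPair, trPair, trPair, show q ^ 2 = q * q from sq q, pow_mul (v - v'),
    sub_pow_primePow hq three_ne_zero hK, sub_pow_primePow hq three_ne_zero hK, ← pow_mul, ← pow_mul]
  ring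

theorem trPair_add_left (v v' u : K) :
    trPair (q := q) (v + v') u = trPair (q := q) v u + trPair (q := q) v' u := by
  rw [trPair, trPair, trPair, show q ^ 2 = q * q from sq q, pow_mul (v + v'),
    pow_q_add hq hK, pow_q_add hq hK, ← pow_mul, ← pow_mul]
  ring

/-- the pairing is non-degenerate -/
theorem trPair_nondeg {v : K} (hv : v ≠ 0) : ∃ u, trPair (q := q) v u = 1 := by
  classical
  have h2 := hq.two_le
  suffices h : ∃ u, trPair (q := q) v u ≠ 0 by
    obtain ⟨u, hu⟩ := h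
    exact ⟨(trPair (q := q) v u)⁻¹ * u, by
      rw [trPair_smul hq hK v u (inv_mem (trPair_mem hq hK v u)), inv_mul_cancel₀ hu]⟩
  by_contra h
  push Not at h
  let P : Polynomial K := Polynomial.C (v ^ q) * Polynomial.X ^ q ^ 2 + Polynomial.C v * Polynomial.X ^ q +
    Polynomial.C (v ^ q ^ 2) * Polynomial.X
  have hlt1 : q < q ^ 2 := by nlinarith
  have hcoef : P.coeff (q ^ 2) = v ^ q := by
    simp only [P, Polynomial.coeff_add, Polynomial.coeff_C_mul, Polynomial.coeff_X_pow, Polynomial.coeff_X]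
    rw [if_neg hlt1.ne', if_neg (by omega : ¬ 1 = q ^ 2)]
    simp
  have hP : P ≠ 0 := fun e => pow_ne_zero q hv (by rw [← hcoef, e, Polynomial.coeff_zero])
  have hdeg : P.natDegree ≤ q ^ 2 := by
    refine Polynomial.natDegree_le_iff_coeff_eq_zero.2 fun n hn => ?_
    simp only [P, Polynomial.coeff_add, Polynomial.coeff_C_mul, Polynomial.coeff_X_pow, Polynomial.coeff_X]
    rw [if_neg (by omega), if_neg (by omega), if_neg (by omega)]
    simp
  have hsub : (Finset.univ : Finset K).val ⊆ P.roots := fun x _ => by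
    rw [Polynomial.mem_roots hP, Polynomial.IsRoot.def]
    simp only [P, Polynomial.eval_add, Polynomial.eval_mul, Polynomial.eval_C, Polynomial.eval_pow,
      Polynomial.eval_X]
    rw [← h x, trPair]
    ring
  have hle := (Polynomial.card_le_degree_of_subset_roots hsub).trans hdeg
  rw [Finset.card_univ, hK] at hle
  have : q ^ 2 < q ^ 3 := Nat.pow_lt_pow_right h2 (by norm_num)
  omega

/-- the norm is surjective -/
theorem exists_norm_eq {l : K} (hl : l ∈ fixSub hq hK) : ∃ t : K, t * t ^ q * t ^ q ^ 2 = l := by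
  classical
  rcases eq_or_ne l 0 with rfl | hl0
  · exact ⟨0, by rw [zero_mul, zero_mul]⟩
  have h2 := hq.two_le
  have hu : Nat.card Kˣ = q ^ 3 - 1 := by
    rw [Nat.card_units, Nat.card_eq_fintype_card, hK]
  obtain ⟨g, hg⟩ := IsCyclic.exists_generator (α := Kˣ)
  obtain ⟨j, hj⟩ := (Subgroup.mem_zpowers_iff).1 (hg (Units.mk0 l hl0))
  have hord : orderOf g = q ^ 3 - 1 := by rw [orderOf_eq_card_of_forall_mem_zpowers hg, hu]
  have h1 : g ^ (j * ((q - 1 : ℕ) : ℤ)) = 1 := by
    rw [zpow_mul, hj, zpow_natCast]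
    refine Units.ext ?_
    rw [Units.val_pow_eq_pow_val, Units.val_mk0, Units.val_one]
    refine mul_right_cancel₀ hl0 ?_
    rw [← pow_succ, Nat.sub_add_cancel (by omega : 1 ≤ q), one_mul]
    exact (mem_fixSub hq hK).1 hl
  have hdiv := orderOf_dvd_iff_zpow_eq_one.2 h1
  rw [hord] at hdiv
  have hfac : ((q ^ 3 - 1 : ℕ) : ℤ) = (1 + (q : ℤ) + (q : ℤ) ^ 2) * ((q - 1 : ℕ) : ℤ) := by
    rw [Nat.cast_sub (Nat.one_le_pow _ _ (by omega)), Nat.cast_sub (by omega : 1 ≤ q)]
    push_cast; ring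
  rw [hfac] at hdiv
  obtain ⟨i, hi⟩ := Int.dvd_of_mul_dvd_mul_right (by omega) hdiv
  refine ⟨((g ^ i : Kˣ) : K), ?_⟩
  have e : ∀ x : Kˣ, ((x : K) * (x : K) ^ q * (x : K) ^ q ^ 2) = ((x ^ (1 + (q : ℤ) + (q : ℤ) ^ 2) : Kˣ) : K) := fun x => by
    rw [show (1 + (q : ℤ) + (q : ℤ) ^ 2) = ((1 + q + q ^ 2 : ℕ) : ℤ) by push_cast; ring, zpow_natCast,
      Units.val_pow_eq_pow_val, pow_add, pow_add, pow_one]
  rw [e, ← zpow_mul, mul_comm i, ← hi, hj, Units.val_mk0]

/-- a unit whose square differs from the square of its norm -/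
theorem exists_sq_ne_norm : ∃ c : Kˣ, (c : K) ^ 2 ≠ ((c : K) * (c : K) ^ q * (c : K) ^ q ^ 2) ^ 2 := by
  classical
  have h2 := hq.two_le
  obtain ⟨g, hg⟩ := IsCyclic.exists_generator (α := Kˣ)
  refine ⟨g, fun e => ?_⟩
  have hord : orderOf g = q ^ 3 - 1 := by
    rw [orderOf_eq_card_of_forall_mem_zpowers hg, Nat.card_units, Nat.card_eq_fintype_card, hK]
  have e1 : ((g : K) * (g : K) ^ q * (g : K) ^ q ^ 2) ∈ fixSub hq hK := by
    rw [mem_fixSub hq hK, mul_pow, mul_pow, show q ^ 2 = q * q from sq q, pow_mul, pow_q_cube hq hK]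
    ring
  have e2 : ((g : K) ^ 2) ^ q = (g : K) ^ 2 := by
    rw [e]; exact (mem_fixSub hq hK).1 (pow_mem e1 2)
  have e3 : g ^ (2 * q - 2) = 1 := by
    refine Units.ext ?_
    rw [Units.val_pow_eq_pow_val, Units.val_one]
    refine mul_right_cancel₀ (pow_ne_zero 2 g.ne_zero) ?_
    rw [← pow_add, Nat.sub_add_cancel (by omega), one_mul, mul_comm 2 q]
    rw [pow_mul, ← pow_mul, mul_comm q 2, pow_mul]
    exact e2
  have := Nat.le_of_dvd (by omega) (hord ▸ orderOf_dvd_of_pow_eq_one e3)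
  have : 4 * q ≤ q ^ 3 := by nlinarith [Nat.mul_le_mul h2 h2]
  omega

end CfsgLib.Twisted.D4
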