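import Cfsg.Agent.Lib.Twisted.D4Roots
import Cfsg.Agent.Lib.Twisted.D4Field

/-! Root elements, torus and Weyl elements inside ³D₄(q). -/

set_option autoImplicit false
set_option linter.unusedSectionVars false

namespace CfsgLib.Twisted

open Cfsg.Lie
open CfsgLib.Chevalley (cert_D4 auxD4 xG coe_xG xG_mul xG_zero xG_inv nG hG rootsU xG_mem_rootsU
  rootsU_induction xG_injective etaAt torusHom torusHom_mulSingle)

namespace D4

variable {K : Type*} [Field K] [Fintype K] {q : ℕ} (hq : IsPrimePow q) (hK : Fintype.card K = q ^ 3)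
include hq hK

omit hq hK in
theorem conj_nB {s s' : ℕ} {e : ℤ} (h : s < 24 ∧ chevD4.reflectRoot 1 s = s' ∧ etaAt auxD4 1 s = e)
    (t : K) : nG cert_D4 14 1 * X s t * (nG cert_D4 14 (1 : K))⁻¹ = X s' ((e : K) * t) := by
  obtain ⟨hs, rfl, rfl⟩ := h
  exact conj_n (K := K) (1 : Fin 4) ⟨s, hs⟩ t

theorem eA_mem (t : K) : eA q t ∈ twistedD4 K q := by
  have h := wordG_mem_gen cert_D4 (S := d4Words K q) (w := [(d4p1, t), (d4p3, t ^ q), (d4p4, t ^ q ^ 2)])
    (Or.inr ⟨t, (d4p1, d4p3, d4p4), by simp, rfl⟩)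
  simpa [wordG, eA, X, twistedD4, mul_assoc, d4p1, d4p3, d4p4] using h

theorem eMA_mem (t : K) : eMA q t ∈ twistedD4 K q := by
  have h := wordG_mem_gen cert_D4 (S := d4Words K q) (w := [(d4m1, t), (d4m3, t ^ q), (d4m4, t ^ q ^ 2)])
    (Or.inr ⟨t, (d4m1, d4m3, d4m4), by simp, rfl⟩)
  simpa [wordG, eMA, X, twistedD4, mul_assoc, d4m1, d4m3, d4m4] using h

theorem x14_mem {r : K} (hr : r ∈ fixSub hq hK) : X 14 r ∈ twistedD4 K q := by
  have h := wordG_mem_gen cert_D4 (S := d4Words K q) (w := [(d4p2, r)])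
    (Or.inl ⟨r, hr, d4p2, by simp, rfl⟩)
  simpa [wordG, X, twistedD4, d4p2] using h

theorem x9_mem {r : K} (hr : r ∈ fixSub hq hK) : X 9 r ∈ twistedD4 K q := by
  have h := wordG_mem_gen cert_D4 (S := d4Words K q) (w := [(d4m2, r)])
    (Or.inl ⟨r, hr, d4m2, by simp, rfl⟩)
  simpa [wordG, X, twistedD4, d4m2] using h

theorem nB_mem {c : K} (hc : c ∈ fixSub hq hK) : nG cert_D4 14 c ∈ twistedD4 K q := by
  rw [nG, show chevD4.neg 14 = 9 from rfl]
  exact mul_mem (mul_mem (x14_mem hq hK hc) (x9_mem hq hK (neg_mem (inv_mem hc)))) (x14_mem hq hK hc)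

omit hq hK in
/-- the element of the orbit of fundamental roots -/
noncomputable def nA (q : ℕ) (c : K) : GL chevD4.Idx K :=
  nG cert_D4 18 c * nG cert_D4 13 (c ^ q) * nG cert_D4 12 (c ^ q ^ 2)

theorem nA_mem (c : K) : nA q c ∈ twistedD4 K q := by
  have e1 : (-c⁻¹) ^ q = -(c ^ q)⁻¹ := by rw [pow_q_neg hq hK, inv_pow]
  have e2 : (-c⁻¹) ^ q ^ 2 = -(c ^ q ^ 2)⁻¹ := by
    rw [show q ^ 2 = q * q from sq q, pow_mul, e1, pow_q_neg hq hK, inv_pow, ← pow_mul]
  have h := mul_mem (mul_mem (eA_mem hq hK c) (eMA_mem hq hK (-c⁻¹))) (eA_mem hq hK c)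
  rw [eA, eMA, e1, e2] at h
  simp only [mul_assoc] at h
  rw [commM (r := 12) (s := 5) (by decide +kernel), commM (r := 13) (s := 5) (by decide +kernel),
    commM (r := 11) (s := 18) (by decide +kernel), commM (r := 10) (s := 18) (by decide +kernel),
    commM (r := 12) (s := 18) (by decide +kernel), commM (r := 13) (s := 18) (by decide +kernel),
    commM (r := 12) (s := 10) (by decide +kernel), commM (r := 11) (s := 13) (by decide +kernel),
    commM (r := 12) (s := 13) (by decide +kernel)] at h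
  simpa [nA, nG, mul_assoc, show chevD4.neg 18 = 5 from rfl, show chevD4.neg 13 = 10 from rfl,
    show chevD4.neg 12 = 11 from rfl] using h

theorem wA_mem : (wA : GL chevD4.Idx K) ∈ twistedD4 K q := by
  have h := nA_mem hq hK (1 : K)
  rwa [nA, one_pow, one_pow] at h

omit hq hK in
theorem commute_n {r s : ℕ}
    (a : ∀ t u : K, Commute (X r t) (X s u)) (b : ∀ t u : K, Commute (X r t) (X (chevD4.neg s) u))
    (c : ∀ t u : K, Commute (X (chevD4.neg r) t) (X s u))
    (d : ∀ t u : K, Commute (X (chevD4.neg r) t) (X (chevD4.neg s) u)) (t u : K) :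
    Commute (nG cert_D4 r t) (nG cert_D4 s u) := by
  rw [nG, nG]
  refine Commute.mul_left (Commute.mul_left ?_ ?_) ?_ <;>
    refine Commute.mul_right (Commute.mul_right ?_ ?_) ?_
  exacts [a _ _, b _ _, a _ _, c _ _, d _ _, c _ _, a _ _, b _ _, a _ _]

theorem torA_mem (c : Kˣ) : tor c 1 (c ^ q) (c ^ q ^ 2) ∈ twistedD4 K q := by
  have h := mul_mem (nA_mem hq hK (c : K)) (nA_mem hq hK (-1 : K))
  have em : ((-1 : K)) ^ q = -1 := neg_one_pow_primePow hq three_ne_zero hK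
  have em2 : ((-1 : K)) ^ q ^ 2 = -1 := by rw [show q ^ 2 = q * q from sq q, pow_mul, em, em]
  rw [nA, nA, em, em2] at h
  have c13 : ∀ t u : K, Commute (nG cert_D4 13 t) (nG cert_D4 18 u) :=
    commute_n (comm (by decide +kernel)) (comm (by decide +kernel))
      (comm (by decide +kernel)) (comm (by decide +kernel))
  have c14 : ∀ t u : K, Commute (nG cert_D4 12 t) (nG cert_D4 18 u) :=
    commute_n (comm (by decide +kernel)) (comm (by decide +kernel))
      (comm (by decide +kernel)) (comm (by decide +kernel))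
  have c34 : ∀ t u : K, Commute (nG cert_D4 12 t) (nG cert_D4 13 u) :=
    commute_n (comm (by decide +kernel)) (comm (by decide +kernel))
      (comm (by decide +kernel)) (comm (by decide +kernel))
  convert h using 1
  rw [tor_eq, Units.val_pow_eq_pow_val, Units.val_pow_eq_pow_val, Units.val_one,
    show hG cert_D4 14 (1 : K) = 1 from hG_one, mul_one]
  simp only [hG, mul_assoc]
  rw [← mul_assoc (nG cert_D4 12 ((c : K) ^ q ^ 2)) (nG cert_D4 18 (-1)), (c14 _ _).eq, mul_assoc,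
    ← mul_assoc (nG cert_D4 13 ((c : K) ^ q)) (nG cert_D4 18 (-1)), (c13 _ _).eq, mul_assoc,
    ← mul_assoc (nG cert_D4 12 ((c : K) ^ q ^ 2)) (nG cert_D4 13 (-1)), (c34 _ _).eq, mul_assoc]

theorem torB_mem {b : Kˣ} (hb : (b : K) ∈ fixSub hq hK) : tor 1 b 1 1 ∈ twistedD4 K q := by
  rw [tor_eq, Units.val_one, hG_one, hG_one, hG_one, one_mul, mul_one, mul_one, hG]
  exact mul_mem (nB_mem hq hK hb) (nB_mem hq hK (neg_mem (one_mem _)))

theorem torS_mem {c : Kˣ} (hc : (c : K) ∈ fixSub hq hK) : tor c (c ^ 2) c c ∈ twistedD4 K q := by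
  have e1 : c ^ q = c := Units.ext (by rw [Units.val_pow_eq_pow_val]; exact hc)
  have e2 : c ^ q ^ 2 = c := by rw [show q ^ 2 = q * q from sq q, pow_mul, e1, e1]
  have hc2 : ((c ^ 2 : Kˣ) : K) ∈ fixSub hq hK := by
    rw [Units.val_pow_eq_pow_val]; exact pow_mem hc 2
  have h := mul_mem (torA_mem hq hK c) (torB_mem hq hK hc2)
  rw [e1, e2] at h
  convert h using 1
  simp [tor_mul]

theorem eAB_mem (v : K) : eAB q v ∈ twistedD4 K q := by
  have hw := nB_mem hq hK (one_mem (fixSub hq hK))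
  have h := mul_mem (mul_mem hw (eA_mem hq hK (-v))) (inv_mem hw)
  have h1 : ∀ t : K, nG cert_D4 14 1 * X 18 t * (nG cert_D4 14 1)⁻¹ = X 19 t := fun t => by
    simpa using conj_nB (K := K) (s := 18) (s' := 19) (e := 1) (by decide +kernel) t
  have h2 : ∀ t : K, nG cert_D4 14 1 * X 13 t * (nG cert_D4 14 1)⁻¹ = X 16 (-t) := fun t => by
    simpa using conj_nB (K := K) (s := 13) (s' := 16) (e := -1) (by decide +kernel) t
  have h3 : ∀ t : K, nG cert_D4 14 1 * X 12 t * (nG cert_D4 14 1)⁻¹ = X 15 (-t) := fun t => by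
    simpa using conj_nB (K := K) (s := 12) (s' := 15) (e := -1) (by decide +kernel) t
  convert h using 1
  rw [eA, show ∀ a b c : GL chevD4.Idx K, nG cert_D4 14 1 * (a * b * c) * (nG cert_D4 14 1)⁻¹ =
    (nG cert_D4 14 1 * a * (nG cert_D4 14 1)⁻¹) * (nG cert_D4 14 1 * b * (nG cert_D4 14 1)⁻¹) *
      (nG cert_D4 14 1 * c * (nG cert_D4 14 1)⁻¹) from fun a b c => by group, h1, h2, h3, eAB,
    show q ^ 2 = q * q from sq q, pow_mul, pow_mul, pow_q_neg hq hK, pow_q_neg hq hK, neg_neg, neg_neg]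

theorem eU_mem (u : K) : eU q u ∈ twistedD4 K q := by
  have hw := wA_mem hq hK (K := K)
  have h := mul_mem (mul_mem hw (eAB_mem hq hK (-u ^ q))) (inv_mem hw)
  have h19 : ∀ t : K, wA * X 19 t * (wA : GL chevD4.Idx K)⁻¹ = X 17 t := fun t => by
    simpa using conj_wA (K := K) (s := 19) (s₁ := 20) (s₂ := 22) (s₃ := 17) (e := 1) (by decide +kernel) t
  have h16 : ∀ t : K, wA * X 16 t * (wA : GL chevD4.Idx K)⁻¹ = X 20 t := fun t => by
    simpa using conj_wA (K := K) (s := 16) (s₁ := 17) (s₂ := 15) (s₃ := 20) (e := 1) (by decide +kernel) t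
  have h15 : ∀ t : K, wA * X 15 t * (wA : GL chevD4.Idx K)⁻¹ = X 21 t := fun t => by
    simpa using conj_wA (K := K) (s := 15) (s₁ := 14) (s₂ := 16) (s₃ := 21) (e := 1) (by decide +kernel) t
  convert h using 1
  rw [eAB, show ∀ a b c : GL chevD4.Idx K, wA * (a * b * c) * (wA : GL chevD4.Idx K)⁻¹ =
    (wA * a * wA⁻¹) * (wA * b * wA⁻¹) * (wA * c * wA⁻¹) from fun a b c => by group, h19, h16, h15, eU,
    neg_neg, show q ^ 2 = q * q from sq q, pow_mul (-u ^ q), pow_q_neg hq hK, pow_q_neg hq hK,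
    pow_q_cube hq hK, pow_mul]
  generalize u ^ q = a
  simp only [mul_assoc]
  rw [(comm (r := 20) (s := 17) (by decide +kernel) _ _).eq,
    commM (r := 21) (s := 17) (by decide +kernel)]
  congr 1
  exact (comm (r := 21) (s := 20) (by decide +kernel) _ _).eq

theorem wA_eB (r : K) : wA * eB r * (wA : GL chevD4.Idx K)⁻¹ = eY (-r) := by
  simpa [eB, eY] using conj_wA (K := K) (s := 14) (s₁ := 15) (s₂ := 17) (s₃ := 22) (e := -1) (by decide +kernel) r

theorem wA_eZ (z : K) : wA * eZ z * (wA : GL chevD4.Idx K)⁻¹ = eZ z := by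
  simpa [eZ] using conj_wA (K := K) (s := 23) (s₁ := 23) (s₂ := 23) (s₃ := 23) (e := 1) (by decide +kernel) z

theorem wB_eY (s : K) : nG cert_D4 14 1 * eY s * (nG cert_D4 14 (1 : K))⁻¹ = eZ s := by
  simpa [eY, eZ] using conj_nB (K := K) (s := 22) (s' := 23) (e := 1) (by decide +kernel) s

theorem eB_mem {r : K} (hr : r ∈ fixSub hq hK) : eB r ∈ twistedD4 K q := x14_mem hq hK hr

theorem eY_mem {s : K} (hs : s ∈ fixSub hq hK) : eY s ∈ twistedD4 K q := by
  have hw := wA_mem hq hK (K := K)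
  have h := mul_mem (mul_mem hw (eB_mem hq hK (neg_mem hs))) (inv_mem hw)
  rwa [wA_eB hq hK, neg_neg] at h

theorem eZ_mem {z : K} (hz : z ∈ fixSub hq hK) : eZ z ∈ twistedD4 K q := by
  have hw := nB_mem hq hK (one_mem (fixSub hq hK))
  have h := mul_mem (mul_mem hw (eY_mem hq hK hz)) (inv_mem hw)
  rwa [wB_eY hq hK] at h

theorem mem_fixSub_of_eZ_mem {z : K} (h : eZ z ∈ twistedD4 K q) : z ∈ fixSub hq hK := by
  have hT := d4Twist_isTwist hq hK
  obtain ⟨σ, hσ, hfix⟩ := hT.exists_map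
  have hg : eZ z ∈ chevD4.group K := hT.le h
  have h1 := hσ ⟨_, hg⟩ 23 z (by decide) rfl
  rw [hfix ⟨_, hg⟩ h, show graphSigmaD4A 23 = 23 from by decide +kernel, graphTwist,
    show graphEtaD4A 23 = 1 from by decide +kernel, Int.cast_one, one_mul] at h1
  exact (xG_injective cert_D4 (show 23 < chevD4.nroots by decide) h1).symm

theorem eB_rad (r : K) : eB r ∈ rootsU chevD4 K radRoots :=
  xG_mem_rootsU cert_D4 (by show 14 ∈ [_, _, _, _, _, _, _, _, _]; simp) _

theorem eY_rad (s : K) : eY s ∈ rootsU chevD4 K radRoots :=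
  xG_mem_rootsU cert_D4 (by show 22 ∈ [_, _, _, _, _, _, _, _, _]; simp) _

theorem eU_rad (u : K) : eU q u ∈ rootsU chevD4 K radRoots := by
  refine mul_mem (mul_mem (xG_mem_rootsU cert_D4 ?_ _) (xG_mem_rootsU cert_D4 ?_ _))
    (xG_mem_rootsU cert_D4 ?_ _) <;>
    (show _ ∈ [14, 15, 16, 17, 19, 20, 21, 22, 23]; simp)

theorem eAB_rad (v : K) : eAB q v ∈ rootsU chevD4 K radRoots := by
  refine mul_mem (mul_mem (xG_mem_rootsU cert_D4 ?_ _) (xG_mem_rootsU cert_D4 ?_ _))
    (xG_mem_rootsU cert_D4 ?_ _) <;>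
    (show _ ∈ [14, 15, 16, 17, 19, 20, 21, 22, 23]; simp)

theorem eZ_rad (z : K) : eZ z ∈ rootsU chevD4 K radRoots :=
  xG_mem_rootsU cert_D4 (by show 23 ∈ [_, _, _, _, _, _, _, _, _]; simp) _

omit hq hK in
theorem eZ_add (z z' : K) : eZ (z + z') = eZ z * eZ z' := (xG_mul cert_D4 23 z z').symm

/-- commutators in the radical lie in the highest root group -/
theorem rad_commutator {x y : GL chevD4.Idx K} (hx : x ∈ rootsU chevD4 K radRoots)
    (hy : y ∈ rootsU chevD4 K radRoots) : ∃ z : K, x * y = eZ z * (y * x) := by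
  have key : ∀ r ∈ [14, 15, 16, 17, 19, 20, 21, 22, 23], ∀ s ∈ [14, 15, 16, 17, 19, 20, 21, 22, 23],
      r < 24 ∧ s < 24 ∧ (s = r ∨ (s ≠ r ∧ s ≠ chevD4.neg r ∧ (chevD4.commTerms r s = [] ∨
        chevD4.commTerms r s = [(23, 1, 1, 1)] ∨ chevD4.commTerms r s = [(23, -1, 1, 1)]))) := by
    decide +kernel
  have hZ : ∀ (z : K), ∀ g ∈ rootsU chevD4 K radRoots, eZ z * g = g * eZ z := by
    have k2 : ∀ s ∈ [14, 15, 16, 17, 19, 20, 21, 22, 23],
        s = 23 ∨ (23 < 24 ∧ s < 24 ∧ s ≠ 23 ∧ s ≠ chevD4.neg 23 ∧ chevD4.commTerms 23 s = []) := by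
      decide +kernel
    intro z g hg
    induction hg using rootsU_induction cert_D4 with
    | h1 => rw [mul_one, one_mul]
    | hx s hs t =>
      rcases k2 s hs with rfl | h
      · rw [eZ, xG_mul, xG_mul, add_comm]
      · exact (comm h z t).eq
    | hmul a b _ _ iha ihb => rw [← mul_assoc, iha, mul_assoc, ihb, mul_assoc]
  have hgen : ∀ r ∈ radRoots, ∀ t : K, ∃ z : K, X r t * y = eZ z * (y * X r t) := by
    intro r hr t
    induction hy using rootsU_induction cert_D4 with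
    | h1 => exact ⟨0, by rw [show eZ (0 : K) = 1 from xG_zero cert_D4 23, mul_one, one_mul, one_mul]⟩
    | hx s hs u =>
      obtain ⟨hr', hs', h⟩ := key r hr s hs
      rcases h with rfl | ⟨hne, hneg, h | h | h⟩
      · exact ⟨0, by rw [show eZ (0 : K) = 1 from xG_zero cert_D4 23, one_mul, xG_mul, xG_mul, add_comm]⟩
      · exact ⟨0, by rw [show eZ (0 : K) = 1 from xG_zero cert_D4 23, one_mul, (comm ⟨hr', hs', hne, hneg, h⟩ t u).eq]⟩
      · refine ⟨((1 : ℤ) : K) * t * u, ?_⟩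
        rw [push ⟨hr', hs', hne, hneg, h⟩ t u, ← mul_assoc (eZ _),
          hZ _ _ (xG_mem_rootsU cert_D4 hs u), eZ]
      · refine ⟨((-1 : ℤ) : K) * t * u, ?_⟩
        rw [push ⟨hr', hs', hne, hneg, h⟩ t u, ← mul_assoc (eZ _),
          hZ _ _ (xG_mem_rootsU cert_D4 hs u), eZ]
    | hmul a b ha hb iha ihb =>
      obtain ⟨z, hz⟩ := iha
      obtain ⟨z', hz'⟩ := ihb
      refine ⟨z + z', ?_⟩
      calc X r t * (a * b) = eZ z * (a * (X r t * b)) := by
            rw [← mul_assoc, hz]; simp only [mul_assoc]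
        _ = eZ z * ((a * eZ z') * (b * X r t)) := by rw [hz']; simp only [mul_assoc]
        _ = _ := by
            rw [← hZ z' a ha, eZ_add]
            simp only [mul_assoc]
  induction hx using rootsU_induction cert_D4 with
  | h1 => exact ⟨0, by rw [show eZ (0 : K) = 1 from xG_zero cert_D4 23, mul_one, one_mul]⟩
  | hx r hr t => exact hgen r hr t
  | hmul a b ha hb iha ihb =>
    obtain ⟨z, hz⟩ := iha
    obtain ⟨z', hz'⟩ := ihb
    refine ⟨z + z', ?_⟩
    calc a * b * y = (a * eZ z') * (y * b) := by rw [mul_assoc, hz']; simp only [mul_assoc]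
      _ = eZ z' * ((a * y) * b) := by rw [← hZ z' a ha]; simp only [mul_assoc]
      _ = _ := by
          rw [hz, add_comm z z', eZ_add]
          simp only [mul_assoc]

end D4

end CfsgLib.Twisted
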