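import Cfsg.Agent.Lib.Twisted.D4Conj
import Cfsg.Agent.Lib.Twisted.D4Eigen

/-! A faithful complex representation of ³D₄(q) has degree at least `q^5 - q^3 + q - 1`. -/

set_option autoImplicit false
set_option linter.unusedSectionVars false

namespace CfsgLib.Twisted

open Cfsg.Lie
open CfsgLib.Chevalley (cert_D4 xG xG_zero xG_mul xG_injective rootsU rootsU_induction nG)

namespace D4

variable {K : Type*} [Field K]

theorem eZ_commute_rad (z : K) {g : GL chevD4.Idx K} (hg : g ∈ rootsU chevD4 K radRoots) :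
    eZ z * g = g * eZ z := by
  induction hg using rootsU_induction cert_D4 with
  | h1 => rw [mul_one, one_mul]
  | hx s hs t =>
    by_cases e : s = 23
    · subst e
      show xG cert_D4 23 z * xG cert_D4 23 t = xG cert_D4 23 t * xG cert_D4 23 z
      rw [xG_mul, xG_mul, add_comm]
    · refine (commute_eZ_gen ?_ z t).eq
      change s ∈ [14, 15, 16, 17, 19, 20, 21, 22, 23] at hs
      simp only [List.mem_cons, List.not_mem_nil, or_false] at hs ⊢
      omega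
  | hmul a b _ _ iha ihb => rw [← mul_assoc, iha, mul_assoc, ihb, mul_assoc]

variable [Fintype K] {q : ℕ} (hq : IsPrimePow q) (hK : Fintype.card K = q ^ 3)
include hq hK

theorem trPair_add_right (v u u' : K) :
    trPair (q := q) v (u + u') = trPair (q := q) v u + trPair (q := q) v u' := by
  rw [trPair, trPair, trPair, show q ^ 2 = q * q from sq q, pow_mul (u + u'),
    pow_q_add hq hK, pow_q_add hq hK, ← pow_mul, ← pow_mul]
  ring

set_option maxHeartbeats 1600000 in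
theorem min_degree_aux {k : ℕ} (ρ : Representation ℂ ↥(twistedD4 K q) (Fin k → ℂ))
    (hρ : Function.Injective ρ) : (q - 1) * q ^ 4 + (q - 1) * q ^ 3 + (q - 1) ≤ k := by
  classical
  set L := fixSub hq hK with hL
  let _ : Fintype L := Fintype.ofFinite L
  -- elements
  let gU : K → ↥(twistedD4 K q) := fun u => ⟨eU q u, eU_mem hq hK u⟩
  let gAB : K → ↥(twistedD4 K q) := fun v => ⟨eAB q v, eAB_mem hq hK v⟩
  let gA : K → ↥(twistedD4 K q) := fun t => ⟨eA q t, eA_mem hq hK t⟩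
  let gB : L → ↥(twistedD4 K q) := fun r => ⟨eB (r : K), eB_mem hq hK r.2⟩
  let gY : L → ↥(twistedD4 K q) := fun s => ⟨eY (s : K), eY_mem hq hK s.2⟩
  let gZ : L → ↥(twistedD4 K q) := fun z => ⟨eZ (z : K), eZ_mem hq hK z.2⟩
  let wa : ↥(twistedD4 K q) := ⟨wA, wA_mem hq hK⟩
  let wb : ↥(twistedD4 K q) := ⟨nG cert_D4 14 1, nB_mem hq hK (one_mem _)⟩
  let uK : Lˣ → Kˣ := fun c => Units.map L.subtype.toMonoidHom c
  have uK_mem : ∀ c, (uK c : K) ∈ L := fun c => (c : L).2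
  let gHB : Lˣ → ↥(twistedD4 K q) := fun c => ⟨tor 1 (uK c) 1 1, torB_mem hq hK (uK_mem c)⟩
  let gHS : Lˣ → ↥(twistedD4 K q) := fun c =>
    ⟨tor (uK c) ((uK c) ^ 2) (uK c) (uK c), torS_mem hq hK (uK_mem c)⟩
  let gHA : Kˣ → ↥(twistedD4 K q) := fun c => ⟨tor c 1 (c ^ q) (c ^ q ^ 2), torA_mem hq hK c⟩
  let tL : K → K → L := fun v u => ⟨trPair (q := q) v u, trPair_mem hq hK v u⟩
  have tL_add : ∀ v u u', tL v (u + u') = tL v u + tL v u' := fun v u u' =>
    Subtype.ext (trPair_add_right hq hK v u u')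
  -- relations
  have gU_add : ∀ u u', gU (u + u') = gU u * gU u' := fun u u' => Subtype.ext (eU_add q hq hK u u')
  have gAB_add : ∀ u u', gAB (u + u') = gAB u * gAB u' := fun u u' => Subtype.ext (eAB_add hq hK u u')
  have gY_add : ∀ s s' : L, gY (s + s') = gY s * gY s' := fun s s' => Subtype.ext (eY_add (s : K) s')
  have gB_add : ∀ s s' : L, gB (s + s') = gB s * gB s' := fun s s' => Subtype.ext (eB_add (s : K) s')
  have gZ_add : ∀ s s' : L, gZ (s + s') = gZ s * gZ s' := fun s s' => Subtype.ext (eZ_add (s : K) s')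
  have cUY : ∀ u s, Commute (gY s) (gU u) := fun u s => Subtype.ext (commute_eY_eU q (s : K) u).eq
  have cUZ : ∀ u z, Commute (gZ z) (gU u) := fun u z => Subtype.ext (commute_eZ_eU (z : K) u).eq
  have cYZ : ∀ s z, Commute (gZ z) (gY s) := fun s z => Subtype.ext (commute_eZ_eY (z : K) (s : K)).eq
  -- the abelian group
  let α : Multiplicative (K × L × L) →* ↥(twistedD4 K q) :=
    MonoidHom.mk' (fun a => gU a.toAdd.1 * gY a.toAdd.2.1 * gZ a.toAdd.2.2) fun a b => by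
      simp only [toAdd_mul, Prod.fst_add, Prod.snd_add, gU_add, gY_add, gZ_add]
      have h1 := (cUY b.toAdd.1 a.toAdd.2.1).eq
      have h2 := (cUZ b.toAdd.1 a.toAdd.2.2).eq
      have h3 := (cYZ b.toAdd.2.1 a.toAdd.2.2).eq
      calc gU a.toAdd.1 * gU b.toAdd.1 * (gY a.toAdd.2.1 * gY b.toAdd.2.1) *
            (gZ a.toAdd.2.2 * gZ b.toAdd.2.2)
          = gU a.toAdd.1 * (gU b.toAdd.1 * gY a.toAdd.2.1) * (gY b.toAdd.2.1 * gZ a.toAdd.2.2) *
              gZ b.toAdd.2.2 := by simp only [mul_assoc]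
        _ = gU a.toAdd.1 * gY a.toAdd.2.1 * (gU b.toAdd.1 * gZ a.toAdd.2.2) * gY b.toAdd.2.1 *
              gZ b.toAdd.2.2 := by rw [← h1, ← h3]; simp only [mul_assoc]
        _ = _ := by rw [← h2]; simp only [mul_assoc]
  have hαZ : ∀ z : L, α (Multiplicative.ofAdd (0, 0, z)) = gZ z := fun z => by
    show gU 0 * gY 0 * gZ z = gZ z
    rw [left_eq_mul.1 (show gU 0 = gU 0 * gU 0 by rw [← gU_add, add_zero]),
      left_eq_mul.1 (show gY 0 = gY 0 * gY 0 by rw [← gY_add, add_zero]), one_mul, one_mul]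
  -- the action on the abelian group
  have conjAB : ∀ v u s z, gAB v * α (Multiplicative.ofAdd (u, s, z)) * (gAB v)⁻¹ =
      α (Multiplicative.ofAdd (u, s, z + tL v u)) := fun v u s z => by
    show gAB v * (gU u * gY s * gZ z) * (gAB v)⁻¹ = gU u * gY s * gZ (z + tL v u)
    have e1 : gAB v * gU u * (gAB v)⁻¹ = gU u * gZ (tL v u) := Subtype.ext (conj_eU_eAB q v u)
    have e2 : gAB v * gY s * (gAB v)⁻¹ = gY s :=
      mul_inv_eq_iff_eq_mul.2 (Subtype.ext (commute_eY_eAB q (s : K) v).eq.symm)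
    have e3 : gAB v * gZ z * (gAB v)⁻¹ = gZ z :=
      mul_inv_eq_iff_eq_mul.2 (Subtype.ext (commute_eZ_eAB (z : K) v).eq.symm)
    rw [conj_mul₃, e1, e2, e3, mul_assoc (gU u), (cYZ s (tL v u)).eq, add_comm, gZ_add]
    simp only [mul_assoc]
  have conjB : ∀ r u s z, gB r * α (Multiplicative.ofAdd (u, s, z)) * (gB r)⁻¹ =
      α (Multiplicative.ofAdd (u, s, z + r * s)) := fun r u s z => by
    show gB r * (gU u * gY s * gZ z) * (gB r)⁻¹ = gU u * gY s * gZ (z + r * s)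
    have e1 : gB r * gU u * (gB r)⁻¹ = gU u :=
      mul_inv_eq_iff_eq_mul.2 (Subtype.ext (commute_eB_eU q (r : K) u).eq)
    have e2 : gB r * gY s * (gB r)⁻¹ = gY s * gZ (r * s) := Subtype.ext (conj_eB_eY (r : K) (s : K))
    have e3 : gB r * gZ z * (gB r)⁻¹ = gZ z :=
      mul_inv_eq_iff_eq_mul.2 (Subtype.ext (commute_eZ_eB (z : K) (r : K)).eq.symm)
    rw [conj_mul₃, e1, e2, e3, add_comm, gZ_add]
    simp only [mul_assoc]
  have conjHB : ∀ c u s z, gHB c * α (Multiplicative.ofAdd (u, s, z)) * (gHB c)⁻¹ =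
      α (Multiplicative.ofAdd (u, ((c⁻¹ : Lˣ) : L) * s, (c : L) * z)) := fun c u s z => by
    show gHB c * (gU u * gY s * gZ z) * (gHB c)⁻¹ = gU u * gY (((c⁻¹ : Lˣ) : L) * s) * gZ ((c : L) * z)
    have h := torB_conj (q := q) (uK c) u (s : K) (z : K)
    have e1 : gHB c * gU u * (gHB c)⁻¹ = gU u := Subtype.ext h.1
    have e2 : gHB c * gY s * (gHB c)⁻¹ = gY (((c⁻¹ : Lˣ) : L) * s) := Subtype.ext (h.2.1.trans (by
      have : (((c⁻¹ : Lˣ) : L) : K) = (uK c : K)⁻¹ := by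
        rw [← Units.val_inv_eq_inv_val, ← map_inv]; rfl
      rw [← this]; rfl))
    have e3 : gHB c * gZ z * (gHB c)⁻¹ = gZ ((c : L) * z) := Subtype.ext (h.2.2.trans rfl)
    rw [conj_mul₃, e1, e2, e3]
  -- an eigenvector on which the highest root group is non-trivial
  set z₁ := Multiplicative.ofAdd ((0 : K), (0 : L), (1 : L)) with hz₁
  have hz₁ne : ρ (α z₁) ≠ 1 := fun e => by
    have h1 : gZ 1 = 1 := (hαZ 1).symm.trans (hρ (e.trans (map_one ρ).symm))
    have h2 : eZ (1 : K) = 1 := congrArg Subtype.val h1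
    exact one_ne_zero (xG_injective cert_D4 (show 23 < chevD4.nroots by decide)
      (h2.trans (xG_zero cert_D4 23).symm))
  obtain ⟨ψ, vψ, -, hvψ, hψ, hψz⟩ := RepEigen.exists_eigen_ne_one (ρ.comp α) ⊤
    (fun _ _ _ => Submodule.mem_top) (fun g g' w _ => by
      show ρ (α g) (ρ (α g') w) = ρ (α g') (ρ (α g) w)
      rw [← Module.End.mul_apply, ← Module.End.mul_apply, ← map_mul, ← map_mul, ← map_mul, ← map_mul,
        mul_comm g])
    z₁ (by
      by_contra h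
      push Not at h
      exact hz₁ne (LinearMap.ext fun w => h w Submodule.mem_top))
  let Λ : AddChar L ℂ :=
    { toFun := fun z => ψ (Multiplicative.ofAdd (0, 0, z))
      map_zero_eq_one' := map_one ψ
      map_add_eq_mul' := fun a b => by
        rw [← map_mul, ← ofAdd_add]
        congr 2 <;> simp }
  have hΛ : Λ 1 ≠ 1 := hψz
  have hψΛ : ∀ u s z, ψ (Multiplicative.ofAdd (u, s, z)) =
      ψ (Multiplicative.ofAdd (u, s, 0)) * Λ z := fun u s z => by
    show _ = _ * ψ (Multiplicative.ofAdd (0, 0, z))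
    rw [← map_mul, ← ofAdd_add]
    congr 2; simp
  have shift : ∀ (Λ : AddChar L ℂ) (z₀ : L), Λ z₀ ≠ 1 → ∀ a b : L, (∀ z, Λ (a * z) = Λ (b * z)) → a = b := by
    intro Λ z₀ h a b hab
    by_contra hne
    have hd : a - b ≠ 0 := sub_ne_zero.2 hne
    apply h
    have h1 := hab (z₀ / (a - b))
    rw [show a * (z₀ / (a - b)) = z₀ + b * (z₀ / (a - b)) by field_simp; ring, AddChar.map_add_eq_mul] at h1
    have hu : IsUnit (Λ (b * (z₀ / (a - b)))) := AddChar.val_isUnit Λ _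
    exact hu.mul_eq_right.1 h1
  have pairK : ∀ (Λ : AddChar L ℂ) (z₀ : L), Λ z₀ ≠ 1 → ∀ t t' : K,
      (∀ u, Λ (tL t u) = Λ (tL t' u)) → t = t' := by
    intro Λ z₀ h t t' htt
    by_contra hne
    obtain ⟨u, hu⟩ := trPair_nondeg hq hK (sub_ne_zero.2 hne)
    apply h
    have h1 := htt ((z₀ : K) * u)
    rw [show tL t ((z₀ : K) * u) = z₀ + tL t' ((z₀ : K) * u) from Subtype.ext (by
      show trPair t ((z₀ : K) * u) = (z₀ : K) + trPair t' ((z₀ : K) * u)
      rw [← sub_eq_iff_eq_add, ← trPair_sub hq hK, trPair_smul hq hK _ _ z₀.2, hu, mul_one]),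
      AddChar.map_add_eq_mul] at h1
    exact (AddChar.val_isUnit Λ (tL t' ((z₀ : K) * u))).mul_eq_right.1 h1
  -- the family on which the highest root group is non-trivial
  let g₁ : Lˣ × L × K → ↥(twistedD4 K q) := fun i => gHB i.1 * gB i.2.1 * gAB i.2.2
  let f₁ : Lˣ × L × K → (K × L × L →+ K × L × L) := fun i =>
    AddMonoidHom.mk' (fun p => (p.1, ((i.1⁻¹ : Lˣ) : L) * p.2.1,
        (i.1 : L) * (p.2.2 + tL i.2.2 p.1 + i.2.1 * p.2.1)))
      (fun p p' => by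
        simp only [Prod.fst_add, Prod.snd_add, tL_add, Prod.mk_add_mk, Prod.mk.injEq]
        simp only [true_and]
        constructor <;> ring)
  let φ₁ : Lˣ × L × K → (Multiplicative (K × L × L) →* ℂ) := fun i =>
    ψ.comp (AddMonoidHom.toMultiplicative (f₁ i))
  have hg₁ : ∀ i a, g₁ i * α a * (g₁ i)⁻¹ = α (AddMonoidHom.toMultiplicative (f₁ i) a) := by
    intro i a
    obtain ⟨u, s, z, rfl⟩ : ∃ u s z, a = Multiplicative.ofAdd (u, s, z) := ⟨_, _, _, rfl⟩
    show gHB i.1 * gB i.2.1 * gAB i.2.2 * _ * _ = α (Multiplicative.ofAdd (u,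
      ((i.1⁻¹ : Lˣ) : L) * s, (i.1 : L) * (z + tL i.2.2 u + i.2.1 * s)))
    rw [← conjHB, ← conjB, ← conjAB]
    simp only [g₁, mul_inv_rev, mul_assoc]
  let v₁ : Lˣ × L × K → (Fin k → ℂ) := fun i => ρ (g₁ i)⁻¹ vψ
  have hv₁0 : ∀ i, v₁ i ≠ 0 := fun i e => hvψ (by
    have := congrArg (ρ (g₁ i)) e
    rwa [map_zero, ← Module.End.mul_apply, ← map_mul, mul_inv_cancel, map_one] at this)
  have hv₁ : ∀ i a, ρ (α a) (v₁ i) = φ₁ i a • v₁ i := fun i a => by
    rw [← Module.End.mul_apply, ← map_mul, show α a * (g₁ i)⁻¹ = (g₁ i)⁻¹ *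
      α (AddMonoidHom.toMultiplicative (f₁ i) a) by rw [← hg₁]; group, map_mul, Module.End.mul_apply]
    exact (congrArg _ (hψ _)).trans (map_smul _ _ _)
  have hφ₁v : ∀ i u s z, φ₁ i (Multiplicative.ofAdd (u, s, z)) =
      ψ (Multiplicative.ofAdd (u, ((i.1⁻¹ : Lˣ) : L) * s, 0)) *
        Λ ((i.1 : L) * (z + tL i.2.2 u + i.2.1 * s)) := fun i u s z => hψΛ _ _ _
  have htL0 : ∀ v, tL v 0 = 0 := fun v => by
    have := tL_add v 0 0
    rw [add_zero] at this
    exact left_eq_add.1 this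
  have hψ0 : ψ (Multiplicative.ofAdd ((0 : K), (0 : L), (0 : L))) = 1 := map_one ψ
  have hφ₁ : Function.Injective φ₁ := by
    rintro ⟨c, r, v⟩ ⟨c', r', v'⟩ e
    have e' := fun u s z => (hφ₁v ⟨c, r, v⟩ u s z).symm.trans
      ((DFunLike.congr_fun e (Multiplicative.ofAdd (u, s, z))).trans (hφ₁v ⟨c', r', v'⟩ u s z))
    have hc : c = c' := Units.ext (shift Λ 1 hΛ _ _ fun z => by
      simpa [htL0, hψ0] using e' 0 0 z)
    subst hc
    have hunit : ∀ a, ψ a ≠ 0 := fun a => ((Group.isUnit a).map ψ).ne_zero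
    have hr : (c : L) * r = (c : L) * r' := shift Λ 1 hΛ _ _ fun s => by
      have h := mul_left_cancel₀ (hunit _) (e' 0 s 0)
      simpa [htL0, mul_assoc] using h
    have hv : v = v' := by
      let Λc : AddChar L ℂ := AddChar.mulShift Λ (c : L)
      refine pairK Λc ((c⁻¹ : Lˣ) : L) (by simpa [Λc, AddChar.mulShift_apply] using hΛ) _ _ fun u => ?_
      have h := mul_left_cancel₀ (hunit _) (e' u 0 0)
      simpa [Λc, AddChar.mulShift_apply] using h
    simp [mul_left_cancel₀ c.ne_zero hr, hv]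
  -- the fixed points of the highest root group
  let U₀ : Submodule ℂ (Fin k → ℂ) := ⨅ z : L, LinearMap.ker (ρ (gZ z) - 1)
  let UY : Submodule ℂ (Fin k → ℂ) := ⨅ z : L, LinearMap.ker (ρ (gY z) - 1)
  have hU₀ : ∀ {w}, w ∈ U₀ ↔ ∀ z, ρ (gZ z) w = w := fun {w} => by
    simp [U₀, sub_eq_zero]
  have hUY : ∀ {w}, w ∈ UY ↔ ∀ z, ρ (gY z) w = w := fun {w} => by
    simp [UY, sub_eq_zero]
  obtain ⟨s₀, w₀, hw₀, hs₀⟩ : ∃ s, ∃ w ∈ U₀, ρ (gY s) w ≠ w := by
    by_contra h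
    push Not at h
    have hle : U₀ ≤ UY := fun w hw => hUY.2 fun s => h s w hw
    have hmap : UY.map (ρ wb) ≤ U₀ := by
      rintro _ ⟨w, hw, rfl⟩
      refine hU₀.2 fun z => ?_
      have e : gZ z * wb = wb * gY z := by
        rw [← mul_inv_eq_iff_eq_mul.1 (show wb * gY z * wb⁻¹ = gZ z from Subtype.ext (wB_eY hq hK (z : K)))]
      rw [← Module.End.mul_apply, ← map_mul, e, map_mul, Module.End.mul_apply, hUY.1 hw z]
    have hwbinj : Function.Injective (ρ wb) := fun a b e => by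
      have := congrArg (ρ wb⁻¹) e
      simpa [← Module.End.mul_apply, ← map_mul] using this
    have hfin : Module.finrank ℂ UY ≤ Module.finrank ℂ U₀ := by
      rw [(Submodule.equivMapOfInjective _ hwbinj UY).finrank_eq]
      exact Submodule.finrank_mono hmap
    have heq : U₀ = UY := Submodule.eq_of_le_of_finrank_le hle hfin
    let f : L → AddChar L ℂ := fun r => AddChar.mulShift Λ r
    have hf : Function.Injective f := fun a b e => shift Λ 1 hΛ a b fun z => by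
      simpa [f, AddChar.mulShift_apply] using DFunLike.congr_fun e z
    let Ψ : AddChar L ℂ :=
      { toFun := fun s => (ψ (Multiplicative.ofAdd (0, s, 0)))⁻¹
        map_zero_eq_one' := by simp [hψ0]
        map_add_eq_mul' := fun a b => by
          rw [← mul_inv, ← map_mul, ← ofAdd_add]
          congr 3 <;> simp }
    obtain ⟨r, hr⟩ := RepEigen.exists_pairing_eq f hf Ψ
    have hfix : ∀ s, φ₁ (1, r, 0) (Multiplicative.ofAdd (0, s, 0)) = 1 := fun s => by
      have hrs : Λ (r * s) = (ψ (Multiplicative.ofAdd (0, s, 0)))⁻¹ := by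
        have := DFunLike.congr_fun hr s
        simpa [f, Ψ, AddChar.mulShift_apply] using this
      rw [hφ₁v]
      simp only [inv_one, Units.val_one, one_mul, htL0, add_zero, zero_add, hrs]
      exact mul_inv_cancel₀ ((Group.isUnit _).map ψ).ne_zero
    have hmemY : v₁ (1, r, 0) ∈ UY := hUY.2 fun s => by
      have hs : α (Multiplicative.ofAdd (0, s, 0)) = gY s := by
        show gU 0 * gY s * gZ 0 = gY s
        rw [left_eq_mul.1 (show gU 0 = gU 0 * gU 0 by rw [← gU_add, add_zero]),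
          left_eq_mul.1 (show gZ 0 = gZ 0 * gZ 0 by rw [← gZ_add, add_zero]), one_mul, mul_one]
      rw [← hs, hv₁, hfix, one_smul]
    rw [← heq] at hmemY
    have h1 := hU₀.1 hmemY 1
    rw [← hαZ, hv₁, hφ₁v] at h1
    simp only [inv_one, Units.val_one, one_mul, mul_zero, htL0, add_zero, hψ0] at h1
    exact hΛ (smul_left_injective ℂ (hv₁0 _) (h1.trans (one_smul ℂ _).symm))
  -- the unipotent radical
  let Q : Subgroup ↥(twistedD4 K q) := (rootsU chevD4 K radRoots).subgroupOf (twistedD4 K q)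
  have hQ : ∀ {y : ↥(twistedD4 K q)}, y ∈ Q ↔ (y : GL chevD4.Idx K) ∈ rootsU chevD4 K radRoots :=
    Iff.rfl
  have hZQ : ∀ (z : L) (y : ↥(twistedD4 K q)), y ∈ Q → gZ z * y = y * gZ z := fun z y hy =>
    Subtype.ext (eZ_commute_rad (z : K) hy)
  have hcommQ : ∀ (y y' : ↥(twistedD4 K q)), y ∈ Q → y' ∈ Q → ∃ z : L, y * y' = gZ z * (y' * y) := by
    intro y y' hy hy'
    obtain ⟨z, hz⟩ := rad_commutator hq hK hy hy'
    have hz' : eZ z ∈ twistedD4 K q := by
      rw [show eZ z = ((y * y' * (y' * y)⁻¹ : ↥(twistedD4 K q)) : GL chevD4.Idx K) by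
        simp only [Subgroup.coe_mul, Subgroup.coe_inv]
        rw [show (y : GL chevD4.Idx K) * y' = eZ z * ((y' : GL chevD4.Idx K) * y) from hz, mul_inv_cancel_right]]
      exact Subtype.coe_prop _
    exact ⟨⟨z, mem_fixSub_of_eZ_mem hq hK hz'⟩, Subtype.ext hz⟩
  have hinvQ : ∀ (y : Q), ∀ w ∈ U₀, ρ (y : ↥(twistedD4 K q)) w ∈ U₀ := fun y w hw => hU₀.2 fun z => by
    rw [← Module.End.mul_apply, ← map_mul, hZQ z y y.2, map_mul, Module.End.mul_apply, hU₀.1 hw z]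
  obtain ⟨χY, vY, hvYU, hvY0, hvY, hχY⟩ := RepEigen.exists_eigen_ne_one (ρ.comp Q.subtype) U₀
    (fun y w hw => hinvQ y w hw) (fun y y' w hw => by
      obtain ⟨z, hz⟩ := hcommQ y y' y.2 y'.2
      show ρ (y : ↥(twistedD4 K q)) (ρ (y' : ↥(twistedD4 K q)) w) = _
      rw [← Module.End.mul_apply, ← map_mul, hz, map_mul, Module.End.mul_apply, map_mul,
        Module.End.mul_apply, hU₀.1 (hinvQ y' _ (hinvQ y w hw)) z]
      rfl)
    (⟨gY s₀, hQ.2 (eY_rad hq hK (s₀ : K))⟩ : Q) ⟨w₀, hw₀, hs₀⟩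
  -- characters of the radical occurring in the fixed points
  let qU : K → Q := fun u => ⟨gU u, hQ.2 (eU_rad hq hK u)⟩
  let qAB : K → Q := fun v => ⟨gAB v, hQ.2 (eAB_rad hq hK v)⟩
  let qY : L → Q := fun s => ⟨gY s, hQ.2 (eY_rad hq hK (s : K))⟩
  let qB : L → Q := fun s => ⟨gB s, hQ.2 (eB_rad hq hK (s : K))⟩
  let Λ' : AddChar L ℂ :=
    { toFun := fun s => χY (qY s)
      map_zero_eq_one' := by
        rw [show qY 0 = 1 from Subtype.ext (left_eq_mul.1 (show gY 0 = gY 0 * gY 0 by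
          rw [← gY_add, add_zero])), map_one]
      map_add_eq_mul' := fun a b => by
        rw [← map_mul]
        exact congrArg χY (Subtype.ext (gY_add a b)) }
  have hΛ' : Λ' s₀ ≠ 1 := hχY
  let Eig : (Q →* ℂ) → Prop := fun χ => ∃ w ∈ U₀, w ≠ 0 ∧ ∀ y : Q, ρ (y : ↥(twistedD4 K q)) w = χ y • w
  have hEigY : Eig χY := ⟨vY, hvYU, hvY0, hvY⟩
  let Nrm : ↥(twistedD4 K q) → Prop := fun g =>
    (∀ y ∈ Q, g * y * g⁻¹ ∈ Q) ∧ ∀ z : L, ∃ z' : L, g * gZ z * g⁻¹ = gZ z'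
  have hNrmA : ∀ t, Nrm (gA t) := fun t => ⟨fun y hy => hQ.2 (eA_conj_radRoots q t _ hy), fun z => ⟨z,
    mul_inv_eq_iff_eq_mul.2 (Subtype.ext (commute_eZ_eA q t (z : K)).eq.symm)⟩⟩
  have hNrmS : ∀ c, Nrm (gHS c) := fun c => ⟨fun y hy => hQ.2 (tor_conj_radRoots _ _ _ _ _ hy),
    fun z => ⟨(c : L) ^ 2 * z, Subtype.ext (by
      exact (torS_conj (q := q) (uK c) (uK_mem c) 0 0 0 0 (z : K)).2.2.2.2)⟩⟩
  have hNrmHA : ∀ c, Nrm (gHA c) := fun c => ⟨fun y hy => hQ.2 (tor_conj_radRoots _ _ _ _ _ hy),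
    fun z => ⟨z, Subtype.ext (torA_conj c 0 0 0 (z : K) (pow_q_cube hq hK _)).2.2.2⟩⟩
  have hNrmW : Nrm wa := ⟨fun y hy => hQ.2 (wA_conj_radRoots _ hy), fun z => ⟨z, Subtype.ext (wA_eZ hq hK (z : K))⟩⟩
  have hNrmMul : ∀ g g', Nrm g → Nrm g' → Nrm (g * g') := by
    rintro g g' ⟨h1, h2⟩ ⟨h1', h2'⟩
    refine ⟨fun y hy => ?_, fun z => ?_⟩
    · rw [show g * g' * y * (g * g')⁻¹ = g * (g' * y * g'⁻¹) * g⁻¹ by group]
      exact h1 _ (h1' y hy)
    · obtain ⟨z', hz'⟩ := h2' z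
      obtain ⟨z'', hz''⟩ := h2 z'
      exact ⟨z'', by rw [← hz'', ← hz']; group⟩
  let conjQ : (g : ↥(twistedD4 K q)) → Nrm g → (Q →* Q) := fun g hg =>
    MonoidHom.mk' (fun y => ⟨g * y * g⁻¹, hg.1 y y.2⟩) (fun y y' => Subtype.ext (by
      show g * ((y : ↥(twistedD4 K q)) * y') * g⁻¹ = _ * _
      simp only [mul_assoc, inv_mul_cancel_left]))
  have hEig : ∀ g (hg : Nrm g) χ, Eig χ → Eig (χ.comp (conjQ g hg)) := by
    rintro g hg χ ⟨w, hwU, hw0, hw⟩
    refine ⟨ρ g⁻¹ w, hU₀.2 fun z => ?_, fun e => hw0 ?_, fun y => ?_⟩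
    · obtain ⟨z', hz'⟩ := hg.2 z
      rw [← Module.End.mul_apply, ← map_mul, show gZ z * g⁻¹ = g⁻¹ * gZ z' by rw [← hz']; group,
        map_mul, Module.End.mul_apply, hU₀.1 hwU z']
    · have := congrArg (ρ g) e
      rwa [map_zero, ← Module.End.mul_apply, ← map_mul, mul_inv_cancel, map_one] at this
    · rw [← Module.End.mul_apply, ← map_mul, show (y : ↥(twistedD4 K q)) * g⁻¹ = g⁻¹ *
        (conjQ g hg y : ↥(twistedD4 K q)) by
          show _ = g⁻¹ * (g * (y : ↥(twistedD4 K q)) * g⁻¹); group, map_mul, Module.End.mul_apply]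
      exact (congrArg _ (hw _)).trans (map_smul _ _ _)
  have hbij : ∀ g (hg : Nrm g), Function.Surjective (conjQ g hg) := fun g hg =>
    Finite.surjective_of_injective fun y y' e => Subtype.ext
      (mul_left_cancel (mul_right_cancel (congrArg Subtype.val e : g * (y : ↥(twistedD4 K q)) * g⁻¹ = _)))
  -- action of the short root group
  have hAU : ∀ t u, conjQ (gA t) (hNrmA t) (qU u) = qU u * qY (-tL t u) := fun t u =>
    Subtype.ext (Subtype.ext ((conj_eA_eU q t u).trans (by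
      show _ = eU q u * eY _
      congr 2
      show -_ = -(t * u ^ q + t ^ q * u ^ q ^ 2 + t ^ q ^ 2 * u)
      ring)))
  have hAY : ∀ t s, conjQ (gA t) (hNrmA t) (qY s) = qY s := fun t s =>
    Subtype.ext (mul_inv_eq_iff_eq_mul.2 (Subtype.ext (commute_eY_eA q t (s : K)).eq.symm))
  -- a character trivial on `2a + b`
  let fK : K → AddChar K ℂ := fun t =>
    { toFun := fun u => Λ' (-tL t u)
      map_zero_eq_one' := by rw [htL0, neg_zero, AddChar.map_zero_eq_one]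
      map_add_eq_mul' := fun a b => by rw [tL_add, neg_add, AddChar.map_add_eq_mul] }
  have hfK : Function.Injective fK := fun t t' e =>
    pairK Λ' s₀ hΛ' t t' fun u => by
      have h : Λ' (-tL t u) = Λ' (-tL t' u) := DFunLike.congr_fun e u
      rw [AddChar.map_neg_eq_inv, AddChar.map_neg_eq_inv, inv_inj] at h
      exact h
  let Θ : AddChar K ℂ :=
    { toFun := fun u => (χY (qU u))⁻¹
      map_zero_eq_one' := by
        rw [show qU 0 = 1 from Subtype.ext (left_eq_mul.1 (show gU 0 = gU 0 * gU 0 by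
          rw [← gU_add, add_zero])), map_one, inv_one]
      map_add_eq_mul' := fun a b => by
        rw [← mul_inv, ← map_mul]
        exact congrArg (fun y => (χY y)⁻¹) (Subtype.ext (gU_add a b)) }
  obtain ⟨t₀, ht₀⟩ := RepEigen.exists_pairing_eq fK hfK Θ
  let Good : (Q →* ℂ) → Prop := fun χ => Eig χ ∧ (∀ u, χ (qU u) = 1) ∧ ∀ s, χ (qY s) = Λ' s
  have hunitQ : ∀ (χ : Q →* ℂ) y, χ y ≠ 0 := fun χ y => ((Group.isUnit y).map χ).ne_zero
  set χ₀ := χY.comp (conjQ (gA t₀) (hNrmA t₀)) with hχ₀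
  have hgood₀ : Good χ₀ := by
    refine ⟨hEig _ (hNrmA t₀) _ hEigY, fun u => ?_, fun s => ?_⟩
    · rw [hχ₀, MonoidHom.comp_apply, hAU, map_mul]
      rw [show χY (qY (-tL t₀ u)) = (χY (qU u))⁻¹ from DFunLike.congr_fun ht₀ u]
      exact mul_inv_cancel₀ (hunitQ _ _)
    · rw [hχ₀, MonoidHom.comp_apply, hAY]; rfl
  -- the torus of scalars on the radical modulo its centre
  have hSU : ∀ c u, conjQ (gHS c) (hNrmS c) (qU u) = qU (((c : L) : K) * u) := fun c u =>
    Subtype.ext (Subtype.ext (torS_conj (q := q) (uK c) (uK_mem c) u 0 0 0 0).1)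
  have hSY : ∀ c s, conjQ (gHS c) (hNrmS c) (qY s) = qY ((c : L) * s) := fun c s =>
    Subtype.ext (Subtype.ext (torS_conj (q := q) (uK c) (uK_mem c) 0 0 0 (s : K) 0).2.2.2.1)
  have hSB : ∀ c s, conjQ (gHS c) (hNrmS c) (qB s) = qB ((c : L) * s) := fun c s =>
    Subtype.ext (Subtype.ext (torS_conj (q := q) (uK c) (uK_mem c) 0 0 (s : K) 0 0).2.2.1)
  let φ₂ : (Q →* ℂ) → Lˣ × K → (Q →* ℂ) := fun χ i =>
    (χ.comp (conjQ (gHS i.1) (hNrmS i.1))).comp (conjQ (gA i.2) (hNrmA i.2))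
  have hφ₂Eig : ∀ χ i, Eig χ → Eig (φ₂ χ i) := fun χ i h => hEig _ (hNrmA i.2) _ (hEig _ (hNrmS i.1) _ h)
  have hφ₂Y : ∀ χ, Good χ → ∀ (i : Lˣ × K) (s : L), φ₂ χ i (qY s) = Λ' ((i.1 : L) * s) := fun χ h i s => by
    show χ (conjQ (gHS i.1) (hNrmS i.1) (conjQ (gA i.2) (hNrmA i.2) (qY s))) = _
    rw [hAY, hSY, h.2.2]
  have hφ₂U : ∀ χ, Good χ → ∀ (i : Lˣ × K) u, φ₂ χ i (qU u) = Λ' ((i.1 : L) * -tL i.2 u) := fun χ h i u => by
    show χ (conjQ (gHS i.1) (hNrmS i.1) (conjQ (gA i.2) (hNrmA i.2) (qU u))) = _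
    rw [hAU, map_mul, hSU, hSY, map_mul, h.2.1, h.2.2, one_mul]
  have hφ₂inj : ∀ χ χ', Good χ → Good χ' → ∀ i j, φ₂ χ i = φ₂ χ' j → i = j ∧ χ = χ' := by
    rintro χ χ' h h' ⟨c, t⟩ ⟨c', t'⟩ e
    have hc : c = c' := Units.ext (shift Λ' s₀ hΛ' _ _ fun s => by
      have := DFunLike.congr_fun e (qY s)
      rwa [hφ₂Y χ h, hφ₂Y χ' h'] at this)
    subst hc
    have ht : t = t' := by
      let Λc : AddChar L ℂ := AddChar.mulShift Λ' (c : L)
      refine pairK Λc ((c⁻¹ : Lˣ) * s₀) (by simpa [Λc, AddChar.mulShift_apply, ← mul_assoc] using hΛ')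
        t t' fun u => ?_
      have := DFunLike.congr_fun e (qU u)
      rw [hφ₂U χ h, hφ₂U χ' h', mul_neg, mul_neg, AddChar.map_neg_eq_inv, AddChar.map_neg_eq_inv,
        inv_inj] at this
      simpa [Λc, AddChar.mulShift_apply] using this
    subst ht
    refine ⟨rfl, MonoidHom.ext fun y => ?_⟩
    obtain ⟨y₁, rfl⟩ := hbij _ (hNrmS c) y
    obtain ⟨y₂, rfl⟩ := hbij _ (hNrmA t) y₁
    exact DFunLike.congr_fun e y₂
  -- the count
  have hcardL : Fintype.card L = q := by rw [← Nat.card_eq_fintype_card]; exact card_fixSub hq hK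
  have hcardU : Fintype.card Lˣ = q - 1 := by rw [Fintype.card_units, hcardL]
  have hcard₁ : Fintype.card (Lˣ × L × K) = (q - 1) * q ^ 4 := by
    rw [Fintype.card_prod, Fintype.card_prod, hcardU, hcardL, hK]; ring
  have count : ∀ {κ : Type _} [Fintype κ] (χ : κ → (Q →* ℂ)), Function.Injective χ → (∀ j, Eig (χ j)) →
      (q - 1) * q ^ 4 + Fintype.card κ ≤ k := by
    intro κ _ χ hχ hE
    choose w hwU hw0 hw using hE
    have h := RepEigen.card_add_card_le ρ α Q.subtype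
      (fun z : L => Multiplicative.ofAdd ((0 : K), (0 : L), z)) U₀ φ₁ v₁ χ w hφ₁ hv₁0 hv₁ hχ hw0
      (fun j y => hw j y) (fun i => ⟨((i.1⁻¹ : Lˣ) : L), by
        rw [hφ₁v, mul_zero, hψ0, htL0, add_zero, mul_zero, add_zero, one_mul,
          show (i.1 : L) * ((i.1⁻¹ : Lˣ) : L) = 1 from Units.mul_inv _]
        exact hΛ⟩)
      hwU (fun u hu z => by rw [hαZ]; exact hU₀.1 hu z)
    rwa [hcard₁, Module.finrank_fin_fun] at h
  have hcard₂ : Fintype.card (Lˣ × K) = (q - 1) * q ^ 3 := by rw [Fintype.card_prod, hcardU, hK]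
  obtain ⟨c₁, hc₁⟩ := exists_sq_ne_norm hq hK
  set N : K := (c₁ : K) * (c₁ : K) ^ q * (c₁ : K) ^ q ^ 2 with hN
  have hNL : N ∈ L := by
    rw [hL, mem_fixSub hq hK, hN, mul_pow, mul_pow, show q ^ 2 = q * q from sq q, pow_mul,
      pow_q_cube hq hK]
    ring
  have hN0 : N ≠ 0 := mul_ne_zero (mul_ne_zero c₁.ne_zero (pow_ne_zero _ c₁.ne_zero)) (pow_ne_zero _ c₁.ne_zero)
  let d : Lˣ := (Units.mk0 (⟨N, hNL⟩ : L) fun e => hN0 (congrArg Subtype.val e))⁻¹
  have hd : (uK d : K) = N⁻¹ := by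
    show ((Units.map L.subtype.toMonoidHom _⁻¹ : Kˣ) : K) = _
    rw [map_inv, Units.val_inv_eq_inv_val]; rfl
  have hg := hNrmMul _ _ (hNrmHA c₁) (hNrmS d)
  set χg := χ₀.comp (conjQ _ hg) with hχg
  have hgoodg : Good χg := by
    refine ⟨hEig _ hg _ hgood₀.1, fun u => ?_, fun s => ?_⟩
    · have e : conjQ _ hg (qU u) = qU ((c₁ : K) * (c₁ : K) ^ q / (c₁ : K) ^ q ^ 2 * ((uK d : K) * u)) := by
        refine Subtype.ext (Subtype.ext ?_)
        show tor _ _ _ _ * tor _ _ _ _ * eU q u * (tor _ _ _ _ * tor _ _ _ _)⁻¹ = eU q _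
        rw [← (torA_conj c₁ _ 0 0 0 (pow_q_cube hq hK _)).1,
          ← (torS_conj (q := q) (uK d) (uK_mem d) u 0 0 0 0).1]
        group
      rw [hχg, MonoidHom.comp_apply, e]
      exact hgood₀.2.1 _
    · have e : conjQ _ hg (qY s) = qY s := by
        refine Subtype.ext (Subtype.ext ?_)
        show tor _ _ _ _ * tor _ _ _ _ * eY (s : K) * (tor _ _ _ _ * tor _ _ _ _)⁻¹ = eY (s : K)
        conv_rhs => rw [show (s : K) = N * ((uK d : K) * (s : K)) by rw [hd, ← mul_assoc, mul_inv_cancel₀ hN0, one_mul]]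
        rw [hN, ← (torA_conj (q := q) c₁ 0 0 _ 0 (pow_q_cube hq hK _)).2.2.1,
          ← (torS_conj (q := q) (uK d) (uK_mem d) 0 0 0 (s : K) 0).2.2.2.1]
        group
      rw [hχg, MonoidHom.comp_apply, e]
      exact hgood₀.2.2 _
  by_cases hcase : χg = χ₀
  swap
  · -- two orbits
    have h := count (κ := (Lˣ × K) ⊕ (Lˣ × K)) (Sum.elim (φ₂ χ₀) (φ₂ χg))
      (by
        rintro (i | i) (j | j) e
        · exact congrArg Sum.inl (hφ₂inj _ _ hgood₀ hgood₀ i j e).1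
        · exact absurd (hφ₂inj _ _ hgood₀ hgoodg i j e).2.symm hcase
        · exact absurd (hφ₂inj _ _ hgoodg hgood₀ i j e).2 hcase
        · exact congrArg Sum.inr (hφ₂inj _ _ hgoodg hgoodg i j e).1)
      (by
        rintro (i | i)
        · exact hφ₂Eig _ _ hgood₀.1
        · exact hφ₂Eig _ _ hgoodg.1)
    rw [Fintype.card_sum, hcard₂] at h
    have : (q - 1) * 1 ≤ (q - 1) * q ^ 3 := Nat.mul_le_mul_left _ (Nat.one_le_pow _ _ hq.pos)
    omega
  -- the invariant character is trivial on `a + b`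
  set μ : K := (c₁ : K) / ((c₁ : K) ^ q * (c₁ : K) ^ q ^ 2) * (uK d : K) with hμ
  have hμ1 : μ - 1 ≠ 0 := by
    intro e
    apply hc₁
    rw [hμ, hd, hN, sub_eq_zero] at e
    have h0 : (c₁ : K) ≠ 0 := c₁.ne_zero
    have h1 := pow_ne_zero q h0
    have h2 := pow_ne_zero (q ^ 2) h0
    field_simp at e
    linear_combination (c₁ : K) ^ 2 * e
  have hAB : ∀ v, χ₀ (qAB v) = 1 := fun v => by
    have e : conjQ _ hg (qAB (v / (μ - 1))) = qAB (μ * (v / (μ - 1))) := by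
      refine Subtype.ext (Subtype.ext ?_)
      show tor _ _ _ _ * tor _ _ _ _ * eAB q _ * (tor _ _ _ _ * tor _ _ _ _)⁻¹ = eAB q _
      rw [show μ * (v / (μ - 1)) = (c₁ : K) / ((c₁ : K) ^ q * (c₁ : K) ^ q ^ 2) * ((uK d : K) * (v / (μ - 1)))
          from mul_assoc _ _ _, ← (torA_conj c₁ 0 _ 0 0 (pow_q_cube hq hK _)).2.1,
        ← (torS_conj (q := q) (uK d) (uK_mem d) 0 _ 0 0 0).2.1]
      group
    have h : χ₀ (qAB (μ * (v / (μ - 1)))) = χ₀ (qAB (v / (μ - 1))) := by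
      rw [← e, ← MonoidHom.comp_apply, ← hχg, hcase]
    rw [show qAB (μ * (v / (μ - 1))) = qAB v * qAB (v / (μ - 1)) from Subtype.ext (by
      show gAB _ = gAB v * gAB _
      rw [← gAB_add]; congr 1; field_simp; ring), map_mul] at h
    exact (mul_eq_right₀ (hunitQ _ _)).1 h
  let fL : L → AddChar L ℂ := fun r => AddChar.mulShift Λ' r
  have hfL : Function.Injective fL := fun a b e => shift Λ' s₀ hΛ' a b fun z => by
    simpa [fL, AddChar.mulShift_apply] using DFunLike.congr_fun e z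
  let Βc : AddChar L ℂ :=
    { toFun := fun s => χ₀ (qB s)
      map_zero_eq_one' := by
        rw [show qB 0 = 1 from Subtype.ext (left_eq_mul.1 (show gB 0 = gB 0 * gB 0 by
          rw [← gB_add, add_zero])), map_one]
      map_add_eq_mul' := fun a b => by
        rw [← map_mul]
        exact congrArg χ₀ (Subtype.ext (gB_add a b)) }
  obtain ⟨β, hβ⟩ := RepEigen.exists_pairing_eq fL hfL Βc
  obtain ⟨t₁, ht₁⟩ := exists_norm_eq hq hK β.2
  set χ₁ := χ₀.comp (conjQ (gA t₁) (hNrmA t₁)) with hχ₁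
  have hχ₁B : ∀ r, χ₁ (qB r) = 1 := fun r => by
    have hz : -(t₁ * t₁ ^ q * t₁ ^ q ^ 2 * (r : K) * (r : K)) ∈ L := by
      rw [ht₁]; exact neg_mem (mul_mem (mul_mem β.2 r.2) r.2)
    let qZ : Q := ⟨gZ ⟨_, hz⟩, hQ.2 (eZ_rad hq hK _)⟩
    have e : conjQ (gA t₁) (hNrmA t₁) (qB r) =
        qB r * qAB (t₁ * r) * qZ * qU (t₁ * t₁ ^ q * r) * qY (-(β * r)) :=
      Subtype.ext (Subtype.ext ((conj_eA_eB' hq hK t₁ r.2).trans (by
        show _ = eB (r : K) * _ * eZ _ * _ * eY (-((β : K) * (r : K)))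
        rw [← ht₁])))
    have hZ1 : χ₀ qZ = 1 := by
      obtain ⟨w, hwU, hw0, hw⟩ := hgood₀.1
      exact smul_left_injective ℂ hw0 (((hw qZ).symm.trans (hU₀.1 hwU _)).trans (one_smul ℂ w).symm)
    rw [hχ₁, MonoidHom.comp_apply, e, map_mul, map_mul, map_mul, map_mul, hgood₀.2.1, hgood₀.2.2, hAB,
      hZ1, mul_one, mul_one, mul_one, AddChar.map_neg_eq_inv]
    have : Λ' (β * r) = χ₀ (qB r) := DFunLike.congr_fun hβ r
    rw [this]
    exact mul_inv_cancel₀ (hunitQ _ _)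
  set χ₂ := χ₁.comp (conjQ wa hNrmW) with hχ₂
  have hχ₂Y : ∀ s, χ₂ (qY s) = 1 := fun s => by
    rw [hχ₂, MonoidHom.comp_apply, show conjQ wa hNrmW (qY s) = qB s from
      Subtype.ext (Subtype.ext (conj_wA_eY (s : K)))]
    exact hχ₁B s
  have hχ₂B : ∀ r, χ₂ (qB r) = Λ' (-r) := fun r => by
    rw [hχ₂, MonoidHom.comp_apply, show conjQ wa hNrmW (qB r) = qY (-r) from
      Subtype.ext (Subtype.ext (wA_eB hq hK (r : K))), hχ₁, MonoidHom.comp_apply, hAY, hgood₀.2.2]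
  let φ₃ : Lˣ → (Q →* ℂ) := fun c => χ₂.comp (conjQ (gHS c) (hNrmS c))
  have h := count (κ := (Lˣ × K) ⊕ Lˣ) (Sum.elim (φ₂ χ₀) φ₃)
    (by
      have hne : ∀ i j, φ₂ χ₀ i ≠ φ₃ j := fun i j e => hΛ' (by
        have := DFunLike.congr_fun e (qY (((i.1⁻¹ : Lˣ) : L) * s₀))
        rw [hφ₂Y _ hgood₀, ← mul_assoc, Units.mul_inv, one_mul,
          show φ₃ j = χ₂.comp (conjQ (gHS j) (hNrmS j)) from rfl, MonoidHom.comp_apply, hSY, hχ₂Y] at this
        exact this)
      rintro (i | i) (j | j) e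
      · exact congrArg Sum.inl (hφ₂inj _ _ hgood₀ hgood₀ i j e).1
      · exact absurd e (hne i j)
      · exact absurd e.symm (hne j i)
      · refine congrArg Sum.inr (Units.ext (shift Λ' s₀ hΛ' _ _ fun s => ?_))
        have := DFunLike.congr_fun e (qB (-s))
        simpa [φ₃, hSB, hχ₂B] using this)
    (by
      rintro (i | i)
      · exact hφ₂Eig _ _ hgood₀.1
      · exact hEig _ (hNrmS i) _ (hEig _ hNrmW _ (hEig _ (hNrmA t₁) _ hgood₀.1)))
  rw [Fintype.card_sum, hcard₂, hcardU] at h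
  omega

end D4

end CfsgLib.Twisted
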