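import Cfsg.Agent.Lib.Twisted.TwistedBN
import Cfsg.Agent.Lib.Chevalley.CommAll

/-! The parabolic subgroup of ³D₄(q) with special unipotent radical: root elements, their
commutators and their images under the torus and two Weyl elements. -/

set_option autoImplicit false
set_option linter.unusedSectionVars false

namespace CfsgLib.Twisted

open Cfsg.Lie
open CfsgLib.Chevalley (cert_D4 auxD4 xG coe_xG xG_mul xG_zero xG_inv nG hG rootsU xG_mem_rootsU
  torusHom torusHom_mulSingle chi chi_mulSingle acts_torus acts_nG_simple etaAt xG_injective)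

namespace D4

variable {K : Type*} [Field K]

/-- a root element -/
noncomputable abbrev X (r : ℕ) (t : K) : GL chevD4.Idx K := xG cert_D4 r t

/-- the short simple root group -/
noncomputable def eA (q : ℕ) (t : K) : GL chevD4.Idx K := X 18 t * X 13 (t ^ q) * X 12 (t ^ q ^ 2)

/-- its opposite -/
noncomputable def eMA (q : ℕ) (t : K) : GL chevD4.Idx K := X 5 t * X 10 (t ^ q) * X 11 (t ^ q ^ 2)

/-- the long simple root group -/
noncomputable def eB (r : K) : GL chevD4.Idx K := X 14 r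

/-- the root group at `a + b` -/
noncomputable def eAB (q : ℕ) (v : K) : GL chevD4.Idx K := X 19 (-v) * X 16 (v ^ q) * X 15 (v ^ q ^ 2)

/-- the root group at `2a + b` -/
noncomputable def eU (q : ℕ) (u : K) : GL chevD4.Idx K := X 21 (-u) * X 20 (-u ^ q ^ 2) * X 17 (u ^ q)

/-- the root group at `3a + b` -/
noncomputable def eY (s : K) : GL chevD4.Idx K := X 22 s

/-- the highest root group -/
noncomputable def eZ (z : K) : GL chevD4.Idx K := X 23 z

/-- the roots of the unipotent radical -/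
def radRoots : Set ℕ := {r | r ∈ [14, 15, 16, 17, 19, 20, 21, 22, 23]}

/-- `x_r(t) x_s(u) x_r(-t) = x_s(u) x_k(M t u)` -/
theorem push {r s k : ℕ} {M : ℤ} (h : r < 24 ∧ s < 24 ∧ s ≠ r ∧ s ≠ chevD4.neg r ∧
    chevD4.commTerms r s = [(k, M, 1, 1)]) (t u : K) :
    X r t * X s u = X s u * X k (M * t * u) * X r t := by
  obtain ⟨hr, hs, hsr, hneg, hc⟩ := h
  have h := CfsgLib.Chevalley.x_mul_x (D := chevD4) (by simp) (F := K) hr hs hsr hneg (-t) u
  have e : X s u * X r (-t) = X r (-t) * X s u * X k (M * t * u) := by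
    refine Units.ext ?_
    simp only [Units.val_mul, coe_xG, h, ChevalleyDatum.commWord, hc, List.map_cons, List.map_nil,
      neg_neg, pow_one, ChevalleyDatum.wordMat, List.prod_cons, List.prod_nil, mul_one]
  have hi : (X r t) * X r (-t) = 1 := by rw [xG_mul, add_neg_cancel, xG_zero]
  have hi' : X r (-t) * X r t = 1 := by rw [xG_mul, neg_add_cancel, xG_zero]
  calc X r t * X s u = X r t * (X s u * X r (-t)) * X r t := by rw [← mul_assoc, mul_assoc _ (X r (-t)), hi', mul_one]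
    _ = _ := by rw [e, ← mul_assoc, ← mul_assoc, hi, one_mul]

theorem comm {r s : ℕ} (h : r < 24 ∧ s < 24 ∧ s ≠ r ∧ s ≠ chevD4.neg r ∧
    chevD4.commTerms r s = []) (t u : K) : Commute (X r t) (X s u) := by
  obtain ⟨hr, hs, hsr, hneg, hc⟩ := h
  have h := CfsgLib.Chevalley.x_mul_x (D := chevD4) (by simp) (F := K) hr hs hsr hneg t u
  refine Units.ext ?_
  simp only [Units.val_mul, coe_xG, h, ChevalleyDatum.commWord, hc, List.map_nil,
    ChevalleyDatum.wordMat, List.prod_nil, mul_one]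

theorem pushM {r s k : ℕ} {M : ℤ} (h : r < 24 ∧ s < 24 ∧ s ≠ r ∧ s ≠ chevD4.neg r ∧
    chevD4.commTerms r s = [(k, M, 1, 1)]) (t u : K) (W : GL chevD4.Idx K) :
    X r t * (X s u * W) = X s u * (X k (M * t * u) * (X r t * W)) := by
  rw [← mul_assoc, push h]; simp only [mul_assoc]

theorem commM {r s : ℕ} (h : r < 24 ∧ s < 24 ∧ s ≠ r ∧ s ≠ chevD4.neg r ∧
    chevD4.commTerms r s = []) (t u : K) (W : GL chevD4.Idx K) :
    X r t * (X s u * W) = X s u * (X r t * W) := by
  rw [← mul_assoc, (comm h t u).eq, mul_assoc]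

theorem mergeM (r : ℕ) (t u : K) (W : GL chevD4.Idx K) :
    X r t * (X r u * W) = X r (t + u) * W := by
  rw [← mul_assoc, xG_mul]

/-- conjugation by a simple Weyl element -/
theorem conj_n (i : Fin 4) (s : Fin 24) (t : K) :
    nG cert_D4 (chevD4.simple i) (1 : K) * X s t * (nG cert_D4 (chevD4.simple i) (1 : K))⁻¹ =
      X (chevD4.reflectRoot i s) ((etaAt auxD4 i s : K) * t) := by
  have h := (acts_nG_simple fullD4 i (one_ne_zero (α := K))).conj s t
  rw [one_zpow, mul_one] at h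
  exact h

/-- the reflections in `p₁`, `p₃`, `p₄` together -/
noncomputable def wA : GL chevD4.Idx K := nG cert_D4 18 1 * nG cert_D4 13 1 * nG cert_D4 12 1

theorem conj_wA {s s₁ s₂ s₃ : ℕ} {e : ℤ} (h : s < 24 ∧ s₁ < 24 ∧ s₂ < 24 ∧
    chevD4.reflectRoot 3 s = s₁ ∧ chevD4.reflectRoot 2 s₁ = s₂ ∧ chevD4.reflectRoot 0 s₂ = s₃ ∧
    etaAt auxD4 3 s * etaAt auxD4 2 s₁ * etaAt auxD4 0 s₂ = e) (t : K) :
    wA * X s t * (wA : GL chevD4.Idx K)⁻¹ = X s₃ ((e : K) * t) := by
  obtain ⟨hs, hs₁, hs₂, e1, e2, e3, he⟩ := h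
  have h1 := conj_n (K := K) (3 : Fin 4) ⟨s, hs⟩ t
  have h2 := conj_n (K := K) (2 : Fin 4) ⟨s₁, hs₁⟩ ((etaAt auxD4 3 s : K) * t)
  have h3 := conj_n (K := K) (0 : Fin 4) ⟨s₂, hs₂⟩ ((etaAt auxD4 2 s₁ : K) * ((etaAt auxD4 3 s : K) * t))
  rw [show chevD4.simple ((3 : Fin 4) : ℕ) = 12 from rfl] at h1
  rw [show chevD4.simple ((2 : Fin 4) : ℕ) = 13 from rfl] at h2
  rw [show chevD4.simple ((0 : Fin 4) : ℕ) = 18 from rfl] at h3
  simp only [show ((3 : Fin 4) : ℕ) = 3 from rfl, e1] at h1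
  simp only [show ((2 : Fin 4) : ℕ) = 2 from rfl, e2] at h2
  simp only [show ((0 : Fin 4) : ℕ) = 0 from rfl, e3] at h3
  rw [wA, ← he]
  calc _ = nG cert_D4 18 (1 : K) * (nG cert_D4 13 (1 : K) * (nG cert_D4 12 (1 : K) * X s t *
        (nG cert_D4 12 (1 : K))⁻¹) * (nG cert_D4 13 (1 : K))⁻¹) * (nG cert_D4 18 (1 : K))⁻¹ := by group
    _ = _ := by rw [h1, h2, h3]; push_cast; congr 1; ring

/-- the torus, with parameters indexed by `Fin 4` -/
noncomputable def torV : (Fin 4 → Kˣ) →* GL chevD4.Idx K := torusHom chevD4 K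

/-- the torus element with parameters `a, b, c, d` -/
noncomputable def tor (a b c d : Kˣ) : GL chevD4.Idx K :=
  torV (Pi.mulSingle (0 : Fin 4) a * Pi.mulSingle (1 : Fin 4) b *
    Pi.mulSingle (2 : Fin 4) c * Pi.mulSingle (3 : Fin 4) d)

theorem tor_eq (a b c d : Kˣ) : tor a b c d =
    hG cert_D4 18 (a : K) * hG cert_D4 14 (b : K) * hG cert_D4 13 (c : K) * hG cert_D4 12 (d : K) := by
  have h0 : torV (Pi.mulSingle (0 : Fin 4) a) = hG cert_D4 18 (a : K) := torusHom_mulSingle cert_D4 (0 : Fin 4) a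
  have h1 : torV (Pi.mulSingle (1 : Fin 4) b) = hG cert_D4 14 (b : K) := torusHom_mulSingle cert_D4 (1 : Fin 4) b
  have h2 : torV (Pi.mulSingle (2 : Fin 4) c) = hG cert_D4 13 (c : K) := torusHom_mulSingle cert_D4 (2 : Fin 4) c
  have h3 : torV (Pi.mulSingle (3 : Fin 4) d) = hG cert_D4 12 (d : K) := torusHom_mulSingle cert_D4 (3 : Fin 4) d
  rw [tor, map_mul, map_mul, map_mul, h0, h1, h2, h3]

theorem hG_one {r : ℕ} : hG cert_D4 r (1 : K) = 1 := by
  rw [hG, ← CfsgLib.Chevalley.nG_inv, mul_inv_cancel]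

theorem tor_mul (a b c d a' b' c' d' : Kˣ) :
    tor a b c d * tor a' b' c' d' = tor (a * a') (b * b') (c * c') (d * d') := by
  rw [tor, tor, tor, ← map_mul]
  congr 1
  funext i
  fin_cases i <;> simp

theorem conj_tor {s : ℕ} {n₀ n₁ n₂ n₃ : ℤ} (h : s < 24 ∧ chevD4.cartan 0 s = n₀ ∧
    chevD4.cartan 1 s = n₁ ∧ chevD4.cartan 2 s = n₂ ∧ chevD4.cartan 3 s = n₃) (a b c d : Kˣ) (t : K) :
    tor a b c d * X s t * (tor a b c d)⁻¹ =
      X s ((a : K) ^ n₀ * (b : K) ^ n₁ * (c : K) ^ n₂ * (d : K) ^ n₃ * t) := by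
  obtain ⟨hs, rfl, rfl, rfl, rfl⟩ := h
  have h : ∀ v : Fin 4 → Kˣ, torV v * X s t * (torV v)⁻¹ =
      X s (((chi chevD4 s v : Kˣ) : K) * t) :=
    fun v => (acts_torus cert_D4 (F := K) v).conj (⟨s, hs⟩ : Fin 24) t
  rw [tor, h]
  congr 2
  show ((∏ k : Fin 4, (Pi.mulSingle (0 : Fin 4) a * Pi.mulSingle (1 : Fin 4) b *
    Pi.mulSingle (2 : Fin 4) c * Pi.mulSingle (3 : Fin 4) d : Fin 4 → Kˣ) k ^ chevD4.cartan k s : Kˣ) : K) = _
  simp [Fin.prod_univ_four, Units.val_zpow_eq_zpow_val]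

theorem tor_conj_radRoots (a b c d : Kˣ) : ∀ v ∈ rootsU chevD4 K radRoots,
    tor a b c d * v * (tor a b c d)⁻¹ ∈ rootsU chevD4 K radRoots :=
  have h : ∀ v : Fin 4 → Kˣ, ∀ g ∈ rootsU chevD4 K radRoots, torV v * g * (torV v)⁻¹ ∈
      rootsU chevD4 K radRoots :=
    fun v => (acts_torus cert_D4 (F := K) v).conj_rootsU fun _ hs => hs
  h _

theorem wA_conj_radRoots : ∀ v ∈ rootsU chevD4 K radRoots,
    wA * v * (wA : GL chevD4.Idx K)⁻¹ ∈ rootsU chevD4 K radRoots := by
  refine CfsgLib.Chevalley.rootsU_conj_le cert_D4 fun s hs t => ?_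
  have key : ∀ s ∈ [14, 15, 16, 17, 19, 20, 21, 22, 23],
      s < 24 ∧ chevD4.reflectRoot 3 s < 24 ∧ chevD4.reflectRoot 2 (chevD4.reflectRoot 3 s) < 24 ∧
      chevD4.reflectRoot 0 (chevD4.reflectRoot 2 (chevD4.reflectRoot 3 s)) ∈
        [14, 15, 16, 17, 19, 20, 21, 22, 23] := by decide +kernel
  obtain ⟨h0, h1, h2, h3⟩ := key s hs
  rw [conj_wA ⟨h0, h1, h2, rfl, rfl, rfl, rfl⟩ t]
  exact xG_mem_rootsU cert_D4 h3 _

theorem eA_conj_radRoots (q : ℕ) (t : K) : ∀ v ∈ rootsU chevD4 K radRoots,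
    eA q t * v * (eA q t)⁻¹ ∈ rootsU chevD4 K radRoots := by
  have key : ∀ r ∈ [18, 13, 12], ∀ s ∈ [14, 15, 16, 17, 19, 20, 21, 22, 23],
      s ≠ r → s ≠ chevD4.neg r ∧ ∀ c ∈ chevD4.commTerms r s, c.1 ∈ [14, 15, 16, 17, 19, 20, 21, 22, 23] := by
    decide +kernel
  have key2 : ∀ s ∈ [14, 15, 16, 17, 19, 20, 21, 22, 23], s < chevD4.nroots := by decide +kernel
  have h : ∀ r ∈ [18, 13, 12], ∀ (u : K), ∀ v ∈ rootsU chevD4 K radRoots,
      X r u * v * (X r u)⁻¹ ∈ rootsU chevD4 K radRoots := fun r hr u =>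
    CfsgLib.Chevalley.xG_conj_rootsU (hS := fullD4.toStd) (by revert r; decide +kernel) key2
      (key r hr) u
  intro v hv
  have := h 18 (by simp) t _ (h 13 (by simp) (t ^ q) _ (h 12 (by simp) (t ^ q ^ 2) _ hv))
  convert this using 1
  rw [eA]; group

variable (q : ℕ)

theorem conj_eU_eAB (v u : K) : eAB q v * eU q u * (eAB q v)⁻¹ = eU q u *
    eZ (v * u ^ q + v ^ q * u ^ q ^ 2 + v ^ q ^ 2 * u) := by
  rw [mul_inv_eq_iff_eq_mul, eU, eAB, eZ]
  generalize v ^ q ^ 2 = v₂
  generalize v ^ q = v₁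
  generalize u ^ q ^ 2 = u₂
  generalize u ^ q = u₁
  simp only [mul_assoc]
  rw [pushM (r := 15) (s := 21) (k := 23) (M := -1) (by decide +kernel),
    commM (r := 16) (s := 21) (by decide +kernel), commM (r := 19) (s := 21) (by decide +kernel),
    commM (r := 15) (s := 20) (by decide +kernel),
    (comm (r := 15) (s := 17) (by decide +kernel) v₂ u₁).eq,
    commM (r := 23) (s := 20) (by decide +kernel),
    pushM (r := 16) (s := 20) (k := 23) (M := -1) (by decide +kernel),
    commM (r := 19) (s := 20) (by decide +kernel), commM (r := 23) (s := 17) (by decide +kernel),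
    commM (r := 16) (s := 17) (by decide +kernel), commM (r := 23) (s := 17) (by decide +kernel),
    pushM (r := 19) (s := 17) (k := 23) (M := -1) (by decide +kernel)]
  simp only [commM (r := 16) (s := 23) (by decide +kernel), commM (r := 19) (s := 23) (by decide +kernel),
    mergeM]
  push_cast
  ring_nf

theorem conj_eB_eY (r s : K) : eB r * eY s * (eB r)⁻¹ = eY s * eZ (r * s) := by
  rw [mul_inv_eq_iff_eq_mul, eB, eY, eZ]
  rw [push (k := 23) (M := 1) (by decide +kernel), Int.cast_one, one_mul]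

theorem commute_eY_eAB (s v : K) : Commute (eY s) (eAB q v) :=
  ((comm (r := 22) (s := 19) (by decide +kernel) _ _).mul_right
    (comm (r := 22) (s := 16) (by decide +kernel) _ _)).mul_right
    (comm (r := 22) (s := 15) (by decide +kernel) _ _)

theorem commute_eB_eU (r u : K) : Commute (eB r) (eU q u) :=
  ((comm (r := 14) (s := 21) (by decide +kernel) _ _).mul_right
    (comm (r := 14) (s := 20) (by decide +kernel) _ _)).mul_right
    (comm (r := 14) (s := 17) (by decide +kernel) _ _)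

theorem commute_eY_eU (s u : K) : Commute (eY s) (eU q u) :=
  ((comm (r := 22) (s := 21) (by decide +kernel) _ _).mul_right
    (comm (r := 22) (s := 20) (by decide +kernel) _ _)).mul_right
    (comm (r := 22) (s := 17) (by decide +kernel) _ _)

theorem commute_eY_eA (t s : K) : Commute (eY s) (eA q t) :=
  ((comm (r := 22) (s := 18) (by decide +kernel) _ _).mul_right
    (comm (r := 22) (s := 13) (by decide +kernel) _ _)).mul_right
    (comm (r := 22) (s := 12) (by decide +kernel) _ _)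

theorem commute_eZ_eA (t z : K) : Commute (eZ z) (eA q t) :=
  ((comm (r := 23) (s := 18) (by decide +kernel) _ _).mul_right
    (comm (r := 23) (s := 13) (by decide +kernel) _ _)).mul_right
    (comm (r := 23) (s := 12) (by decide +kernel) _ _)

theorem eU_add [Fintype K] (hq : IsPrimePow q) (hK : Fintype.card K = q ^ 3) (u u' : K) :
    eU q (u + u') = eU q u * eU q u' := by
  simp only [eU]
  have hadd : ∀ x y : K, (x + y) ^ q = x ^ q + y ^ q := fun x y => by
    have h := sub_pow_primePow hq three_ne_zero hK (x + y) y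
    rw [add_sub_cancel_right] at h
    rw [h, sub_add_cancel]
  rw [show q ^ 2 = q * q from sq q, pow_mul, pow_mul, pow_mul, hadd, hadd,
    show -(u + u') = -u + -u' by ring,
    show -((u ^ q) ^ q + (u' ^ q) ^ q) = -(u ^ q) ^ q + -(u' ^ q) ^ q by ring]
  generalize -(u ^ q) ^ q = a
  generalize -(u' ^ q) ^ q = a'
  generalize u ^ q = b
  generalize u' ^ q = b'
  simp only [mul_assoc]
  rw [commM (r := 17) (s := 21) (by decide +kernel), commM (r := 20) (s := 21) (by decide +kernel),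
    commM (r := 17) (s := 20) (by decide +kernel)]
  simp only [mergeM, xG_mul]

/-- conjugation of `eB` by the short simple root group -/
theorem conj_eA_eB (t r : K) : eA q t * eB r * (eA q t)⁻¹ =
    X 14 r * (X 19 (-(t * r)) * X 16 (t ^ q * r) * X 15 (t ^ q ^ 2 * r)) *
      X 23 (-(t * t ^ q * t ^ q ^ 2 * r * r)) *
      (X 21 (-(t * t ^ q * r)) * X 20 (-(t * t ^ q ^ 2 * r)) * X 17 (t ^ q * t ^ q ^ 2 * r)) *
      X 22 (-(t * t ^ q * t ^ q ^ 2 * r)) := by
  rw [mul_inv_eq_iff_eq_mul, eA, eB]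
  generalize t ^ q ^ 2 = t₂
  generalize t ^ q = t₁
  simp only [mul_assoc]
  rw [push (r := 12) (s := 14) (k := 15) (M := 1) (by decide +kernel)]
  simp only [mul_assoc]
  rw [pushM (r := 13) (s := 14) (k := 16) (M := 1) (by decide +kernel),
    pushM (r := 13) (s := 15) (k := 17) (M := 1) (by decide +kernel),
    pushM (r := 18) (s := 14) (k := 19) (M := -1) (by decide +kernel),
    pushM (r := 18) (s := 16) (k := 21) (M := -1) (by decide +kernel),
    pushM (r := 18) (s := 15) (k := 20) (M := -1) (by decide +kernel),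
    pushM (r := 21) (s := 15) (k := 23) (M := 1) (by decide +kernel),
    pushM (r := 18) (s := 17) (k := 22) (M := -1) (by decide +kernel)]
  push_cast
  ring_nf

/-- conjugation of `eU` by the short simple root group -/
theorem conj_eA_eU (t u : K) : eA q t * eU q u * (eA q t)⁻¹ =
    eU q u * eY (-(t ^ q ^ 2 * u + t ^ q * u ^ q ^ 2 + t * u ^ q)) := by
  rw [mul_inv_eq_iff_eq_mul, eA, eU, eY]
  generalize t ^ q ^ 2 = t₂
  generalize t ^ q = t₁
  generalize u ^ q ^ 2 = u₂
  generalize u ^ q = u₁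
  simp only [mul_assoc]
  rw [pushM (r := 12) (s := 21) (k := 22) (M := 1) (by decide +kernel),
    commM (r := 13) (s := 21) (by decide +kernel), commM (r := 18) (s := 21) (by decide +kernel),
    commM (r := 12) (s := 20) (by decide +kernel),
    (comm (r := 12) (s := 17) (by decide +kernel) t₂ u₁).eq,
    commM (r := 22) (s := 20) (by decide +kernel),
    pushM (r := 13) (s := 20) (k := 22) (M := 1) (by decide +kernel),
    commM (r := 18) (s := 20) (by decide +kernel), commM (r := 22) (s := 17) (by decide +kernel),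
    commM (r := 13) (s := 17) (by decide +kernel), commM (r := 22) (s := 17) (by decide +kernel),
    pushM (r := 18) (s := 17) (k := 22) (M := -1) (by decide +kernel)]
  simp only [commM (r := 13) (s := 22) (by decide +kernel), commM (r := 18) (s := 22) (by decide +kernel),
    mergeM]
  push_cast
  ring_nf

end D4

end CfsgLib.Twisted
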