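import Cfsg.Agent.Lib.Twisted.E6Lines

/-! The eight cells of the Levi orbit of the highest weight character: eigenvectors on which the stabilisers
in the long diagonal group act trivially. -/

set_option autoImplicit false
set_option linter.unusedSectionVars false
set_option linter.unusedSimpArgs false
set_option linter.unreachableTactic false
set_option linter.unusedTactic false
set_option maxRecDepth 100000

namespace CfsgLib.Twisted

open Cfsg.Lie

namespace E6

variable {K : Type*} [Field K] [Fintype K] {q : ℕ} (hq : IsPrimePow q) (hK : Fintype.card K = q ^ 2)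
include hq hK

variable {ε : AddChar K ℂ} (hε : ∃ l ∈ fixF hq hK, ε l ≠ 1)
variable {V : Type*} [AddCommGroup V] [Module ℂ V] [FiniteDimensional ℂ V]
  (ρ : Representation ℂ ↥(twistedE6 K q) V)
  (hgap : Module.finrank ℂ ↥(RepFix.fix ρ (fZ hq hK) ⊓ RepFix.fix ρ (fT hq hK)) + (q - 1) * q ^ 9 =
    Module.finrank ℂ ↥(RepFix.fix ρ (fZ hq hK)))

/-- compatible coordinates with an eigenvector on which the stabiliser acts trivially -/
def Good (ε : AddChar K ℂ) (F : ℕ → K) : Prop :=
  Compat q F ∧ ∃ v : V, v ≠ 0 ∧ Eig ρ ε F v ∧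
    ∀ d : DPar hq hK, (∀ r ∈ qList, TD (d.1 : K) (d.2.1 : K) (d.2.2 : K) F r = F r) →
      ρ (fD hq hK (Multiplicative.ofAdd d)) v = v

/-- how a translate of a line gets a good vector -/
theorem good_of_translate {s : ℕ} (hs : s ∈ longQ) {c : K} (hc : c ∈ fixF hq hK) {v : V} (hv0 : v ≠ 0)
    (hv : Eig ρ ε (base s c) v) {h l : GL chevE6.Idx K} (hh : h ∈ twistedE6 K q) (hl : l ∈ twistedE6 K q)
    {T : (ℕ → K) → ℕ → K} (hT : Shifts (h * l) T) (w₀ : Fin 9 → K) (hw₀ : herm w₀ = h)
    (hstab : ∀ U S T' : ↥(fixF hq hK), (∀ r ∈ qList, TD (U : K) (S : K) (T' : K) (T (base s c)) r = T (base s c) r) →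
      ∃ w : Fin 9 → K, l⁻¹ * gD (U : K) (S : K) (T' : K) * l = herm w ∧ Triv ρ v w) :
    Good hq hK ρ ε (T (base s c)) := by
  have hg : h * l ∈ twistedE6 K q := mul_mem hh hl
  refine ⟨compat_shift hq hK hg hT (compat_base hs hc hq.pos.ne'), ρ ⟨h * l, hg⟩ v, fun e => hv0 ?_,
    eig_shift ρ ε hg hT hv, ?_⟩
  · have := congrArg (ρ (⟨h * l, hg⟩ : ↥(twistedE6 K q))⁻¹) e
    rwa [map_zero, ← Module.End.mul_apply, ← map_mul, inv_mul_cancel, map_one] at this
  rintro ⟨U, S, T'⟩ hd
  obtain ⟨w, hw, hm, hfix⟩ := hstab U S T' hd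
  have e : fD hq hK (Multiplicative.ofAdd (U, S, T')) * (⟨h * l, hg⟩ : ↥(twistedE6 K q)) =
      ⟨h * l, hg⟩ * ⟨herm w, hm⟩ := by
    refine Subtype.ext ?_
    show gD (U : K) (S : K) (T' : K) * (h * l) = h * l * herm w
    have hc : Commute (gD (U : K) (S : K) (T' : K)) h := by rw [← herm_hv3, ← hw₀]; exact herm_comm _ _
    rw [← hw, ← mul_assoc, hc.eq]
    group
  rw [← Module.End.mul_apply, ← map_mul, e, map_mul, Module.End.mul_apply, hfix]

omit hq hK in
theorem triv_zero {v : V} : Triv ρ v (0 : Fin 9 → K) := by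
  refine ⟨by rw [herm_zero]; exact one_mem _, ?_⟩
  rw [show (⟨herm (0 : Fin 9 → K), _⟩ : ↥(twistedE6 K q)) = 1 from Subtype.ext herm_zero, map_one]
  rfl

omit hq hK in
theorem hv3_zero : hv3 (0 : K) 0 0 = 0 := by
  funext j; fin_cases j <;> simp [hv3]

variable {c : K} (hc : c ∈ fixF hq hK) (hc0 : c ≠ 0)
include hε hgap hc hc0

theorem good0 (A B D : ↥(fixF hq hK)) (x y z : K) :
    Good hq hK ρ ε (TH q (A : K) (B : K) (D : K) x y z (base 70 c)) := by
  obtain ⟨v, hv0, hv, hline⟩ := oneLine_bases hq hK hε ρ hgap hc hc0 70 (by simp)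
  refine good_of_translate hq hK ρ (s := 70) (by decide) hc hv0 hv (gH_mem hq hK A.2 B.2 D.2 x y z) (one_mem _)
    (T := TH q (A : K) (B : K) (D : K) x y z) (by rw [mul_one]; exact shifts_gH _ _ _ _ _ _)
    (hv3 (A : K) B D + (hv40 q x + (hv41 q y + hv45 q z))) ?_ fun U S T hd => ?_
  · rw [herm_add, herm_add, herm_add, herm_hv3, herm_hv40, herm_hv41, herm_hv45, gD, gH]
    simp only [mul_assoc]
  obtain ⟨e69, e65, e53⟩ := stab0 q c (A : K) (B : K) (D : K) x y z (U : K) (S : K) (T : K)
  obtain ⟨-, a69, a65, a53, -⟩ := vals0 q c (A : K) (B : K) (D : K) x y z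
  have hU : (U : K) = 0 := by
    have h := e69.symm.trans ((hd 69 (by decide)).trans a69)
    exact (mul_eq_zero.1 (by linear_combination -h : (U : K) * c = 0)).resolve_right hc0
  have hS : (S : K) = 0 := by
    have h := e65.symm.trans ((hd 65 (by decide)).trans a65)
    exact (mul_eq_zero.1 (by linear_combination h : (S : K) * c = 0)).resolve_right hc0
  have hT : (T : K) = 0 := by
    have h := e53.symm.trans ((hd 53 (by decide)).trans a53)
    exact (mul_eq_zero.1 (by linear_combination h : (T : K) * c = 0)).resolve_right hc0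
  exact ⟨0, by rw [hU, hS, hT, ← herm_hv3, hv3_zero, herm_zero]; group, triv_zero ρ⟩

theorem goodP1 (A B : ↥(fixF hq hK)) (x a b : K) :
    Good hq hK ρ ε (TP1 q (A : K) (B : K) x a b (base 53 c)) := by
  obtain ⟨v, hv0, hv, hline⟩ := oneLine_bases hq hK hε ρ hgap hc hc0 53 (by simp)
  refine good_of_translate hq hK ρ (s := 53) (by decide) hc hv0 hv
    (h := X 39 (A : K) * (X 44 (B : K) * PE q 40 x)) (l := PE q 15 a * PE q 14 b)
    (mul_mem (long_mem hq hK (by decide) A.2) (mul_mem (long_mem hq hK (by decide) B.2) (pair_mem hq hK (by decide) x)))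
    (mul_mem (pair_mem hq hK (by decide) a) (pair_mem hq hK (by decide) b))
    (T := TP1 q (A : K) (B : K) x a b) ?_ (hv3 (A : K) B 0 + hv40 q x) ?_ fun U S T hd => ?_
  · have h := (shifts_X (K := K) (a := 39) (by decide) (A : K)).mul ((shifts_X (a := 44) (by decide) (B : K)).mul
      ((shifts_pair (q := q) (a := 40) (by decide) x).mul ((shifts_pair (q := q) (a := 15) (by decide) a).mul
        (shifts_pair (q := q) (a := 14) (by decide) b))))
    simp only [mul_assoc] at h ⊢
    exact h
  · rw [herm_add, herm_hv3, herm_hv40, gD, X_zero, mul_one, mul_assoc]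
  obtain ⟨e47, e51, e50⟩ := stabP1 q c (A : K) (B : K) x a b (U : K) (S : K) (T : K)
  obtain ⟨-, -, -, -, a51, a47, a50, -⟩ := valsP1 q c (A : K) (B : K) x a b
  have hS : (S : K) = T * (a * a ^ q) := by
    have h := e47.symm.trans ((hd 47 (by decide)).trans a47)
    refine sub_eq_zero.1 ((mul_eq_zero.1 (?_ : c * ((S : K) - T * (a * a ^ q)) = 0)).resolve_left hc0)
    linear_combination h
  have hU : (U : K) = -(T * (b * b ^ q)) := by
    have h := e51.symm.trans ((hd 51 (by decide)).trans a51)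
    refine eq_neg_of_add_eq_zero_left ((mul_eq_zero.1 (?_ : c * ((U : K) + T * (b * b ^ q)) = 0)).resolve_left hc0)
    linear_combination -h
  have hab : (T : K) * (a ^ q * b) = 0 := by
    have h := e50.symm.trans ((hd 50 (by decide)).trans a50)
    refine (mul_eq_zero.1 (?_ : c * ((T : K) * (a ^ q * b)) = 0)).resolve_left hc0
    linear_combination -h
  have hconj : ∀ w, herI q 14 b (herI q 15 a (hv3 (U : K) S T)) = w →
      (PE q 15 a * PE q 14 b)⁻¹ * gD (U : K) S T * (PE q 15 a * PE q 14 b) = herm w := fun w hw => by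
    rw [← hw, ← conj_PE_inv_herm (by decide), ← conj_PE_inv_herm (by decide), herm_hv3]
    group
  have hT41 := fun t => triv_41 hq hK ρ hv hline (by decide +kernel) (by decide +kernel) t
  have hT45 := fun t => triv_45 hq hK ρ hv hline (by decide +kernel) (by decide +kernel) t
  have hT3 := triv_T hq hK ρ hv hline (by decide +kernel) (by decide +kernel) T.2
  rcases mul_eq_zero.1 hab with hT | h
  · refine ⟨0, ?_, triv_zero ρ⟩
    rw [hU, hS, hT, zero_mul, zero_mul, neg_zero, ← herm_hv3, hv3_zero, herm_zero]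
    group
  rcases mul_eq_zero.1 h with ha | hb
  · have ha0 : a = 0 := (pow_eq_zero_iff hq.pos.ne').1 ha
    subst ha0
    refine ⟨_, hconj _ ?_, hT3.add ρ (hT41 ((T : K) * b))⟩
    rw [hU, hS, zero_mul, mul_zero]
    exact dP1_left b (T : K) hq.pos.ne' T.2
  · subst hb
    refine ⟨_, hconj _ ?_, hT3.add ρ (hT45 ((T : K) * a))⟩
    rw [hU, hS, zero_mul, mul_zero, neg_zero]
    exact dP1_right a (T : K) hq.pos.ne' T.2

theorem goodP2 (A D : ↥(fixF hq hK)) (y b : K) :
    Good hq hK ρ ε (TP2 q (A : K) (D : K) y b (base 65 c)) := by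
  obtain ⟨v, hv0, hv, hline⟩ := oneLine_bases hq hK hε ρ hgap hc hc0 65 (by simp)
  refine good_of_translate hq hK ρ (s := 65) (by decide) hc hv0 hv
    (h := X 39 (A : K) * (X 60 (D : K) * PE q 41 y)) (l := PE q 29 b)
    (mul_mem (long_mem hq hK (by decide) A.2) (mul_mem (long_mem hq hK (by decide) D.2) (pair_mem hq hK (by decide) y)))
    (pair_mem hq hK (by decide) b)
    (T := TP2 q (A : K) (D : K) y b) ?_ (hv3 (A : K) 0 D + hv41 q y) ?_ fun U S T hd => ?_
  · have h := (shifts_X (K := K) (a := 39) (by decide) (A : K)).mul ((shifts_X (a := 60) (by decide) (D : K)).mul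
      ((shifts_pair (q := q) (a := 41) (by decide) y).mul (shifts_pair (q := q) (a := 29) (by decide) b)))
    simp only [mul_assoc] at h ⊢
    exact h
  · rw [herm_add, herm_hv3, herm_hv41, gD, X_zero, one_mul, mul_assoc]
  obtain ⟨e47, e63⟩ := stabP2 q c (A : K) (D : K) y b (U : K) (S : K) (T : K)
  obtain ⟨-, -, -, -, a47, a63, -⟩ := valsP2 q c (A : K) (D : K) y b
  have hT : (T : K) = 0 := by
    have h := e47.symm.trans ((hd 47 (by decide)).trans a47)
    exact (mul_eq_zero.1 (by linear_combination h : c * (T : K) = 0)).resolve_left hc0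
  have hU : (U : K) = S * (b * b ^ q) := by
    have h := e63.symm.trans ((hd 63 (by decide)).trans a63)
    refine (sub_eq_zero.1 ((mul_eq_zero.1 (?_ : c * ((S : K) * (b * b ^ q) - U) = 0)).resolve_left hc0)).symm
    linear_combination h
  refine ⟨_, ?_, (triv_S hq hK ρ hv hline (by decide +kernel) (by decide +kernel) S.2).add ρ
    (triv_40 hq hK ρ hv hline (by decide +kernel) (by decide +kernel) ((S : K) * b))⟩
  rw [← dP2 b (S : K) S.2, ← conj_PE_inv_herm (by decide), herm_hv3, hT, hU]

theorem goodP3 (B D : ↥(fixF hq hK)) (z : K) :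
    Good hq hK ρ ε (TP3 q (B : K) (D : K) z (base 69 c)) := by
  obtain ⟨v, hv0, hv, hline⟩ := oneLine_bases hq hK hε ρ hgap hc hc0 69 (by simp)
  refine good_of_translate hq hK ρ (s := 69) (by decide) hc hv0 hv
    (h := X 44 (B : K) * (X 60 (D : K) * PE q 45 z)) (l := 1)
    (mul_mem (long_mem hq hK (by decide) B.2) (mul_mem (long_mem hq hK (by decide) D.2) (pair_mem hq hK (by decide) z)))
    (one_mem _) (T := TP3 q (B : K) (D : K) z) ?_ (hv3 0 (B : K) D + hv45 q z) ?_ fun U S T hd => ?_
  · rw [mul_one]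
    exact (shifts_X (K := K) (a := 44) (by decide) (B : K)).mul ((shifts_X (a := 60) (by decide) (D : K)).mul
      (shifts_pair (q := q) (a := 45) (by decide) z))
  · rw [herm_add, herm_hv3, herm_hv45, gD, X_zero, one_mul, mul_assoc]
  obtain ⟨e51, e63⟩ := stabP3 q c (B : K) (D : K) z (U : K) (S : K) (T : K)
  obtain ⟨-, -, -, -, a51, a63, -⟩ := valsP3 q c (B : K) (D : K) z
  have hT : (T : K) = 0 := by
    have h := e51.symm.trans ((hd 51 (by decide)).trans a51)
    exact (mul_eq_zero.1 (by linear_combination h : c * (T : K) = 0)).resolve_left hc0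
  have hS : (S : K) = 0 := by
    have h := e63.symm.trans ((hd 63 (by decide)).trans a63)
    exact (mul_eq_zero.1 (by linear_combination h : c * (S : K) = 0)).resolve_left hc0
  refine ⟨_, ?_, triv_U hq hK ρ hv hline (by decide +kernel) (by decide +kernel) U.2⟩
  rw [herm_hv3, hS, hT]
  group

theorem goodL1 (D : ↥(fixF hq hK)) (a b : K) :
    Good hq hK ρ ε (TL1 q (D : K) a b (base 63 c)) := by
  obtain ⟨v, hv0, hv, hline⟩ := oneLine_bases hq hK hε ρ hgap hc hc0 63 (by simp)
  refine good_of_translate hq hK ρ (s := 63) (by decide) hc hv0 hv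
    (h := X 60 (D : K)) (l := PE q 56 a * PE q 57 b)
    (long_mem hq hK (by decide) D.2) (mul_mem (pair_mem hq hK (by decide) a) (pair_mem hq hK (by decide) b))
    (T := TL1 q (D : K) a b) ?_ (hv3 0 0 (D : K)) ?_ fun U S T hd => ?_
  · exact (shifts_X (K := K) (a := 60) (by decide) (D : K)).mul
      ((shifts_pair (q := q) (a := 56) (by decide) a).mul (shifts_pair (q := q) (a := 57) (by decide) b))
  · rw [herm_hv3, gD, X_zero, X_zero, one_mul, one_mul]
  have e46 := stabL1 q c (D : K) a b (U : K) (S : K) (T : K)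
  obtain ⟨-, -, -, -, -, -, -, a46⟩ := valsL1 q c (D : K) a b
  have hT : (T : K) = S * (a * a ^ q) - U * (b * b ^ q) := by
    have h := e46.symm.trans ((hd 46 (by decide)).trans a46)
    refine sub_eq_zero.1 ((mul_eq_zero.1 (?_ : c * ((T : K) - (S * (a * a ^ q) - U * (b * b ^ q))) = 0)).resolve_left hc0)
    linear_combination h
  refine ⟨_, ?_, (((triv_U hq hK ρ hv hline (by decide +kernel) (by decide +kernel) U.2).add ρ
    (triv_S hq hK ρ hv hline (by decide +kernel) (by decide +kernel) S.2)).add ρ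
    (triv_41 hq hK ρ hv hline (by decide +kernel) (by decide +kernel) ((U : K) * b ^ q))).add ρ
    (triv_45 hq hK ρ hv hline (by decide +kernel) (by decide +kernel) (-((S : K) * a ^ q)))⟩
  rw [hv3_add, add_zero, zero_add, add_zero,
    ← dL1 a b (U : K) (S : K) U.2 S.2 (pow_q_q hq hK a) (pow_q_q hq hK b) (pow_q_neg hq hK),
    ← conj_PE_inv_herm (by decide), ← conj_PE_inv_herm (by decide), herm_hv3, hT]
  group

theorem goodL2 (B : ↥(fixF hq hK)) (b : K) :
    Good hq hK ρ ε (TL2 q (B : K) b (base 51 c)) := by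
  obtain ⟨v, hv0, hv, hline⟩ := oneLine_bases hq hK hε ρ hgap hc hc0 51 (by simp)
  refine good_of_translate hq hK ρ (s := 51) (by decide) hc hv0 hv
    (h := X 44 (B : K)) (l := PE q 42 b) (long_mem hq hK (by decide) B.2) (pair_mem hq hK (by decide) b)
    (T := TL2 q (B : K) b) ?_ (hv3 0 (B : K) 0) ?_ fun U S T hd => ?_
  · exact (shifts_X (K := K) (a := 44) (by decide) (B : K)).mul (shifts_pair (q := q) (a := 42) (by decide) b)
  · rw [herm_hv3, gD, X_zero, X_zero, one_mul, mul_one]
  have e46 := stabL2 q c (B : K) b (U : K) (S : K) (T : K)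
  obtain ⟨-, -, -, -, -, -, -, a46⟩ := valsL2 q c (B : K) b
  have hS : (S : K) = U * (b * b ^ q) := by
    have h := e46.symm.trans ((hd 46 (by decide)).trans a46)
    refine sub_eq_zero.1 ((mul_eq_zero.1 (?_ : c * ((S : K) - U * (b * b ^ q)) = 0)).resolve_left hc0)
    linear_combination h
  refine ⟨_, ?_, ((triv_U hq hK ρ hv hline (by decide +kernel) (by decide +kernel) U.2).add ρ
    (triv_T hq hK ρ hv hline (by decide +kernel) (by decide +kernel) T.2)).add ρ
    (triv_40 hq hK ρ hv hline (by decide +kernel) (by decide +kernel) (-((U : K) * b ^ q)))⟩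
  rw [hv3_add, add_zero, zero_add, zero_add,
    ← dL2 b (U : K) (T : K) U.2 (pow_q_q hq hK b) (pow_q_neg hq hK),
    ← conj_PE_inv_herm (by decide), herm_hv3, hS]

theorem goodL3 (A : ↥(fixF hq hK)) : Good hq hK ρ ε (TL3 (A : K) (base 47 c)) := by
  obtain ⟨v, hv0, hv, hline⟩ := oneLine_bases hq hK hε ρ hgap hc hc0 47 (by simp)
  refine good_of_translate hq hK ρ (s := 47) (by decide) hc hv0 hv
    (h := X 39 (A : K)) (l := 1) (long_mem hq hK (by decide) A.2) (one_mem _)
    (T := TL3 (A : K)) ?_ (hv3 (A : K) 0 0) ?_ fun U S T hd => ?_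
  · rw [mul_one]; exact shifts_X (K := K) (a := 39) (by decide) (A : K)
  · rw [herm_hv3, gD, X_zero, X_zero, mul_one, mul_one]
  have e46 := stabL3 c (A : K) (U : K) (S : K) (T : K)
  obtain ⟨-, -, -, -, -, -, -, a46⟩ := valsL3 c (A : K)
  have hU : (U : K) = 0 := by
    have h := e46.symm.trans ((hd 46 (by decide)).trans a46)
    exact (mul_eq_zero.1 (by linear_combination -h : c * (U : K) = 0)).resolve_left hc0
  refine ⟨_, ?_, (triv_S' hq hK ρ hv hline (by decide +kernel) (by decide +kernel) S.2).add ρ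
    (triv_T hq hK ρ hv hline (by decide +kernel) (by decide +kernel) T.2)⟩
  rw [hv3_add, add_zero, add_zero, zero_add, herm_hv3, hU]
  group

theorem goodP0 : Good hq hK ρ ε (base 46 c) := by
  obtain ⟨v, hv0, hv, hline⟩ := oneLine_bases hq hK hε ρ hgap hc hc0 46 (by simp)
  refine good_of_translate hq hK ρ (s := 46) (by decide) hc hv0 hv
    (h := 1) (l := 1) (one_mem _) (one_mem _) (T := fun F => F) (by rw [mul_one]; exact shifts_one) 0 herm_zero
    fun U S T hd => ?_
  refine ⟨_, ?_, ((triv_U hq hK ρ hv hline (by decide +kernel) (by decide +kernel) U.2).add ρ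
    (triv_S hq hK ρ hv hline (by decide +kernel) (by decide +kernel) S.2)).add ρ
    (triv_T hq hK ρ hv hline (by decide +kernel) (by decide +kernel) T.2)⟩
  rw [hv3_add, hv3_add, add_zero, add_zero, zero_add, zero_add, add_zero, herm_hv3]
  group

end E6

end CfsgLib.Twisted
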