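import Cfsg.Agent.Lib.Twisted.E6Chars

/-! The orbit of the highest weight character under the Levi subgroup, cell by cell. -/

set_option autoImplicit false
set_option linter.unusedSectionVars false
set_option linter.unusedSimpArgs false
set_option maxRecDepth 100000

namespace CfsgLib.Twisted

open Cfsg.Lie

namespace E6

variable {K : Type*} [Field K]

/-- the entry of a root in `stepTab` -/
def hit (a r : ℕ) : Option (ℕ × ℤ) := ((stepTab a).find? fun e => e.1 == r).map fun e => e.2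

/-- the root it comes from -/
def hitK (a r : ℕ) : ℕ := ((hit a r).getD (0, 0)).1

/-- the coefficient -/
def hitM (a r : ℕ) : ℤ := ((hit a r).getD (0, 0)).2

theorem hit_nodup : ∀ a ∈ opList, ((stepTab a).map Prod.fst).Nodup := by decide +kernel

theorem stepF_eval {a : ℕ} (ha : a ∈ opList) (u : K) (F : ℕ → K) (r : ℕ) :
    stepF a u F r = (hit a r).elim (F r) (fun e => F r - (e.2 : K) * u * F e.1) := by
  have h := hit_nodup a ha
  rw [stepF, hit]
  revert h
  induction stepTab a with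
  | nil => simp
  | cons e l ih =>
    intro h
    rw [List.map_cons, List.nodup_cons] at h
    by_cases he : e.1 = r
    · subst he
      have hz : (l.map fun e' => if e.1 = e'.1 then (e'.2.2 : K) * u * F e'.2.1 else 0).sum = 0 :=
        List.sum_eq_zero fun y hy => by
          obtain ⟨e', he', rfl⟩ := List.mem_map.1 hy
          rw [if_neg]; intro e''; exact h.1 (e'' ▸ List.mem_map_of_mem he')
      simp [hz]
    · rw [List.map_cons, List.sum_cons, if_neg (Ne.symm he), zero_add, ih h.2,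
        List.find?_cons_of_neg (by simpa using he)]

theorem stepF_miss {a r : ℕ} (h : a ∈ opList ∧ (hit a r).isNone = true) (u : K) (F : ℕ → K) :
    stepF a u F r = F r := by
  rw [stepF_eval h.1, Option.isNone_iff_eq_none.1 h.2]; rfl

theorem stepF_hit {a r : ℕ} (h : a ∈ opList ∧ (hit a r).isSome = true) (u : K) (F : ℕ → K) :
    stepF a u F r = F r - (hitM a r : K) * u * F (hitK a r) := by
  obtain ⟨e, he⟩ := Option.isSome_iff_exists.1 h.2
  rw [stepF_eval h.1, hitK, hitM, he]; rfl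

theorem sig56 : graphSigmaE6 56 = 36 ∧ graphEtaE6 56 = 1 := by decide +kernel
theorem sig15 : graphSigmaE6 15 = 35 ∧ graphEtaE6 15 = 1 := by decide +kernel
theorem sig14 : graphSigmaE6 14 = 33 ∧ graphEtaE6 14 = -1 := by decide +kernel
theorem sig29 : graphSigmaE6 29 = 34 ∧ graphEtaE6 29 = 1 := by decide +kernel
theorem sig42 : graphSigmaE6 42 = 37 ∧ graphEtaE6 42 = 1 := by decide +kernel
theorem sig57 : graphSigmaE6 57 = 38 ∧ graphEtaE6 57 = -1 := by decide +kernel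
theorem sig40 : graphSigmaE6 40 = 43 ∧ graphEtaE6 40 = -1 := by decide +kernel
theorem sig41 : graphSigmaE6 41 = 58 ∧ graphEtaE6 41 = 1 := by decide +kernel
theorem sig45 : graphSigmaE6 45 = 59 ∧ graphEtaE6 45 = -1 := by decide +kernel

/-- evaluation of composed steps -/
macro "eval_steps" : tactic =>
  `(tactic| simp (disch := decide) [stepP, stepF_miss, stepF_hit, hitK, hitM, hit, stepTab, base,
      sig56.1, sig56.2, sig15.1, sig15.2, sig14.1, sig14.2, sig29.1, sig29.2, sig42.1, sig42.2,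
      sig57.1, sig57.2, sig40.1, sig40.2, sig41.1, sig41.2, sig45.1, sig45.2])

/-- the abelian radical of the Levi subgroup, acting -/
def TH (q : ℕ) (A B D x y z : K) (F : ℕ → K) : ℕ → K :=
  stepF 39 A (stepF 44 B (stepF 60 D (stepP q 40 x (stepP q 41 y (stepP q 45 z F)))))

/-- the long diagonal elements, acting -/
def TD (U S T : K) (F : ℕ → K) : ℕ → K := stepF 39 U (stepF 44 S (stepF 60 T F))

/-- first plane cell -/
def TP1 (q : ℕ) (A B x a b : K) (F : ℕ → K) : ℕ → K :=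
  stepF 39 A (stepF 44 B (stepP q 40 x (stepP q 15 a (stepP q 14 b F))))

/-- second plane cell -/
def TP2 (q : ℕ) (A D y b : K) (F : ℕ → K) : ℕ → K :=
  stepF 39 A (stepF 60 D (stepP q 41 y (stepP q 29 b F)))

/-- third plane cell -/
def TP3 (q : ℕ) (B D z : K) (F : ℕ → K) : ℕ → K := stepF 44 B (stepF 60 D (stepP q 45 z F))

/-- first line cell -/
def TL1 (q : ℕ) (D a b : K) (F : ℕ → K) : ℕ → K := stepF 60 D (stepP q 56 a (stepP q 57 b F))

/-- second line cell -/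
def TL2 (q : ℕ) (B b : K) (F : ℕ → K) : ℕ → K := stepF 44 B (stepP q 42 b F)

/-- third line cell -/
def TL3 (A : K) (F : ℕ → K) : ℕ → K := stepF 39 A F

variable (q : ℕ) (C A B D x y z a b U S T : K)

theorem vals0 : TH q A B D x y z (base 70 C) 70 = C ∧ TH q A B D x y z (base 70 C) 69 = -(A * C) ∧
    TH q A B D x y z (base 70 C) 65 = B * C ∧ TH q A B D x y z (base 70 C) 53 = D * C ∧
    TH q A B D x y z (base 70 C) 68 = x * C ∧ TH q A B D x y z (base 70 C) 67 = -(y * C) ∧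
    TH q A B D x y z (base 70 C) 64 = -(z * C) := by
  refine ⟨?_, ?_, ?_, ?_, ?_, ?_, ?_⟩ <;> (simp only [TH]; eval_steps)

theorem valsP1 : TP1 q A B x a b (base 53 C) 70 = 0 ∧ TP1 q A B x a b (base 53 C) 53 = C ∧
    TP1 q A B x a b (base 53 C) 64 = C * a ∧ TP1 q A B x a b (base 53 C) 67 = C * b ∧
    TP1 q A B x a b (base 53 C) 51 = -(A * C) ∧ TP1 q A B x a b (base 53 C) 47 = B * C ∧
    TP1 q A B x a b (base 53 C) 50 = C * x ∧
    TP1 q A B x a b (base 53 C) 63 =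
      C * (a ^ q * b * x ^ q + a * b ^ q * x - B * b * b ^ q + A * a * a ^ q) := by
  refine ⟨?_, ?_, ?_, ?_, ?_, ?_, ?_, ?_⟩ <;> (simp only [TP1]; eval_steps) <;> ring

theorem valsP2 : TP2 q A D y b (base 65 C) 70 = 0 ∧ TP2 q A D y b (base 65 C) 53 = 0 ∧
    TP2 q A D y b (base 65 C) 65 = C ∧ TP2 q A D y b (base 65 C) 68 = -(C * b) ∧
    TP2 q A D y b (base 65 C) 47 = D * C ∧ TP2 q A D y b (base 65 C) 63 = -(A * C) ∧
    TP2 q A D y b (base 65 C) 61 = C * y ∧ TP2 q A D y b (base 65 C) 51 = C * D * (b * b ^ q) := by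
  refine ⟨?_, ?_, ?_, ?_, ?_, ?_, ?_, ?_⟩ <;> (simp only [TP2]; eval_steps) <;> ring

theorem valsP3 : TP3 q B D z (base 69 C) 70 = 0 ∧ TP3 q B D z (base 69 C) 53 = 0 ∧
    TP3 q B D z (base 69 C) 65 = 0 ∧ TP3 q B D z (base 69 C) 69 = C ∧
    TP3 q B D z (base 69 C) 51 = D * C ∧ TP3 q B D z (base 69 C) 63 = B * C ∧
    TP3 q B D z (base 69 C) 62 = -(C * z) ∧ TP3 q B D z (base 69 C) 47 = 0 := by
  refine ⟨?_, ?_, ?_, ?_, ?_, ?_, ?_, ?_⟩ <;> (simp only [TP3]; eval_steps) <;> ring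

theorem valsL1 : TL1 q D a b (base 63 C) 70 = 0 ∧ TL1 q D a b (base 63 C) 53 = 0 ∧
    TL1 q D a b (base 63 C) 65 = 0 ∧ TL1 q D a b (base 63 C) 69 = 0 ∧
    TL1 q D a b (base 63 C) 63 = C ∧ TL1 q D a b (base 63 C) 52 = C * a ∧
    TL1 q D a b (base 63 C) 49 = -(C * b) ∧ TL1 q D a b (base 63 C) 46 = D * C := by
  refine ⟨?_, ?_, ?_, ?_, ?_, ?_, ?_, ?_⟩ <;> (simp only [TL1]; eval_steps) <;> ring

theorem valsL2 : TL2 q B b (base 51 C) 70 = 0 ∧ TL2 q B b (base 51 C) 53 = 0 ∧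
    TL2 q B b (base 51 C) 65 = 0 ∧ TL2 q B b (base 51 C) 69 = 0 ∧
    TL2 q B b (base 51 C) 63 = 0 ∧ TL2 q B b (base 51 C) 51 = C ∧
    TL2 q B b (base 51 C) 48 = -(C * b) ∧ TL2 q B b (base 51 C) 46 = B * C := by
  refine ⟨?_, ?_, ?_, ?_, ?_, ?_, ?_, ?_⟩ <;> (simp only [TL2]; eval_steps) <;> ring

theorem valsL3 : TL3 A (base 47 C) 70 = 0 ∧ TL3 A (base 47 C) 53 = 0 ∧
    TL3 A (base 47 C) 65 = 0 ∧ TL3 A (base 47 C) 69 = 0 ∧
    TL3 A (base 47 C) 63 = 0 ∧ TL3 A (base 47 C) 51 = 0 ∧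
    TL3 A (base 47 C) 47 = C ∧ TL3 A (base 47 C) 46 = -(A * C) := by
  refine ⟨?_, ?_, ?_, ?_, ?_, ?_, ?_, ?_⟩ <;> (simp only [TL3]; eval_steps) <;> ring

/-! changes by the long diagonal elements -/

theorem stab0 :
    TD U S T (TH q A B D x y z (base 70 C)) 69 = -((A + U) * C) ∧
    TD U S T (TH q A B D x y z (base 70 C)) 65 = (B + S) * C ∧
    TD U S T (TH q A B D x y z (base 70 C)) 53 = (D + T) * C := by
  refine ⟨?_, ?_, ?_⟩ <;> (simp only [TD, TH]; eval_steps) <;> ring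

theorem stabP1 :
    TD U S T (TP1 q A B x a b (base 53 C)) 47 = B * C + C * (S - T * (a * a ^ q)) ∧
    TD U S T (TP1 q A B x a b (base 53 C)) 51 = -(A * C) - C * (U + T * (b * b ^ q)) ∧
    TD U S T (TP1 q A B x a b (base 53 C)) 50 = C * x - C * (T * (a ^ q * b)) := by
  refine ⟨?_, ?_, ?_⟩ <;> (simp only [TD, TP1]; eval_steps) <;> ring

theorem stabP2 :
    TD U S T (TP2 q A D y b (base 65 C)) 47 = D * C + C * T ∧
    TD U S T (TP2 q A D y b (base 65 C)) 63 = -(A * C) + C * (S * (b * b ^ q) - U) := by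
  refine ⟨?_, ?_⟩ <;> (simp only [TD, TP2]; eval_steps) <;> ring

theorem stabP3 :
    TD U S T (TP3 q B D z (base 69 C)) 51 = D * C + C * T ∧
    TD U S T (TP3 q B D z (base 69 C)) 63 = B * C + C * S := by
  refine ⟨?_, ?_⟩ <;> (simp only [TD, TP3]; eval_steps) <;> ring

theorem stabL1 : TD U S T (TL1 q D a b (base 63 C)) 46 = D * C + C * (T - S * (a * a ^ q) + U * (b * b ^ q)) := by
  simp only [TD, TL1]; eval_steps; ring

theorem stabL2 : TD U S T (TL2 q B b (base 51 C)) 46 = B * C + C * (S - U * (b * b ^ q)) := by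
  simp only [TD, TL2]; eval_steps; ring

theorem stabL3 : TD U S T (TL3 A (base 47 C)) 46 = -(A * C) - C * U := by
  simp only [TD, TL3]; eval_steps; ring

theorem forall_qList {P : ℕ → Prop}
    (h : P 46 ∧ P 47 ∧ P 48 ∧ P 49 ∧ P 50 ∧ P 51 ∧ P 52 ∧ P 53 ∧ P 54 ∧ P 55 ∧ P 61 ∧ P 62 ∧ P 63 ∧ P 64 ∧
      P 65 ∧ P 66 ∧ P 67 ∧ P 68 ∧ P 69 ∧ P 70) : ∀ r ∈ qList, P r := by
  obtain ⟨a0, a1, a2, a3, a4, a5, a6, a7, a8, a9, b0, b1, b2, b3, b4, b5, b6, b7, b8, b9⟩ := h
  intro r hr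
  simp only [qList, List.mem_cons, List.not_mem_nil, or_false] at hr
  rcases hr with rfl | rfl | rfl | rfl | rfl | rfl | rfl | rfl | rfl | rfl | rfl | rfl | rfl | rfl |
    rfl | rfl | rfl | rfl | rfl | rfl <;> assumption

/-- check all coordinates -/
macro "eval_all" : tactic =>
  `(tactic| (refine forall_qList ⟨?_, ?_, ?_, ?_, ?_, ?_, ?_, ?_, ?_, ?_, ?_, ?_, ?_, ?_, ?_, ?_, ?_, ?_, ?_, ?_⟩ <;>
      eval_steps))

theorem fixP1_left (hq : q ≠ 0) :
    ∀ r ∈ qList, TD (-(T * (b * b ^ q))) 0 T (TP1 q A B x 0 b (base 53 C)) r = TP1 q A B x 0 b (base 53 C) r := by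
  simp only [TD, TP1]; eval_all <;> (try simp [zero_pow hq, hq]) <;> ring

theorem fixP1_right (hq : q ≠ 0) :
    ∀ r ∈ qList, TD 0 (T * (a * a ^ q)) T (TP1 q A B x a 0 (base 53 C)) r = TP1 q A B x a 0 (base 53 C) r := by
  simp only [TD, TP1]; eval_all <;> (try simp [zero_pow hq, hq]) <;> ring

theorem fixP2 :
    ∀ r ∈ qList, TD (S * (b * b ^ q)) S 0 (TP2 q A D y b (base 65 C)) r = TP2 q A D y b (base 65 C) r := by
  simp only [TD, TP2]; eval_all <;> ring

theorem fixP3 :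
    ∀ r ∈ qList, TD U 0 0 (TP3 q B D z (base 69 C)) r = TP3 q B D z (base 69 C) r := by
  simp only [TD, TP3]; eval_all

theorem fixL1 :
    ∀ r ∈ qList, TD U S (S * (a * a ^ q) - U * (b * b ^ q)) (TL1 q D a b (base 63 C)) r =
      TL1 q D a b (base 63 C) r := by
  simp only [TD, TL1]; eval_all <;> ring

theorem fixL2 :
    ∀ r ∈ qList, TD U (U * (b * b ^ q)) T (TL2 q B b (base 51 C)) r = TL2 q B b (base 51 C) r := by
  simp only [TD, TL2]; eval_all <;> ring

theorem fixL3 : ∀ r ∈ qList, TD 0 S T (TL3 A (base 47 C)) r = TL3 A (base 47 C) r := by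
  simp only [TD, TL3]; eval_all

theorem fixP0 : ∀ r ∈ qList, TD U S T (base 46 C) r = base 46 C r := by
  simp only [TD]; eval_all

end E6

end CfsgLib.Twisted
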