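import Cfsg.Agent.Lib.Twisted.E6Twisted
import Cfsg.Agent.Lib.Twisted.D4Eigen

/-! The linear characters of the radical at the highest root of ²E₆(q), written with twenty
coordinates, and the changes of coordinates under the Levi subgroup. -/

set_option autoImplicit false
set_option linter.unusedSectionVars false
set_option maxRecDepth 100000

namespace CfsgLib.Twisted

open Cfsg.Lie
open CfsgLib.Chevalley (cert_E6 xG xG_mul xG_zero xG_inv xG_injective rootsU rootsU_induction)

namespace E6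

variable {K : Type*} [Field K] {q : ℕ}

/-- `g` normalises the radical and changes functionals by `T` -/
def Shifts (g : GL chevE6.Idx K) (T : (ℕ → K) → ℕ → K) : Prop :=
  ∀ x : ↥(rad K), ∃ h : g⁻¹ * (x : GL chevE6.Idx K) * g ∈ rad K, ∀ F, lin F ⟨_, h⟩ = lin (T F) x

theorem shifts_X {a : ℕ} (ha : a ∈ opList) (u : K) : Shifts (X a u) (stepF a u) :=
  fun x => ⟨conj_mem_rad ha u x.2, fun F => lin_conj ha u F x⟩

theorem Shifts.mul {g g' : GL chevE6.Idx K} {T T' : (ℕ → K) → ℕ → K} (h : Shifts g T) (h' : Shifts g' T') :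
    Shifts (g * g') (fun F => T (T' F)) := by
  intro x
  obtain ⟨h1, e1⟩ := h x
  obtain ⟨h2, e2⟩ := h' ⟨_, h1⟩
  have e : (g * g')⁻¹ * (x : GL chevE6.Idx K) * (g * g') = g'⁻¹ * (g⁻¹ * x * g) * g' := by group
  refine ⟨by rw [e]; exact h2, fun F => ?_⟩
  rw [show (⟨_, _⟩ : ↥(rad K)) = ⟨_, h2⟩ from Subtype.ext e, e2, e1]

theorem shifts_one : Shifts (1 : GL chevE6.Idx K) (fun F => F) :=
  fun x => ⟨by simp [x.2], fun F => by congr 1; exact Subtype.ext (by simp)⟩

/-- the functional supported at one root -/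
def base (s : ℕ) (c : K) (r : ℕ) : K := if r = s then c else 0

/-- the change by the element of an orbit of length two -/
def stepP (q a : ℕ) (u : K) (F : ℕ → K) : ℕ → K :=
  stepF a u (stepF (graphSigmaE6 a) ((graphEtaE6 a : K) * u ^ q) F)

theorem shifts_PE {a : ℕ} (ha : a ∈ opList) (ha' : graphSigmaE6 a ∈ opList) (u : K) :
    Shifts (PE q a u) (stepP q a u) :=
  (shifts_X ha u).mul (shifts_X ha' _)

section Field

variable [Fintype K] (hq : IsPrimePow q) (hK : Fintype.card K = q ^ 2)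
include hq hK

omit hq hK in
/-- the part of the radical inside ²E₆(q) -/
def radT (K : Type*) [Field K] (q : ℕ) : Subgroup (GL chevE6.Idx K) := twistedE6 K q ⊓ rad K

omit hq hK in
/-- the inclusion into ²E₆(q) -/
def radIncl (K : Type*) [Field K] (q : ℕ) : ↥(radT K q) →* ↥(twistedE6 K q) :=
  Subgroup.inclusion inf_le_left

omit hq hK in
/-- the fixed long roots of the radical -/
def longQ : List ℕ := [46, 47, 51, 53, 63, 65, 69, 70]

omit hq hK in
/-- representatives of the orbits of length two in the radical -/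
def shortQ : List ℕ := [48, 49, 52, 54, 55, 66]

omit hq hK in
theorem longQ_mem : ∀ r ∈ longQ, r ∈ qList ∧ r ∈ plansOne.map Prod.fst ∧ graphSigmaE6 r = r ∧ graphEtaE6 r = 1 := by
  decide +kernel

omit hq hK in
theorem shortQ_mem : ∀ r ∈ shortQ, r ∈ qList ∧ graphSigmaE6 r ∈ qList ∧ r ∈ plansTwo.map Prod.fst ∧
    graphSigmaE6 r ≠ r ∧ graphEtaE6 r * graphEtaE6 r = 1 := by
  decide +kernel

omit hq hK in
theorem qList_cases : ∀ r ∈ qList, r ∈ longQ ∨ r ∈ shortQ ∨ graphSigmaE6 r ∈ shortQ := by decide +kernel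

theorem eta_pow (r : ℕ) : ((graphEtaE6 r : K)) ^ q = (graphEtaE6 r : K) :=
  (intCast_mem (fixF hq hK) _ : _)

theorem X_mem_radT {r : ℕ} (hr : r ∈ plansOne.map Prod.fst) (hr' : r ∈ 71 :: qList) {t : K}
    (ht : t ∈ fixF hq hK) : X r t ∈ radT K q :=
  ⟨X_mem_twisted hq hK hr ht, X_mem_rad hr' t⟩

theorem PE_mem_radT {r : ℕ} (hr : r ∈ shortQ) (t : K) : PE q r t ∈ radT K q :=
  ⟨PE_mem_twisted hq hK (shortQ_mem r hr).2.2.1 t,
    mul_mem (X_mem_rad (List.mem_cons_of_mem _ (shortQ_mem r hr).1) _)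
      (X_mem_rad (List.mem_cons_of_mem _ (shortQ_mem r hr).2.1) _)⟩

theorem top_fix {z : K} (h : X 71 z ∈ twistedE6 K q) : z ∈ fixF hq hK := by
  obtain ⟨σ, hσ, hσH⟩ := (e6Twist_isTwist (K := K) hq hK).exists_map
  let g : ↥(chevE6.group K) := ⟨X 71 z, xG_mem_group cert_E6 71 z⟩
  have e := (hσH g h).symm.trans (hσ g 71 z (by decide) rfl)
  have k : graphSigmaE6 71 = 71 ∧ graphEtaE6 71 = 1 := by decide +kernel
  rw [k.1] at e
  have e' := xG_injective cert_E6 (show 71 < chevE6.nroots by decide) e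
  rw [graphTwist, k.2, Int.cast_one, one_mul] at e'
  exact e'.symm

/-! ## functionals -/

omit hq hK in
theorem lin_congr {F G : ℕ → K} (h : ∀ r ∈ qList, F r = G r) (x : ↥(rad K)) : lin F x = lin G x :=
  congrArg List.sum (List.map_congr_left fun r hr => by rw [h r hr])

omit hq hK in
/-- the character of the radical with coordinates `F` -/
noncomputable def psi (q : ℕ) (ε : AddChar K ℂ) (F : ℕ → K) : ↥(radT K q) →* ℂ where
  toFun x := ε (lin F ⟨x.1, x.2.2⟩)
  map_one' := by
    have : lin F (1 : ↥(rad K)) = 0 := by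
      have := lin_mul F (1 : ↥(rad K)) 1
      rwa [one_mul, left_eq_add] at this
    exact (congrArg ε this).trans (AddChar.map_zero_eq_one ε)
  map_mul' x y := by
    rw [← AddChar.map_add_eq_mul, ← lin_mul]
    rfl

omit hq hK in
/-- coordinates compatible with the twist -/
def Compat (q : ℕ) (F : ℕ → K) : Prop :=
  ∀ r ∈ qList, F (graphSigmaE6 r) = (graphEtaE6 r : K) * F r ^ q

theorem psi_long (ε : AddChar K ℂ) (F : ℕ → K) {r : ℕ} (hr : r ∈ longQ) {t : K} (ht : t ∈ fixF hq hK) :
    psi q ε F ⟨X r t, X_mem_radT hq hK (longQ_mem r hr).2.1 (List.mem_cons_of_mem _ (longQ_mem r hr).1) ht⟩ =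
      ε (F r * t) := by
  show ε (lin F _) = _
  rw [lin_X F (List.mem_cons_of_mem _ (longQ_mem r hr).1), if_pos (longQ_mem r hr).1]

theorem psi_short (ε : AddChar K ℂ) (F : ℕ → K) {r : ℕ} (hr : r ∈ shortQ) (t : K) :
    psi q ε F ⟨PE q r t, PE_mem_radT hq hK hr t⟩ =
      ε (F r * t + F (graphSigmaE6 r) * ((graphEtaE6 r : K) * t ^ q)) := by
  obtain ⟨h1, h2, -⟩ := shortQ_mem r hr
  show ε (lin F _) = _
  rw [show (⟨PE q r t, _⟩ : ↥(rad K)) = ⟨X r t, X_mem_rad (List.mem_cons_of_mem _ h1) _⟩ *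
      ⟨X (graphSigmaE6 r) ((graphEtaE6 r : K) * t ^ q), X_mem_rad (List.mem_cons_of_mem _ h2) _⟩ from rfl,
    lin_mul, lin_X F (List.mem_cons_of_mem _ h1), lin_X F (List.mem_cons_of_mem _ h2), if_pos h1, if_pos h2]

variable {ε : AddChar K ℂ} (hε : ∃ l ∈ fixF hq hK, ε l ≠ 1)
include hε

theorem eq_of_psi_long {F G : ℕ → K} (h : psi q ε F = psi q ε G) {r : ℕ} (hr : r ∈ longQ)
    (hF : F r ^ q = F r) (hG : G r ^ q = G r) : F r = G r := by
  by_contra hne
  obtain ⟨l, hl, hεl⟩ := hε
  have hd : F r - G r ∈ fixF hq hK := sub_mem hF hG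
  have e := DFunLike.congr_fun h ⟨X r ((F r - G r)⁻¹ * l), X_mem_radT hq hK (longQ_mem r hr).2.1
    (List.mem_cons_of_mem _ (longQ_mem r hr).1) (mul_mem (inv_mem hd) hl)⟩
  rw [psi_long hq hK ε F hr (mul_mem (inv_mem hd) hl), psi_long hq hK ε G hr (mul_mem (inv_mem hd) hl),
    show F r * ((F r - G r)⁻¹ * l) = G r * ((F r - G r)⁻¹ * l) + l by
      field_simp [sub_ne_zero.2 hne]; ring,
    AddChar.map_add_eq_mul] at e
  exact hεl ((AddChar.val_isUnit ε _).mul_eq_left.1 e)

theorem eq_of_psi_short {F G : ℕ → K} (h : psi q ε F = psi q ε G) {r : ℕ} (hr : r ∈ shortQ)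
    (hF : F (graphSigmaE6 r) = (graphEtaE6 r : K) * F r ^ q)
    (hG : G (graphSigmaE6 r) = (graphEtaE6 r : K) * G r ^ q) : F r = G r := by
  by_contra hne
  obtain ⟨l, hl, hεl⟩ := hε
  obtain ⟨t, ht⟩ := exists_add_pow hq hK (sub_ne_zero.2 hne) hl
  have hsq : ((graphEtaE6 r : K)) * (graphEtaE6 r : K) = 1 := by
    rw [← Int.cast_mul, (shortQ_mem r hr).2.2.2.2, Int.cast_one]
  have hsum : F r * t + F (graphSigmaE6 r) * ((graphEtaE6 r : K) * t ^ q) =
      G r * t + G (graphSigmaE6 r) * ((graphEtaE6 r : K) * t ^ q) + l := by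
    rw [hF, hG, ← ht, mul_pow, sub_pow_primePow hq two_ne_zero hK]
    linear_combination (F r ^ q - G r ^ q) * t ^ q * hsq
  have e := DFunLike.congr_fun h ⟨PE q r t, PE_mem_radT hq hK hr t⟩
  rw [psi_short hq hK ε F hr, psi_short hq hK ε G hr, hsum, AddChar.map_add_eq_mul] at e
  exact hεl ((AddChar.val_isUnit ε _).mul_eq_left.1 e)

theorem eq_of_psi {F G : ℕ → K} (hF : Compat q F) (hG : Compat q G) (h : psi q ε F = psi q ε G) :
    ∀ r ∈ qList, F r = G r := by
  intro r hr
  rcases qList_cases r hr with h1 | h1 | h1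
  · obtain ⟨hq', -, hs, he⟩ := longQ_mem r h1
    have a := hF r hr
    have b := hG r hr
    rw [hs, he, Int.cast_one, one_mul] at a b
    exact eq_of_psi_long hq hK hε h h1 a.symm b.symm
  · exact eq_of_psi_short hq hK hε h h1 (hF r hr) (hG r hr)
  · obtain ⟨hσ, hinv, -⟩ := graphSigma_qList r hr
    have e := eq_of_psi_short hq hK hε h h1 (hF _ hσ) (hG _ hσ)
    have a := hF _ hσ
    have b := hG _ hσ
    rw [hinv] at a b
    rw [a, b, e]

/-- a character is determined by its values on the root elements -/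
theorem psi_ext {φ : ↥(radT K q) →* ℂ} {F : ℕ → K}
    (hZ : ∀ (z : K) (h : X 71 z ∈ radT K q), φ ⟨_, h⟩ = 1)
    (hL : ∀ r ∈ longQ, ∀ (t : K) (h : X r t ∈ radT K q), t ∈ fixF hq hK → φ ⟨_, h⟩ = ε (F r * t))
    (hS : ∀ r ∈ shortQ, ∀ (t : K) (h : PE q r t ∈ radT K q),
      φ ⟨_, h⟩ = ε (F r * t + F (graphSigmaE6 r) * ((graphEtaE6 r : K) * t ^ q))) :
    φ = psi q ε F := by
  have step : ∀ l : List ℕ, l.Nodup → (∀ r ∈ l, r ∈ longQ ∨ r ∈ shortQ) →
      ∀ x : ↥(radT K q), (∀ r ∈ qList, r ∉ l → graphSigmaE6 r ∉ l → coord r ⟨x.1, x.2.2⟩ = 0) →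
        φ x = psi q ε F x := by
    intro l
    induction l with
    | nil =>
      intro _ _ x hx
      obtain ⟨x, hxG, hxR⟩ := x
      obtain ⟨z, rfl⟩ := eq_top_of_coord hxR fun r hr => hx r hr List.not_mem_nil List.not_mem_nil
      refine (hZ z _).trans ?_
      show (1 : ℂ) = ε (lin F _)
      rw [lin_X F List.mem_cons_self, if_neg (show 71 ∉ qList by decide), AddChar.map_zero_eq_one]
    | cons s l ih =>
      intro hnd hl x hx
      obtain ⟨hsl, hnd'⟩ := List.nodup_cons.1 hnd
      have hl' := fun r hr => hl r (List.mem_cons_of_mem _ hr)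
      set t := coord s (⟨x.1, x.2.2⟩ : ↥(rad K)) with htdef
      obtain ⟨hs1, hg, hgφ⟩ : s ∈ qList ∧ ∃ g : ↥(radT K q), (φ g = psi q ε F g) ∧
          ∀ r ∈ qList, coord r (⟨g.1, g.2.2⟩ : ↥(rad K)) =
            if r = s then t else if r = graphSigmaE6 s then (graphEtaE6 s : K) * t ^ q else 0 := by
        rcases hl s List.mem_cons_self with h | h
        · obtain ⟨h1, h2, h3, h4⟩ := longQ_mem s h
          refine ⟨h1, ?_⟩
          have ht : t ∈ fixF hq hK := by
            have e := coord_twist hq hK x.2.2 x.2.1 s h1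
            rw [h3, h4, Int.cast_one, one_mul] at e
            exact e.symm
          refine ⟨⟨X s t, X_mem_radT hq hK h2 (List.mem_cons_of_mem _ h1) ht⟩, ?_, fun r hr => ?_⟩
          · rw [hL s h t _ ht, psi_long hq hK ε F h ht]
          · rw [coord_X hr (List.mem_cons_of_mem _ h1), h3]
            by_cases hrs : r = s
            · rw [if_pos hrs.symm, if_pos hrs]
            · rw [if_neg (Ne.symm hrs), if_neg hrs, if_neg hrs]
        · obtain ⟨h1, h2, h3, h4, -⟩ := shortQ_mem s h
          refine ⟨h1, ⟨PE q s t, PE_mem_radT hq hK h t⟩, ?_, fun r hr => ?_⟩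
          · rw [hS s h, psi_short hq hK ε F h]
          · rw [show (⟨PE q s t, _⟩ : ↥(rad K)) = ⟨X s t, X_mem_rad (List.mem_cons_of_mem _ h1) _⟩ *
              ⟨X (graphSigmaE6 s) ((graphEtaE6 s : K) * t ^ q), X_mem_rad (List.mem_cons_of_mem _ h2) _⟩ from rfl,
              coord_mul, coord_X hr (List.mem_cons_of_mem _ h1), coord_X hr (List.mem_cons_of_mem _ h2)]
            by_cases hrs : r = s
            · subst hrs
              rw [if_pos rfl, if_pos rfl, if_neg h4, add_zero]
            · rw [if_neg (Ne.symm hrs), if_neg hrs, zero_add]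
              exact if_congr eq_comm rfl rfl
      obtain ⟨g, hgv⟩ : ∃ g : ↥(radT K q), φ g = psi q ε F g ∧ ∀ r ∈ qList, coord r (⟨g.1, g.2.2⟩ : ↥(rad K)) =
            if r = s then t else if r = graphSigmaE6 s then (graphEtaE6 s : K) * t ^ q else 0 := ⟨hg, hgφ⟩
      have key := ih hnd' hl' (x * g⁻¹) fun r hr hr1 hr2 => by
        have e : coord r (⟨(x * g⁻¹).1, (x * g⁻¹).2.2⟩ : ↥(rad K)) + coord r ⟨g.1, g.2.2⟩ = coord r ⟨x.1, x.2.2⟩ := by
          rw [← coord_mul]
          congr 1
          exact Subtype.ext (by simp)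
        rw [hgv.2 r hr] at e
        by_cases h1 : r = s
        · subst h1; rw [if_pos rfl] at e; linear_combination e
        · rw [if_neg h1] at e
          by_cases h2 : r = graphSigmaE6 s
          · rw [if_pos h2] at e
            have e' := coord_twist hq hK x.2.2 x.2.1 s hs1
            rw [← h2, ← htdef] at e'
            linear_combination e + e'
          · rw [if_neg h2, add_zero] at e
            rw [e]
            refine hx r hr (fun h => ?_) (fun h => ?_)
            · exact (List.mem_cons.1 h).elim h1 hr1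
            · rcases List.mem_cons.1 h with h' | h'
              · exact h2 (by rw [← h', (graphSigma_qList r hr).2.1])
              · exact hr2 h'
      calc φ x = φ (x * g⁻¹) * φ g := by rw [← map_mul, inv_mul_cancel_right]
        _ = psi q ε F x := by rw [key, hgv.1, ← map_mul, inv_mul_cancel_right]
  refine MonoidHom.ext fun x => step (longQ ++ shortQ) (by decide) (fun r hr => List.mem_append.1 hr) x
    fun r hr h1 h2 => ?_
  rcases qList_cases r hr with h | h | h
  · exact absurd (List.mem_append_left _ h) h1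
  · exact absurd (List.mem_append_right _ h) h1
  · exact absurd (List.mem_append_right _ h) h2

theorem exists_psi_eq (φ : ↥(radT K q) →* ℂ)
    (hZ : ∀ (z : K) (h : X 71 z ∈ radT K q), φ ⟨_, h⟩ = 1) :
    ∃ F : ℕ → K, Compat q F ∧ φ = psi q ε F := by
  classical
  obtain ⟨l, hl, hεl⟩ := hε
  -- duals of the two kinds of root groups
  have dualL : ∀ χ : AddChar (fixF hq hK) ℂ, ∃ a : fixF hq hK, ∀ t : fixF hq hK, χ t = ε ((a : K) * t) := by
    intro χ
    let f : fixF hq hK → AddChar (fixF hq hK) ℂ := fun a =>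
      { toFun := fun t => ε ((a : K) * t)
        map_zero_eq_one' := by simp
        map_add_eq_mul' := fun t u => by simp [mul_add, AddChar.map_add_eq_mul] }
    obtain ⟨a, ha⟩ := RepEigen.exists_pairing_eq f (fun a b hab => by
      by_contra hne
      have hne' : (a : K) - b ≠ 0 := sub_ne_zero.2 fun e => hne (Subtype.ext e)
      have h := DFunLike.congr_fun hab (⟨((a : K) - b)⁻¹ * l, mul_mem (inv_mem (sub_mem a.2 b.2)) hl⟩ : fixF hq hK)
      change ε _ = ε _ at h
      rw [show (a : K) * (((a : K) - b)⁻¹ * l) = (b : K) * (((a : K) - b)⁻¹ * l) + l by field_simp; ring,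
        AddChar.map_add_eq_mul] at h
      exact hεl ((AddChar.val_isUnit ε _).mul_eq_left.1 h)) χ
    exact ⟨a, fun t => by rw [← ha]; rfl⟩
  have dualS : ∀ χ : AddChar K ℂ, ∃ a : K, ∀ t : K, χ t = ε (a * t + (a * t) ^ q) := by
    intro χ
    let f : K → AddChar K ℂ := fun a =>
      { toFun := fun t => ε (a * t + (a * t) ^ q)
        map_zero_eq_one' := by simp [zero_pow hq.pos.ne']
        map_add_eq_mul' := fun t u => by
          rw [← AddChar.map_add_eq_mul, mul_add, pow_q_add hq hK]; congr 1; ring }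
    obtain ⟨a, ha⟩ := RepEigen.exists_pairing_eq f (fun a b hab => by
      by_contra hne
      obtain ⟨t, ht⟩ := exists_add_pow hq hK (sub_ne_zero.2 hne) hl
      have h := DFunLike.congr_fun hab t
      change ε _ = ε _ at h
      rw [show a * t + (a * t) ^ q = b * t + (b * t) ^ q + l by
        rw [← ht, sub_mul, sub_pow_primePow hq two_ne_zero hK]; ring, AddChar.map_add_eq_mul] at h
      exact hεl ((AddChar.val_isUnit ε _).mul_eq_left.1 h)) χ
    exact ⟨a, fun t => by rw [← ha]; rfl⟩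
  have exL : ∀ r, ∃ a : K, r ∈ longQ → a ^ q = a ∧
      ∀ (t : K) (h : X r t ∈ radT K q), t ∈ fixF hq hK → φ ⟨_, h⟩ = ε (a * t) := by
    intro r
    by_cases hr : r ∈ longQ
    · let χ : AddChar (fixF hq hK) ℂ :=
        { toFun := fun t => φ ⟨X r t, X_mem_radT hq hK (longQ_mem r hr).2.1
            (List.mem_cons_of_mem _ (longQ_mem r hr).1) t.2⟩
          map_zero_eq_one' := by
            rw [← map_one φ]; congr 1; exact Subtype.ext (X_zero _)
          map_add_eq_mul' := fun t u => by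
            rw [← map_mul]; congr 1; exact Subtype.ext (X_add r _ _) }
      obtain ⟨a, ha⟩ := dualL χ
      exact ⟨a, fun _ => ⟨a.2, fun t h ht => ha ⟨t, ht⟩⟩⟩
    · exact ⟨0, fun h => absurd h hr⟩
  have exS : ∀ r, ∃ a : K, r ∈ shortQ →
      ∀ (t : K) (h : PE q r t ∈ radT K q), φ ⟨_, h⟩ = ε (a * t + (a * t) ^ q) := by
    intro r
    by_cases hr : r ∈ shortQ
    · let χ : AddChar K ℂ :=
        { toFun := fun t => φ ⟨PE q r t, PE_mem_radT hq hK hr t⟩
          map_zero_eq_one' := by
            rw [← map_one φ]; congr 1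
            refine Subtype.ext ?_
            show PE q r 0 = 1
            rw [PE, zero_pow hq.pos.ne', mul_zero, X_zero, X_zero, one_mul]
          map_add_eq_mul' := fun t u => by
            rw [← map_mul]; congr 1
            refine Subtype.ext ?_
            show PE q r (t + u) = PE q r t * PE q r u
            have hc : ∀ r ∈ shortQ, r < 72 ∧ graphSigmaE6 r < 72 ∧ graphSigmaE6 r ≠ r ∧
                graphSigmaE6 r ≠ chevE6.neg r ∧ chevE6.commTerms r (graphSigmaE6 r) = [] := by decide +kernel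
            simp only [PE]
            rw [pow_q_add hq hK, mul_add, X_add, X_add, mul_assoc, ← mul_assoc (X r u) _ _,
              (comm (hc r hr) u _).eq]
            simp only [mul_assoc] }
      obtain ⟨a, ha⟩ := dualS χ
      exact ⟨a, fun _ t h => ha t⟩
    · exact ⟨0, fun h => absurd h hr⟩
  choose aL haL using exL
  choose aS haS using exS
  let F : ℕ → K := fun r => if r ∈ longQ then aL r else if r ∈ shortQ then aS r else
    (graphEtaE6 (graphSigmaE6 r) : K) * aS (graphSigmaE6 r) ^ q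
  have hsq : ∀ r ∈ qList, ((graphEtaE6 r : K)) * (graphEtaE6 (graphSigmaE6 r) : K) = 1 := by
    intro r hr
    have k : ∀ r ∈ qList, graphEtaE6 r * graphEtaE6 (graphSigmaE6 r) = 1 := by decide +kernel
    rw [← Int.cast_mul, k r hr, Int.cast_one]
  have kl : ∀ r ∈ shortQ, r ∉ longQ ∧ graphSigmaE6 r ∉ longQ ∧ graphSigmaE6 r ∉ shortQ := by decide +kernel
  have hFc : Compat q F := by
    intro r hr
    rcases qList_cases r hr with h | h | h
    · obtain ⟨-, -, hs, he⟩ := longQ_mem r h
      rw [hs, he, Int.cast_one, one_mul]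
      simp only [F, if_pos h]
      exact (haL r h).1.symm
    · obtain ⟨a1, a2, a3⟩ := kl r h
      have hinv := (graphSigma_qList r hr).2.1
      simp only [F, if_neg a1, if_pos h, if_neg a2, if_neg a3, hinv]
    · obtain ⟨a1, a2, a3⟩ := kl _ h
      have hinv := (graphSigma_qList r hr).2.1
      rw [hinv] at a2 a3
      simp only [F, if_neg a1, if_pos h, if_neg a2, if_neg a3]
      rw [mul_pow, eta_pow hq hK, pow_q_q hq hK, ← mul_assoc, hsq r hr, one_mul]
  refine ⟨F, hFc, psi_ext hq hK ⟨l, hl, hεl⟩ hZ (fun r hr t h ht => ?_) (fun r hr t h => ?_)⟩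
  · rw [(haL r hr).2 t h ht]
    simp only [F, if_pos hr]
  · obtain ⟨a1, -, -⟩ := kl r hr
    have e := hFc r (shortQ_mem r hr).1
    have hr2 : ((graphEtaE6 r : K)) * (graphEtaE6 r : K) = 1 := by
      rw [← Int.cast_mul, (shortQ_mem r hr).2.2.2.2, Int.cast_one]
    rw [haS r hr t h, e]
    simp only [F, if_neg a1, if_pos hr, mul_pow]
    congr 1
    linear_combination (-(aS r ^ q * t ^ q)) * hr2

end Field

end E6

end CfsgLib.Twisted
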