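import Cfsg.Agent.Lib.Twisted.E6Cases

/-! The index set of the orbit, with its weights, and the counts. -/

set_option autoImplicit false
set_option linter.unusedSectionVars false
set_option linter.unusedSimpArgs false
set_option linter.unreachableTactic false
set_option linter.unusedTactic false
set_option maxRecDepth 100000

namespace CfsgLib.Twisted

open Cfsg.Lie

namespace E6

variable {K : Type*} [Field K] [Fintype K] {q : ℕ} (hq : IsPrimePow q) (hK : Fintype.card K = q ^ 2)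
include hq hK

/-- the eight cells -/
abbrev Cell : Type _ :=
  (↥(fixF hq hK) × ↥(fixF hq hK) × ↥(fixF hq hK) × K × K × K) ⊕
  (↥(fixF hq hK) × ↥(fixF hq hK) × K × K × K) ⊕
  (↥(fixF hq hK) × ↥(fixF hq hK) × K × K) ⊕
  (↥(fixF hq hK) × ↥(fixF hq hK) × K) ⊕
  (↥(fixF hq hK) × K × K) ⊕ (↥(fixF hq hK) × K) ⊕ ↥(fixF hq hK) ⊕ Unit

/-- coordinates of the point of a cell -/
def cellF (c : K) : Cell hq hK → ℕ → K
  | .inl p => TH q (p.1 : K) (p.2.1 : K) (p.2.2.1 : K) p.2.2.2.1 p.2.2.2.2.1 p.2.2.2.2.2 (base 70 c)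
  | .inr (.inl p) => TP1 q (p.1 : K) (p.2.1 : K) p.2.2.1 p.2.2.2.1 p.2.2.2.2 (base 53 c)
  | .inr (.inr (.inl p)) => TP2 q (p.1 : K) (p.2.1 : K) p.2.2.1 p.2.2.2 (base 65 c)
  | .inr (.inr (.inr (.inl p))) => TP3 q (p.1 : K) (p.2.1 : K) p.2.2 (base 69 c)
  | .inr (.inr (.inr (.inr (.inl p)))) => TL1 q (p.1 : K) p.2.1 p.2.2 (base 63 c)
  | .inr (.inr (.inr (.inr (.inr (.inl p))))) => TL2 q (p.1 : K) p.2 (base 51 c)
  | .inr (.inr (.inr (.inr (.inr (.inr (.inl p)))))) => TL3 (p : K) (base 47 c)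
  | .inr (.inr (.inr (.inr (.inr (.inr (.inr _)))))) => base 46 c

variable {ε : AddChar K ℂ} (hε : ∃ l ∈ fixF hq hK, ε l ≠ 1)
variable {V : Type*} [AddCommGroup V] [Module ℂ V] [FiniteDimensional ℂ V]
  (ρ : Representation ℂ ↥(twistedE6 K q) V)

theorem good_cell (hgap : Module.finrank ℂ ↥(RepFix.fix ρ (fZ hq hK) ⊓ RepFix.fix ρ (fT hq hK)) + (q - 1) * q ^ 9 =
      Module.finrank ℂ ↥(RepFix.fix ρ (fZ hq hK)))
    (hε : ∃ l ∈ fixF hq hK, ε l ≠ 1) {c : K} (hc : c ∈ fixF hq hK) (hc0 : c ≠ 0) :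
    ∀ i : Cell hq hK, Good hq hK ρ ε (cellF hq hK c i)
  | .inl p => good0 hq hK hε ρ hgap hc hc0 _ _ _ _ _ _
  | .inr (.inl p) => goodP1 hq hK hε ρ hgap hc hc0 _ _ _ _ _
  | .inr (.inr (.inl p)) => goodP2 hq hK hε ρ hgap hc hc0 _ _ _ _
  | .inr (.inr (.inr (.inl p))) => goodP3 hq hK hε ρ hgap hc hc0 _ _ _
  | .inr (.inr (.inr (.inr (.inl p)))) => goodL1 hq hK hε ρ hgap hc hc0 _ _ _
  | .inr (.inr (.inr (.inr (.inr (.inl p))))) => goodL2 hq hK hε ρ hgap hc hc0 _ _
  | .inr (.inr (.inr (.inr (.inr (.inr (.inl p)))))) => goodL3 hq hK hε ρ hgap hc hc0 _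
  | .inr (.inr (.inr (.inr (.inr (.inr (.inr _)))))) => goodP0 hq hK hε ρ hgap hc hc0

theorem cellF_inj {c c' : K} (hc0 : c ≠ 0) (hc0' : c' ≠ 0) {i j : Cell hq hK}
    (h : ∀ r ∈ qList, cellF hq hK c i r = cellF hq hK c' j r) : c = c' ∧ i = j := by
  have e70 := h 70 (by decide)
  have e53 := h 53 (by decide)
  have e65 := h 65 (by decide)
  have e69 := h 69 (by decide)
  have e63 := h 63 (by decide)
  have e51 := h 51 (by decide)
  have e47 := h 47 (by decide)
  have e46 := h 46 (by decide)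
  rcases i with ⟨A, B, D, x, y, z⟩ | ⟨A, B, x, a, b⟩ | ⟨A, D, y, b⟩ | ⟨B, D, z⟩ | ⟨D, a, b⟩ | ⟨B, b⟩ | A | ⟨⟩ <;>
    rcases j with ⟨A', B', D', x', y', z'⟩ | ⟨A', B', x', a', b'⟩ | ⟨A', D', y', b'⟩ | ⟨B', D', z'⟩ | ⟨D', a', b'⟩ |
      ⟨B', b'⟩ | A' | ⟨⟩ <;>
    simp only [cellF, (vals0 q _ _ _ _ _ _ _).1, (valsP1 q _ _ _ _ _ _).1, (valsP1 q _ _ _ _ _ _).2.1,
      (valsP2 q _ _ _ _ _).1, (valsP2 q _ _ _ _ _).2.1, (valsP2 q _ _ _ _ _).2.2.1,
      (valsP3 q _ _ _ _).1, (valsP3 q _ _ _ _).2.1, (valsP3 q _ _ _ _).2.2.1, (valsP3 q _ _ _ _).2.2.2.1,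
      (valsL1 q _ _ _ _).1, (valsL1 q _ _ _ _).2.1, (valsL1 q _ _ _ _).2.2.1, (valsL1 q _ _ _ _).2.2.2.1,
      (valsL1 q _ _ _ _).2.2.2.2.1,
      (valsL2 q _ _ _).1, (valsL2 q _ _ _).2.1, (valsL2 q _ _ _).2.2.1, (valsL2 q _ _ _).2.2.2.1,
      (valsL2 q _ _ _).2.2.2.2.1, (valsL2 q _ _ _).2.2.2.2.2.1,
      (valsL3 _ _).1, (valsL3 _ _).2.1, (valsL3 _ _).2.2.1, (valsL3 _ _).2.2.2.1,
      (valsL3 _ _).2.2.2.2.1, (valsL3 _ _).2.2.2.2.2.1, (valsL3 _ _).2.2.2.2.2.2.1,
      base, Nat.reduceEqDiff, if_false, if_true, hc0, hc0', hc0.symm, hc0'.symm] at e70 e53 e65 e69 e63 e51 e47 e46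
  · obtain ⟨-, a1, a2, a3, a4, a5, a6⟩ := vals0 q c (A : K) (B : K) (D : K) x y z
    obtain ⟨-, b1, b2, b3, b4, b5, b6⟩ := vals0 q c' (A' : K) (B' : K) (D' : K) x' y' z'
    subst e70
    have g1 := mul_right_cancel₀ hc0 (neg_injective (a1.symm.trans ((h 69 (by decide)).trans b1)))
    have g2 := mul_right_cancel₀ hc0 (a2.symm.trans ((h 65 (by decide)).trans b2))
    have g3 := mul_right_cancel₀ hc0 (a3.symm.trans ((h 53 (by decide)).trans b3))
    have g4 := mul_right_cancel₀ hc0 (a4.symm.trans ((h 68 (by decide)).trans b4))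
    have g5 := mul_right_cancel₀ hc0 (neg_injective (a5.symm.trans ((h 67 (by decide)).trans b5)))
    have g6 := mul_right_cancel₀ hc0 (neg_injective (a6.symm.trans ((h 64 (by decide)).trans b6)))
    rw [Subtype.ext g1, Subtype.ext g2, Subtype.ext g3, g4, g5, g6]
    exact ⟨rfl, rfl⟩
  · obtain ⟨-, -, a1, a2, a3, a4, a5, -⟩ := valsP1 q c (A : K) (B : K) x a b
    obtain ⟨-, -, b1, b2, b3, b4, b5, -⟩ := valsP1 q c' (A' : K) (B' : K) x' a' b'
    subst e53
    have g1 := mul_left_cancel₀ hc0 (a1.symm.trans ((h 64 (by decide)).trans b1))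
    have g2 := mul_left_cancel₀ hc0 (a2.symm.trans ((h 67 (by decide)).trans b2))
    have g3 := mul_right_cancel₀ hc0 (neg_injective (a3.symm.trans ((h 51 (by decide)).trans b3)))
    have g4 := mul_right_cancel₀ hc0 (a4.symm.trans ((h 47 (by decide)).trans b4))
    have g5 := mul_left_cancel₀ hc0 (a5.symm.trans ((h 50 (by decide)).trans b5))
    rw [g1, g2, Subtype.ext g3, Subtype.ext g4, g5]
    exact ⟨rfl, rfl⟩
  · obtain ⟨-, -, -, a1, a2, a3, a4, -⟩ := valsP2 q c (A : K) (D : K) y b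
    obtain ⟨-, -, -, b1, b2, b3, b4, -⟩ := valsP2 q c' (A' : K) (D' : K) y' b'
    subst e65
    have g1 := mul_left_cancel₀ hc0 (neg_injective (a1.symm.trans ((h 68 (by decide)).trans b1)))
    have g2 := mul_right_cancel₀ hc0 (a2.symm.trans ((h 47 (by decide)).trans b2))
    have g3 := mul_right_cancel₀ hc0 (neg_injective (a3.symm.trans ((h 63 (by decide)).trans b3)))
    have g4 := mul_left_cancel₀ hc0 (a4.symm.trans ((h 61 (by decide)).trans b4))
    rw [g1, Subtype.ext g2, Subtype.ext g3, g4]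
    exact ⟨rfl, rfl⟩
  · obtain ⟨-, -, -, -, a1, a2, a3, -⟩ := valsP3 q c (B : K) (D : K) z
    obtain ⟨-, -, -, -, b1, b2, b3, -⟩ := valsP3 q c' (B' : K) (D' : K) z'
    subst e69
    have g1 := mul_right_cancel₀ hc0 (a1.symm.trans ((h 51 (by decide)).trans b1))
    have g2 := mul_right_cancel₀ hc0 (a2.symm.trans ((h 63 (by decide)).trans b2))
    have g3 := mul_left_cancel₀ hc0 (neg_injective (a3.symm.trans ((h 62 (by decide)).trans b3)))
    rw [Subtype.ext g1, Subtype.ext g2, g3]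
    exact ⟨rfl, rfl⟩
  · obtain ⟨-, -, -, -, -, a1, a2, a3⟩ := valsL1 q c (D : K) a b
    obtain ⟨-, -, -, -, -, b1, b2, b3⟩ := valsL1 q c' (D' : K) a' b'
    subst e63
    have g1 := mul_left_cancel₀ hc0 (a1.symm.trans ((h 52 (by decide)).trans b1))
    have g2 := mul_left_cancel₀ hc0 (neg_injective (a2.symm.trans ((h 49 (by decide)).trans b2)))
    have g3 := mul_right_cancel₀ hc0 (a3.symm.trans ((h 46 (by decide)).trans b3))
    rw [g1, g2, Subtype.ext g3]
    exact ⟨rfl, rfl⟩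
  · obtain ⟨-, -, -, -, -, -, a1, a2⟩ := valsL2 q c (B : K) b
    obtain ⟨-, -, -, -, -, -, b1, b2⟩ := valsL2 q c' (B' : K) b'
    subst e51
    have g1 := mul_left_cancel₀ hc0 (neg_injective (a1.symm.trans ((h 48 (by decide)).trans b1)))
    have g2 := mul_right_cancel₀ hc0 (a2.symm.trans ((h 46 (by decide)).trans b2))
    rw [g1, Subtype.ext g2]
    exact ⟨rfl, rfl⟩
  · obtain ⟨-, -, -, -, -, -, -, a1⟩ := valsL3 c (A : K)
    obtain ⟨-, -, -, -, -, -, -, b1⟩ := valsL3 c' (A' : K)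
    subst e47
    have g1 := mul_right_cancel₀ hc0 (neg_injective (a1.symm.trans ((h 46 (by decide)).trans b1)))
    rw [Subtype.ext g1]
    exact ⟨rfl, rfl⟩
  · exact ⟨e46, rfl⟩

theorem norm_mem (b : K) : b * b ^ q ∈ fixF hq hK := by
  rw [mem_fixF, mul_pow, pow_q_q hq hK, mul_comm]

open Classical in
/-- lower bounds for the stabilisers in the long diagonal group -/
noncomputable def cellWt : Cell hq hK → ℕ
  | .inl _ => 1
  | .inr (.inl p) => if p.2.2.2.1 = 0 ∨ p.2.2.2.2 = 0 then q else 1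
  | .inr (.inr (.inl _)) => q
  | .inr (.inr (.inr (.inl _))) => q
  | .inr (.inr (.inr (.inr (.inl _)))) => q ^ 2
  | .inr (.inr (.inr (.inr (.inr (.inl _))))) => q ^ 2
  | .inr (.inr (.inr (.inr (.inr (.inr (.inl _)))))) => q ^ 2
  | .inr (.inr (.inr (.inr (.inr (.inr (.inr _)))))) => q ^ 3
/-- the parameters fixing given coordinates -/
abbrev Stab (F : ℕ → K) : Type _ :=
  {d : DPar hq hK // ∀ r ∈ qList, TD (d.1 : K) (d.2.1 : K) (d.2.2 : K) F r = F r}

theorem card_le_stab {F : ℕ → K} {α : Type*} (f : α → DPar hq hK) (hf : Function.Injective f)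
    (h : ∀ x r, r ∈ qList → TD ((f x).1 : K) ((f x).2.1 : K) ((f x).2.2 : K) F r = F r) :
    Nat.card α ≤ Nat.card (Stab hq hK F) :=
  Nat.card_le_card_of_injective (fun x => ⟨f x, h x⟩) fun _ _ e => hf (congrArg Subtype.val e)

theorem cellWt_le (c : K) (i : Cell hq hK) : cellWt hq hK i ≤ Nat.card (Stab hq hK (cellF hq hK c i)) := by
  have hL : Nat.card ↥(fixF hq hK) = q := card_fixF hq hK
  have h1 : ∀ F : ℕ → K, 1 ≤ Nat.card (Stab hq hK F) := fun F => by
    refine le_of_eq_of_le (Nat.card_unique (α := Unit)).symm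
      (card_le_stab hq hK (F := F) (fun _ => 0) (fun _ _ _ => rfl) fun _ r _ => ?_)
    show stepF 39 ((0 : ↥(fixF hq hK)) : K) (stepF 44 ((0 : ↥(fixF hq hK)) : K)
      (stepF 60 ((0 : ↥(fixF hq hK)) : K) F)) r = F r
    simp [stepF]
  have h2 : Nat.card (↥(fixF hq hK) × ↥(fixF hq hK)) = q ^ 2 := by rw [Nat.card_prod, hL, sq]
  rcases i with ⟨A, B, D, x, y, z⟩ | ⟨A, B, x, a, b⟩ | ⟨A, D, y, b⟩ | ⟨B, D, z⟩ | ⟨D, a, b⟩ | ⟨B, b⟩ | A | ⟨⟩
  · exact h1 _
  · simp only [cellWt]
    split_ifs with h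
    · rcases h with rfl | rfl
      · exact le_of_eq_of_le hL.symm (card_le_stab hq hK
          (fun T => (⟨-((T : K) * (b * b ^ q)), neg_mem (mul_mem T.2 (norm_mem hq hK b))⟩, 0, T))
          (fun _ _ e => congrArg (fun d => d.2.2) e)
          fun T r hr => fixP1_left q c (A : K) (B : K) x b (T : K) hq.pos.ne' r hr)
      · exact le_of_eq_of_le hL.symm (card_le_stab hq hK
          (fun T => (0, ⟨(T : K) * (a * a ^ q), mul_mem T.2 (norm_mem hq hK a)⟩, T))
          (fun _ _ e => congrArg (fun d => d.2.2) e)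
          fun T r hr => fixP1_right q c (A : K) (B : K) x a (T : K) hq.pos.ne' r hr)
    · exact h1 _
  · exact le_of_eq_of_le hL.symm (card_le_stab hq hK
      (fun S => (⟨(S : K) * (b * b ^ q), mul_mem S.2 (norm_mem hq hK b)⟩, S, 0))
      (fun _ _ e => congrArg (fun d => d.2.1) e)
      fun S r hr => fixP2 q c (A : K) (D : K) y b (S : K) r hr)
  · exact le_of_eq_of_le hL.symm (card_le_stab hq hK (fun U => (U, 0, 0)) (fun _ _ e => congrArg (fun d => d.1) e)
      fun U r hr => fixP3 q c (B : K) (D : K) z (U : K) r hr)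
  · exact le_of_eq_of_le h2.symm (card_le_stab hq hK
      (fun p => (p.1, p.2, ⟨(p.2 : K) * (a * a ^ q) - (p.1 : K) * (b * b ^ q),
        sub_mem (mul_mem p.2.2 (norm_mem hq hK a)) (mul_mem p.1.2 (norm_mem hq hK b))⟩))
      (fun _ _ e => Prod.ext (congrArg (fun d => d.1) e) (congrArg (fun d => d.2.1) e))
      fun p r hr => fixL1 q c (D : K) a b (p.1 : K) (p.2 : K) r hr)
  · exact le_of_eq_of_le h2.symm (card_le_stab hq hK
      (fun p => (p.1, ⟨(p.1 : K) * (b * b ^ q), mul_mem p.1.2 (norm_mem hq hK b)⟩, p.2))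
      (fun _ _ e => Prod.ext (congrArg (fun d => d.1) e) (congrArg (fun d => d.2.2) e))
      fun p r hr => fixL2 q c (B : K) b (p.1 : K) (p.2 : K) r hr)
  · exact le_of_eq_of_le h2.symm (card_le_stab hq hK (fun p => (0, p.1, p.2))
      (fun _ _ e => Prod.ext (congrArg (fun d => d.2.1) e) (congrArg (fun d => d.2.2) e))
      fun p r hr => fixL3 c (A : K) (p.1 : K) (p.2 : K) r hr)
  · exact le_of_eq_of_le (card_DPar hq hK).symm (card_le_stab hq hK id Function.injective_id
      fun d r hr => fixP0 c (d.1 : K) (d.2.1 : K) (d.2.2 : K) r hr)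

/-- not all values at the four roots of the frame vanish -/
def NV (F : ℕ → K) : Prop := F 70 ≠ 0 ∨ F 47 ≠ 0 ∨ F 51 ≠ 0 ∨ F 63 ≠ 0

theorem card_trace_zero {D : K} (hD : D ≠ 0) [DecidableEq K] :
    (Finset.univ.filter fun x : K => D * x + (D * x) ^ q = 0).card ≤ q := by
  let P : Polynomial K := Polynomial.X ^ q + Polynomial.X
  have hdeg : P.natDegree = q :=
    (Polynomial.natDegree_add_eq_left_of_natDegree_lt (by simpa using hq.one_lt)).trans (Polynomial.natDegree_X_pow q)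
  have hP : P ≠ 0 := fun e => hq.pos.ne' (by rw [← hdeg, e, Polynomial.natDegree_zero])
  calc _ ≤ P.roots.toFinset.card := by
        refine Finset.card_le_card_of_injOn (fun x => D * x) (fun x hx => ?_) fun x _ y _ e => mul_left_cancel₀ hD e
        have hx' : D * x + (D * x) ^ q = 0 := (Finset.mem_filter.1 hx).2
        refine Multiset.mem_toFinset.2 ((Polynomial.mem_roots hP).2 ?_)
        simp only [P, Polynomial.IsRoot, Polynomial.eval_add, Polynomial.eval_pow, Polynomial.eval_X]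
        linear_combination hx'
    _ ≤ Multiset.card P.roots := Multiset.toFinset_card_le _
    _ ≤ q := (Polynomial.card_roots' P).trans hdeg.le

theorem sum_split_zero {α : Type*} [Fintype α] [DecidableEq α] (z : α) (f : α → ℕ) (m₀ m : ℕ) (h0 : f z ≤ m₀)
    (h : ∀ a, a ≠ z → f a ≤ m) : ∑ a, f a ≤ m₀ + (Fintype.card α - 1) * m := by
  rw [← Finset.add_sum_erase _ _ (Finset.mem_univ z)]
  refine Nat.add_le_add h0 ((Finset.sum_le_sum fun a ha => h a (Finset.ne_of_mem_erase ha)).trans (le_of_eq ?_))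
  rw [Finset.sum_const, Finset.card_erase_of_mem (Finset.mem_univ _), Finset.card_univ, smul_eq_mul]

theorem sum_nv_le [Fintype ↥(fixF hq hK)] [DecidablePred (NV (K := K))] {c : K} (hc : c ≠ 0) :
    q ^ 9 + q ^ 8 + q ^ 6 + 3 * q ^ 3 ≤
      (∑ i : Cell hq hK, if NV (cellF hq hK c i) then 1 else 0) + 2 * q ^ 4 := by
  classical
  have hL : Fintype.card ↥(fixF hq hK) = q := by rw [← Nat.card_eq_fintype_card]; exact card_fixF hq hK
  simp only [Fintype.sum_sum_type]
  have e0 : ∀ p : ↥(fixF hq hK) × ↥(fixF hq hK) × ↥(fixF hq hK) × K × K × K,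
      NV (cellF hq hK c (.inl p)) := fun p => Or.inl (by
    rw [show cellF hq hK c (.inl p) 70 = c from (vals0 q c _ _ _ _ _ _).1]; exact hc)
  have e4 : ∀ p, NV (cellF hq hK c (.inr (.inr (.inr (.inr (.inl p)))))) := fun p =>
    Or.inr (Or.inr (Or.inr (by
      rw [show cellF hq hK c (.inr (.inr (.inr (.inr (.inl p))))) 63 = c from (valsL1 q c _ _ _).2.2.2.2.1]
      exact hc)))
  have e5 : ∀ p, NV (cellF hq hK c (.inr (.inr (.inr (.inr (.inr (.inl p))))))) := fun p =>
    Or.inr (Or.inr (Or.inl (by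
      rw [show cellF hq hK c (.inr (.inr (.inr (.inr (.inr (.inl p)))))) 51 = c from
        (valsL2 q c _ _).2.2.2.2.2.1]
      exact hc)))
  have e6 : ∀ p, NV (cellF hq hK c (.inr (.inr (.inr (.inr (.inr (.inr (.inl p)))))))) := fun p =>
    Or.inr (Or.inl (by
      rw [show cellF hq hK c (.inr (.inr (.inr (.inr (.inr (.inr (.inl p))))))) 47 = c from
        (valsL3 c _).2.2.2.2.2.2.1]
      exact hc))
  simp only [e0, e4, e5, e6, if_true, Finset.sum_const, Finset.card_univ, smul_eq_mul, mul_one,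
    Fintype.card_prod, hL, hK]
  have compl : ∀ {α : Type _} [Fintype α] (P : α → Prop) [DecidablePred P] (M : ℕ),
      (∑ p, if P p then 0 else 1) ≤ M → Fintype.card α ≤ (∑ p, if P p then 1 else 0) + M := by
    intro α _ P _ M hM
    refine le_trans (le_of_eq ?_) (Nat.add_le_add_left hM _)
    rw [← Finset.sum_add_distrib, ← Finset.card_univ, Finset.card_eq_sum_ones]
    exact Finset.sum_congr rfl fun p _ => by split_ifs <;> rfl
  -- first plane
  have p1 := compl (fun p => NV (cellF hq hK c (.inr (.inl p))))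
    (q ^ 4 + (q ^ 2 - 1) * (q ^ 2 + (q ^ 2 - 1) * q)) (by
      rw [Fintype.sum_prod_type, Finset.sum_eq_single (0 : ↥(fixF hq hK)), Fintype.sum_prod_type,
        Finset.sum_eq_single (0 : ↥(fixF hq hK)), Fintype.sum_prod_type, Finset.sum_comm, Fintype.sum_prod_type]
      · have hab : ∀ a b : K, (∑ x, if NV (cellF hq hK c (.inr (.inl (0, 0, x, a, b)))) then 0 else 1) ≤
            if a = 0 ∨ b = 0 then q ^ 2 else q := by
          intro a b
          split_ifs with h
          · refine (Finset.sum_le_sum (g := fun _ => 1) fun x _ => by split_ifs <;> omega).trans (le_of_eq ?_)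
            rw [Finset.sum_const, Finset.card_univ, hK, smul_eq_mul, mul_one]
          · push Not at h
            refine le_trans ?_ (card_trace_zero hq hK (D := a * b ^ q)
              (mul_ne_zero h.1 (pow_ne_zero _ h.2)))
            rw [Finset.card_filter]
            refine Finset.sum_le_sum fun x _ => ?_
            by_cases hx : NV (cellF hq hK c (.inr (.inl (0, 0, x, a, b))))
            · rw [if_pos hx]; exact Nat.zero_le _
            rw [if_neg hx, if_pos]
            simp only [NV, not_or, not_not] at hx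
            have h63 := hx.2.2.2
            rw [show cellF hq hK c (.inr (.inl (0, 0, x, a, b))) 63 = _ from
              (valsP1 q c ((0 : ↥(fixF hq hK)) : K) ((0 : ↥(fixF hq hK)) : K) x a b).2.2.2.2.2.2.2,
              mul_eq_zero, or_iff_right hc] at h63
            rw [mul_pow, mul_pow, pow_q_q hq hK]
            simp only [ZeroMemClass.coe_zero, zero_mul, sub_zero, add_zero] at h63
            linear_combination h63
        refine (Finset.sum_le_sum fun a _ => Finset.sum_le_sum fun b _ => hab a b).trans ?_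
        have hK' : Fintype.card K - 1 = q ^ 2 - 1 := by rw [hK]
        refine (sum_split_zero hq hK (0 : K) _ (q ^ 2 * q ^ 2) (q ^ 2 + (q ^ 2 - 1) * q) ?_ fun a ha => ?_).trans
          (le_of_eq ?_)
        · refine le_of_eq ?_
          simp [hK]
        · refine (sum_split_zero hq hK (0 : K) _ (q ^ 2) q (by simp) fun b hb => by simp [ha, hb]).trans
            (le_of_eq (by rw [hK']))
        · rw [hK', ← pow_add]
      · intro B _ hB
        refine Finset.sum_eq_zero fun r _ => if_pos (Or.inr (Or.inl ?_))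
        rw [show cellF hq hK c (.inr (.inl (0, B, r))) 47 = (B : K) * c from (valsP1 q c _ _ _ _ _).2.2.2.2.2.1]
        exact mul_ne_zero (fun h => hB (Subtype.ext h)) hc
      · exact fun h => absurd (Finset.mem_univ _) h
      · intro A _ hA
        refine Finset.sum_eq_zero fun r _ => if_pos (Or.inr (Or.inr (Or.inl ?_)))
        rw [show cellF hq hK c (.inr (.inl (A, r))) 51 = -((A : K) * c) from (valsP1 q c _ _ _ _ _).2.2.2.2.1]
        exact neg_ne_zero.2 (mul_ne_zero (fun h => hA (Subtype.ext h)) hc)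
      · exact fun h => absurd (Finset.mem_univ _) h)
  have p2 := compl (fun p => NV (cellF hq hK c (.inr (.inr (.inl p))))) (q ^ 4) (by
    rw [Fintype.sum_prod_type, Finset.sum_eq_single (0 : ↥(fixF hq hK)), Fintype.sum_prod_type,
      Finset.sum_eq_single (0 : ↥(fixF hq hK))]
    · refine (Finset.sum_le_sum (g := fun _ => 1) fun x _ => by split_ifs <;> omega).trans (le_of_eq ?_)
      simp only [Finset.sum_const, Finset.card_univ, Fintype.card_prod, hK, smul_eq_mul, mul_one]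
      ring
    · intro D _ hD
      refine Finset.sum_eq_zero fun r _ => if_pos (Or.inr (Or.inl ?_))
      rw [show cellF hq hK c (.inr (.inr (.inl (0, D, r)))) 47 = (D : K) * c from (valsP2 q c _ _ _ _).2.2.2.2.1]
      exact mul_ne_zero (fun h => hD (Subtype.ext h)) hc
    · exact fun h => absurd (Finset.mem_univ _) h
    · intro A _ hA
      refine Finset.sum_eq_zero fun r _ => if_pos (Or.inr (Or.inr (Or.inr ?_)))
      rw [show cellF hq hK c (.inr (.inr (.inl (A, r)))) 63 = -((A : K) * c) from (valsP2 q c _ _ _ _).2.2.2.2.2.1]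
      exact neg_ne_zero.2 (mul_ne_zero (fun h => hA (Subtype.ext h)) hc)
    · exact fun h => absurd (Finset.mem_univ _) h)
  have p3 := compl (fun p => NV (cellF hq hK c (.inr (.inr (.inr (.inl p)))))) (q ^ 2) (by
    rw [Fintype.sum_prod_type, Finset.sum_eq_single (0 : ↥(fixF hq hK)), Fintype.sum_prod_type,
      Finset.sum_eq_single (0 : ↥(fixF hq hK))]
    · refine (Finset.sum_le_sum (g := fun _ => 1) fun x _ => by split_ifs <;> omega).trans (le_of_eq ?_)
      simp only [Finset.sum_const, Finset.card_univ, hK, smul_eq_mul, mul_one]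
    · intro D _ hD
      refine Finset.sum_eq_zero fun r _ => if_pos (Or.inr (Or.inr (Or.inl ?_)))
      rw [show cellF hq hK c (.inr (.inr (.inr (.inl (0, D, r))))) 51 = (D : K) * c from (valsP3 q c _ _ _).2.2.2.2.1]
      exact mul_ne_zero (fun h => hD (Subtype.ext h)) hc
    · exact fun h => absurd (Finset.mem_univ _) h
    · intro B _ hB
      refine Finset.sum_eq_zero fun r _ => if_pos (Or.inr (Or.inr (Or.inr ?_)))
      rw [show cellF hq hK c (.inr (.inr (.inr (.inl (B, r))))) 63 = (B : K) * c from (valsP3 q c _ _ _).2.2.2.2.2.1]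
      exact mul_ne_zero (fun h => hB (Subtype.ext h)) hc
    · exact fun h => absurd (Finset.mem_univ _) h)
  simp only [Fintype.card_prod, hL, hK] at p1 p2 p3
  generalize (∑ x : Unit, (if NV (cellF hq hK c (Sum.inr (Sum.inr (Sum.inr (Sum.inr (Sum.inr (Sum.inr (Sum.inr x)))))))) then 1 else 0 : ℕ)) = s8
  obtain ⟨u, hu⟩ : ∃ u, q ^ 2 = u + 1 := ⟨q ^ 2 - 1, by have := Nat.one_le_pow 2 q hq.pos; omega⟩
  rw [show q ^ 2 - 1 = u by omega] at p1
  have hu' : (u : ℤ) = (q : ℤ) ^ 2 - 1 := by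
    have := congrArg (fun n : ℕ => (n : ℤ)) hu
    push_cast at this
    linarith
  zify at p1 p2 p3 ⊢
  rw [hu'] at p1
  ring_nf at p1 p2 p3 ⊢
  linarith [Int.natCast_nonneg s8]

theorem le_sum_wt [Fintype ↥(fixF hq hK)] :
    q ^ 9 + q ^ 8 + 4 * q ^ 7 + q ^ 5 + q ^ 4 + 2 * q ^ 3 ≤ (∑ i : Cell hq hK, cellWt hq hK i) + 2 * q ^ 6 := by
  classical
  have hL : Fintype.card ↥(fixF hq hK) = q := by rw [← Nat.card_eq_fintype_card]; exact card_fixF hq hK
  have hab : q ^ 2 * q + (q ^ 2 - 1) * (q + (q ^ 2 - 1)) ≤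
      ∑ p : K × K, if p.1 = 0 ∨ p.2 = 0 then q else 1 := by
    rw [Fintype.sum_prod_type, ← Finset.add_sum_erase _ _ (Finset.mem_univ (0 : K))]
    refine Nat.add_le_add (by simp [hK]) (le_of_eq ?_)
    rw [Finset.sum_congr rfl (fun (a : K) ha => show (∑ b : K, if a = 0 ∨ b = 0 then q else 1) = q + (q ^ 2 - 1) by
      have ha' := Finset.ne_of_mem_erase ha
      rw [← Finset.add_sum_erase _ _ (Finset.mem_univ (0 : K)), if_pos (Or.inr rfl),
        Finset.sum_congr rfl (fun b hb => if_neg (by simp [ha', Finset.ne_of_mem_erase hb])),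
        Finset.sum_const, Finset.card_erase_of_mem (Finset.mem_univ _), Finset.card_univ, hK, smul_eq_mul,
        mul_one]),
      Finset.sum_const, Finset.card_erase_of_mem (Finset.mem_univ _), Finset.card_univ, hK, smul_eq_mul]
  have h1 : q * q * q ^ 2 * (q ^ 2 * q + (q ^ 2 - 1) * (q + (q ^ 2 - 1))) ≤
      ∑ p : ↥(fixF hq hK) × ↥(fixF hq hK) × K × K × K, if p.2.2.2.1 = 0 ∨ p.2.2.2.2 = 0 then q else 1 := by
    have e : (∑ p : ↥(fixF hq hK) × ↥(fixF hq hK) × K × K × K, if p.2.2.2.1 = 0 ∨ p.2.2.2.2 = 0 then q else 1) =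
        q * (q * (q ^ 2 * ∑ p : K × K, if p.1 = 0 ∨ p.2 = 0 then q else 1)) := by
      have key : ∀ f : K × K → ℕ, (∑ p : ↥(fixF hq hK) × ↥(fixF hq hK) × K × K × K, f p.2.2.2) =
          q * (q * (q ^ 2 * ∑ p, f p)) := fun f => by
        simp only [Fintype.sum_prod_type, Finset.sum_const, Finset.card_univ, hL, hK, smul_eq_mul]
      exact key fun p => if p.1 = 0 ∨ p.2 = 0 then q else 1
    rw [e]
    calc _ = q * (q * (q ^ 2 * (q ^ 2 * q + (q ^ 2 - 1) * (q + (q ^ 2 - 1))))) := by ring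
      _ ≤ _ := Nat.mul_le_mul_left _ (Nat.mul_le_mul_left _ (Nat.mul_le_mul_left _ hab))
  simp only [Fintype.sum_sum_type, cellWt, Finset.sum_const, Finset.card_univ, Fintype.card_prod, hL, hK,
    smul_eq_mul, mul_one, Fintype.card_unit, one_mul]
  obtain ⟨u, hu⟩ : ∃ u, q ^ 2 = u + 1 := ⟨q ^ 2 - 1, by have := Nat.one_le_pow 2 q hq.pos; omega⟩
  rw [show q ^ 2 - 1 = u by omega] at h1
  have hu' : (u : ℤ) = (q : ℤ) ^ 2 - 1 := by
    have := congrArg (fun n : ℕ => (n : ℤ)) hu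
    push_cast at this
    linarith
  zify at h1 ⊢
  rw [hu'] at h1
  ring_nf at h1 ⊢
  linarith

end E6

end CfsgLib.Twisted
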