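import Cfsg.Agent.Lib.Twisted.RepFix

/-! A representation restricted to a subgroup `A × Z` whose elements outside `Z` have traces
constant on the cosets of `Z`, where the non-trivial elements of `Z` all have the same trace. -/

set_option autoImplicit false

namespace CfsgLib.Twisted.RepFix

variable {V : Type*} [AddCommGroup V] [Module ℂ V] [FiniteDimensional ℂ V]
variable {G : Type*} [Group G] (ρ : Representation ℂ G V)
variable {L : Type*} [AddCommGroup L] [Fintype L] (fZ : Multiplicative L →* G)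
  (hconst : ∀ t u : L, t ≠ 0 → u ≠ 0 → LinearMap.trace ℂ V (ρ (fZ (Multiplicative.ofAdd t))) =
    LinearMap.trace ℂ V (ρ (fZ (Multiplicative.ofAdd u))))
variable {A : Type*} [Group A] [Fintype A] (fA : A →* G) (fAZ : A × Multiplicative L →* G)
  (hAZ : ∀ p, fAZ p = fA p.1 * fZ p.2)
  (hoff : ∀ a : A, a ≠ 1 → ∀ z, LinearMap.trace ℂ V (ρ (fA a * fZ z)) = LinearMap.trace ℂ V (ρ (fA a)))

include hAZ hoff in
/-- dimensions of the fixed spaces of `A`, `Z` and `A × Z` -/
theorem fix_prod_eq : Fintype.card A * Module.finrank ℂ (fix ρ fA) + Module.finrank ℂ (fix ρ fZ) =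
    Fintype.card A * Module.finrank ℂ (fix ρ fAZ) + Module.finrank ℂ V := by
  classical
  have hq : (Fintype.card L : ℂ) ≠ 0 := by exact_mod_cast Fintype.card_ne_zero
  have h1 := card_mul_fix ρ fA
  have h2 := card_mul_fix ρ fZ
  have h3 := card_mul_fix ρ fAZ
  rw [Fintype.card_multiplicative] at h2
  rw [Fintype.card_prod, Fintype.card_multiplicative, Fintype.sum_prod_type] at h3
  simp only [hAZ] at h3
  rw [← Finset.sum_erase_add _ _ (Finset.mem_univ (1 : A)), map_one fA] at h3
  simp only [one_mul] at h3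
  rw [← Finset.sum_erase_add _ _ (Finset.mem_univ (1 : A)), map_one, map_one, LinearMap.trace_one] at h1
  rw [← h2, Finset.sum_congr rfl (fun a ha => (Finset.sum_congr rfl fun z _ =>
    hoff a (Finset.ne_of_mem_erase ha) z).trans (by rw [Finset.sum_const, Finset.card_univ,
      Fintype.card_multiplicative, nsmul_eq_mul])), ← Finset.mul_sum] at h3
  have key : ((Fintype.card A * Module.finrank ℂ (fix ρ fA) + Module.finrank ℂ (fix ρ fZ) : ℕ) : ℂ) =
      ((Fintype.card A * Module.finrank ℂ (fix ρ fAZ) + Module.finrank ℂ V : ℕ) : ℂ) := by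
    push_cast at h3 ⊢
    refine mul_left_cancel₀ hq ?_
    linear_combination (Fintype.card L : ℂ) * h1 - h3
  exact_mod_cast key

include hconst hAZ hoff in
/-- the part without fixed vector of `Z` is a multiple of `(|Z| - 1) |A|` -/
theorem exists_finrank_eq (ε : AddChar L ℂ) (hε : ε ≠ 1) :
    ∃ m : ℕ, Module.finrank ℂ V =
      Module.finrank ℂ (fix ρ fZ) + (Fintype.card L - 1) * (Fintype.card A * m) := by
  classical
  have hq : (Fintype.card L : ℂ) ≠ 0 := by exact_mod_cast Fintype.card_ne_zero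
  obtain ⟨t₀, ht₀⟩ := AddChar.ne_one_iff.1 hε
  have ht₀' : t₀ ≠ 0 := fun e => ht₀ (by rw [e, AddChar.map_zero_eq_one])
  set x := LinearMap.trace ℂ V (ρ (fZ (Multiplicative.ofAdd t₀))) with hx
  let θ : A × Multiplicative L →* ℂ := ε.toMonoidHom.comp (MonoidHom.snd A (Multiplicative L))
  obtain ⟨e, he⟩ := exists_card_mul_eq ρ fAZ θ
  have hz : ∀ a : A, a ≠ 1 → ∑ z : Multiplicative L,
      θ (a, z) * LinearMap.trace ℂ V (ρ (fAZ (a, z))) = 0 := by
    intro a ha
    simp only [hAZ, hoff a ha, ← Finset.sum_mul]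
    have h0 : ∑ z : Multiplicative L, θ (a, z) = 0 :=
      (Fintype.sum_equiv Multiplicative.toAdd (fun z => θ (a, z)) (fun t => ε t) fun _ => rfl).trans
        (AddChar.sum_eq_zero_of_ne_one hε)
    rw [h0, zero_mul]
  rw [Fintype.card_prod, Fintype.card_multiplicative, Fintype.sum_prod_type,
    Finset.sum_eq_single (1 : A) (fun a _ ha => hz a ha) (fun h => (h (Finset.mem_univ _)).elim)] at he
  simp only [hAZ, map_one, one_mul] at he
  have h2 := card_mul_fix ρ fZ
  rw [Fintype.card_multiplicative] at h2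
  have split : ∀ (F : Multiplicative L → ℂ), (∀ z, z ≠ 1 → F z = x) → ∀ g : Multiplicative L → ℂ,
      ∑ z, g z * F z = g 1 * F 1 + x * ((∑ z, g z) - g 1) := by
    intro F hF g
    rw [← Finset.sum_erase_add _ _ (Finset.mem_univ (1 : Multiplicative L)),
      ← Finset.sum_erase_add _ g (Finset.mem_univ (1 : Multiplicative L)), add_sub_cancel_right,
      add_comm, Finset.mul_sum]
    congr 1
    exact Finset.sum_congr rfl fun z hz => by rw [hF z (Finset.ne_of_mem_erase hz), mul_comm]
  have hF : ∀ z : Multiplicative L, z ≠ 1 → LinearMap.trace ℂ V (ρ (fZ z)) = x :=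
    fun z hz => hconst _ t₀ (fun e => hz (congrArg Multiplicative.ofAdd e)) ht₀'
  have hsum : ∑ z : Multiplicative L, θ ((1 : A), z) = 0 :=
    (Fintype.sum_equiv Multiplicative.toAdd (fun z => θ ((1 : A), z)) (fun t => ε t) fun _ => rfl).trans
      (AddChar.sum_eq_zero_of_ne_one hε)
  have h2' : (Fintype.card L : ℂ) * Module.finrank ℂ (fix ρ fZ) =
      Module.finrank ℂ V + x * ((Fintype.card L : ℂ) - 1) := by
    rw [h2]
    simpa [LinearMap.trace_one] using split _ hF (fun _ => 1)
  have he' : ((Fintype.card A * Fintype.card L : ℕ) : ℂ) * e = Module.finrank ℂ V - x := by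
    rw [he, split _ hF (fun z => θ ((1 : A), z)), hsum,
      show θ ((1 : A), (1 : Multiplicative L)) = 1 from map_one θ, map_one fZ, map_one ρ,
      LinearMap.trace_one]
    ring
  refine ⟨e, ?_⟩
  have h1 : 1 ≤ Fintype.card L := Fintype.card_pos
  have key : (Module.finrank ℂ V : ℂ) = ((Module.finrank ℂ (fix ρ fZ) +
      (Fintype.card L - 1) * (Fintype.card A * e) : ℕ) : ℂ) := by
    push_cast [Nat.cast_sub h1] at he' ⊢
    refine mul_left_cancel₀ hq ?_
    linear_combination -h2' - ((Fintype.card L : ℂ) - 1) * he'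
  exact_mod_cast key

end CfsgLib.Twisted.RepFix
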