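import Cfsg.Agent.Lib.Twisted.E6Levi
import Cfsg.Agent.Lib.Twisted.RepCentral
import Cfsg.Agent.Lib.Twisted.D4Eigen
import Cfsg.Agent.Lib.Chevalley.Torus

/-! Eigenvectors of the radical at the highest root in a representation of ²E₆(q): eigenlines, their
transport, and commutators with the highest root group. -/

set_option autoImplicit false
set_option linter.unusedSectionVars false
set_option linter.unusedSimpArgs false
set_option maxRecDepth 100000

namespace CfsgLib.Twisted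

open Cfsg.Lie
open CfsgLib.Chevalley (cert_E6 auxE6 xG nG rootsU rootsU_induction acts_nG_simple etaAt)

namespace E6

variable {K : Type*} [Field K] [Fintype K] {q : ℕ} (hq : IsPrimePow q) (hK : Fintype.card K = q ^ 2)
variable {V : Type*} [AddCommGroup V] [Module ℂ V]
  (ρ : Representation ℂ ↥(twistedE6 K q) V) (ε : AddChar K ℂ)

/-- an eigenvector of the radical with coordinates `F` -/
def Eig (F : ℕ → K) (v : V) : Prop :=
  ∀ x : ↥(radT K q), ρ (radIncl K q x) v = psi q ε F x • v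

/-- the eigenspace of the coordinates `F` is a line -/
def OneLine (F : ℕ → K) : Prop :=
  ∃ v : V, v ≠ 0 ∧ Eig ρ ε F v ∧ ∀ w, Eig ρ ε F w → ∃ c : ℂ, w = c • v

omit [Fintype K] in
theorem eig_congr {F G : ℕ → K} (h : psi q ε F = psi q ε G) {v : V} :
    Eig ρ ε F v ↔ Eig ρ ε G v := by
  simp only [Eig, h]

theorem oneLine_congr {F G : ℕ → K} (h : ∀ r ∈ qList, F r = G r) (hl : OneLine ρ ε F) : OneLine ρ ε G := by
  have e : psi q ε F = psi q ε G := MonoidHom.ext fun x => congrArg ε (lin_congr h _)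
  obtain ⟨v, h1, h2, h3⟩ := hl
  exact ⟨v, h1, (eig_congr ρ ε e).1 h2, fun w hw => h3 w ((eig_congr ρ ε e).2 hw)⟩

omit [Fintype K] in
theorem psi_shift {g : GL chevE6.Idx K} (hg : g ∈ twistedE6 K q) {T : (ℕ → K) → ℕ → K} (h : Shifts g T)
    (F : ℕ → K) (x : ↥(radT K q)) : ∃ hy : g⁻¹ * (x : GL chevE6.Idx K) * g ∈ radT K q,
      psi q ε F ⟨_, hy⟩ = psi q ε (T F) x := by
  obtain ⟨h1, e⟩ := h ⟨x.1, x.2.2⟩
  exact ⟨⟨(mul_mem (mul_mem (inv_mem hg) x.2.1) hg : _ ∈ twistedE6 K q), h1⟩, congrArg ε (e F)⟩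

omit [Fintype K] in
theorem eig_shift {g : GL chevE6.Idx K} (hg : g ∈ twistedE6 K q) {T : (ℕ → K) → ℕ → K} (h : Shifts g T)
    {F : ℕ → K} {v : V} (hv : Eig ρ ε F v) : Eig ρ ε (T F) (ρ ⟨g, hg⟩ v) := by
  intro x
  obtain ⟨hy, e⟩ := psi_shift ε hg h F x
  have eG : radIncl K q x * ⟨g, hg⟩ = ⟨g, hg⟩ * radIncl K q ⟨_, hy⟩ := Subtype.ext (by
    show (x : GL chevE6.Idx K) * g = g * (g⁻¹ * x * g)
    group)
  rw [← Module.End.mul_apply, ← map_mul, eG, map_mul, Module.End.mul_apply, hv, map_smul, e]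

theorem eig_unshift {g : GL chevE6.Idx K} (hg : g ∈ twistedE6 K q) {T : (ℕ → K) → ℕ → K} (h : Shifts g T)
    {F : ℕ → K} {v : V} (hv : Eig ρ ε (T F) v) : Eig ρ ε F (ρ ⟨g, hg⟩⁻¹ v) := by
  intro x
  -- conjugation by `g` permutes the finite radical
  have hall : ∀ y : ↥(radT K q), g⁻¹ * (y : GL chevE6.Idx K) * g ∈ radT K q := fun y => (psi_shift ε hg h F y).1
  let f : ↥(radT K q) → ↥(radT K q) := fun y => ⟨_, hall y⟩
  have hf : Function.Injective f := fun a b e => Subtype.ext (by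
    have := congrArg (fun z : ↥(radT K q) => g * (z : GL chevE6.Idx K) * g⁻¹) e
    simpa [f, mul_assoc] using this)
  obtain ⟨y, hy⟩ := (Finite.injective_iff_surjective.1 hf) x
  subst hy
  obtain ⟨_, e⟩ := psi_shift ε hg h F y
  have eG : radIncl K q (f y) * (⟨g, hg⟩ : ↥(twistedE6 K q))⁻¹ = (⟨g, hg⟩ : ↥(twistedE6 K q))⁻¹ * radIncl K q y :=
    Subtype.ext (by
      show g⁻¹ * (y : GL chevE6.Idx K) * g * g⁻¹ = g⁻¹ * y
      group)
  rw [← Module.End.mul_apply, ← map_mul, eG, map_mul, Module.End.mul_apply, hv, map_smul]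
  exact congrArg (· • _) e.symm

theorem oneLine_shift {g : GL chevE6.Idx K} (hg : g ∈ twistedE6 K q) {T : (ℕ → K) → ℕ → K} (h : Shifts g T)
    {F : ℕ → K} (hl : OneLine ρ ε F) : OneLine ρ ε (T F) := by
  obtain ⟨v, h1, h2, h3⟩ := hl
  refine ⟨ρ ⟨g, hg⟩ v, fun e => h1 ?_, eig_shift ρ ε hg h h2, fun w hw => ?_⟩
  · have := congrArg (ρ (⟨g, hg⟩ : ↥(twistedE6 K q))⁻¹) e
    rwa [map_zero, ← Module.End.mul_apply, ← map_mul, inv_mul_cancel, map_one] at this
  · obtain ⟨c, hc⟩ := h3 _ (eig_unshift ρ ε hg h hw)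
    refine ⟨c, ?_⟩
    rw [← map_smul, ← hc, ← Module.End.mul_apply, ← map_mul, mul_inv_cancel, map_one]
    rfl

include hq hK

/-! ## commutators with the highest root group -/

omit hq hK in
theorem kappa_smul {r : ℕ} (hr : r ∈ qList) (x : ↥(rad K)) (t : K) :
    (x : GL chevE6.Idx K) * X (116 - r) t * (x : GL chevE6.Idx K)⁻¹ = X (116 - r) t * X 71 (kappa r x * t) := by
  have hk : ∀ y : ↥(rad K), kappa r y = (pairSign r : K) * coord r y := by
    intro y
    rw [coord, ← mul_assoc, ← Int.cast_mul, pairSign_sq r hr, Int.cast_one, one_mul]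
  obtain ⟨x, hx⟩ := x
  induction hx using rootsU_induction cert_E6 with
  | h1 =>
    have : kappa r (1 : ↥(rad K)) = 0 := kappa_eq hr _ (by simp [CfsgLib.Chevalley.xG_zero])
    rw [show (⟨1, _⟩ : ↥(rad K)) = 1 from rfl, this]
    simp [CfsgLib.Chevalley.xG_zero]
  | hx s hs u =>
    obtain ⟨⟨h1, h2, -⟩, h3⟩ := table_partner r hr s hs
    rw [hk, coord_X hr hs]
    show X s u * _ * (X s u)⁻¹ = _
    by_cases e : s = 116 - r
    · subst e
      have hne : ¬ 116 - r = r := fun e' => partner_ne r hr e'.symm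
      rw [if_neg hne, mul_zero, zero_mul, X_zero, mul_one, ← X_neg, ← X_add, ← X_add]
      congr 1; ring
    · obtain ⟨h4, h5⟩ := h3 e
      by_cases e' : s = r
      · rw [if_pos e'] at h5 ⊢
        rw [← X_neg]
        exact push ⟨h1, h2, Ne.symm e, h4, h5⟩ u t
      · rw [if_neg e'] at h5 ⊢
        rw [mul_zero, zero_mul, X_zero, mul_one, (comm ⟨h1, h2, Ne.symm e, h4, h5⟩ u t).eq, mul_inv_cancel_right]
  | hmul a b ha hb iha ihb =>
    rw [show (⟨a * b, _⟩ : ↥(rad K)) = ⟨a, ha⟩ * ⟨b, hb⟩ from rfl, hk, coord_mul, mul_add, ← hk, ← hk, add_mul]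
    show a * b * _ * (a * b)⁻¹ = _
    calc a * b * X (116 - r) t * (a * b)⁻¹ = a * (b * X (116 - r) t * b⁻¹) * a⁻¹ := by group
      _ = (a * X (116 - r) t * a⁻¹) * (a * X 71 (kappa r ⟨b, hb⟩ * t) * a⁻¹) := by rw [ihb]; group
      _ = _ := by
        rw [iha, ← (commute_top ha (kappa r ⟨b, hb⟩ * t)).eq, mul_inv_cancel_right, mul_assoc, ← X_add]

/-- an element outside the highest root group is conjugate to all its translates by it -/
theorem exists_conj_top {a : GL chevE6.Idx K} (haG : a ∈ twistedE6 K q) (ha : a ∈ rad K)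
    (hne : ∃ r ∈ qList, coord r (⟨a, ha⟩ : ↥(rad K)) ≠ 0) {z : K} (hz : z ∈ fixF hq hK) :
    ∃ y ∈ twistedE6 K q, y * a * y⁻¹ = a * X 71 z := by
  obtain ⟨r₀, hr₀, hc₀⟩ := hne
  have htw := coord_twist hq hK ha haG
  have hk : ∀ r ∈ qList, kappa r (⟨a, ha⟩ : ↥(rad K)) = (pairSign r : K) * coord r ⟨a, ha⟩ := by
    intro r hr
    rw [coord, ← mul_assoc, ← Int.cast_mul, pairSign_sq r hr, Int.cast_one, one_mul]
  -- it suffices to find `y` with a known commutator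
  have fin : ∀ (y : GL chevE6.Idx K), y ∈ twistedE6 K q → y ∈ rad K → a * y * a⁻¹ = y * X 71 (-z) →
      ∃ y ∈ twistedE6 K q, y * a * y⁻¹ = a * X 71 z := by
    intro y hy hyr e
    refine ⟨y, hy, ?_⟩
    rw [mul_inv_eq_iff_eq_mul] at e ⊢
    have c1 : X 71 (-z) * a = a * X 71 (-z) := (commute_top ha (-z)).eq
    have c2 : X 71 z * y = y * X 71 z := (commute_top hyr z).eq
    rw [mul_assoc a (X 71 z) y, c2, ← mul_assoc a y, e, mul_assoc y (X 71 (-z)) a, c1]
    simp only [mul_assoc]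
    rw [← X_add, neg_add_cancel, X_zero, mul_one]
  have kt : ∀ r ∈ qList, (116 - r ∈ longQ ∧ r ∈ longQ) ∨
      (116 - r ∈ shortQ ∧ graphSigmaE6 (116 - r) = 116 - graphSigmaE6 r ∧
        pairSign (graphSigmaE6 r) * graphEtaE6 r * graphEtaE6 (116 - r) * pairSign r = 1) ∨
      (graphSigmaE6 r ∈ qList ∧ 116 - graphSigmaE6 r ∈ shortQ ∧
        graphSigmaE6 (116 - graphSigmaE6 r) = 116 - graphSigmaE6 (graphSigmaE6 r) ∧
        pairSign (graphSigmaE6 (graphSigmaE6 r)) * graphEtaE6 (graphSigmaE6 r) *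
          graphEtaE6 (116 - graphSigmaE6 r) * pairSign (graphSigmaE6 r) = 1) := by
    decide +kernel
  have short : ∀ r ∈ qList, coord r (⟨a, ha⟩ : ↥(rad K)) ≠ 0 → 116 - r ∈ shortQ →
      graphSigmaE6 (116 - r) = 116 - graphSigmaE6 r →
      pairSign (graphSigmaE6 r) * graphEtaE6 r * graphEtaE6 (116 - r) * pairSign r = 1 →
      ∃ y ∈ twistedE6 K q, y * a * y⁻¹ = a * X 71 z := by
    intro r hr hcr hp hσp hsgn
    have hσr := (graphSigma_qList r hr).1
    set κ := kappa r (⟨a, ha⟩ : ↥(rad K)) with hκ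
    have hκ0 : κ ≠ 0 := by
      rw [hκ, hk r hr]
      refine mul_ne_zero ?_ hcr
      intro e
      have h1 := congrArg (fun m : ℤ => (m : K)) (pairSign_sq r hr)
      simp [e] at h1
    obtain ⟨t, ht⟩ := exists_add_pow hq hK hκ0 (neg_mem hz)
    refine fin (PE q (116 - r) t) (PE_mem_twisted hq hK (shortQ_mem _ hp).2.2.1 t) (PE_mem_radT hq hK hp t).2 ?_
    have hs : kappa (graphSigmaE6 r) (⟨a, ha⟩ : ↥(rad K)) * ((graphEtaE6 (116 - r) : K) * t ^ q) = (κ * t) ^ q := by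
      rw [hκ, hk r hr, hk _ hσr, htw r hr, mul_pow, mul_pow]
      have hps : ((pairSign r : K)) ^ q = (pairSign r : K) := (intCast_mem (fixF hq hK) _ : _)
      rw [hps]
      have := congrArg (fun m : ℤ => (m : K)) hsgn
      simp only [Int.cast_mul, Int.cast_one] at this
      have hsq : (pairSign r : K) * (pairSign r : K) = 1 := by
        rw [← Int.cast_mul, pairSign_sq r hr, Int.cast_one]
      linear_combination ((pairSign r : K) * coord r (⟨a, ha⟩ : ↥(rad K)) ^ q * t ^ q) * this -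
        ((pairSign (graphSigmaE6 r) : K) * (graphEtaE6 r : K) * (graphEtaE6 (116 - r) : K) *
          coord r (⟨a, ha⟩ : ↥(rad K)) ^ q * t ^ q) * hsq
    have h1 : a * X (116 - r) t * a⁻¹ = X (116 - r) t * X 71 (κ * t) := kappa_smul hr ⟨a, ha⟩ t
    have h2 := kappa_smul hσr ⟨a, ha⟩ ((graphEtaE6 (116 - r) : K) * t ^ q)
    rw [← hσp, hs] at h2
    rw [PE, show a * (X (116 - r) t * X (graphSigmaE6 (116 - r)) ((graphEtaE6 (116 - r) : K) * t ^ q)) * a⁻¹ =
      (a * X (116 - r) t * a⁻¹) * (a * X (graphSigmaE6 (116 - r)) ((graphEtaE6 (116 - r) : K) * t ^ q) * a⁻¹) by group,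
      h1]
    simp only at h2
    rw [h2, mul_assoc, ← mul_assoc (X 71 (κ * t)),
      (commute_top (X_mem_rad (List.mem_cons_of_mem _ (shortQ_mem _ hp).2.1) _) (κ * t)).eq, mul_assoc,
      ← X_add, ht, mul_assoc]
  rcases kt r₀ hr₀ with ⟨hp, hl⟩ | ⟨hp, hσp, hsgn⟩ | ⟨hσ, hp, hσp, hsgn⟩
  · set κ := kappa r₀ (⟨a, ha⟩ : ↥(rad K)) with hκ
    have hκ0 : κ ≠ 0 := by
      rw [hκ, hk r₀ hr₀]
      refine mul_ne_zero ?_ hc₀
      intro e
      have h1 := congrArg (fun m : ℤ => (m : K)) (pairSign_sq r₀ hr₀)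
      simp [e] at h1
    have hκm : κ ∈ fixF hq hK := by
      rw [hκ, hk r₀ hr₀]
      refine mul_mem (intCast_mem _ _) ?_
      have e := htw r₀ hr₀
      rw [(longQ_mem r₀ hl).2.2.1, (longQ_mem r₀ hl).2.2.2, Int.cast_one, one_mul] at e
      exact e.symm
    refine fin (X (116 - r₀) (κ⁻¹ * -z))
      (X_mem_twisted hq hK (longQ_mem _ hp).2.1 (mul_mem (inv_mem hκm) (neg_mem hz)))
      (X_mem_rad (List.mem_cons_of_mem _ (longQ_mem _ hp).1) _) ?_
    rw [kappa_smul hr₀ ⟨a, ha⟩, ← hκ, mul_inv_cancel_left₀ hκ0]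
  · exact short r₀ hr₀ hc₀ hp hσp hsgn
  · refine short _ hσ ?_ hp hσp hsgn
    rw [htw r₀ hr₀]
    refine mul_ne_zero ?_ (pow_ne_zero _ hc₀)
    intro e
    have k : ∀ r ∈ qList, graphEtaE6 r * graphEtaE6 r = 1 := by decide +kernel
    have h1 := congrArg (fun m : ℤ => (m : K)) (k r₀ hr₀)
    simp [e] at h1

end E6

end CfsgLib.Twisted
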