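import Cfsg.Agent.Lib.Twisted.E6Eigen

/-! Dimensions of fixed spaces of conjugate abelian subgroups of ²E₆(q). -/

set_option autoImplicit false
set_option linter.unusedSectionVars false
set_option linter.unusedSimpArgs false
set_option maxRecDepth 100000

namespace CfsgLib.Twisted

open Cfsg.Lie
open CfsgLib.Chevalley (cert_E6 auxE6 xG nG rootsU rootsU_induction acts_nG_simple etaAt)

namespace E6

variable {V : Type*} [AddCommGroup V] [Module ℂ V]

theorem finrank_fix_conj {G A : Type*} [Group G] [Monoid A] (ρ : Representation ℂ G V) (g : G) (f : A →* G) :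
    Module.finrank ℂ (RepFix.fix ρ ((MulAut.conj g).toMonoidHom.comp f)) = Module.finrank ℂ (RepFix.fix ρ f) := by
  let e : V ≃ₗ[ℂ] V := LinearEquiv.ofLinear (ρ g) (ρ g⁻¹)
    (by rw [← Module.End.mul_eq_comp, ← map_mul, mul_inv_cancel, map_one, Module.End.one_eq_id])
    (by rw [← Module.End.mul_eq_comp, ← map_mul, inv_mul_cancel, map_one, Module.End.one_eq_id])
  have h : RepFix.fix ρ ((MulAut.conj g).toMonoidHom.comp f) = (RepFix.fix ρ f).map e.toLinearMap := by
    ext v
    constructor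
    · intro hv
      refine ⟨ρ g⁻¹ v, fun a => ?_, e.apply_symm_apply v⟩
      have h1 : ρ (g * f a * g⁻¹) v = v := hv a
      rw [← Module.End.mul_apply, ← map_mul]
      conv_rhs => rw [← h1]
      rw [← Module.End.mul_apply, ← map_mul]
      group
    · rintro ⟨w, hw, rfl⟩ a
      show ρ (g * f a * g⁻¹) (ρ g w) = ρ g w
      rw [← Module.End.mul_apply, ← map_mul, inv_mul_cancel_right, map_mul, Module.End.mul_apply, hw a]
  rw [h, LinearEquiv.finrank_map_eq]

variable {K : Type*} [Field K] [Fintype K] {q : ℕ} (hq : IsPrimePow q) (hK : Fintype.card K = q ^ 2)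
include hq hK

omit hq hK in
theorem commute_op_top {a : ℕ} (ha : a ∈ opList) (u z : K) : Commute (X a u) (X 71 z) := by
  have k : ∀ a ∈ opList, a < 72 ∧ 71 < 72 ∧ 71 ≠ a ∧ 71 ≠ chevE6.neg a ∧ chevE6.commTerms a 71 = [] := by
    decide +kernel
  exact comm (k a ha) u z

omit hq hK in
theorem commute_gD_top (U S T z : K) : Commute (gD U S T) (X 71 z) :=
  (commute_op_top (by decide) _ _).mul_left ((commute_op_top (by decide) _ _).mul_left (commute_op_top (by decide) _ _))

omit hq hK in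
/-- the reflection at the fundamental root joined to the lowest one, with a parameter -/
noncomputable def refl2 (c : K) : GL chevE6.Idx K := nG cert_E6 46 c

theorem refl2_mem {c : K} (hc : c ∈ fixF hq hK) : refl2 c ∈ twistedE6 K q := by
  rw [refl2, nG, show chevE6.neg 46 = 25 from rfl]
  have h46 : ∀ t ∈ fixF hq hK, X 46 t ∈ twistedE6 K q := fun t ht => X_mem_twisted hq hK (by decide) ht
  have h25 : ∀ t ∈ fixF hq hK, X 25 t ∈ twistedE6 K q := fun t ht => X_mem_twisted hq hK (by decide) ht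
  exact mul_mem (mul_mem (h46 c hc) (h25 _ (neg_mem (inv_mem hc)))) (h46 c hc)

omit hq hK in
theorem conj_refl2 {s s' : ℕ} {n e : ℤ} (h : s < 72 ∧ chevE6.reflectRoot 1 s = s' ∧ -chevE6.cartan 1 s = n ∧
    etaAt auxE6 1 s = e) {c : K} (hc : c ≠ 0) (t : K) :
    refl2 c * X s t * (refl2 c)⁻¹ = X s' ((e : K) * c ^ n * t) := by
  obtain ⟨hs, rfl, rfl, rfl⟩ := h
  exact (acts_nG_simple fullE6 (1 : Fin 6) hc).conj (⟨s, hs⟩ : Fin 72) t

/-- the highest root group -/
noncomputable def fZ : Multiplicative ↥(fixF hq hK) →* ↥(twistedE6 K q) where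
  toFun z := ⟨X 71 (z.toAdd : K), X_mem_twisted hq hK (by decide) z.toAdd.2⟩
  map_one' := Subtype.ext (X_zero _)
  map_mul' a b := Subtype.ext (X_add 71 (a.toAdd : K) (b.toAdd : K))

/-- parameters of the long diagonal elements -/
abbrev DPar : Type _ := ↥(fixF hq hK) × ↥(fixF hq hK) × ↥(fixF hq hK)

/-- the long diagonal elements -/
noncomputable def fD : Multiplicative (DPar hq hK) →* ↥(twistedE6 K q) where
  toFun d := ⟨gD (d.toAdd.1 : K) (d.toAdd.2.1 : K) (d.toAdd.2.2 : K),
    gD_mem hq hK d.toAdd.1.2 d.toAdd.2.1.2 d.toAdd.2.2.2⟩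
  map_one' := by
    refine Subtype.ext ?_
    show gD (0 : K) 0 0 = 1
    rw [gD, X_zero, X_zero, X_zero, one_mul, one_mul]
  map_mul' a b := by
    refine Subtype.ext ?_
    show gD ((a.toAdd.1 : K) + b.toAdd.1) ((a.toAdd.2.1 : K) + b.toAdd.2.1) ((a.toAdd.2.2 : K) + b.toAdd.2.2) =
      gD _ _ _ * gD _ _ _
    rw [← herm_hv3, ← herm_hv3, ← herm_hv3, ← herm_add]
    congr 1
    funext j; fin_cases j <;> simp [hv3]

/-- the product of the highest root group and the long diagonal elements -/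
noncomputable def fZD : Multiplicative ↥(fixF hq hK) × Multiplicative (DPar hq hK) →* ↥(twistedE6 K q) :=
  (fZ hq hK).noncommCoprod (fD hq hK) fun z d => Subtype.ext (commute_gD_top (d.toAdd.1 : K) _ _ _).symm

/-- the reflection as an element of the group -/
noncomputable def nFrame : ↥(twistedE6 K q) := ⟨refl2 1, refl2_mem hq hK (one_mem _)⟩

/-- a conjugate of the highest root group inside the radical -/
noncomputable def fT : Multiplicative ↥(fixF hq hK) →* ↥(twistedE6 K q) :=
  (MulAut.conj (nFrame hq hK)).toMonoidHom.comp (fZ hq hK)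

/-- four orthogonal root groups inside the radical -/
noncomputable def fF : Multiplicative ↥(fixF hq hK) × Multiplicative (DPar hq hK) →* ↥(twistedE6 K q) :=
  (MulAut.conj (nFrame hq hK)).toMonoidHom.comp (fZD hq hK)

omit hq hK in
theorem table_refl : (71 < 72 ∧ chevE6.reflectRoot 1 71 = 70 ∧ -chevE6.cartan 1 71 = -1 ∧
      (etaAt auxE6 1 71 = 1 ∨ etaAt auxE6 1 71 = -1)) ∧
    (39 < 72 ∧ chevE6.reflectRoot 1 39 = 47 ∧ -chevE6.cartan 1 39 = 1 ∧
      (etaAt auxE6 1 39 = 1 ∨ etaAt auxE6 1 39 = -1)) ∧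
    (44 < 72 ∧ chevE6.reflectRoot 1 44 = 51 ∧ -chevE6.cartan 1 44 = 1 ∧
      (etaAt auxE6 1 44 = 1 ∨ etaAt auxE6 1 44 = -1)) ∧
    (60 < 72 ∧ chevE6.reflectRoot 1 60 = 63 ∧ -chevE6.cartan 1 60 = 1 ∧
      (etaAt auxE6 1 60 = 1 ∨ etaAt auxE6 1 60 = -1)) := by
  decide +kernel

omit hq hK in
/-- the signs by which the reflection moves the root groups `71, 39, 44, 60` -/
noncomputable def frameSign (K : Type*) [Field K] (r : ℕ) : K := ((etaAt auxE6 1 r : ℤ) : K)

omit hq hK in
theorem frameSign_ne (r : ℕ) (h : r ∈ [71, 39, 44, 60]) : frameSign K r ≠ 0 := by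
  obtain ⟨⟨-, -, -, h1⟩, ⟨-, -, -, h2⟩, ⟨-, -, -, h3⟩, ⟨-, -, -, h4⟩⟩ := table_refl
  simp only [List.mem_cons, List.not_mem_nil, or_false] at h
  rcases h with rfl | rfl | rfl | rfl
  · rcases h1 with e | e <;> simp [frameSign, e]
  · rcases h2 with e | e <;> simp [frameSign, e]
  · rcases h3 with e | e <;> simp [frameSign, e]
  · rcases h4 with e | e <;> simp [frameSign, e]

theorem coe_fT (z : ↥(fixF hq hK)) :
    ((fT hq hK (Multiplicative.ofAdd z) : ↥(twistedE6 K q)) : GL chevE6.Idx K) = X 70 (frameSign K 71 * z) := by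
  obtain ⟨⟨a, b, c, -⟩, -⟩ := table_refl
  show refl2 1 * X 71 (z : K) * (refl2 1)⁻¹ = _
  rw [conj_refl2 ⟨a, b, c, rfl⟩ one_ne_zero]
  simp [frameSign]

theorem coe_fF (z U S T : ↥(fixF hq hK)) :
    ((fF hq hK (Multiplicative.ofAdd z, Multiplicative.ofAdd (U, S, T)) : ↥(twistedE6 K q)) : GL chevE6.Idx K) =
      X 70 (frameSign K 71 * z) * (X 47 (frameSign K 39 * U) * (X 51 (frameSign K 44 * S) *
        X 63 (frameSign K 60 * T))) := by
  obtain ⟨⟨a1, b1, c1, -⟩, ⟨a2, b2, c2, -⟩, ⟨a3, b3, c3, -⟩, ⟨a4, b4, c4, -⟩⟩ := table_refl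
  show refl2 1 * (X 71 (z : K) * (X 39 (U : K) * (X 44 (S : K) * X 60 (T : K)))) * (refl2 1)⁻¹ = _
  have e : ∀ g a b c d : GL chevE6.Idx K, g * (a * (b * (c * d))) * g⁻¹ =
      (g * a * g⁻¹) * ((g * b * g⁻¹) * ((g * c * g⁻¹) * (g * d * g⁻¹))) := fun g a b c d => by group
  rw [e, conj_refl2 ⟨a1, b1, c1, rfl⟩ one_ne_zero, conj_refl2 ⟨a2, b2, c2, rfl⟩ one_ne_zero,
    conj_refl2 ⟨a3, b3, c3, rfl⟩ one_ne_zero, conj_refl2 ⟨a4, b4, c4, rfl⟩ one_ne_zero]
  simp [frameSign]

/-- ten commuting roots of the radical spanning a maximal isotropic subgroup -/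
def aRoot : Fin 10 → ℕ := ![53, 65, 69, 70, 54, 64, 55, 67, 66, 68]

omit hq hK in
theorem table_a : (∀ i j : Fin 10, i ≠ j → aRoot i < 72 ∧ aRoot j < 72 ∧ aRoot j ≠ aRoot i ∧
      aRoot j ≠ chevE6.neg (aRoot i) ∧ chevE6.commTerms (aRoot i) (aRoot j) = []) ∧
    ∀ i, aRoot i ∈ qList := by
  decide +kernel

omit hq hK in
/-- the maximal isotropic subgroup, in the split group -/
noncomputable def aS (K : Type*) [Field K] : (Fin 10 → Multiplicative K) →* GL chevE6.Idx K :=
  MonoidHom.noncommPiCoprod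
    (fun i => { toFun := fun t => X (aRoot i) t.toAdd
                map_one' := X_zero _
                map_mul' := fun t u => X_add (aRoot i) t.toAdd u.toAdd })
    (fun i j hij t u => comm (table_a.1 i j hij) t.toAdd u.toAdd)

/-- parameters of the maximal isotropic subgroup -/
abbrev APar : Type _ := (Fin 4 → ↥(fixF hq hK)) × (Fin 3 → K)

omit hq hK in
/-- the coordinates of its elements inside ²E₆(q) -/
def aVec (q : ℕ) (c : Fin 4 → K) (d : Fin 3 → K) : Fin 10 → K :=
  ![c 0, c 1, c 2, c 3, d 0, (graphEtaE6 54 : K) * d 0 ^ q, d 1, (graphEtaE6 55 : K) * d 1 ^ q,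
    d 2, (graphEtaE6 66 : K) * d 2 ^ q]

omit hq hK in
theorem aS_single (i : Fin 10) (t : K) :
    aS K (fun j => Multiplicative.ofAdd ((Pi.single i t : Fin 10 → K) j)) = X (aRoot i) t := by
  have e : (fun j => Multiplicative.ofAdd ((Pi.single i t : Fin 10 → K) j)) =
      (Pi.mulSingle i (Multiplicative.ofAdd t) : Fin 10 → Multiplicative K) := by
    funext j
    by_cases h : j = i
    · subst h; simp
    · simp [h]
  rw [e]
  exact MonoidHom.noncommPiCoprod_mulSingle _ _ _

omit hq hK in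
theorem table_a_inj : Function.Injective aRoot := by decide +kernel

omit hq hK in
/-- the elements of the isotropic subgroup lie in the radical and are read off by the coordinates -/
theorem aS_coord (v : Fin 10 → Multiplicative K) :
    ∃ h : aS K v ∈ rad K, ∀ i, coord (aRoot i) (⟨_, h⟩ : ↥(rad K)) = (v i).toAdd := by
  classical
  obtain ⟨w, rfl⟩ : ∃ w : Fin 10 → K, (fun j => Multiplicative.ofAdd (w j)) = v :=
    ⟨fun j => (v j).toAdd, rfl⟩
  simp only [toAdd_ofAdd]
  rw [← Finset.univ_sum_single w]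
  induction (Finset.univ : Finset (Fin 10)) using Finset.induction_on with
  | empty =>
    have e : aS K (fun j => Multiplicative.ofAdd ((∑ x ∈ (∅ : Finset (Fin 10)), Pi.single x (w x)) j)) = 1 := by
      rw [← map_one (aS K)]; congr 1
    refine ⟨by rw [e]; exact one_mem _, fun i => ?_⟩
    have h1 : coord (aRoot i) (1 : ↥(rad K)) = 0 := by
      have := coord_mul (aRoot i) (1 : ↥(rad K)) 1
      rwa [one_mul, left_eq_add] at this
    rw [show (⟨_, _⟩ : ↥(rad K)) = 1 from Subtype.ext e]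
    simpa using h1
  | insert a s has ih =>
    obtain ⟨hs, hc⟩ := ih
    have e : aS K (fun j => Multiplicative.ofAdd ((∑ x ∈ insert a s, Pi.single x (w x)) j)) =
        X (aRoot a) (w a) * aS K (fun j => Multiplicative.ofAdd ((∑ x ∈ s, Pi.single x (w x)) j)) := by
      rw [← aS_single, ← map_mul]
      congr 1
      funext j
      rw [Finset.sum_insert has, Pi.add_apply]
      rfl
    have ha := X_mem_rad (K := K) (List.mem_cons_of_mem _ (table_a.2 a)) (w a)
    refine ⟨by rw [e]; exact mul_mem ha hs, fun i => ?_⟩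
    rw [show (⟨_, _⟩ : ↥(rad K)) = (⟨_, ha⟩ : ↥(rad K)) * (⟨_, hs⟩ : ↥(rad K)) from Subtype.ext e]
    rw [coord_mul, hc, coord_X (table_a.2 i) (List.mem_cons_of_mem _ (table_a.2 a)), Finset.sum_insert has,
      Pi.add_apply]
    congr 1
    rcases eq_or_ne a i with rfl | hne
    · rw [if_pos rfl, Pi.single_eq_same]
    · rw [if_neg (fun h => hne (table_a_inj h)), Pi.single_eq_of_ne hne.symm]

omit hq hK in
theorem aS_mem_rad (v : Fin 10 → Multiplicative K) : aS K v ∈ rad K := (aS_coord v).1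

/-- the maximal isotropic subgroup inside ²E₆(q) -/
noncomputable def fA : Multiplicative (APar hq hK) →* ↥(twistedE6 K q) :=
  MonoidHom.codRestrict
    { toFun := fun p => aS K fun j => Multiplicative.ofAdd (aVec q (fun i => (p.toAdd.1 i : K)) p.toAdd.2 j)
      map_one' := by
        rw [← map_one (aS K)]
        congr 1
        funext j
        fin_cases j <;> simp [aVec, zero_pow hq.pos.ne'] <;> rfl
      map_mul' := fun a b => by
        rw [← map_mul]
        congr 1
        funext j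
        rw [Pi.mul_apply, ← ofAdd_add]
        congr 1
        fin_cases j <;> simp [aVec, pow_q_add hq hK, mul_add] }
    (twistedE6 K q) fun p => by
      set c := fun i => (p.toAdd.1 i : K) with hc
      set d := p.toAdd.2
      have e : aVec q c d = Pi.single (0 : Fin 10) (c 0) + Pi.single (1 : Fin 10) (c 1) + Pi.single (2 : Fin 10) (c 2) +
          Pi.single (3 : Fin 10) (c 3) + (Pi.single (4 : Fin 10) (d 0) + Pi.single (5 : Fin 10) ((graphEtaE6 54 : K) * d 0 ^ q)) +
          (Pi.single (6 : Fin 10) (d 1) + Pi.single (7 : Fin 10) ((graphEtaE6 55 : K) * d 1 ^ q)) +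
          (Pi.single (8 : Fin 10) (d 2) + Pi.single (9 : Fin 10) ((graphEtaE6 66 : K) * d 2 ^ q)) := by
        funext j; fin_cases j <;> simp [aVec, Pi.single_apply]
      have hadd : ∀ x y : Fin 10 → K, aS K (fun j => Multiplicative.ofAdd ((x + y) j)) =
          aS K (fun j => Multiplicative.ofAdd (x j)) * aS K (fun j => Multiplicative.ofAdd (y j)) := fun x y => by
        rw [← map_mul]; rfl
      show aS K (fun j => Multiplicative.ofAdd (aVec q c d j)) ∈ twistedE6 K q
      rw [e, hadd, hadd, hadd, hadd, hadd, hadd, hadd, hadd, hadd]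
      simp only [aS_single]
      have hs : graphSigmaE6 54 = 64 ∧ graphSigmaE6 55 = 67 ∧ graphSigmaE6 66 = 68 := by decide +kernel
      refine mul_mem (mul_mem (mul_mem (mul_mem (mul_mem (mul_mem ?_ ?_) ?_) ?_) ?_) ?_) ?_
      · exact X_mem_twisted hq hK (show (53 : ℕ) ∈ plansOne.map Prod.fst by decide) (p.toAdd.1 0).2
      · exact X_mem_twisted hq hK (show (65 : ℕ) ∈ plansOne.map Prod.fst by decide) (p.toAdd.1 1).2
      · exact X_mem_twisted hq hK (show (69 : ℕ) ∈ plansOne.map Prod.fst by decide) (p.toAdd.1 2).2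
      · exact X_mem_twisted hq hK (show (70 : ℕ) ∈ plansOne.map Prod.fst by decide) (p.toAdd.1 3).2
      · have h := PE_mem_twisted hq hK (show (54 : ℕ) ∈ plansTwo.map Prod.fst by decide) (d 0)
        rwa [PE, hs.1] at h
      · have h := PE_mem_twisted hq hK (show (55 : ℕ) ∈ plansTwo.map Prod.fst by decide) (d 1)
        rwa [PE, hs.2.1] at h
      · have h := PE_mem_twisted hq hK (show (66 : ℕ) ∈ plansTwo.map Prod.fst by decide) (d 2)
        rwa [PE, hs.2.2] at h

variable [FiniteDimensional ℂ V] (ρ : Representation ℂ ↥(twistedE6 K q) V)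

theorem trace_translate {a : ↥(twistedE6 K q)} (ha : (a : GL chevE6.Idx K) ∈ rad K)
    (hne : ∃ r ∈ qList, coord r (⟨_, ha⟩ : ↥(rad K)) ≠ 0) (z : Multiplicative ↥(fixF hq hK)) :
    LinearMap.trace ℂ V (ρ (a * fZ hq hK z)) = LinearMap.trace ℂ V (ρ a) := by
  obtain ⟨y, hy, e⟩ := exists_conj_top hq hK a.2 ha hne z.toAdd.2
  have e' : a * fZ hq hK z = (⟨y, hy⟩ : ↥(twistedE6 K q)) * a * ⟨y, hy⟩⁻¹ := Subtype.ext e.symm
  rw [e', map_mul, LinearMap.trace_mul_comm, ← map_mul, ← mul_assoc, inv_mul_cancel, one_mul]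

theorem trace_top {t u : ↥(fixF hq hK)} (ht : t ≠ 0) (hu : u ≠ 0) :
    LinearMap.trace ℂ V (ρ (fZ hq hK (Multiplicative.ofAdd t))) =
      LinearMap.trace ℂ V (ρ (fZ hq hK (Multiplicative.ofAdd u))) := by
  obtain ⟨⟨a, b, c, -⟩, -⟩ := table_refl
  have hs := frameSign_ne (K := K) 71 (by simp)
  have key : ∀ t : ↥(fixF hq hK), t ≠ 0 → ∃ g h : ↥(twistedE6 K q),
      (h : GL chevE6.Idx K) = X 70 1 ∧ g * fZ hq hK (Multiplicative.ofAdd t) * g⁻¹ = h := by
    intro t ht
    have hc : frameSign K 71 * (t : K) ∈ fixF hq hK := mul_mem (intCast_mem _ _) t.2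
    refine ⟨⟨_, refl2_mem hq hK hc⟩, ⟨X 70 1, X_mem_twisted hq hK (by decide) (one_mem _)⟩, rfl, Subtype.ext ?_⟩
    show refl2 _ * X 71 (t : K) * (refl2 _)⁻¹ = X 70 1
    rw [conj_refl2 ⟨a, b, c, rfl⟩ (mul_ne_zero hs fun e => ht (Subtype.ext e))]
    congr 1
    show frameSign K 71 * _ * _ = _
    have ht' : (t : K) ≠ 0 := fun e => ht (Subtype.ext e)
    rw [zpow_neg_one]
    field_simp
  have conjTr : ∀ g x : ↥(twistedE6 K q), LinearMap.trace ℂ V (ρ (g * x * g⁻¹)) = LinearMap.trace ℂ V (ρ x) := by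
    intro g x
    rw [map_mul, LinearMap.trace_mul_comm, ← map_mul, ← mul_assoc, inv_mul_cancel, one_mul]
  obtain ⟨g, h, hh, e⟩ := key t ht
  obtain ⟨g', h', hh', e'⟩ := key u hu
  rw [← conjTr g, e, ← conjTr g' (fZ hq hK _), e', Subtype.ext (hh.trans hh'.symm)]

omit hq hK in
theorem fix_noncommCoprod {G M N : Type*} [Group G] [Monoid M] [Monoid N] (σ : Representation ℂ G V)
    (f : M →* G) (g : N →* G) (h : ∀ m n, Commute (f m) (g n)) :
    RepFix.fix σ (f.noncommCoprod g h) = RepFix.fix σ f ⊓ RepFix.fix σ g := by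
  ext v
  constructor
  · intro hv
    exact ⟨fun m => by simpa using hv (m, 1), fun n => by simpa using hv (1, n)⟩
  · rintro ⟨h1, h2⟩ ⟨m, n⟩
    rw [MonoidHom.noncommCoprod_apply, map_mul, Module.End.mul_apply, h2 n, h1 m]

theorem card_DPar : Nat.card (DPar hq hK) = q ^ 3 := by
  rw [Nat.card_prod, Nat.card_prod, card_fixF hq hK]; ring

theorem card_APar : Nat.card (APar hq hK) = q ^ 10 := by
  rw [Nat.card_prod, Nat.card_fun, Nat.card_fun, card_fixF hq hK, Nat.card_eq_fintype_card (α := K), hK,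
    Nat.card_fin, Nat.card_fin]
  ring

/-- the part without fixed vectors of the highest root group -/
theorem exists_dim_eq {ε : AddChar K ℂ} (hε : ∃ l ∈ fixF hq hK, ε l ≠ 1) :
    ∃ m : ℕ, Module.finrank ℂ V =
      Module.finrank ℂ (RepFix.fix ρ (fZ hq hK)) + (q - 1) * (q ^ 10 * m) := by
  classical
  let _ : Fintype ↥(fixF hq hK) := Fintype.ofFinite _
  let _ : Fintype (Multiplicative (APar hq hK)) := Fintype.ofFinite _
  have hcomm : ∀ p z, Commute (fA hq hK p) (fZ hq hK z) := fun p z =>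
    Subtype.ext (commute_top (aS_mem_rad _) (z.toAdd : K)).eq.symm
  let εL : AddChar ↥(fixF hq hK) ℂ :=
    { toFun := fun t => ε (t : K)
      map_zero_eq_one' := by simp
      map_add_eq_mul' := fun a b => by simp [AddChar.map_add_eq_mul] }
  have hεL : εL ≠ 1 := by
    obtain ⟨l, hl, hne⟩ := hε
    exact AddChar.ne_one_iff.2 ⟨⟨l, hl⟩, hne⟩
  obtain ⟨m, hm⟩ := RepFix.exists_finrank_eq ρ (fZ hq hK) (fun t u ht hu => trace_top hq hK ρ ht hu)
    (fA hq hK) ((fA hq hK).noncommCoprod (fZ hq hK) hcomm) (fun p => MonoidHom.noncommCoprod_apply _ _ _ p)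
    (fun a ha z => by
      have hmem : ((fA hq hK a : ↥(twistedE6 K q)) : GL chevE6.Idx K) ∈ rad K :=
        aS_mem_rad (fun j => Multiplicative.ofAdd (aVec q (fun i => (a.toAdd.1 i : K)) a.toAdd.2 j))
      refine trace_translate hq hK ρ hmem ?_ z
      by_contra hall
      push Not at hall
      apply ha
      have hv : ∀ i, aVec q (fun i => (a.toAdd.1 i : K)) a.toAdd.2 i = 0 := fun i =>
        ((aS_coord (fun j => Multiplicative.ofAdd (aVec q (fun i => (a.toAdd.1 i : K)) a.toAdd.2 j))).2 i).symm.trans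
          (hall _ (table_a.2 i))
      show a = Multiplicative.ofAdd (0 : APar hq hK)
      refine Prod.ext (funext fun i => Subtype.ext ?_) (funext fun i => ?_)
      · fin_cases i
        exacts [hv 0, hv 1, hv 2, hv 3]
      · fin_cases i
        exacts [hv 4, hv 6, hv 8])
    εL hεL
  refine ⟨m, ?_⟩
  rw [hm, Fintype.card_eq_nat_card, Fintype.card_eq_nat_card, card_fixF hq hK,
    Nat.card_congr Multiplicative.toAdd, card_APar hq hK]

end E6

end CfsgLib.Twisted
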