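import Cfsg.Agent.Lib.Twisted.E6Cells

/-! Elements of the Levi subgroup of ²E₆(q) used for the orbit of the highest weight character. -/

set_option autoImplicit false
set_option linter.unusedSectionVars false
set_option linter.unusedSimpArgs false
set_option maxRecDepth 100000

namespace CfsgLib.Twisted

open Cfsg.Lie
open CfsgLib.Chevalley (cert_E6 xG)

namespace E6

variable {K : Type*} [Field K] {q : ℕ}

theorem opList_pairs : ∀ a ∈ [56, 15, 14, 29, 42, 57, 40, 41, 45],
    a ∈ opList ∧ graphSigmaE6 a ∈ opList ∧ a ∈ plansTwo.map Prod.fst := by decide +kernel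

theorem glList_pairs : ∀ a ∈ [56, 15, 14, 29, 42, 57], a ∈ glList ∧ graphSigmaE6 a ∈ glList := by decide +kernel

theorem shifts_pair {a : ℕ} (ha : a ∈ [56, 15, 14, 29, 42, 57, 40, 41, 45]) (u : K) :
    Shifts (PE q a u) (stepP q a u) :=
  shifts_PE (opList_pairs a ha).1 (opList_pairs a ha).2.1 u

/-- the element of the radical of the Levi subgroup -/
noncomputable def gH (q : ℕ) (A B D x y z : K) : GL chevE6.Idx K :=
  X 39 A * (X 44 B * (X 60 D * (PE q 40 x * (PE q 41 y * PE q 45 z))))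

theorem shifts_gH (A B D x y z : K) : Shifts (gH q A B D x y z) (TH q A B D x y z) :=
  (shifts_X (by decide) A).mul ((shifts_X (by decide) B).mul ((shifts_X (by decide) D).mul
    ((shifts_pair (by decide) x).mul ((shifts_pair (by decide) y).mul (shifts_pair (by decide) z)))))

/-- a long diagonal element -/
noncomputable def gD (U S T : K) : GL chevE6.Idx K := X 39 U * (X 44 S * X 60 T)

theorem shifts_gD (U S T : K) : Shifts (gD U S T) (TD U S T) :=
  (shifts_X (by decide) U).mul ((shifts_X (by decide) S).mul (shifts_X (by decide) T))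

/-- the vector of a long diagonal element -/
def hv3 (U S T : K) : Fin 9 → K := ![U, S, T, 0, 0, 0, 0, 0, 0]

/-- the vector of an element of an orbit of length two -/
def hv40 (q : ℕ) (t : K) : Fin 9 → K := ![0, 0, 0, t, -t ^ q, 0, 0, 0, 0]

/-- the vector of an element of an orbit of length two -/
def hv41 (q : ℕ) (t : K) : Fin 9 → K := ![0, 0, 0, 0, 0, t, t ^ q, 0, 0]

/-- the vector of an element of an orbit of length two -/
def hv45 (q : ℕ) (t : K) : Fin 9 → K := ![0, 0, 0, 0, 0, 0, 0, t, -t ^ q]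

theorem herm_hv3 (U S T : K) : herm (hv3 U S T) = gD U S T := by
  have e : hv3 U S T = Pi.single (0 : Fin 9) U + (Pi.single (1 : Fin 9) S + Pi.single (2 : Fin 9) T) := by
    funext j; fin_cases j <;> simp [hv3, Pi.single_apply]
  rw [e, herm_add, herm_add, herm_single, herm_single, herm_single]
  rfl

theorem herm_hv40 (t : K) : herm (hv40 q t) = PE q 40 t := by
  have e : hv40 q t = Pi.single (3 : Fin 9) t + Pi.single (4 : Fin 9) (-t ^ q) := by
    funext j; fin_cases j <;> simp [hv40, Pi.single_apply]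
  rw [e, herm_add, herm_single, herm_single, PE, sig40.1, sig40.2]
  simp [hRoot]

theorem herm_hv41 (t : K) : herm (hv41 q t) = PE q 41 t := by
  have e : hv41 q t = Pi.single (5 : Fin 9) t + Pi.single (6 : Fin 9) (t ^ q) := by
    funext j; fin_cases j <;> simp [hv41, Pi.single_apply]
  rw [e, herm_add, herm_single, herm_single, PE, sig41.1, sig41.2]
  simp [hRoot]

theorem herm_hv45 (t : K) : herm (hv45 q t) = PE q 45 t := by
  have e : hv45 q t = Pi.single (7 : Fin 9) t + Pi.single (8 : Fin 9) (-t ^ q) := by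
    funext j; fin_cases j <;> simp [hv45, Pi.single_apply]
  rw [e, herm_add, herm_single, herm_single, PE, sig45.1, sig45.2]
  simp [hRoot]

/-- conjugation by an element of an orbit of length two, on nine coordinates -/
def herP (q a : ℕ) (u : K) (v : Fin 9 → K) : Fin 9 → K :=
  herStep a u (herStep (graphSigmaE6 a) ((graphEtaE6 a : K) * u ^ q) v)

/-- conjugation by the inverse of an element of an orbit of length two, on nine coordinates -/
def herI (q a : ℕ) (u : K) (v : Fin 9 → K) : Fin 9 → K :=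
  herStep (graphSigmaE6 a) (-((graphEtaE6 a : K) * u ^ q)) (herStep a (-u) v)

theorem conj_PE_herm {a : ℕ} (ha : a ∈ [56, 15, 14, 29, 42, 57]) (u : K) (v : Fin 9 → K) :
    PE q a u * herm v * (PE q a u)⁻¹ = herm (herP q a u v) := by
  obtain ⟨h1, h2⟩ := glList_pairs a ha
  rw [PE, mul_inv_rev, herP, ← conj_herm h1, ← conj_herm h2]
  group

theorem conj_PE_inv_herm {a : ℕ} (ha : a ∈ [56, 15, 14, 29, 42, 57]) (u : K) (v : Fin 9 → K) :
    (PE q a u)⁻¹ * herm v * PE q a u = herm (herI q a u v) := by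
  obtain ⟨h1, h2⟩ := glList_pairs a ha
  rw [PE, mul_inv_rev, herI, ← conj_herm h2, ← conj_herm h1, X_neg, X_neg]
  group

theorem her56 (u v0 v1 v2 v3 v4 v5 v6 v7 v8 : K) :
    herStep 56 u ![v0, v1, v2, v3, v4, v5, v6, v7, v8] = ![v0, v1, v2 - u * v7, v3, v4, v5, v6 - u * v4, v7, v8 - u * v1] := by
  funext j; fin_cases j <;> simp [herStep, herTab, Fin.ext_iff] <;> ring

theorem her36 (u v0 v1 v2 v3 v4 v5 v6 v7 v8 : K) :
    herStep 36 u ![v0, v1, v2, v3, v4, v5, v6, v7, v8] = ![v0, v1, v2 + u * v8, v3, v4, v5 + u * v3, v6, v7 + u * v1, v8] := by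
  funext j; fin_cases j <;> simp [herStep, herTab, Fin.ext_iff] <;> ring

theorem her15 (u v0 v1 v2 v3 v4 v5 v6 v7 v8 : K) :
    herStep 15 u ![v0, v1, v2, v3, v4, v5, v6, v7, v8] = ![v0, v1 - u * v8, v2, v3, v4 - u * v6, v5, v6, v7 - u * v2, v8] := by
  funext j; fin_cases j <;> simp [herStep, herTab, Fin.ext_iff] <;> ring

theorem her35 (u v0 v1 v2 v3 v4 v5 v6 v7 v8 : K) :
    herStep 35 u ![v0, v1, v2, v3, v4, v5, v6, v7, v8] = ![v0, v1 + u * v7, v2, v3 + u * v5, v4, v5, v6, v7, v8 + u * v2] := by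
  funext j; fin_cases j <;> simp [herStep, herTab, Fin.ext_iff] <;> ring

theorem her14 (u v0 v1 v2 v3 v4 v5 v6 v7 v8 : K) :
    herStep 14 u ![v0, v1, v2, v3, v4, v5, v6, v7, v8] = ![v0 - u * v6, v1, v2, v3 - u * v8, v4, v5 - u * v2, v6, v7, v8] := by
  funext j; fin_cases j <;> simp [herStep, herTab, Fin.ext_iff] <;> ring

theorem her33 (u v0 v1 v2 v3 v4 v5 v6 v7 v8 : K) :
    herStep 33 u ![v0, v1, v2, v3, v4, v5, v6, v7, v8] = ![v0 + u * v5, v1, v2, v3, v4 + u * v7, v5, v6 + u * v2, v7, v8] := by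
  funext j; fin_cases j <;> simp [herStep, herTab, Fin.ext_iff] <;> ring

theorem her29 (u v0 v1 v2 v3 v4 v5 v6 v7 v8 : K) :
    herStep 29 u ![v0, v1, v2, v3, v4, v5, v6, v7, v8] = ![v0 - u * v4, v1, v2, v3 - u * v1, v4, v5 - u * v7, v6, v7, v8] := by
  funext j; fin_cases j <;> simp [herStep, herTab, Fin.ext_iff] <;> ring

theorem her34 (u v0 v1 v2 v3 v4 v5 v6 v7 v8 : K) :
    herStep 34 u ![v0, v1, v2, v3, v4, v5, v6, v7, v8] = ![v0 + u * v3, v1, v2, v3, v4 + u * v1, v5, v6 + u * v8, v7, v8] := by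
  funext j; fin_cases j <;> simp [herStep, herTab, Fin.ext_iff] <;> ring

theorem her42 (u v0 v1 v2 v3 v4 v5 v6 v7 v8 : K) :
    herStep 42 u ![v0, v1, v2, v3, v4, v5, v6, v7, v8] = ![v0, v1 - u * v3, v2, v3, v4 - u * v0, v5, v6, v7 - u * v5, v8] := by
  funext j; fin_cases j <;> simp [herStep, herTab, Fin.ext_iff] <;> ring

theorem her37 (u v0 v1 v2 v3 v4 v5 v6 v7 v8 : K) :
    herStep 37 u ![v0, v1, v2, v3, v4, v5, v6, v7, v8] = ![v0, v1 + u * v4, v2, v3 + u * v0, v4, v5, v6, v7, v8 + u * v6] := by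
  funext j; fin_cases j <;> simp [herStep, herTab, Fin.ext_iff] <;> ring

theorem her57 (u v0 v1 v2 v3 v4 v5 v6 v7 v8 : K) :
    herStep 57 u ![v0, v1, v2, v3, v4, v5, v6, v7, v8] = ![v0, v1, v2 - u * v5, v3, v4, v5, v6 - u * v0, v7, v8 - u * v3] := by
  funext j; fin_cases j <;> simp [herStep, herTab, Fin.ext_iff] <;> ring

theorem her38 (u v0 v1 v2 v3 v4 v5 v6 v7 v8 : K) :
    herStep 38 u ![v0, v1, v2, v3, v4, v5, v6, v7, v8] = ![v0, v1, v2 + u * v6, v3, v4, v5 + u * v0, v6, v7 + u * v4, v8] := by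
  funext j; fin_cases j <;> simp [herStep, herTab, Fin.ext_iff] <;> ring

theorem vec_add (a0 a1 a2 a3 a4 a5 a6 a7 a8 b0 b1 b2 b3 b4 b5 b6 b7 b8 : K) :
    (![a0, a1, a2, a3, a4, a5, a6, a7, a8] : Fin 9 → K) + ![b0, b1, b2, b3, b4, b5, b6, b7, b8] =
      ![a0 + b0, a1 + b1, a2 + b2, a3 + b3, a4 + b4, a5 + b5, a6 + b6, a7 + b7, a8 + b8] := by
  funext j; fin_cases j <;> rfl

theorem vec_sub (a0 a1 a2 a3 a4 a5 a6 a7 a8 b0 b1 b2 b3 b4 b5 b6 b7 b8 : K) :
    (![a0, a1, a2, a3, a4, a5, a6, a7, a8] : Fin 9 → K) - ![b0, b1, b2, b3, b4, b5, b6, b7, b8] =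
      ![a0 - b0, a1 - b1, a2 - b2, a3 - b3, a4 - b4, a5 - b5, a6 - b6, a7 - b7, a8 - b8] := by
  funext j; fin_cases j <;> rfl

theorem vec_ext {a0 a1 a2 a3 a4 a5 a6 a7 a8 b0 b1 b2 b3 b4 b5 b6 b7 b8 : K}
    (h : a0 = b0 ∧ a1 = b1 ∧ a2 = b2 ∧ a3 = b3 ∧ a4 = b4 ∧ a5 = b5 ∧ a6 = b6 ∧ a7 = b7 ∧ a8 = b8) :
    (![a0, a1, a2, a3, a4, a5, a6, a7, a8] : Fin 9 → K) = ![b0, b1, b2, b3, b4, b5, b6, b7, b8] := by
  obtain ⟨rfl, rfl, rfl, rfl, rfl, rfl, rfl, rfl, rfl⟩ := h; rfl

/-- evaluation of coordinates in the abelian radical of the Levi subgroup -/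
macro "eval_her" : tactic =>
  `(tactic| (simp only [herP, herI, hv3, hv40, hv41, hv45, sig56.1, sig56.2, sig15.1, sig15.2, sig14.1,
      sig14.2, sig29.1, sig29.2, sig42.1, sig42.2, sig57.1, sig57.2, her56, her36, her15, her35, her14,
      her33, her29, her34, her42, her37, her57, her38, vec_add, vec_sub, Int.cast_one, Int.cast_neg]
             refine vec_ext ⟨?_, ?_, ?_, ?_, ?_, ?_, ?_, ?_, ?_⟩))

theorem dP1_left (b T : K) (hq : q ≠ 0) (hT : T ^ q = T) :
    herI q 14 b (herI q 15 (0 : K) (hv3 (-(T * (b * b ^ q))) 0 T)) = hv3 0 0 T + hv41 q (T * b) := by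
  eval_her <;> (try simp [zero_pow hq, mul_pow, hT]) <;> ring

theorem dP1_right (a T : K) (hq : q ≠ 0) (hT : T ^ q = T) :
    herI q 14 (0 : K) (herI q 15 a (hv3 0 (T * (a * a ^ q)) T)) = hv3 0 0 T + hv45 q (T * a) := by
  eval_her <;> (try simp [zero_pow hq, mul_pow, hT]) <;> ring

theorem dP2 (b S : K) (hS : S ^ q = S) :
    herI q 29 b (hv3 (S * (b * b ^ q)) S 0) = hv3 0 S 0 + hv40 q (S * b) := by
  eval_her <;> (try simp [mul_pow, hS]) <;> ring

theorem dL1 (a b U S : K) (hU : U ^ q = U) (hS : S ^ q = S) (ha : (a ^ q) ^ q = a) (hb : (b ^ q) ^ q = b)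
    (hm : ∀ x : K, (-x) ^ q = -x ^ q) :
    herI q 57 b (herI q 56 a (hv3 U S (S * (a * a ^ q) - U * (b * b ^ q)))) =
      hv3 U S 0 + hv41 q (U * b ^ q) + hv45 q (-(S * a ^ q)) := by
  eval_her <;> (try simp [mul_pow, hm, hU, hS, ha, hb]) <;> ring

theorem dL2 (b U T : K) (hU : U ^ q = U) (hb : (b ^ q) ^ q = b) (hm : ∀ x : K, (-x) ^ q = -x ^ q) :
    herI q 42 b (hv3 U (U * (b * b ^ q)) T) = hv3 U 0 T + hv40 q (-(U * b ^ q)) := by
  eval_her <;> (try simp [mul_pow, hm, hU, hb]) <;> ring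

/-! differences given by conjugation: used to see that stabilisers act trivially on eigenlines -/

theorem diff56_45 (w t : K) (ht : t ^ q = t) :
    herP q 56 w (hv45 q t) - hv45 q t = hv3 0 0 (-(t * w + t * w ^ q)) := by
  eval_her <;> (try simp [ht]) <;> ring

theorem diff42_40 (w t : K) (ht : t ^ q = t) :
    herP q 42 w (hv40 q t) - hv40 q t = hv3 0 (-(t * w + t * w ^ q)) 0 := by
  eval_her <;> (try simp [ht]) <;> ring

theorem diff29_40 (w t : K) (ht : t ^ q = t) :
    herP q 29 w (hv40 q t) - hv40 q t = hv3 (t * w + t * w ^ q) 0 0 := by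
  eval_her <;> (try simp [ht]) <;> ring

theorem diff15_45 (w t : K) (ht : t ^ q = t) :
    herP q 15 w (hv45 q t) - hv45 q t = hv3 0 (t * w + t * w ^ q) 0 := by
  eval_her <;> (try simp [ht]) <;> ring

theorem diff42_41 (w : K) (hm : ∀ x : K, (-x) ^ q = -x ^ q) :
    herP q 42 w (hv41 q 1) - hv41 q 1 = hv45 q (-w) := by
  eval_her <;> (try simp [hm]) <;> ring

theorem diff29_45 (w : K) (hm : ∀ x : K, (-x) ^ q = -x ^ q) :
    herP q 29 w (hv45 q 1) - hv45 q 1 = hv41 q (-w) := by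
  eval_her <;> (try simp [hm]) <;> ring

theorem diff14_45 (w : K) (hw : (w ^ q) ^ q = w) :
    herP q 14 w (hv45 q 1) - hv45 q 1 = hv40 q w := by
  eval_her <;> (try simp [hw]) <;> ring

section Group

variable [Fintype K] (hq : IsPrimePow q) (hK : Fintype.card K = q ^ 2)
include hq hK

theorem pair_mem {a : ℕ} (ha : a ∈ [56, 15, 14, 29, 42, 57, 40, 41, 45]) (u : K) :
    PE q a u ∈ twistedE6 K q :=
  PE_mem_twisted hq hK (opList_pairs a ha).2.2 u

theorem long_mem {r : ℕ} (hr : r ∈ [32, 39, 44, 60, 46, 47, 51, 63, 70, 71]) {t : K} (ht : t ^ q = t) :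
    X r t ∈ twistedE6 K q := by
  have k : ∀ r ∈ [32, 39, 44, 60, 46, 47, 51, 63, 70, 71], r ∈ plansOne.map Prod.fst := by decide +kernel
  exact X_mem_twisted hq hK (k r hr) ht

theorem gH_mem {A B D : K} (hA : A ^ q = A) (hB : B ^ q = B) (hD : D ^ q = D) (x y z : K) :
    gH q A B D x y z ∈ twistedE6 K q :=
  mul_mem (long_mem hq hK (by decide) hA) (mul_mem (long_mem hq hK (by decide) hB)
    (mul_mem (long_mem hq hK (by decide) hD) (mul_mem (pair_mem hq hK (by decide) x)
      (mul_mem (pair_mem hq hK (by decide) y) (pair_mem hq hK (by decide) z)))))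

theorem gD_mem {U S T : K} (hU : U ^ q = U) (hS : S ^ q = S) (hT : T ^ q = T) : gD U S T ∈ twistedE6 K q :=
  mul_mem (long_mem hq hK (by decide) hU) (mul_mem (long_mem hq hK (by decide) hS)
    (long_mem hq hK (by decide) hT))

/-- compatible functionals take fixed values on the radical inside ²E₆(q) -/
theorem lin_fixed {F : ℕ → K} (hF : Compat q F) (x : ↥(radT K q)) :
    lin F ⟨x.1, x.2.2⟩ ∈ fixF hq hK := by
  classical
  have hc := coord_twist hq hK x.2.2 x.2.1
  have hsum : lin F ⟨x.1, x.2.2⟩ = ∑ r ∈ qList.toFinset, F r * coord r ⟨x.1, x.2.2⟩ := by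
    rw [List.sum_toFinset _ qList_nodup]; rfl
  rw [mem_fixF, hsum, sum_pow_primePow hq hK]
  refine Finset.sum_nbij' graphSigmaE6 graphSigmaE6 ?_ ?_ ?_ ?_ ?_
  · exact fun r hr => List.mem_toFinset.2 (graphSigma_qList r (List.mem_toFinset.1 hr)).1
  · exact fun r hr => List.mem_toFinset.2 (graphSigma_qList r (List.mem_toFinset.1 hr)).1
  · exact fun r hr => (graphSigma_qList r (List.mem_toFinset.1 hr)).2.1
  · exact fun r hr => (graphSigma_qList r (List.mem_toFinset.1 hr)).2.1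
  · intro r hr
    have hr' := List.mem_toFinset.1 hr
    have k : ∀ r ∈ qList, graphEtaE6 r * graphEtaE6 r = 1 := by decide +kernel
    rw [hF r hr', hc r hr', mul_pow]
    have := congrArg (fun z : ℤ => (z : K)) (k r hr')
    simp only [Int.cast_mul, Int.cast_one] at this
    linear_combination (-(F r ^ q * coord r ⟨x.1, x.2.2⟩ ^ q)) * this
where
  sum_pow_primePow (hq : IsPrimePow q) (hK : Fintype.card K = q ^ 2) {ι : Type} {s : Finset ι} {f : ι → K} :
      (∑ i ∈ s, f i) ^ q = ∑ i ∈ s, f i ^ q := by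
    classical
    induction s using Finset.induction_on with
    | empty => simp [zero_pow hq.pos.ne']
    | insert a s ha ih => rw [Finset.sum_insert ha, Finset.sum_insert ha, pow_q_add hq hK, ih]

/-- compatibility is seen on the values -/
theorem compat_of_fixed {F : ℕ → K} (h : ∀ x : ↥(radT K q), lin F ⟨x.1, x.2.2⟩ ∈ fixF hq hK) :
    Compat q F := by
  have hshort : ∀ r ∈ shortQ, F (graphSigmaE6 r) = (graphEtaE6 r : K) * F r ^ q := by
    intro r hr
    obtain ⟨h1, h2, -, -, h5⟩ := shortQ_mem r hr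
    set e : K := ((graphEtaE6 r : ℤ) : K) with he
    have hee : e * e = 1 := by rw [he, ← Int.cast_mul, h5, Int.cast_one]
    set D := F (graphSigmaE6 r) * e - F r ^ q with hD
    have key : ∀ t : K, (D * t ^ q) ^ q = D * t ^ q := by
      intro t
      have ht : (F r * t + F (graphSigmaE6 r) * (e * t ^ q)) ^ q = F r * t + F (graphSigmaE6 r) * (e * t ^ q) := by
        have := h ⟨PE q r t, PE_mem_radT hq hK hr t⟩
        rw [show (⟨(PE q r t), _⟩ : ↥(rad K)) = ⟨X r t, X_mem_rad (List.mem_cons_of_mem _ h1) _⟩ *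
          ⟨X (graphSigmaE6 r) ((graphEtaE6 r : K) * t ^ q), X_mem_rad (List.mem_cons_of_mem _ h2) _⟩ from rfl,
          lin_mul, lin_X F (List.mem_cons_of_mem _ h1), lin_X F (List.mem_cons_of_mem _ h2), if_pos h1, if_pos h2,
          mem_fixF] at this
        exact this
      rw [pow_q_add hq hK, mul_pow, mul_pow, mul_pow, eta_pow hq hK, pow_q_q hq hK] at ht
      rw [hD, mul_pow, sub_pow_primePow hq two_ne_zero hK, mul_pow, eta_pow hq hK, pow_q_q hq hK, pow_q_q hq hK]
      linear_combination ht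
    by_contra hne
    have hD0 : D ≠ 0 := fun e0 => hne (by
      have : F (graphSigmaE6 r) * e = F r ^ q := sub_eq_zero.1 e0
      rw [← this, ← mul_assoc, mul_comm e, mul_assoc, mul_comm e, hee, mul_one])
    obtain ⟨s, hs⟩ : ∃ s : K, s ^ q ≠ s := by
      by_contra hc
      push Not at hc
      have := card_fixF hq hK (K := K)
      have hall : Nat.card (fixF hq hK) = Nat.card K :=
        Nat.card_congr (Equiv.subtypeUnivEquiv fun x => hc x)
      rw [this, Nat.card_eq_fintype_card, hK, sq] at hall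
      nlinarith [hq.two_le]
    have e2 := key ((D⁻¹ * s) ^ q)
    rw [pow_q_q hq hK, mul_inv_cancel_left₀ hD0] at e2
    exact hs e2
  intro r hr
  rcases qList_cases r hr with hc | hc | hc
  · obtain ⟨h1, h2, h3, h4⟩ := longQ_mem r hc
    rw [h3, h4, Int.cast_one, one_mul]
    have := h ⟨X r 1, X_mem_radT hq hK h2 (List.mem_cons_of_mem _ h1) (one_mem _)⟩
    rw [lin_X F (List.mem_cons_of_mem _ h1), if_pos h1, mul_one, mem_fixF] at this
    exact this.symm
  · exact hshort r hc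
  · have e := hshort _ hc
    have hinv := (graphSigma_qList r hr).2.1
    rw [hinv] at e
    have k : ∀ r ∈ qList, graphEtaE6 r * graphEtaE6 (graphSigmaE6 r) = 1 := by decide +kernel
    rw [e, mul_pow, eta_pow hq hK, pow_q_q hq hK, ← mul_assoc, ← Int.cast_mul, k r hr, Int.cast_one, one_mul]

theorem compat_shift {g : GL chevE6.Idx K} (hg : g ∈ twistedE6 K q) {T : (ℕ → K) → ℕ → K} (h : Shifts g T)
    {F : ℕ → K} (hF : Compat q F) : Compat q (T F) := by
  refine compat_of_fixed hq hK fun x => ?_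
  obtain ⟨h1, e⟩ := h ⟨x.1, x.2.2⟩
  rw [← e F]
  exact lin_fixed hq hK hF ⟨_, (mul_mem (mul_mem (inv_mem hg) x.2.1) hg : _ ∈ twistedE6 K q), h1⟩

omit hq hK in
theorem compat_base {s : ℕ} (hs : s ∈ longQ) {c : K} (hc : c ^ q = c) (hq0 : q ≠ 0) : Compat q (base s c) := by
  intro r hr
  obtain ⟨hs1, -, hs3, hs4⟩ := longQ_mem s hs
  obtain ⟨-, hinv, -⟩ := graphSigma_qList r hr
  by_cases h : r = s
  · subst h
    rw [hs3, hs4, base, if_pos rfl, hc, Int.cast_one, one_mul]
  · have h' : graphSigmaE6 r ≠ s := fun e => h (by rw [← hinv, e, hs3])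
    rw [base, base, if_neg h, if_neg h', zero_pow hq0, mul_zero]

end Group

end E6

end CfsgLib.Twisted
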