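import Cfsg.Agent.Lib.Twisted.E6Normal

/-! Eigenlines at the long roots of the radical, and the elements of the long diagonal group acting
trivially on the translates of these lines. -/

set_option autoImplicit false
set_option linter.unusedSectionVars false
set_option linter.unusedSimpArgs false
set_option linter.unreachableTactic false
set_option linter.unusedTactic false
set_option maxRecDepth 100000

namespace CfsgLib.Twisted

open Cfsg.Lie

namespace E6

variable {K : Type*} [Field K] {q : ℕ}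

/-- a reflection among the long roots, as three root steps -/
def T39 (F : ℕ → K) : ℕ → K := stepF 39 1 (stepF 32 (-1) (stepF 39 1 F))

/-- a reflection in an orbit of length two -/
def T35 (q : ℕ) (F : ℕ → K) : ℕ → K := stepP q 42 1 (stepP q 29 (-1) (stepP q 42 1 F))

/-- a reflection in an orbit of length two -/
def T16 (q : ℕ) (F : ℕ → K) : ℕ → K := stepP q 56 1 (stepP q 15 (-1) (stepP q 56 1 F))

theorem T39_70 (c : K) : ∀ r ∈ qList, T39 (base 70 c) r = base 69 (-c) r := by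
  simp only [T39]; eval_all

theorem T35_69 (c : K) (hm : (-1 : K) ^ q = -1) : ∀ r ∈ qList, T35 q (base 69 c) r = base 65 c r := by
  simp only [T35]; eval_all <;> simp [hm]

theorem T16_65 (c : K) (hm : (-1 : K) ^ q = -1) : ∀ r ∈ qList, T16 q (base 65 c) r = base 53 (-c) r := by
  simp only [T16]; eval_all <;> simp [hm]

theorem T39_65 (c : K) : ∀ r ∈ qList, T39 (base 65 c) r = base 63 (-c) r := by
  simp only [T39]; eval_all

theorem T39_53 (c : K) : ∀ r ∈ qList, T39 (base 53 c) r = base 51 (-c) r := by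
  simp only [T39]; eval_all

theorem T35_51 (c : K) (hm : (-1 : K) ^ q = -1) : ∀ r ∈ qList, T35 q (base 51 c) r = base 47 c r := by
  simp only [T35]; eval_all <;> simp [hm]

theorem T39_47 (c : K) : ∀ r ∈ qList, T39 (base 47 c) r = base 46 (-c) r := by
  simp only [T39]; eval_all

/-- the step of an element of an orbit of length two fixes a vector supported away from its sources -/
theorem stepF_base {a s : ℕ} (ha : a ∈ opList) (hs : s ∉ (stepTab a).map fun e => e.2.1) (u c : K) (r : ℕ) :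
    stepF a u (base s c) r = base s c r := by
  rw [stepF_eval ha]
  cases h : hit a r with
  | none => rfl
  | some e =>
    have hmem : e.1 ∈ (stepTab a).map fun e => e.2.1 := by
      obtain ⟨x, hx, rfl⟩ := Option.map_eq_some_iff.1 h
      exact List.mem_map.2 ⟨x, List.mem_of_find?_eq_some hx, rfl⟩
    show base s c r - (e.2 : K) * u * base s c e.1 = base s c r
    rw [show base s c e.1 = (0 : K) from if_neg fun h' : e.1 = s => hs (by rw [← h']; exact hmem), mul_zero,
      sub_zero]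

/-- an element of the abelian radical or an orbit of length two which does not move a coordinate -/
def Away (a s : ℕ) : Prop :=
  s ∉ ((stepTab a).map fun e => e.2.1) ∧ s ∉ ((stepTab (graphSigmaE6 a)).map fun e => e.2.1)

instance (a s : ℕ) : Decidable (Away a s) := inferInstanceAs (Decidable (_ ∧ _))

theorem stepP_base {a s : ℕ} (ha : a ∈ [56, 15, 14, 29, 42, 57, 40, 41, 45]) (h : Away a s) (u c : K) (r : ℕ) :
    stepP q a u (base s c) r = base s c r := by
  obtain ⟨h1, h2, -⟩ := opList_pairs a ha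
  rw [stepP, funext (stepF_base h2 h.2 _ c), stepF_base h1 h.1]

variable [Fintype K] (hq : IsPrimePow q) (hK : Fintype.card K = q ^ 2)
include hq hK

variable {ε : AddChar K ℂ} (hε : ∃ l ∈ fixF hq hK, ε l ≠ 1)
variable {V : Type*} [AddCommGroup V] [Module ℂ V] [FiniteDimensional ℂ V]
  (ρ : Representation ℂ ↥(twistedE6 K q) V)
  (hgap : Module.finrank ℂ ↥(RepFix.fix ρ (fZ hq hK) ⊓ RepFix.fix ρ (fT hq hK)) + (q - 1) * q ^ 9 =
    Module.finrank ℂ ↥(RepFix.fix ρ (fZ hq hK)))
include hgap hε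

/-- the long roots reached from the second highest one carry lines -/
theorem oneLine_bases {c : K} (hc : c ∈ fixF hq hK) (hc0 : c ≠ 0) :
    ∀ s ∈ [70, 69, 65, 53, 63, 51, 47, 46], OneLine ρ ε (base s c) := by
  have hm : (-1 : K) ^ q = -1 := neg_one_pow_primePow hq two_ne_zero hK
  have g39 : ∃ g ∈ twistedE6 K q, Shifts g (T39 (K := K)) :=
    ⟨_, mul_mem (long_mem hq hK (r := 39) (by decide) (one_pow q)) (mul_mem (long_mem hq hK (r := 32) (by decide) hm)
      (long_mem hq hK (r := 39) (by decide) (one_pow q))),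
      (shifts_X (a := 39) (by decide) 1).mul ((shifts_X (a := 32) (by decide) (-1)).mul
        (shifts_X (a := 39) (by decide) 1))⟩
  have g35 : ∃ g ∈ twistedE6 K q, Shifts g (T35 (K := K) q) :=
    ⟨_, mul_mem (pair_mem hq hK (a := 42) (by decide) 1) (mul_mem (pair_mem hq hK (a := 29) (by decide) (-1))
      (pair_mem hq hK (a := 42) (by decide) 1)),
      (shifts_pair (a := 42) (by decide) 1).mul ((shifts_pair (a := 29) (by decide) (-1)).mul
        (shifts_pair (a := 42) (by decide) 1))⟩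
  have g16 : ∃ g ∈ twistedE6 K q, Shifts g (T16 (K := K) q) :=
    ⟨_, mul_mem (pair_mem hq hK (a := 56) (by decide) 1) (mul_mem (pair_mem hq hK (a := 15) (by decide) (-1))
      (pair_mem hq hK (a := 56) (by decide) 1)),
      (shifts_pair (a := 56) (by decide) 1).mul ((shifts_pair (a := 15) (by decide) (-1)).mul
        (shifts_pair (a := 56) (by decide) 1))⟩
  have move : ∀ {T : (ℕ → K) → ℕ → K}, (∃ g ∈ twistedE6 K q, Shifts g T) → ∀ {s s' : ℕ} {d d' : K},
      (∀ r ∈ qList, T (base s d) r = base s' d' r) → OneLine ρ ε (base s d) → OneLine ρ ε (base s' d') :=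
    fun {T} ⟨g, hg, hs⟩ {s s' d d'} e hl => oneLine_congr ρ ε e (oneLine_shift ρ ε hg hs hl)
  have h70 : ∀ d ∈ fixF hq hK, d ≠ 0 → OneLine ρ ε (base 70 d) := fun d hd hd0 =>
    oneLine_base70 hq hK hε ρ hgap hd hd0
  have h69 : ∀ d ∈ fixF hq hK, d ≠ 0 → OneLine ρ ε (base 69 d) := fun d hd hd0 => by
    have := move g39 (T39_70 (-d)) (h70 _ (neg_mem hd) (neg_ne_zero.2 hd0))
    rwa [neg_neg] at this
  have h65 : ∀ d ∈ fixF hq hK, d ≠ 0 → OneLine ρ ε (base 65 d) := fun d hd hd0 =>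
    move g35 (T35_69 d hm) (h69 d hd hd0)
  have h53 : ∀ d ∈ fixF hq hK, d ≠ 0 → OneLine ρ ε (base 53 d) := fun d hd hd0 => by
    have := move g16 (T16_65 (-d) hm) (h65 _ (neg_mem hd) (neg_ne_zero.2 hd0))
    rwa [neg_neg] at this
  have h63 : ∀ d ∈ fixF hq hK, d ≠ 0 → OneLine ρ ε (base 63 d) := fun d hd hd0 => by
    have := move g39 (T39_65 (-d)) (h65 _ (neg_mem hd) (neg_ne_zero.2 hd0))
    rwa [neg_neg] at this
  have h51 : ∀ d ∈ fixF hq hK, d ≠ 0 → OneLine ρ ε (base 51 d) := fun d hd hd0 => by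
    have := move g39 (T39_53 (-d)) (h53 _ (neg_mem hd) (neg_ne_zero.2 hd0))
    rwa [neg_neg] at this
  have h47 : ∀ d ∈ fixF hq hK, d ≠ 0 → OneLine ρ ε (base 47 d) := fun d hd hd0 =>
    move g35 (T35_51 d hm) (h51 d hd hd0)
  have h46 : ∀ d ∈ fixF hq hK, d ≠ 0 → OneLine ρ ε (base 46 d) := fun d hd hd0 => by
    have := move g39 (T39_47 (-d)) (h47 _ (neg_mem hd) (neg_ne_zero.2 hd0))
    rwa [neg_neg] at this
  intro s hs
  simp only [List.mem_cons, List.not_mem_nil, or_false] at hs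
  rcases hs with rfl | rfl | rfl | rfl | rfl | rfl | rfl | rfl
  exacts [h70 c hc hc0, h69 c hc hc0, h65 c hc hc0, h53 c hc hc0, h63 c hc hc0, h51 c hc hc0, h47 c hc hc0,
    h46 c hc hc0]

end E6

/-! ## vectors of the abelian radical acting trivially -/

namespace E6

variable {K : Type*} [Field K] [Fintype K] {q : ℕ} (hq : IsPrimePow q) (hK : Fintype.card K = q ^ 2)
include hq hK
variable {V : Type*} [AddCommGroup V] [Module ℂ V] (ρ : Representation ℂ ↥(twistedE6 K q) V)
variable {ε : AddChar K ℂ}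

omit hq hK in
/-- the vector acts trivially on `v` -/
def Triv (v : V) (w : Fin 9 → K) : Prop :=
  ∃ h : herm w ∈ twistedE6 K q, ρ ⟨herm w, h⟩ v = v

omit hq hK in
theorem Triv.add {v : V} {w w' : Fin 9 → K} (h : Triv ρ v w) (h' : Triv ρ v w') : Triv ρ v (w + w') := by
  obtain ⟨h1, e1⟩ := h
  obtain ⟨h2, e2⟩ := h'
  have hm : herm (w + w') ∈ twistedE6 K q := by rw [herm_add]; exact mul_mem h1 h2
  refine ⟨hm, ?_⟩
  rw [show (⟨herm (w + w'), hm⟩ : ↥(twistedE6 K q)) = ⟨herm w, h1⟩ * ⟨herm w', h2⟩ from Subtype.ext (herm_add w w'),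
    map_mul, Module.End.mul_apply, e2, e1]

/-- commutators of elements fixing an eigenline act trivially on it -/
theorem triv_diff {s : ℕ} {c : K} {v : V} (hv : Eig ρ ε (base s c) v)
    (hline : ∀ w, Eig ρ ε (base s c) w → ∃ k : ℂ, w = k • v)
    {a b : ℕ} (ha : a ∈ [56, 15, 14, 29, 42, 57]) (hb : b ∈ [40, 41, 45]) (ha' : Away a s) (hb' : Away b s)
    (u t : K) (w₀ : Fin 9 → K) (hw₀ : herm w₀ = PE q b t) :
    Triv ρ v (herP q a u w₀ - w₀) := by
  have ha9 : a ∈ [56, 15, 14, 29, 42, 57, 40, 41, 45] := List.mem_append_left [40, 41, 45] ha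
  have hb9 : b ∈ [56, 15, 14, 29, 42, 57, 40, 41, 45] := List.mem_append_right [56, 15, 14, 29, 42, 57] hb
  have hg := pair_mem hq hK ha9 u
  have hh := pair_mem hq hK hb9 t
  have cg : psi q ε (stepP q a u (base s c)) = psi q ε (base s c) :=
    MonoidHom.ext fun x => congrArg ε (lin_congr (fun r _ => stepP_base ha9 ha' u c r) _)
  have ch : psi q ε (stepP q b t (base s c)) = psi q ε (base s c) :=
    MonoidHom.ext fun x => congrArg ε (lin_congr (fun r _ => stepP_base hb9 hb' t c r) _)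
  obtain ⟨k, hk⟩ := hline _ ((eig_congr ρ ε cg).1 (eig_shift ρ ε hg (shifts_pair ha9 u) hv))
  obtain ⟨l, hl⟩ := hline _ ((eig_congr ρ ε ch).1 (eig_shift ρ ε hh (shifts_pair hb9 t) hv))
  set G : ↥(twistedE6 K q) := ⟨PE q a u, hg⟩
  set H : ↥(twistedE6 K q) := ⟨PE q b t, hh⟩
  have e : herm (herP q a u w₀ - w₀) = PE q a u * PE q b t * (PE q a u)⁻¹ * (PE q b t)⁻¹ := by
    rw [← hw₀, conj_PE_herm ha, eq_mul_inv_iff_mul_eq, ← herm_add, sub_add_cancel]
  have hm : herm (herP q a u w₀ - w₀) ∈ twistedE6 K q := by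
    rw [e]; exact (G * H * G⁻¹ * H⁻¹).2
  refine ⟨hm, ?_⟩
  rw [show (⟨herm (herP q a u w₀ - w₀), hm⟩ : ↥(twistedE6 K q)) = G * H * G⁻¹ * H⁻¹ from Subtype.ext e]
  have hswap : ρ (G * H) v = ρ (H * G) v := by
    simp only [map_mul, Module.End.mul_apply, hk, hl, map_smul, smul_smul, mul_comm]
  have h1 : ρ (G * H * (H * G)⁻¹) (ρ (H * G) v) = ρ (H * G) v := by
    rw [← Module.End.mul_apply, ← map_mul, inv_mul_cancel_right, hswap]
  have hμ : ρ (H * G) v = (k * l) • v := by rw [map_mul, Module.End.mul_apply, hk, map_smul, hl, smul_smul]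
  rw [hμ, map_smul] at h1
  rw [mul_assoc (G * H), ← mul_inv_rev]
  by_cases h0 : k * l = 0
  · have hv0 : v = 0 := by
      have := congrArg (ρ (H * G)⁻¹) (hμ.trans (by rw [h0, zero_smul]))
      rwa [← Module.End.mul_apply, ← map_mul, inv_mul_cancel, map_one, map_zero] at this
    rw [hv0, map_zero]
  · exact smul_right_injective V h0 h1

omit hq hK in
theorem hv3_add (U S T U' S' T' : K) : hv3 U S T + hv3 U' S' T' = hv3 (U + U') (S + S') (T + T') := by
  funext j; fin_cases j <;> simp [hv3]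

theorem triv_U {s : ℕ} {c : K} {v : V} (hv : Eig ρ ε (base s c) v)
    (hline : ∀ w, Eig ρ ε (base s c) w → ∃ k : ℂ, w = k • v) (ha : Away 29 s) (hb : Away 40 s)
    {U : K} (hU : U ∈ fixF hq hK) : Triv ρ v (hv3 U 0 0) := by
  obtain ⟨w, hw⟩ := exists_add_pow hq hK (one_ne_zero (α := K)) hU
  have h := triv_diff hq hK ρ hv hline (a := 29) (b := 40) (by decide) (by decide) ha hb w 1 _ (herm_hv40 1)
  rw [diff29_40 w 1 (one_pow q)] at h
  rwa [show (1 : K) * w + 1 * w ^ q = U by rw [← hw]; ring] at h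

theorem triv_S {s : ℕ} {c : K} {v : V} (hv : Eig ρ ε (base s c) v)
    (hline : ∀ w, Eig ρ ε (base s c) w → ∃ k : ℂ, w = k • v) (ha : Away 42 s) (hb : Away 40 s)
    {S : K} (hS : S ∈ fixF hq hK) : Triv ρ v (hv3 0 S 0) := by
  obtain ⟨w, hw⟩ := exists_add_pow hq hK (one_ne_zero (α := K)) (neg_mem hS)
  have h := triv_diff hq hK ρ hv hline (a := 42) (b := 40) (by decide) (by decide) ha hb w 1 _ (herm_hv40 1)
  rw [diff42_40 w 1 (one_pow q)] at h
  rwa [show -((1 : K) * w + 1 * w ^ q) = S by linear_combination -hw] at h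

theorem triv_S' {s : ℕ} {c : K} {v : V} (hv : Eig ρ ε (base s c) v)
    (hline : ∀ w, Eig ρ ε (base s c) w → ∃ k : ℂ, w = k • v) (ha : Away 15 s) (hb : Away 45 s)
    {S : K} (hS : S ∈ fixF hq hK) : Triv ρ v (hv3 0 S 0) := by
  obtain ⟨w, hw⟩ := exists_add_pow hq hK (one_ne_zero (α := K)) hS
  have h := triv_diff hq hK ρ hv hline (a := 15) (b := 45) (by decide) (by decide) ha hb w 1 _ (herm_hv45 1)
  rw [diff15_45 w 1 (one_pow q)] at h
  rwa [show (1 : K) * w + 1 * w ^ q = S by rw [← hw]; ring] at h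

theorem triv_T {s : ℕ} {c : K} {v : V} (hv : Eig ρ ε (base s c) v)
    (hline : ∀ w, Eig ρ ε (base s c) w → ∃ k : ℂ, w = k • v) (ha : Away 56 s) (hb : Away 45 s)
    {T : K} (hT : T ∈ fixF hq hK) : Triv ρ v (hv3 0 0 T) := by
  obtain ⟨w, hw⟩ := exists_add_pow hq hK (one_ne_zero (α := K)) (neg_mem hT)
  have h := triv_diff hq hK ρ hv hline (a := 56) (b := 45) (by decide) (by decide) ha hb w 1 _ (herm_hv45 1)
  rw [diff56_45 w 1 (one_pow q)] at h
  rwa [show -((1 : K) * w + 1 * w ^ q) = T by linear_combination -hw] at h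

theorem triv_40 {s : ℕ} {c : K} {v : V} (hv : Eig ρ ε (base s c) v)
    (hline : ∀ w, Eig ρ ε (base s c) w → ∃ k : ℂ, w = k • v) (ha : Away 14 s) (hb : Away 45 s)
    (t : K) : Triv ρ v (hv40 q t) := by
  have h := triv_diff hq hK ρ hv hline (a := 14) (b := 45) (by decide) (by decide) ha hb t 1 _ (herm_hv45 1)
  rwa [diff14_45 t (pow_q_q hq hK t)] at h

theorem triv_41 {s : ℕ} {c : K} {v : V} (hv : Eig ρ ε (base s c) v)
    (hline : ∀ w, Eig ρ ε (base s c) w → ∃ k : ℂ, w = k • v) (ha : Away 29 s) (hb : Away 45 s)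
    (t : K) : Triv ρ v (hv41 q t) := by
  have h := triv_diff hq hK ρ hv hline (a := 29) (b := 45) (by decide) (by decide) ha hb (-t) 1 _ (herm_hv45 1)
  rwa [diff29_45 (-t) (pow_q_neg hq hK), neg_neg] at h

theorem triv_45 {s : ℕ} {c : K} {v : V} (hv : Eig ρ ε (base s c) v)
    (hline : ∀ w, Eig ρ ε (base s c) w → ∃ k : ℂ, w = k • v) (ha : Away 42 s) (hb : Away 41 s)
    (t : K) : Triv ρ v (hv45 q t) := by
  have h := triv_diff hq hK ρ hv hline (a := 42) (b := 41) (by decide) (by decide) ha hb (-t) 1 _ (herm_hv41 1)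
  rwa [diff42_41 (-t) (pow_q_neg hq hK), neg_neg] at h

end E6

end CfsgLib.Twisted
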