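import Mathlib

/-! Arithmetic at the bound for the smallest degree of ²E₆(q): with `T = q(q⁶ - q³ + 1)(q⁴ + 1)`,
neither `T - 1` nor `T - 2` divides the order of the group. -/

set_option autoImplicit false

namespace CfsgLib.Twisted.E6Min

theorem cancel_bezout {h a X u v r : ℤ} (e : u * h + v * a = r) (hd : h ∣ a * X) : h ∣ r * X := by
  obtain ⟨c, hc⟩ := hd
  exact ⟨u * X + v * c, by rw [← e]; linear_combination v * hc⟩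

theorem cancel_pow {h a u v r : ℤ} (e : u * h + v * a = r) : ∀ (n : ℕ) {X : ℤ}, h ∣ a ^ n * X → h ∣ r ^ n * X
  | 0, X, hd => by simpa using hd
  | n + 1, X, hd => by
    rw [pow_succ', mul_assoc] at hd
    have h1 := cancel_bezout e hd
    rw [mul_left_comm] at h1
    have h2 := cancel_pow e n h1
    rw [pow_succ', mul_assoc]
    rwa [mul_left_comm] at h2

theorem not_dvd_small {q s : ℕ} (hq : 2 ≤ q) (hq' : q ≤ 12) (hs : s = 1 ∨ s = 2) :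
    ¬ q * (q ^ 6 - q ^ 3 + 1) * (q ^ 4 + 1) - s ∣
      q ^ 36 * (q ^ 2 - 1) * (q ^ 5 + 1) * (q ^ 6 - 1) * (q ^ 8 - 1) * (q ^ 9 + 1) * (q ^ 12 - 1) := by
  rcases hs with rfl | rfl <;> interval_cases q <;> decide +kernel

/-- the order of the group, up to the centre, over the integers -/
theorem order_eq (q : ℤ) :
    (q ^ 2 - 1) * (q ^ 5 + 1) * (q ^ 6 - 1) * (q ^ 8 - 1) * (q ^ 9 + 1) * (q ^ 12 - 1) =
      (q - 1) ^ 4 * ((q + 1) ^ 6 * ((q ^ 2 + q + 1) ^ 2 * ((q ^ 2 + 1) ^ 2 * ((q ^ 2 - q + 1) ^ 3 *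
        ((q ^ 4 + 1) * ((q ^ 4 - q ^ 3 + q ^ 2 - q + 1) * ((q ^ 4 - q ^ 2 + 1) * (q ^ 6 - q ^ 3 + 1)))))))) := by
  ring

theorem le_of_dvd_first {q : ℤ}
    (h : q ^ 7 + q ^ 5 - q ^ 4 + q ^ 3 - q ^ 2 + q - 1 ∣
      q ^ 36 * ((q - 1) ^ 4 * ((q + 1) ^ 6 * ((q ^ 2 + q + 1) ^ 2 * ((q ^ 2 + 1) ^ 2 * ((q ^ 2 - q + 1) ^ 3 *
        ((q ^ 4 + 1) * ((q ^ 4 - q ^ 3 + q ^ 2 - q + 1) * (q ^ 6 - q ^ 3 + 1))))))))) :
    q ≤ 12 := by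
  have h0 := cancel_pow (a := q) (u := -1) (r := 1)
    (v := 1 - q + q ^ 2 - q ^ 3 + q ^ 4 + q ^ 6) (by ring) 36 h
  rw [one_pow, one_mul] at h0
  have h1 := cancel_pow (a := q - 1) (u := 1) (r := 1)
    (v := -2 - q - 2 * q ^ 2 - q ^ 3 - 2 * q ^ 4 - q ^ 5 - q ^ 6) (by ring) 4 h0
  rw [one_pow, one_mul] at h1
  have h2 := cancel_pow (a := q + 1) (u := -1) (r := 7)
    (v := 6 - 5 * q + 4 * q ^ 2 - 3 * q ^ 3 + 2 * q ^ 4 - q ^ 5 + q ^ 6) (by ring) 6 h1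
  rw [mul_left_comm] at h2
  have h3 := cancel_pow (a := q ^ 2 + q + 1) (u := -1 - q) (r := 1) (v := q ^ 6) (by ring) 2 h2
  rw [one_pow, one_mul, mul_left_comm] at h3
  have h4 := cancel_pow (a := q ^ 2 + 1) (u := -1) (r := 1) (v := q - q ^ 2 + q ^ 5) (by ring) 2 h3
  rw [one_pow, one_mul, mul_left_comm] at h4
  have h5 := cancel_pow (a := q ^ 2 - q + 1) (u := 1 - q) (r := 1) (v := 2 - 2 * q ^ 3 + q ^ 6)
    (by ring) 3 h4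
  rw [one_pow, one_mul, mul_left_comm] at h5
  have h6 := cancel_bezout (a := q ^ 4 + 1) (u := q ^ 2) (r := 1) (v := 1 + q ^ 2 - q ^ 3 - q ^ 5)
    (by ring) h5
  rw [one_mul, mul_left_comm] at h6
  have h7 := cancel_bezout (a := q ^ 4 - q ^ 3 + q ^ 2 - q + 1) (u := -q + q ^ 2) (r := 1)
    (v := 1 + q ^ 2 - q ^ 5) (by ring) h6
  rw [one_mul, mul_comm] at h7
  have h8 := cancel_bezout (a := q ^ 6 - q ^ 3 + 1) (u := -1 + q ^ 2 - q ^ 4) (r := 1) (v := q + q ^ 5)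
    (by ring) h7
  rw [one_mul] at h8
  by_contra hlt
  push Not at hlt
  have hbig : q ^ 5 ≥ 13 ^ 5 := by gcongr; omega
  have hle := Int.le_of_dvd (by norm_num) h8
  nlinarith [mul_nonneg (sq_nonneg q) (show (0 : ℤ) ≤ q - 1 by omega), pow_two_nonneg (q ^ 2),
    mul_le_mul_of_nonneg_left (show (13 : ℤ) ≤ q by omega) (show (0 : ℤ) ≤ q ^ 6 by positivity),
    mul_le_mul_of_nonneg_left (show (13 : ℤ) ≤ q by omega) (show (0 : ℤ) ≤ q ^ 4 by positivity),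
    mul_le_mul_of_nonneg_left (show (13 : ℤ) ≤ q by omega) (show (0 : ℤ) ≤ q ^ 3 by positivity)]

theorem le_of_dvd_second {q : ℤ} (hfour : Even q → 12 < q → 4 ∣ q)
    (h : q ^ 10 + q ^ 9 + q ^ 8 + q ^ 6 + q ^ 5 + 2 * q ^ 4 + q ^ 3 + q ^ 2 + q + 2 ∣
      q ^ 36 * ((q - 1) ^ 3 * ((q + 1) ^ 6 * ((q ^ 2 + q + 1) ^ 2 * ((q ^ 2 + 1) ^ 2 * ((q ^ 2 - q + 1) ^ 3 *
        ((q ^ 4 + 1) * ((q ^ 4 - q ^ 3 + q ^ 2 - q + 1) * ((q ^ 4 - q ^ 2 + 1) *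
          (q ^ 6 - q ^ 3 + 1)))))))))) :
    q ≤ 12 := by
  by_contra hlt
  push Not at hlt
  set H := q ^ 10 + q ^ 9 + q ^ 8 + q ^ 6 + q ^ 5 + 2 * q ^ 4 + q ^ 3 + q ^ 2 + q + 2 with hH
  -- the common divisor with a power of `q` divides two
  have hX : H ∣ 2 * ((q - 1) ^ 3 * ((q + 1) ^ 6 * ((q ^ 2 + q + 1) ^ 2 * ((q ^ 2 + 1) ^ 2 *
      ((q ^ 2 - q + 1) ^ 3 * ((q ^ 4 + 1) * ((q ^ 4 - q ^ 3 + q ^ 2 - q + 1) * ((q ^ 4 - q ^ 2 + 1) *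
        (q ^ 6 - q ^ 3 + 1))))))))) → False := fun hX => by
    rw [mul_left_comm] at hX
    have h1 := cancel_pow (h := H) (a := q - 1) (u := 1) (r := 12)
      (v := -10 - 9 * q - 8 * q ^ 2 - 7 * q ^ 3 - 5 * q ^ 4 - 4 * q ^ 5 - 3 * q ^ 6 - 3 * q ^ 7 - 2 * q ^ 8 - q ^ 9)
      (by rw [hH]; ring) 3 hX
    rw [mul_left_comm, mul_left_comm _ ((q + 1) ^ 6), mul_left_comm] at h1
    have h2 := cancel_pow (h := H) (a := q + 1) (u := 1) (r := 4)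
      (v := 2 - 3 * q + 2 * q ^ 2 - 3 * q ^ 3 + q ^ 4 - 2 * q ^ 5 + q ^ 6 - q ^ 7 - q ^ 9)
      (by rw [hH]; ring) 6 (X := 12 ^ 3 * (2 * ((q ^ 2 + q + 1) ^ 2 * ((q ^ 2 + 1) ^ 2 *
      ((q ^ 2 - q + 1) ^ 3 * ((q ^ 4 + 1) * ((q ^ 4 - q ^ 3 + q ^ 2 - q + 1) * ((q ^ 4 - q ^ 2 + 1) *
        (q ^ 6 - q ^ 3 + 1))))))))) (by convert h1 using 1; ring)
    have h3 := cancel_pow (h := H) (a := q ^ 2 + q + 1) (u := 1 - q) (r := 3)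
      (v := 1 - q ^ 2 + q ^ 3 - q ^ 4 + q ^ 5 - q ^ 8 + q ^ 9)
      (by rw [hH]; ring) 2 (X := 4 ^ 6 * (12 ^ 3 * (2 * ((q ^ 2 + 1) ^ 2 *
      ((q ^ 2 - q + 1) ^ 3 * ((q ^ 4 + 1) * ((q ^ 4 - q ^ 3 + q ^ 2 - q + 1) * ((q ^ 4 - q ^ 2 + 1) *
        (q ^ 6 - q ^ 3 + 1))))))))) (by convert h2 using 1; ring)
    have h4 := cancel_pow (h := H) (a := q ^ 2 + 1) (u := 1 - q) (r := 4)
      (v := 2 + q - 2 * q ^ 2 - q ^ 3 + q ^ 4 + 2 * q ^ 5 - q ^ 6 - q ^ 7 + q ^ 9)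
      (by rw [hH]; ring) 2 (X := 3 ^ 2 * (4 ^ 6 * (12 ^ 3 * (2 *
      ((q ^ 2 - q + 1) ^ 3 * ((q ^ 4 + 1) * ((q ^ 4 - q ^ 3 + q ^ 2 - q + 1) * ((q ^ 4 - q ^ 2 + 1) *
        (q ^ 6 - q ^ 3 + 1))))))))) (by convert h3 using 1; ring)
    have h5 := cancel_pow (h := H) (a := q ^ 2 - q + 1) (u := -1 + q) (r := 1)
      (v := 3 + 2 * q - q ^ 2 - 3 * q ^ 3 - q ^ 4 + q ^ 5 + 2 * q ^ 6 - q ^ 8 - q ^ 9)
      (by rw [hH]; ring) 3 (X := 4 ^ 2 * (3 ^ 2 * (4 ^ 6 * (12 ^ 3 * (2 *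
      ((q ^ 4 + 1) * ((q ^ 4 - q ^ 3 + q ^ 2 - q + 1) * ((q ^ 4 - q ^ 2 + 1) *
        (q ^ 6 - q ^ 3 + 1))))))))) (by convert h4 using 1; ring)
    rw [one_pow, one_mul] at h5
    have h6 := cancel_bezout (h := H) (a := q ^ 4 + 1) (u := 1 - q) (r := 2) (v := q - q ^ 4 + q ^ 7)
      (X := 4 ^ 2 * (3 ^ 2 * (4 ^ 6 * (12 ^ 3 * (2 * ((q ^ 4 - q ^ 3 + q ^ 2 - q + 1) *
        ((q ^ 4 - q ^ 2 + 1) * (q ^ 6 - q ^ 3 + 1)))))))) (by rw [hH]; ring) (by convert h5 using 1; ring)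
    have h7 := cancel_bezout (h := H) (a := q ^ 4 - q ^ 3 + q ^ 2 - q + 1) (u := 6 - 3 * q - q ^ 2 - q ^ 3) (r := 11)
      (v := -1 - q - q ^ 2 - q ^ 3 - 7 * q ^ 4 - 4 * q ^ 5 + 3 * q ^ 6 + 7 * q ^ 7 + 3 * q ^ 8 + q ^ 9)
      (X := 2 * (4 ^ 2 * (3 ^ 2 * (4 ^ 6 * (12 ^ 3 * (2 *
        ((q ^ 4 - q ^ 2 + 1) * (q ^ 6 - q ^ 3 + 1)))))))) (by rw [hH]; ring) (by convert h6 using 1; ring)
    have h8 := cancel_bezout (h := H) (a := q ^ 4 - q ^ 2 + 1) (u := 1 - q) (r := 1)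
      (v := -1 + q - q ^ 2 + q ^ 3 - q ^ 4 + q ^ 5 + q ^ 7)
      (X := 11 * (2 * (4 ^ 2 * (3 ^ 2 * (4 ^ 6 * (12 ^ 3 * (2 *
        (q ^ 6 - q ^ 3 + 1)))))))) (by rw [hH]; ring) (by convert h7 using 1; ring)
    rw [one_mul] at h8
    have h9 := cancel_bezout (h := H) (a := q ^ 6 - q ^ 3 + 1) (u := 1 - q) (r := 2) (v := q + q ^ 5)
      (X := 11 * (2 * (4 ^ 2 * (3 ^ 2 * (4 ^ 6 * (12 ^ 3 * 2)))))) (by rw [hH]; ring)
      (by convert h8 using 1; ring)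
    have hle := Int.le_of_dvd (by norm_num) h9
    have hbig : q ^ 10 ≥ 13 ^ 10 := by gcongr; omega
    rw [hH] at hle
    nlinarith [show (0 : ℤ) ≤ q ^ 9 + q ^ 8 + q ^ 6 + q ^ 5 + 2 * q ^ 4 + q ^ 3 + q ^ 2 + q + 2 by positivity]
  refine hX ?_
  have e : (1 : ℤ) * H + (-1 - q - q ^ 2 - 2 * q ^ 3 - q ^ 4 - q ^ 5 - q ^ 7 - q ^ 8 - q ^ 9) * q = 2 := by
    rw [hH]; ring
  rcases Int.even_or_odd q with ⟨j, hj⟩ | ⟨j, hj⟩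
  · -- `q` is even and `H / 2` is prime to it, as four divides `q`
    obtain ⟨i, hi⟩ := hfour ⟨j, hj⟩ hlt
    set X := 1 + q + q ^ 2 + 2 * q ^ 3 + q ^ 4 + q ^ 5 + q ^ 7 + q ^ 8 + q ^ 9 with hXdef
    have hH2 : H = 2 * (1 + 2 * (i * X)) := by rw [hH, hXdef, hi]; ring
    have hcop : IsCoprime (1 + 2 * (i * X)) q := by
      rw [hi, show (4 : ℤ) * i = 2 * 2 * i by norm_num]
      exact (IsCoprime.mul_right ⟨1, -(i * X), by ring⟩ ⟨1, -(i * X), by ring⟩).mul_right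
        ⟨1, -(2 * X), by ring⟩
    have h' := h
    rw [hH2] at h'
    have := (hcop.pow_right (n := 36)).dvd_of_dvd_mul_left (dvd_trans (Dvd.intro_left 2 rfl) h')
    rw [hH2]
    exact mul_dvd_mul_left 2 this
  · have hcop : IsCoprime H q := ⟨-j, j * (1 + q + q ^ 2 + 2 * q ^ 3 + q ^ 4 + q ^ 5 + q ^ 7 + q ^ 8 + q ^ 9) + 1, by
      rw [hH]; subst hj; ring⟩
    exact dvd_mul_of_dvd_right ((hcop.pow_right (n := 36)).dvd_of_dvd_mul_left h) 2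

/-- a divisor of the order which is at least `T - 2` is at least `T` -/
theorem bound_of_lower {q k : ℕ} (hq : IsPrimePow q)
    (hlow : (q - 1) * (q ^ 10 + q ^ 9 + q ^ 8 + q ^ 6 + q ^ 5 + 2 * q ^ 4 + q ^ 3 + q ^ 2 + q + 2) ≤ k)
    (hdvd : k ∣ q ^ 36 * (q ^ 2 - 1) * (q ^ 5 + 1) * (q ^ 6 - 1) * (q ^ 8 - 1) * (q ^ 9 + 1) * (q ^ 12 - 1)) :
    q * (q ^ 6 - q ^ 3 + 1) * (q ^ 4 + 1) ≤ k := by
  have hq2 := hq.two_le
  have h36 : q ^ 3 ≤ q ^ 6 := Nat.pow_le_pow_right (by omega) (by omega)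
  set L := (q - 1) * (q ^ 10 + q ^ 9 + q ^ 8 + q ^ 6 + q ^ 5 + 2 * q ^ 4 + q ^ 3 + q ^ 2 + q + 2) with hL
  set T := q * (q ^ 6 - q ^ 3 + 1) * (q ^ 4 + 1) with hT
  have hT2 : T = L + 2 := by
    zify [show 1 ≤ q by omega, h36] at hT hL ⊢
    rw [hT, hL]; ring
  by_contra hlt
  have hsmall : ¬ q ≤ 12 := fun h12 => by
    rcases (show k = T - 1 ∨ k = T - 2 by omega) with e | e
    · exact not_dvd_small hq2 h12 (Or.inl rfl) (by rw [← hT, ← e]; exact hdvd)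
    · exact not_dvd_small hq2 h12 (Or.inr rfl) (by rw [← hT, ← e]; exact hdvd)
  have hd := Int.natCast_dvd_natCast.2 hdvd
  push_cast [Nat.cast_sub (Nat.one_le_pow 2 q (by omega)), Nat.cast_sub (Nat.one_le_pow 6 q (by omega)),
    Nat.cast_sub (Nat.one_le_pow 8 q (by omega)), Nat.cast_sub (Nat.one_le_pow 12 q (by omega))] at hd
  simp only [mul_assoc ((q : ℤ) ^ 36)] at hd
  rw [order_eq] at hd
  rcases (show k = T - 1 ∨ k = T - 2 by omega) with e | e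
  · have ek : (k : ℤ) = ((q : ℤ) ^ 4 - (q : ℤ) ^ 2 + 1) *
        ((q : ℤ) ^ 7 + (q : ℤ) ^ 5 - (q : ℤ) ^ 4 + (q : ℤ) ^ 3 - (q : ℤ) ^ 2 + q - 1) := by
      have : (k : ℤ) = (T : ℤ) - 1 := by omega
      rw [this, hT]; push_cast [Nat.cast_sub h36]; ring
    have hne : ((q : ℤ) ^ 4 - (q : ℤ) ^ 2 + 1) ≠ 0 := by nlinarith [sq_nonneg ((q : ℤ) ^ 2 - 1), sq_nonneg (q : ℤ)]
    rw [ek] at hd
    have := le_of_dvd_first (q := (q : ℤ)) (Int.dvd_of_mul_dvd_mul_left hne (by convert hd using 1; ring))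
    omega
  · have ek : (k : ℤ) = ((q : ℤ) - 1) * ((q : ℤ) ^ 10 + (q : ℤ) ^ 9 + (q : ℤ) ^ 8 + (q : ℤ) ^ 6 + (q : ℤ) ^ 5 +
        2 * (q : ℤ) ^ 4 + (q : ℤ) ^ 3 + (q : ℤ) ^ 2 + q + 2) := by
      rw [show k = L by omega, hL]; push_cast [Nat.cast_sub (show 1 ≤ q by omega)]; ring
    have hne : (q : ℤ) - 1 ≠ 0 := by omega
    rw [ek] at hd
    have := le_of_dvd_second (q := (q : ℤ)) (fun he h12 => by
      obtain ⟨p, n, hp, hn, rfl⟩ := hq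
      have hp' : p = 2 := by
        have : Even (p ^ n) := (Int.even_coe_nat _).1 (by exact_mod_cast he)
        exact hp.nat_prime.even_iff.1 (Nat.even_pow.1 this).1
      subst hp'
      obtain ⟨e', rfl⟩ : ∃ e', n = e' + 2 := ⟨n - 2, by
        by_contra hne'
        have : n ≤ 1 := by omega
        interval_cases n
        norm_num at h12⟩
      exact ⟨2 ^ e', by push_cast; ring⟩) (Int.dvd_of_mul_dvd_mul_left hne (by convert hd using 1; ring))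
    omega

end CfsgLib.Twisted.E6Min
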