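import Cfsg.Agent.Lib.Twisted.E6Counts
import Cfsg.Agent.Lib.Twisted.E6MinArith

/-! A faithful complex representation of ²E₆(q) has degree at least `q (q^6 - q^3 + 1) (q^4 + 1) - 2`. -/

set_option autoImplicit false
set_option linter.unusedSectionVars false
set_option linter.unusedSimpArgs false
set_option maxRecDepth 100000

namespace CfsgLib.Twisted

open Cfsg.Lie
open CfsgLib.Chevalley (cert_E6 xG_injective)

namespace E6

variable {K : Type*} [Field K] [Fintype K] {q : ℕ} (hq : IsPrimePow q) (hK : Fintype.card K = q ^ 2)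
include hq hK

theorem frame_coord (z U S T : ↥(fixF hq hK)) {a : GL chevE6.Idx K} (ha : a ∈ rad K)
    (e : a = X 70 (frameSign K 71 * z) * (X 47 (frameSign K 39 * U) * (X 51 (frameSign K 44 * S) *
      X 63 (frameSign K 60 * T))))
    (h : ∀ r ∈ qList, coord r (⟨a, ha⟩ : ↥(rad K)) = 0) : z = 0 ∧ U = 0 ∧ S = 0 ∧ T = 0 := by
  subst e
  have h70 : (70 : ℕ) ∈ 71 :: qList := by decide
  have h47 : (47 : ℕ) ∈ 71 :: qList := by decide
  have h51 : (51 : ℕ) ∈ 71 :: qList := by decide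
  have h63 : (63 : ℕ) ∈ 71 :: qList := by decide
  have e' : (⟨_, ha⟩ : ↥(rad K)) =
      ⟨_, X_mem_rad h70 (frameSign K 71 * z)⟩ * (⟨_, X_mem_rad h47 (frameSign K 39 * U)⟩ *
        (⟨_, X_mem_rad h51 (frameSign K 44 * S)⟩ * ⟨_, X_mem_rad h63 (frameSign K 60 * T)⟩)) :=
    Subtype.ext rfl
  have hv : ∀ r ∈ qList, (if 70 = r then frameSign K 71 * (z : K) else 0) + ((if 47 = r then frameSign K 39 * (U : K)
      else 0) + ((if 51 = r then frameSign K 44 * (S : K) else 0) + if 63 = r then frameSign K 60 * (T : K) else 0)) = 0 :=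
    fun r hr => by
      have := h r hr
      rwa [e', coord_mul, coord_mul, coord_mul, coord_X hr h70, coord_X hr h47, coord_X hr h51, coord_X hr h63] at this
  have k70 := hv 70 (by decide)
  have k47 := hv 47 (by decide)
  have k51 := hv 51 (by decide)
  have k63 := hv 63 (by decide)
  simp [frameSign_ne 71, frameSign_ne 39, frameSign_ne 44, frameSign_ne 60] at k70 k47 k51 k63
  exact ⟨k70, k47, k51, k63⟩

variable {V : Type*} [AddCommGroup V] [Module ℂ V] [FiniteDimensional ℂ V]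
  (ρ : Representation ℂ ↥(twistedE6 K q) V)

/-- fixed spaces of the conjugate of the highest root group -/
theorem dim_fT [Fintype ↥(fixF hq hK)] :
    q * Module.finrank ℂ ↥(RepFix.fix ρ (fZ hq hK)) + Module.finrank ℂ ↥(RepFix.fix ρ (fZ hq hK)) =
      q * Module.finrank ℂ ↥(RepFix.fix ρ (fZ hq hK) ⊓ RepFix.fix ρ (fT hq hK)) + Module.finrank ℂ V := by
  classical
  have hcomm : ∀ t z, Commute (fT hq hK t) (fZ hq hK z) := fun t z =>
    Subtype.ext (commute_top (fT_mem_radT hq hK t).2 (z.toAdd : K)).eq.symm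
  have key := RepFix.fix_prod_eq ρ (fZ hq hK) (fT hq hK) ((fT hq hK).noncommCoprod (fZ hq hK) hcomm)
    (fun p => MonoidHom.noncommCoprod_apply _ _ _ p) (fun a ha z => by
      refine trace_translate hq hK ρ (fT_mem_radT hq hK a).2 ⟨70, by decide, fun h => ha ?_⟩ z
      obtain ⟨a, rfl⟩ : ∃ b, Multiplicative.ofAdd b = a := ⟨a.toAdd, rfl⟩
      rw [show (⟨_, _⟩ : ↥(rad K)) = ⟨_, X_mem_rad (show (70 : ℕ) ∈ 71 :: qList by decide)
        (frameSign K 71 * a)⟩ from Subtype.ext (coe_fT hq hK a), coord_X (by decide) (by decide), if_pos rfl,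
        mul_eq_zero, or_iff_right (frameSign_ne 71 (by simp))] at h
      rw [show a = 0 from Subtype.ext h, ofAdd_zero])
  rw [fix_noncommCoprod, Fintype.card_multiplicative, ← Nat.card_eq_fintype_card, card_fixF hq hK,
    show Module.finrank ℂ ↥(RepFix.fix ρ (fT hq hK)) = Module.finrank ℂ ↥(RepFix.fix ρ (fZ hq hK)) from
      finrank_fix_conj ρ (nFrame hq hK) (fZ hq hK), inf_comm] at key
  exact key

/-- fixed spaces of the frame -/
theorem dim_fF [Fintype ↥(fixF hq hK)] :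
    q ^ 4 * Module.finrank ℂ ↥(RepFix.fix ρ (fZ hq hK) ⊓ RepFix.fix ρ (fD hq hK)) +
        Module.finrank ℂ ↥(RepFix.fix ρ (fZ hq hK)) =
      q ^ 4 * Module.finrank ℂ ↥(RepFix.fix ρ (fZ hq hK) ⊓ RepFix.fix ρ (fF hq hK)) + Module.finrank ℂ V := by
  classical
  have hcomm : ∀ t z, Commute (fF hq hK t) (fZ hq hK z) := fun t z =>
    Subtype.ext (commute_top (fF_mem_radT hq hK t).2 (z.toAdd : K)).eq.symm
  have key := RepFix.fix_prod_eq ρ (fZ hq hK) (fF hq hK) ((fF hq hK).noncommCoprod (fZ hq hK) hcomm)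
    (fun p => MonoidHom.noncommCoprod_apply _ _ _ p) (fun a ha z => by
      refine trace_translate hq hK ρ (fF_mem_radT hq hK a).2 ?_ z
      by_contra hall
      push Not at hall
      apply ha
      obtain ⟨w, d⟩ := a
      obtain ⟨h1, h2, h3, h4⟩ := frame_coord hq hK w.toAdd d.toAdd.1 d.toAdd.2.1 d.toAdd.2.2 _
        (coe_fF hq hK w.toAdd d.toAdd.1 d.toAdd.2.1 d.toAdd.2.2) hall
      exact Prod.ext h1 (Prod.ext h2 (Prod.ext h3 h4)))
  have hcard : Fintype.card (Multiplicative ↥(fixF hq hK) × Multiplicative (DPar hq hK)) = q ^ 4 := by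
    rw [Fintype.card_prod, Fintype.card_multiplicative, Fintype.card_multiplicative, ← Nat.card_eq_fintype_card,
      ← Nat.card_eq_fintype_card, card_fixF hq hK, card_DPar hq hK]
    ring
  rw [fix_noncommCoprod, hcard,
    show Module.finrank ℂ ↥(RepFix.fix ρ (fF hq hK)) = Module.finrank ℂ ↥(RepFix.fix ρ (fZD hq hK)) from
      finrank_fix_conj ρ (nFrame hq hK) (fZD hq hK),
    show RepFix.fix ρ (fZD hq hK) = RepFix.fix ρ (fZ hq hK) ⊓ RepFix.fix ρ (fD hq hK) from fix_noncommCoprod _ _ _ _,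
    inf_comm (RepFix.fix ρ (fF hq hK))] at key
  exact key

/-- the orbit bounds -/
theorem orbit_bounds [Fintype ↥(fixF hq hK)] {ε : AddChar K ℂ} (hε : ∃ l ∈ fixF hq hK, ε l ≠ 1)
    (hgap : Module.finrank ℂ ↥(RepFix.fix ρ (fZ hq hK) ⊓ RepFix.fix ρ (fT hq hK)) + (q - 1) * q ^ 9 =
      Module.finrank ℂ ↥(RepFix.fix ρ (fZ hq hK))) :
    ∃ N M : ℕ, (q - 1) * (q ^ 9 + q ^ 8 + q ^ 6 + 3 * q ^ 3) ≤ N + (q - 1) * (2 * q ^ 4) ∧
      (q - 1) * (q ^ 9 + q ^ 8 + 4 * q ^ 7 + q ^ 5 + q ^ 4 + 2 * q ^ 3) ≤ M + (q - 1) * (2 * q ^ 6) ∧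
      M ≤ q ^ 3 * Module.finrank ℂ ↥(RepFix.fix ρ (fZ hq hK) ⊓ RepFix.fix ρ (fD hq hK)) ∧
      N + Module.finrank ℂ ↥(RepFix.fix ρ (fZ hq hK) ⊓ RepFix.fix ρ (fF hq hK)) ≤
        Module.finrank ℂ ↥(RepFix.fix ρ (fZ hq hK)) := by
  classical
  let L := fixF hq hK
  set W := RepFix.fix ρ (fZ hq hK)
  let c : Lˣ → K := fun e => ((e : L) : K)
  have hc0 : ∀ e : Lˣ, c e ≠ 0 := fun e h => e.ne_zero (Subtype.ext h)
  let F : Lˣ × Cell hq hK → ℕ → K := fun i => cellF hq hK (c i.1) i.2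
  have hgood : ∀ i, Good hq hK ρ ε (F i) := fun i =>
    good_cell hq hK ρ hgap hε (i.1 : L).2 (hc0 i.1) i.2
  choose hcompat v hv0 hv hfix using hgood
  have hinj : Function.Injective fun i => psi q ε (F i) := by
    intro i j hij
    obtain ⟨h1, h2⟩ := cellF_inj hq hK (hc0 i.1) (hc0 j.1) (eq_of_psi hq hK hε (hcompat i) (hcompat j) hij)
    exact Prod.ext (Units.ext (Subtype.ext h1)) h2
  have hgD : ∀ d : DPar hq hK, gD (d.1 : K) (d.2.1 : K) (d.2.2 : K) ∈ twistedE6 K q := fun d =>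
    gD_mem hq hK d.1.2 d.2.1.2 d.2.2.2
  let act : Multiplicative (DPar hq hK) → (↥(radT K q) →* ↥(radT K q)) := fun d =>
    MonoidHom.mk' (fun x => ⟨(gD (d.toAdd.1 : K) d.toAdd.2.1 d.toAdd.2.2)⁻¹ * x *
        gD (d.toAdd.1 : K) d.toAdd.2.1 d.toAdd.2.2,
        (mul_mem (mul_mem (inv_mem (hgD d.toAdd)) x.2.1) (hgD d.toAdd) : _ ∈ twistedE6 K q), (shifts_gD _ _ _ ⟨x.1, x.2.2⟩).1⟩)
      fun x y => Subtype.ext (by
        simp only [Subgroup.coe_mul]
        group)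
  have hact : ∀ i d, (psi q ε (F i)).comp (act d) =
      psi q ε (TD (d.toAdd.1 : K) d.toAdd.2.1 d.toAdd.2.2 (F i)) := fun i d =>
    MonoidHom.ext fun x => by
      obtain ⟨_, e⟩ := psi_shift ε (hgD d.toAdd) (shifts_gD _ _ _) (F i) x
      exact e
  refine ⟨Fintype.card {i : Lˣ × Cell hq hK // NV (F i)}, ∑ i : Lˣ × Cell hq hK, cellWt hq hK i.2, ?_, ?_, ?_, ?_⟩
  · have hu : Fintype.card Lˣ = q - 1 := by
      rw [Fintype.card_units, ← Nat.card_eq_fintype_card, card_fixF hq hK]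
    rw [Fintype.card_subtype, Finset.card_filter, Fintype.sum_prod_type, ← hu,
      show Fintype.card Lˣ * (q ^ 9 + q ^ 8 + q ^ 6 + 3 * q ^ 3) = ∑ _e : Lˣ, (q ^ 9 + q ^ 8 + q ^ 6 + 3 * q ^ 3) by simp,
      show Fintype.card Lˣ * (2 * q ^ 4) = ∑ _e : Lˣ, 2 * q ^ 4 by simp, ← Finset.sum_add_distrib]
    refine Finset.sum_le_sum fun e _ => ?_
    have := sum_nv_le hq hK (hc0 e)
    convert this using 3
  · have hu : Fintype.card Lˣ = q - 1 := by
      rw [Fintype.card_units, ← Nat.card_eq_fintype_card, card_fixF hq hK]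
    simp only [Fintype.sum_prod_type, Finset.sum_const, Finset.card_univ, hu, smul_eq_mul]
    rw [← Nat.mul_add]
    exact Nat.mul_le_mul_left _ (le_sum_wt hq hK)
  · have key := RepFix.sum_le_card_mul_fix ρ (radIncl K q) (fD hq hK) act (fun d x => Subtype.ext rfl) W
      (fun d u hu => mem_fix_of_commute hq hK ρ (hgD d.toAdd) (fun z => commute_gD_top _ _ _ z) hu)
      (fun i => psi q ε (F i)) v hinj hv0 (fun i => eig_mem_fix hq hK ρ (hv i)) hv
      (fun i d e => by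
        rw [hact] at e
        have := eq_of_psi hq hK hε (compat_shift hq hK (hgD d.toAdd) (shifts_gD _ _ _) (hcompat i)) (hcompat i) e
        exact hfix i d.toAdd this)
      (fun i => cellWt hq hK i.2) (fun i => (cellWt_le hq hK (c i.1) i.2).trans (by
        refine Nat.card_le_card_of_injective (fun d => ⟨Multiplicative.ofAdd d.1, ?_⟩) fun a b e =>
          Subtype.ext (congrArg Multiplicative.toAdd (congrArg Subtype.val e) : _)
        rw [hact]
        exact MonoidHom.ext fun x => congrArg ε (lin_congr d.2 _)))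
    rwa [Fintype.card_multiplicative, ← Nat.card_eq_fintype_card, card_DPar hq hK] at key
  · have key := RepFix.card_add_fix_le ρ (radIncl K q) (fFQ hq hK) W
      (fun i : {i : Lˣ × Cell hq hK // NV (F i)} => psi q ε (F i.1)) (fun i => v i.1)
      (fun a b e => Subtype.ext (hinj e)) (fun i => hv0 _) (fun i => eig_mem_fix hq hK ρ (hv _)) (fun i => hv _)
      (fun i => exists_fFQ_ne hq hK hε (hcompat _) i.2)
    rwa [radIncl_fFQ] at key

theorem min_degree_aux (hρ : Function.Injective ρ) :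
    (q - 1) * (q ^ 10 + q ^ 9 + q ^ 8 + q ^ 6 + q ^ 5 + 2 * q ^ 4 + q ^ 3 + q ^ 2 + q + 2) ≤
      Module.finrank ℂ V := by
  classical
  let _ : Fintype ↥(fixF hq hK) := Fintype.ofFinite _
  obtain ⟨τ, hτ⟩ := AddChar.exists_apply_ne_zero.2 (one_ne_zero (α := K))
  have hε : ∃ l ∈ fixF hq hK, τ l ≠ 1 := ⟨1, one_mem _, hτ⟩
  obtain ⟨m, hm⟩ := exists_dim_eq hq hK ρ hε
  have hq2 := hq.two_le
  have hB : q ^ 9 + q ^ 8 + q ^ 6 + q ^ 5 + 2 * q ^ 4 + q ^ 3 + q ^ 2 + q + 2 ≤ q ^ 10 := by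
    have h : ∀ n, 2 * q ^ n ≤ q * q ^ n := fun n => Nat.mul_le_mul_right _ hq2
    linarith [h 0, h 1, h 2, h 3, h 4, h 5, h 6, h 7, h 8, h 9]
  set Wd := Module.finrank ℂ ↥(RepFix.fix ρ (fZ hq hK)) with hWd
  rcases m with _ | _ | m
  · exfalso
    have e : RepFix.fix ρ (fZ hq hK) = ⊤ :=
      Submodule.eq_top_of_finrank_eq (by rw [← hWd]; omega)
    have h1 : fZ hq hK (Multiplicative.ofAdd 1) = 1 := hρ (LinearMap.ext fun w => by
      rw [map_one ρ]
      exact (e.ge (Submodule.mem_top (x := w))) _)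
    have h2 : X 71 (1 : K) = 1 := congrArg Subtype.val h1
    exact one_ne_zero (xG_injective cert_E6 (show 71 < chevE6.nroots by decide) (h2.trans (X_zero 71).symm))
  · have hT := dim_fT hq hK ρ
    have hgap : Module.finrank ℂ ↥(RepFix.fix ρ (fZ hq hK) ⊓ RepFix.fix ρ (fT hq hK)) + (q - 1) * q ^ 9 = Wd := by
      refine Nat.eq_of_mul_eq_mul_left hq.pos ?_
      linarith [hT, hm, show q * ((q - 1) * q ^ 9) = (q - 1) * (q ^ 10 * 1) by ring]
    obtain ⟨N, M, hN, hM, hMD, hNF⟩ := orbit_bounds hq hK ρ hε hgap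
    have hF := dim_fF hq hK ρ
    rw [← hWd] at hF hNF
    set dD := Module.finrank ℂ ↥(RepFix.fix ρ (fZ hq hK) ⊓ RepFix.fix ρ (fD hq hK))
    set dF := Module.finrank ℂ ↥(RepFix.fix ρ (fZ hq hK) ⊓ RepFix.fix ρ (fF hq hK))
    obtain ⟨p, hp⟩ : ∃ p, q = p + 1 := ⟨q - 1, by omega⟩
    rw [show q - 1 = p by omega] at hN hM hm ⊢
    -- scaled by powers of `q`
    have hdF : dD = dF + p * q ^ 6 := by
      refine Nat.eq_of_mul_eq_mul_left (pow_pos hq.pos 4) ?_
      linarith [hF, hm, show q ^ 4 * (p * q ^ 6) = p * (q ^ 10 * 1) by ring]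
    have hD : p * (q ^ 6 + q ^ 5 + 4 * q ^ 4 + q ^ 2 + q + 2) ≤ dD + p * (2 * q ^ 3) := by
      refine Nat.le_of_mul_le_mul_left ?_ (pow_pos hq.pos 3)
      calc q ^ 3 * (p * (q ^ 6 + q ^ 5 + 4 * q ^ 4 + q ^ 2 + q + 2))
          = p * (q ^ 9 + q ^ 8 + 4 * q ^ 7 + q ^ 5 + q ^ 4 + 2 * q ^ 3) := by ring
        _ ≤ M + p * (2 * q ^ 6) := hM
        _ ≤ q ^ 3 * dD + p * (2 * q ^ 6) := Nat.add_le_add_right hMD _
        _ = q ^ 3 * (dD + p * (2 * q ^ 3)) := by ring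
    linarith [hN, hD, hdF, hNF, hm]
  · have h2 : (q - 1) * (q ^ 10 * 2) ≤ (q - 1) * (q ^ 10 * (m + 1 + 1)) :=
      Nat.mul_le_mul_left _ (Nat.mul_le_mul_left _ (by omega))
    refine le_trans (le_trans (Nat.mul_le_mul_left _ ?_) h2) (hm ▸ Nat.le_add_left _ _)
    linarith [hB]

end E6

end CfsgLib.Twisted
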