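import Cfsg.Agent.Lib.Twisted.E6Radical

/-! When the fixed vectors of a conjugate of the highest root group have the expected codimension, the
eigenspaces of the characters not trivial on the second highest root are lines, and the normalised one has
all but one coordinate zero. -/

set_option autoImplicit false
set_option linter.unusedSectionVars false
set_option linter.unusedSimpArgs false
set_option maxRecDepth 100000

namespace CfsgLib.Twisted

open Cfsg.Lie

namespace E6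

variable {K : Type*} [Field K]

/-- the parameters of an element of the abelian radical of the Levi subgroup -/
abbrev HPar (L K : Type*) : Type _ := L × L × L × K × K × K

/-- the values at the nine roots moved onto from the second highest one -/
theorem TH_top (q : ℕ) (A B D x y z : K) (F : ℕ → K) :
    TH q A B D x y z F 70 = F 70 ∧ TH q A B D x y z F 69 = F 69 - A * F 70 ∧
      TH q A B D x y z F 65 = F 65 + B * F 70 ∧ TH q A B D x y z F 53 = F 53 + D * F 70 ∧
      TH q A B D x y z F 68 = F 68 + x * F 70 ∧ TH q A B D x y z F 67 = F 67 - y * F 70 ∧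
      TH q A B D x y z F 64 = F 64 - z * F 70 := by
  refine ⟨?_, ?_, ?_, ?_, ?_, ?_, ?_⟩ <;> (simp only [TH]; eval_steps) <;> ring

/-- the zero parameters act trivially -/
theorem TH_zero (q : ℕ) (hq : q ≠ 0) (F : ℕ → K) : ∀ r ∈ qList, TH q 0 0 0 0 0 0 F r = F r := by
  intro r _
  have hs : ∀ a (G : ℕ → K), stepF a (0 : K) G = G := fun a G => funext fun i => by simp [stepF]
  simp only [TH, stepP, zero_pow hq, mul_zero, hs]

/-- `F` has value `c` at the second highest root and zero at the nine roots next to it -/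
def Normal (c : K) (F : ℕ → K) : Prop :=
  F 70 = c ∧ F 69 = 0 ∧ F 65 = 0 ∧ F 53 = 0 ∧ F 68 = 0 ∧ F 67 = 0 ∧ F 64 = 0 ∧ F 66 = 0 ∧ F 55 = 0 ∧ F 54 = 0

/-- a normal vector fixed by the linear elements has no other coordinates -/
theorem base_of_fixed {q : ℕ} (hq : q ≠ 0) {c : K} {F : ℕ → K} (hN : Normal c F)
    (hfix : ∀ a ∈ [56, 15, 42, 29], Normal c (stepP q a 1 F) → ∀ r ∈ qList, stepP q a 1 F r = F r)
    (hfix32 : Normal c (stepF 32 1 F) → ∀ r ∈ qList, stepF 32 1 F r = F r) :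
    ∀ r ∈ qList, F r = base 70 c r := by
  obtain ⟨h70, h69, h65, h53, h68, h67, h64, h66, h55, h54⟩ := hN
  have g56 := hfix 56 (by simp) (by
    refine ⟨?_, ?_, ?_, ?_, ?_, ?_, ?_, ?_, ?_, ?_⟩ <;> eval_steps <;>
      simp [h70, h69, h65, h53, h68, h67, h64, h66, h55, h54])
  have g15 := hfix 15 (by simp) (by
    refine ⟨?_, ?_, ?_, ?_, ?_, ?_, ?_, ?_, ?_, ?_⟩ <;> eval_steps <;>
      simp [h70, h69, h65, h53, h68, h67, h64, h66, h55, h54])
  have g42 := hfix 42 (by simp) (by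
    refine ⟨?_, ?_, ?_, ?_, ?_, ?_, ?_, ?_, ?_, ?_⟩ <;> eval_steps <;>
      simp [h70, h69, h65, h53, h68, h67, h64, h66, h55, h54])
  have g29 := hfix 29 (by simp) (by
    refine ⟨?_, ?_, ?_, ?_, ?_, ?_, ?_, ?_, ?_, ?_⟩ <;> eval_steps <;>
      simp [h70, h69, h65, h53, h68, h67, h64, h66, h55, h54])
  have h61 : F 61 = 0 := by have h := g56 50 (by decide); revert h; eval_steps
  have h49 : F 49 = 0 := by have h := g56 48 (by decide); revert h; eval_steps
  have h63 : F 63 = 0 := by have h := g56 52 (by decide); revert h; eval_steps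
  have h50 : F 50 = 0 := by have h := g15 61 (by decide); revert h; eval_steps
  have h48 : F 48 = 0 := by have h := g15 49 (by decide); revert h; eval_steps
  have h51 : F 51 = 0 := by have h := g15 62 (by decide); revert h; eval_steps
  have h52 : F 52 = 0 := by have h := g42 49 (by decide); revert h; eval_steps
  have h62 : F 62 = 0 := by have h := g42 61 (by decide); revert h; eval_steps
  have h47 : F 47 = 0 := by have h := g29 48 (by decide); revert h; eval_steps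
  have g32 := hfix32 (by
    refine ⟨?_, ?_, ?_, ?_, ?_, ?_, ?_, ?_, ?_, ?_⟩ <;> eval_steps <;>
      simp [h70, h69, h65, h53, h68, h67, h64, h66, h55, h54, h62, h63, h51, h52])
  have h46 : F 46 = 0 := by have h := g32 47 (by decide); revert h; eval_steps
  refine forall_qList ⟨?_, ?_, ?_, ?_, ?_, ?_, ?_, ?_, ?_, ?_, ?_, ?_, ?_, ?_, ?_, ?_, ?_, ?_, ?_, ?_⟩ <;>
    simp [base, h70, h69, h65, h53, h68, h67, h64, h66, h55, h54, h61, h49, h63, h50, h48, h51, h52, h62, h47, h46]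

variable [Fintype K] {q : ℕ} (hq : IsPrimePow q) (hK : Fintype.card K = q ^ 2)
include hq hK

theorem compat_long {F : ℕ → K} (hF : Compat q F) {r : ℕ} (hr : r ∈ longQ) : F r ∈ fixF hq hK := by
  obtain ⟨h1, -, h3, h4⟩ := longQ_mem r hr
  have := hF r h1
  rw [h3, h4, Int.cast_one, one_mul] at this
  exact this.symm

/-- a compatible vector may be moved to a normal one -/
theorem exists_normal {F : ℕ → K} (hF : Compat q F) (h70 : F 70 ≠ 0) :
    ∃ g ∈ twistedE6 K q, ∃ T, Shifts g T ∧ Compat q (T F) ∧ Normal (F 70) (T F) := by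
  set C := F 70
  have hC : C ∈ fixF hq hK := compat_long hq hK hF (by decide)
  have hA : F 69 / C ∈ fixF hq hK := div_mem (compat_long hq hK hF (by decide)) hC
  have hB : -F 65 / C ∈ fixF hq hK := div_mem (neg_mem (compat_long hq hK hF (by decide))) hC
  have hD : -F 53 / C ∈ fixF hq hK := div_mem (neg_mem (compat_long hq hK hF (by decide))) hC
  set T : (ℕ → K) → ℕ → K := TH q (F 69 / C) (-F 65 / C) (-F 53 / C) (-F 68 / C) (F 67 / C) (F 64 / C)
  have hg := gH_mem hq hK hA hB hD (-F 68 / C) (F 67 / C) (F 64 / C)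
  have hs : Shifts _ T := shifts_gH (q := q) (F 69 / C) (-F 65 / C) (-F 53 / C) (-F 68 / C) (F 67 / C) (F 64 / C)
  have hc : Compat q (T F) := compat_shift hq hK hg hs hF
  obtain ⟨e70, e69, e65, e53, e68, e67, e64⟩ :=
    TH_top q (F 69 / C) (-F 65 / C) (-F 53 / C) (-F 68 / C) (F 67 / C) (F 64 / C) F
  have k : graphSigmaE6 68 = 66 ∧ graphSigmaE6 67 = 55 ∧ graphSigmaE6 64 = 54 := by decide +kernel
  have n69 : T F 69 = 0 := e69.trans (by rw [div_mul_cancel₀ _ h70, sub_self])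
  have n65 : T F 65 = 0 := e65.trans (by rw [div_mul_cancel₀ _ h70, add_neg_cancel])
  have n53 : T F 53 = 0 := e53.trans (by rw [div_mul_cancel₀ _ h70, add_neg_cancel])
  have n68 : T F 68 = 0 := e68.trans (by rw [div_mul_cancel₀ _ h70, add_neg_cancel])
  have n67 : T F 67 = 0 := e67.trans (by rw [div_mul_cancel₀ _ h70, sub_self])
  have n64 : T F 64 = 0 := e64.trans (by rw [div_mul_cancel₀ _ h70, sub_self])
  refine ⟨_, hg, T, hs, hc, e70, n69, n65, n53, n68, n67, n64, ?_, ?_, ?_⟩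
  · rw [← k.1, hc 68 (by decide), n68, zero_pow hq.pos.ne', mul_zero]
  · rw [← k.2.1, hc 67 (by decide), n67, zero_pow hq.pos.ne', mul_zero]
  · rw [← k.2.2, hc 64 (by decide), n64, zero_pow hq.pos.ne', mul_zero]

variable {ε : AddChar K ℂ} (hε : ∃ l ∈ fixF hq hK, ε l ≠ 1)
variable {V : Type*} [AddCommGroup V] [Module ℂ V] [FiniteDimensional ℂ V]
  (ρ : Representation ℂ ↥(twistedE6 K q) V)
  (hgap : Module.finrank ℂ ↥(RepFix.fix ρ (fZ hq hK) ⊓ RepFix.fix ρ (fT hq hK)) + (q - 1) * q ^ 9 =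
    Module.finrank ℂ ↥(RepFix.fix ρ (fZ hq hK)))
include hgap hε

/-- some eigenvector has coordinates which are not zero at the second highest root -/
theorem exists_eig : ∃ (F : ℕ → K) (v : V), Compat q F ∧ F 70 ≠ 0 ∧ v ≠ 0 ∧ Eig ρ ε F v := by
  classical
  set W := RepFix.fix ρ (fZ hq hK)
  obtain ⟨z, w, hw, hne⟩ : ∃ z, ∃ w ∈ W, ρ (fT hq hK z) w ≠ w := by
    by_contra h
    push Not at h
    have e : W ⊓ RepFix.fix ρ (fT hq hK) = W := inf_eq_left.2 fun v hv z => h z v hv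
    rw [e] at hgap
    have : 0 < (q - 1) * q ^ 9 := Nat.mul_pos (by have := hq.two_le; omega) (pow_pos hq.pos _)
    omega
  obtain ⟨χ, v, hvW, hv0, hv, hχ⟩ := RepEigen.exists_eigen_ne_one (ρ.comp (radIncl K q)) W
    (fun x u hu => rad_invariant hq hK ρ x hu) (fun x y u hu => rad_commute hq hK ρ x y hu)
    (fTQ hq hK z) ⟨w, hw, hne⟩
  obtain ⟨F, hF, rfl⟩ := exists_psi_eq hq hK hε χ (fun t ht => by
    have e : radIncl K q (⟨X 71 t, ht⟩ : ↥(radT K q)) =
        fZ hq hK (Multiplicative.ofAdd ⟨t, top_fix hq hK ht.1⟩) := Subtype.ext rfl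
    refine smul_left_injective ℂ hv0 ?_
    show χ _ • v = (1 : ℂ) • v
    rw [one_smul, ← hv]
    show ρ (radIncl K q _) v = v
    rw [e]
    exact hvW _)
  refine ⟨F, v, hF, fun h0 => hχ ?_, hv0, hv⟩
  obtain ⟨z, rfl⟩ : ∃ u, Multiplicative.ofAdd u = z := ⟨z.toAdd, rfl⟩
  rw [psi_fTQ, h0, zero_mul, AddChar.map_zero_eq_one]

/-- the translates of a normal eigencharacter are all the eigencharacters not trivial at the second
highest root, and each has a single eigenline -/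
theorem eig_cases {c : K} (hc : c ≠ 0) {F₁ : ℕ → K} (hF₁ : Compat q F₁) (hN : Normal c F₁) {v₁ : V}
    (hv₁ : v₁ ≠ 0) (he₁ : Eig ρ ε F₁ v₁) :
    ∀ (e : K), e ∈ fixF hq hK → e ≠ 0 → ∀ G : ℕ → K, Compat q G → Normal (e * c) G →
      ∀ w, Eig ρ ε G w → w ≠ 0 →
        (∀ r ∈ qList, G r = TS e F₁ r) ∧ OneLine ρ ε (TS e F₁) := by
  classical
  let L := fixF hq hK
  let _ : Fintype L := Fintype.ofFinite L
  let P := HPar L K
  let gI : Lˣ × P → GL chevE6.Idx K := fun i =>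
    gH q (i.2.1 : K) (i.2.2.1 : K) (i.2.2.2.1 : K) i.2.2.2.2.1 i.2.2.2.2.2.1 i.2.2.2.2.2.2 *
      torS (Units.map L.subtype.toMonoidHom i.1)
  have hgI : ∀ i, gI i ∈ twistedE6 K q := fun i =>
    mul_mem (gH_mem hq hK i.2.1.2 i.2.2.1.2 i.2.2.2.1.2 _ _ _) (torS_mem hq hK (i.1 : L).2)
  let TI : Lˣ × P → (ℕ → K) → ℕ → K := fun i F =>
    TH q (i.2.1 : K) (i.2.2.1 : K) (i.2.2.2.1 : K) i.2.2.2.2.1 i.2.2.2.2.2.1 i.2.2.2.2.2.2
      (TS ((i.1 : L) : K) F)
  have hTI : ∀ i, Shifts (gI i) (TI i) := fun i => (shifts_gH _ _ _ _ _ _).mul (shifts_torS _)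
  have hcomp : ∀ i, Compat q (TI i F₁) := fun i => compat_shift hq hK (hgI i) (hTI i) hF₁
  have hev : ∀ i, ρ ⟨gI i, hgI i⟩ v₁ ≠ 0 := fun i h0 => hv₁ (by
    have := congrArg (ρ (⟨gI i, hgI i⟩ : ↥(twistedE6 K q))⁻¹) h0
    rwa [map_zero, ← Module.End.mul_apply, ← map_mul, inv_mul_cancel, map_one] at this)
  obtain ⟨n70, n69, n65, n53, n68, n67, n64, -, -, -⟩ := hN
  have hk : chevE6.cartan 1 69 = chevE6.cartan 1 69 := rfl
  have vals : ∀ i : Lˣ × P, TI i F₁ 70 = ((i.1 : L) : K) * c ∧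
      TI i F₁ 69 = -((i.2.1 : K) * (((i.1 : L) : K) * c)) ∧
      TI i F₁ 65 = (i.2.2.1 : K) * (((i.1 : L) : K) * c) ∧
      TI i F₁ 53 = (i.2.2.2.1 : K) * (((i.1 : L) : K) * c) ∧
      TI i F₁ 68 = i.2.2.2.2.1 * (((i.1 : L) : K) * c) ∧
      TI i F₁ 67 = -(i.2.2.2.2.2.1 * (((i.1 : L) : K) * c)) ∧
      TI i F₁ 64 = -(i.2.2.2.2.2.2 * (((i.1 : L) : K) * c)) := by
    intro i
    have h0 : ∀ r, F₁ r = 0 → TS ((i.1 : L) : K) F₁ r = 0 := fun r h => by rw [TS, h, mul_zero]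
    obtain ⟨a0, a1, a2, a3, a4, a5, a6⟩ := TH_top q (i.2.1 : K) (i.2.2.1 : K) (i.2.2.2.1 : K)
      i.2.2.2.2.1 i.2.2.2.2.2.1 i.2.2.2.2.2.2 (TS ((i.1 : L) : K) F₁)
    refine ⟨a0.trans (by rw [TS_top, n70]), a1.trans ?_, a2.trans ?_, a3.trans ?_, a4.trans ?_, a5.trans ?_,
      a6.trans ?_⟩
    all_goals rw [TS_top, n70]
    · rw [h0 69 n69, zero_sub]
    · rw [h0 65 n65, zero_add]
    · rw [h0 53 n53, zero_add]
    · rw [h0 68 n68, zero_add]
    · rw [h0 67 n67, zero_sub]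
    · rw [h0 64 n64, zero_sub]
  have hinj : Function.Injective fun i => psi q ε (TI i F₁) := by
    intro i j hij
    have hh := eq_of_psi hq hK hε (hcomp i) (hcomp j) hij
    obtain ⟨a0, a1, a2, a3, a4, a5, a6⟩ := vals i
    obtain ⟨b0, b1, b2, b3, b4, b5, b6⟩ := vals j
    have g0 := a0.symm.trans ((hh 70 (by decide)).trans b0)
    have he : ((i.1 : L) : K) = ((j.1 : L) : K) := mul_right_cancel₀ hc g0
    have hec : ((j.1 : L) : K) * c ≠ 0 :=
      mul_ne_zero (fun h => j.1.ne_zero (Subtype.ext h)) hc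
    rw [he] at a1 a2 a3 a4 a5 a6
    have g1 := mul_right_cancel₀ hec (neg_injective (a1.symm.trans ((hh 69 (by decide)).trans b1)))
    have g2 := mul_right_cancel₀ hec (a2.symm.trans ((hh 65 (by decide)).trans b2))
    have g3 := mul_right_cancel₀ hec (a3.symm.trans ((hh 53 (by decide)).trans b3))
    have g4 := mul_right_cancel₀ hec (a4.symm.trans ((hh 68 (by decide)).trans b4))
    have g5 := mul_right_cancel₀ hec (neg_injective (a5.symm.trans ((hh 67 (by decide)).trans b5)))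
    have g6 := mul_right_cancel₀ hec (neg_injective (a6.symm.trans ((hh 64 (by decide)).trans b6)))
    exact Prod.ext (Units.ext (Subtype.ext he)) (Prod.ext (Subtype.ext g1) (Prod.ext (Subtype.ext g2)
      (Prod.ext (Subtype.ext g3) (Prod.ext g4 (Prod.ext g5 g6)))))
  have hcard : Fintype.card (Lˣ × P) = (q - 1) * q ^ 9 := by
    have hL : Fintype.card L = q := by rw [← Nat.card_eq_fintype_card]; exact card_fixF hq hK
    simp only [P, HPar, Fintype.card_prod, Fintype.card_units, hL, hK]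
    ring
  intro e heL he0 G hG hGN w hwG hw0
  obtain ⟨m70, m69, m65, m53, m68, m67, m64, -, -, -⟩ := hGN
  let eU : Lˣ := Units.mk0 ⟨e, heL⟩ fun h => he0 (congrArg Subtype.val h)
  let i₀ : Lˣ × P := (eU, 0, 0, 0, 0, 0, 0)
  have main : ∀ H : ℕ → K, Compat q H → H 70 ≠ 0 → ∀ u, Eig ρ ε H u → u ≠ 0 →
      ∃ i, psi q ε (TI i F₁) = psi q ε H ∧ ∃ k : ℂ, u = k • ρ ⟨gI i, hgI i⟩ v₁ := by
    intro H hH hH70 u hu hu0
    have hfull : Module.finrank ℂ ↥(RepFix.fix ρ (fZ hq hK)) ≤ Fintype.card (Lˣ × P) +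
        Module.finrank ℂ ↥(RepFix.fix ρ (fZ hq hK) ⊓
          RepFix.fix ρ ((radIncl K q).comp (fTQ hq hK))) := by
      rw [radIncl_fTQ, hcard, add_comm]
      exact hgap.ge
    exact RepFix.exists_eq_smul_of_full ρ (radIncl K q) (fTQ hq hK) (RepFix.fix ρ (fZ hq hK))
      (fun i => psi q ε (TI i F₁)) (fun i => ρ ⟨gI i, hgI i⟩ v₁) hinj hev
      (fun i => eig_mem_fix hq hK ρ (eig_shift ρ ε (hgI i) (hTI i) he₁))
      (fun i => eig_shift ρ ε (hgI i) (hTI i) he₁)
      (fun i => exists_fTQ_ne hq hK hε (hcomp i) (by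
        rw [(vals i).1]; exact mul_ne_zero (fun h => i.1.ne_zero (Subtype.ext h)) hc))
      hfull (eig_mem_fix hq hK ρ hu) hu0 (psi q ε H) hu (exists_fTQ_ne hq hK hε hH hH70)
  have hid : ∀ r ∈ qList, TI i₀ F₁ r = TS e F₁ r := fun r hr =>
    (show TI i₀ F₁ r = TH q (0 : K) 0 0 0 0 0 (TS e F₁) r from rfl).trans (TH_zero q hq.pos.ne' _ r hr)
  obtain ⟨i, hi, k, hk'⟩ := main G hG (by rw [m70]; exact mul_ne_zero he0 hc) w hwG hw0
  have hG' := eq_of_psi hq hK hε (hcomp i) hG hi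
  have hi₀ : i = i₀ := by
    obtain ⟨a0, a1, a2, a3, a4, a5, a6⟩ := vals i
    have g0 := a0.symm.trans ((hG' 70 (by decide)).trans m70)
    have he : ((i.1 : L) : K) = e := mul_right_cancel₀ hc g0
    rw [he] at a1 a2 a3 a4 a5 a6
    have hec : e * c ≠ 0 := mul_ne_zero he0 hc
    have g1 := (neg_eq_zero.1 (a1.symm.trans ((hG' 69 (by decide)).trans m69)))
    have g2 := a2.symm.trans ((hG' 65 (by decide)).trans m65)
    have g3 := a3.symm.trans ((hG' 53 (by decide)).trans m53)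
    have g4 := a4.symm.trans ((hG' 68 (by decide)).trans m68)
    have g5 := (neg_eq_zero.1 (a5.symm.trans ((hG' 67 (by decide)).trans m67)))
    have g6 := (neg_eq_zero.1 (a6.symm.trans ((hG' 64 (by decide)).trans m64)))
    simp only [mul_eq_zero, or_iff_left (not_or.2 ⟨he0, hc⟩)] at g1 g2 g3 g4 g5 g6
    exact Prod.ext (Units.ext (Subtype.ext he)) (Prod.ext (Subtype.ext g1) (Prod.ext (Subtype.ext g2)
      (Prod.ext (Subtype.ext g3) (Prod.ext g4 (Prod.ext g5 g6)))))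
  subst hi₀
  refine ⟨fun r hr => (hG' r hr).symm.trans (hid r hr), oneLine_congr ρ ε hid
    ⟨ρ ⟨gI i₀, hgI i₀⟩ v₁, hev i₀, eig_shift ρ ε (hgI i₀) (hTI i₀) he₁, fun u hu => ?_⟩⟩
  rcases eq_or_ne u 0 with rfl | hu0
  · exact ⟨0, (zero_smul ℂ _).symm⟩
  have h70 : TI i₀ F₁ 70 ≠ 0 := by
    rw [(vals i₀).1]; exact mul_ne_zero (fun h => i₀.1.ne_zero (Subtype.ext h)) hc
  obtain ⟨j, hj, k', hk''⟩ := main _ (hcomp i₀) h70 u hu hu0
  have := hinj hj
  subst this
  exact ⟨k', hk''⟩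

/-- the normalised eigenspaces are lines -/
theorem oneLine_base70 {c : K} (hc : c ∈ fixF hq hK) (hc0 : c ≠ 0) : OneLine ρ ε (base 70 c) := by
  obtain ⟨F, v, hF, h70, hv0, hv⟩ := exists_eig hq hK hε ρ hgap
  obtain ⟨g, hg, T, hT, hF₁, hN⟩ := exists_normal hq hK hF h70
  set F₁ := T F
  have hv₁ : ρ ⟨g, hg⟩ v ≠ 0 := fun e => hv0 (by
    have := congrArg (ρ (⟨g, hg⟩ : ↥(twistedE6 K q))⁻¹) e
    rwa [map_zero, ← Module.End.mul_apply, ← map_mul, inv_mul_cancel, map_one] at this)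
  have he₁ : Eig ρ ε F₁ (ρ ⟨g, hg⟩ v) := eig_shift ρ ε hg hT hv
  have cases' := eig_cases hq hK hε ρ hgap h70 hF₁ hN hv₁ he₁
  have hone : ∀ r, TS (1 : K) F₁ r = F₁ r := fun r => by rw [TS, one_zpow, one_mul]
  have hself : ∀ {g' : GL chevE6.Idx K}, g' ∈ twistedE6 K q → ∀ {T'}, Shifts g' T' →
      Normal (F 70) (T' F₁) → ∀ r ∈ qList, T' F₁ r = F₁ r := by
    intro g' hg' T' hT' hN' r hr
    have := (cases' 1 (one_mem _) one_ne_zero _ (compat_shift hq hK hg' hT' hF₁)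
      (by rw [one_mul]; exact hN') _ (eig_shift ρ ε hg' hT' he₁) (fun e => hv₁ (by
        have := congrArg (ρ (⟨g', hg'⟩ : ↥(twistedE6 K q))⁻¹) e
        rwa [map_zero, ← Module.End.mul_apply, ← map_mul, inv_mul_cancel, map_one] at this))).1 r hr
    rwa [hone] at this
  have hbase := base_of_fixed hq.pos.ne' hN
    (fun a ha hN' => by
      have k : ∀ a ∈ [56, 15, 42, 29], a ∈ [56, 15, 14, 29, 42, 57, 40, 41, 45] := by decide
      exact hself (pair_mem hq hK (k a ha) (1 : K)) (shifts_pair (k a ha) 1) hN')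
    (fun hN' => hself (long_mem hq hK (r := 32) (by decide) (one_pow q)) (shifts_X (by decide) 1) hN')
  have h70L : F 70 ∈ fixF hq hK := compat_long hq hK hF (by decide)
  have he : c / F 70 ∈ fixF hq hK := div_mem hc h70L
  have he0 : c / F 70 ≠ 0 := div_ne_zero hc0 h70
  let eK : Kˣ := Units.mk0 _ he0
  have hte : torS eK ∈ twistedE6 K q := torS_mem hq hK (e := eK) he
  have hTS : ∀ r ∈ qList, TS (c / F 70) F₁ r = base 70 c r := by
    intro r hr
    rw [TS, hbase r hr, base, base]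
    split_ifs with h
    · subst h
      rw [show -chevE6.cartan 1 70 = 1 from by decide +kernel, zpow_one, div_mul_cancel₀ _ h70]
    · rw [mul_zero]
  have hz : ∀ r ∈ qList, r ≠ 70 → base 70 c r = 0 := fun r _ h => if_neg h
  have := cases' (c / F 70) he he0 (TS (c / F 70) F₁) (compat_shift hq hK hte (shifts_torS eK) hF₁)
    (by
      refine ⟨?_, ?_, ?_, ?_, ?_, ?_, ?_, ?_, ?_, ?_⟩
      · rw [hTS 70 (by decide), base, if_pos rfl, div_mul_cancel₀ _ h70]
      all_goals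
        rw [hTS _ (by decide)]
        exact hz _ (by decide) (by decide))
    _ (eig_shift ρ ε hte (shifts_torS eK) he₁) (fun e => hv₁ (by
        have := congrArg (ρ (⟨torS eK, hte⟩ : ↥(twistedE6 K q))⁻¹) e
        rwa [map_zero, ← Module.End.mul_apply, ← map_mul, inv_mul_cancel, map_one] at this))
  exact oneLine_congr ρ ε hTS this.2

end E6

end CfsgLib.Twisted
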