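import Cfsg.Agent.Lib.Twisted.E6Frames

/-! The radical of ²E₆(q) at the highest root on the fixed vectors of the highest root group, the frame
subgroups inside it, and a torus element scaling the coordinate at the second highest root. -/

set_option autoImplicit false
set_option linter.unusedSectionVars false
set_option linter.unusedSimpArgs false
set_option maxRecDepth 100000

namespace CfsgLib.Twisted

open Cfsg.Lie
open CfsgLib.Chevalley (cert_E6 auxE6 xG nG hG torusHom acts_torus chi_mulSingle hG_simple rootsU_induction)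

namespace E6

variable {K : Type*} [Field K] [Fintype K] {q : ℕ} (hq : IsPrimePow q) (hK : Fintype.card K = q ^ 2)
include hq hK

/-! ## the frame subgroups inside the radical -/

theorem fT_mem_radT (z : Multiplicative ↥(fixF hq hK)) :
    ((fT hq hK z : ↥(twistedE6 K q)) : GL chevE6.Idx K) ∈ radT K q := by
  refine ⟨(fT hq hK z).2, ?_⟩
  rw [show z = Multiplicative.ofAdd z.toAdd from rfl, coe_fT]
  exact X_mem_rad (by decide) _

theorem fF_mem_radT (p : Multiplicative ↥(fixF hq hK) × Multiplicative (DPar hq hK)) :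
    ((fF hq hK p : ↥(twistedE6 K q)) : GL chevE6.Idx K) ∈ radT K q := by
  refine ⟨(fF hq hK p).2, ?_⟩
  obtain ⟨z, d⟩ := p
  rw [show (z, d) = (Multiplicative.ofAdd z.toAdd,
    Multiplicative.ofAdd (d.toAdd.1, d.toAdd.2.1, d.toAdd.2.2)) from rfl, coe_fF]
  exact mul_mem (X_mem_rad (by decide) _) (mul_mem (X_mem_rad (by decide) _)
    (mul_mem (X_mem_rad (by decide) _) (X_mem_rad (by decide) _)))

/-- the conjugate of the highest root group as a subgroup of the radical -/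
noncomputable def fTQ : Multiplicative ↥(fixF hq hK) →* ↥(radT K q) :=
  ((twistedE6 K q).subtype.comp (fT hq hK)).codRestrict (radT K q) (fT_mem_radT hq hK)

/-- the four orthogonal root groups as a subgroup of the radical -/
noncomputable def fFQ : Multiplicative ↥(fixF hq hK) × Multiplicative (DPar hq hK) →* ↥(radT K q) :=
  ((twistedE6 K q).subtype.comp (fF hq hK)).codRestrict (radT K q) (fF_mem_radT hq hK)

theorem radIncl_fTQ : (radIncl K q).comp (fTQ hq hK) = fT hq hK :=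
  MonoidHom.ext fun _ => rfl

theorem radIncl_fFQ : (radIncl K q).comp (fFQ hq hK) = fF hq hK :=
  MonoidHom.ext fun _ => rfl

omit hq hK in
theorem lin_mk_mul (F : ℕ → K) {a b : GL chevE6.Idx K} (ha : a ∈ rad K) (hb : b ∈ rad K) :
    lin F (⟨a * b, mul_mem ha hb⟩ : ↥(rad K)) = lin F ⟨a, ha⟩ + lin F ⟨b, hb⟩ :=
  lin_mul F ⟨a, ha⟩ ⟨b, hb⟩

omit hq hK in
theorem lin_X' (F : ℕ → K) {r : ℕ} (hr : r ∈ qList) (t : K) :
    lin F (⟨X r t, X_mem_rad (List.mem_cons_of_mem _ hr) t⟩ : ↥(rad K)) = F r * t := by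
  rw [lin_X F (List.mem_cons_of_mem _ hr), if_pos hr]

theorem psi_fTQ (ε : AddChar K ℂ) (F : ℕ → K) (z : ↥(fixF hq hK)) :
    psi q ε F (fTQ hq hK (Multiplicative.ofAdd z)) = ε (F 70 * (frameSign K 71 * z)) := by
  show ε (lin F _) = _
  congr 1
  rw [← lin_X' F (show 70 ∈ qList by decide)]
  exact congrArg (lin F) (Subtype.ext (coe_fT hq hK z))

theorem psi_fFQ (ε : AddChar K ℂ) (F : ℕ → K) (z U S T : ↥(fixF hq hK)) :
    psi q ε F (fFQ hq hK (Multiplicative.ofAdd z, Multiplicative.ofAdd (U, S, T))) =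
      ε (F 70 * (frameSign K 71 * z) + (F 47 * (frameSign K 39 * U) + (F 51 * (frameSign K 44 * S) +
        F 63 * (frameSign K 60 * T)))) := by
  show ε (lin F _) = _
  congr 1
  rw [← lin_X' F (show 70 ∈ qList by decide), ← lin_X' F (show 47 ∈ qList by decide),
    ← lin_X' F (show 51 ∈ qList by decide), ← lin_X' F (show 63 ∈ qList by decide),
    ← lin_mk_mul, ← lin_mk_mul, ← lin_mk_mul]
  exact congrArg (lin F) (Subtype.ext (coe_fF hq hK z U S T))

theorem frameSign_mem (r : ℕ) : frameSign K r ∈ fixF hq hK := intCast_mem _ _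

/-- coordinates with a non-zero value at one of the four roots give characters non-trivial on the
frame -/
theorem exists_fFQ_ne {ε : AddChar K ℂ} (hε : ∃ l ∈ fixF hq hK, ε l ≠ 1) {F : ℕ → K}
    (hF : Compat q F) (h : F 70 ≠ 0 ∨ F 47 ≠ 0 ∨ F 51 ≠ 0 ∨ F 63 ≠ 0) :
    ∃ a, psi q ε F (fFQ hq hK a) ≠ 1 := by
  obtain ⟨l, hl, hεl⟩ := hε
  have hfix : ∀ r ∈ longQ, F r ∈ fixF hq hK := fun r hr => by
    obtain ⟨h1, -, h3, h4⟩ := longQ_mem r hr
    have := hF r h1
    rw [h3, h4, Int.cast_one, one_mul] at this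
    exact this.symm
  have sol : ∀ r ∈ longQ, ∀ s, s ∈ [71, 39, 44, 60] → F r ≠ 0 →
      ∃ t : ↥(fixF hq hK), F r * (frameSign K s * t) = l := by
    intro r hr s hs hne
    refine ⟨⟨(frameSign K s)⁻¹ * ((F r)⁻¹ * l),
      mul_mem (inv_mem (frameSign_mem hq hK s)) (mul_mem (inv_mem (hfix r hr)) hl)⟩, ?_⟩
    show F r * (frameSign K s * ((frameSign K s)⁻¹ * ((F r)⁻¹ * l))) = l
    rw [mul_inv_cancel_left₀ (frameSign_ne s hs), mul_inv_cancel_left₀ hne]
  rcases h with h | h | h | h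
  · obtain ⟨t, ht⟩ := sol 70 (by decide) 71 (by simp) h
    exact ⟨(Multiplicative.ofAdd t, Multiplicative.ofAdd (0, 0, 0)), by
      rw [psi_fFQ, ht]; simpa using hεl⟩
  · obtain ⟨t, ht⟩ := sol 47 (by decide) 39 (by simp) h
    exact ⟨(Multiplicative.ofAdd 0, Multiplicative.ofAdd (t, 0, 0)), by
      rw [psi_fFQ, ht]; simpa using hεl⟩
  · obtain ⟨t, ht⟩ := sol 51 (by decide) 44 (by simp) h
    exact ⟨(Multiplicative.ofAdd 0, Multiplicative.ofAdd (0, t, 0)), by
      rw [psi_fFQ, ht]; simpa using hεl⟩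
  · obtain ⟨t, ht⟩ := sol 63 (by decide) 60 (by simp) h
    exact ⟨(Multiplicative.ofAdd 0, Multiplicative.ofAdd (0, 0, t)), by
      rw [psi_fFQ, ht]; simpa using hεl⟩

theorem exists_fTQ_ne {ε : AddChar K ℂ} (hε : ∃ l ∈ fixF hq hK, ε l ≠ 1) {F : ℕ → K}
    (hF : Compat q F) (h : F 70 ≠ 0) : ∃ a, psi q ε F (fTQ hq hK a) ≠ 1 := by
  obtain ⟨l, hl, hεl⟩ := hε
  have h70 : F 70 ∈ fixF hq hK := by
    obtain ⟨h1, -, h3, h4⟩ := longQ_mem 70 (by decide)
    have := hF 70 h1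
    rw [h3, h4, Int.cast_one, one_mul] at this
    exact this.symm
  refine ⟨Multiplicative.ofAdd ⟨(frameSign K 71)⁻¹ * ((F 70)⁻¹ * l),
    mul_mem (inv_mem (frameSign_mem hq hK 71)) (mul_mem (inv_mem h70) hl)⟩, ?_⟩
  rw [psi_fTQ]
  show ε (F 70 * (frameSign K 71 * ((frameSign K 71)⁻¹ * ((F 70)⁻¹ * l)))) ≠ 1
  rw [mul_inv_cancel_left₀ (frameSign_ne 71 (by simp)), mul_inv_cancel_left₀ h]
  exact hεl

/-! ## the fixed vectors of the highest root group -/

variable {V : Type*} [AddCommGroup V] [Module ℂ V] (ρ : Representation ℂ ↥(twistedE6 K q) V)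
  {ε : AddChar K ℂ}

theorem eig_mem_fix {F : ℕ → K} {v : V} (hv : Eig ρ ε F v) : v ∈ RepFix.fix ρ (fZ hq hK) := by
  intro z
  have hz : X 71 (z.toAdd : K) ∈ radT K q :=
    X_mem_radT hq hK (by decide) List.mem_cons_self z.toAdd.2
  have h := hv ⟨_, hz⟩
  have e : psi q ε F (⟨_, hz⟩ : ↥(radT K q)) = 1 := by
    show ε (lin F _) = 1
    rw [lin_X F List.mem_cons_self, if_neg (show 71 ∉ qList by decide), AddChar.map_zero_eq_one]
  rw [e, one_smul] at h
  exact h

/-- elements commuting with the highest root group keep its fixed vectors -/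
theorem mem_fix_of_commute {g : GL chevE6.Idx K} (hg : g ∈ twistedE6 K q)
    (hc : ∀ z : K, Commute g (X 71 z)) {v : V} (hv : v ∈ RepFix.fix ρ (fZ hq hK)) :
    ρ ⟨g, hg⟩ v ∈ RepFix.fix ρ (fZ hq hK) := by
  intro z
  have e : fZ hq hK z * (⟨g, hg⟩ : ↥(twistedE6 K q)) = ⟨g, hg⟩ * fZ hq hK z :=
    Subtype.ext (hc (z.toAdd : K)).eq.symm
  rw [← Module.End.mul_apply, ← map_mul, e, map_mul, Module.End.mul_apply, hv z]

theorem rad_invariant (x : ↥(radT K q)) {v : V} (hv : v ∈ RepFix.fix ρ (fZ hq hK)) :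
    ρ (radIncl K q x) v ∈ RepFix.fix ρ (fZ hq hK) :=
  mem_fix_of_commute hq hK ρ x.2.1 (fun z => (commute_top x.2.2 z).symm) hv

theorem rad_commute (x y : ↥(radT K q)) {v : V} (hv : v ∈ RepFix.fix ρ (fZ hq hK)) :
    ρ (radIncl K q x) (ρ (radIncl K q y) v) = ρ (radIncl K q y) (ρ (radIncl K q x) v) := by
  obtain ⟨z, hz⟩ := commute_mod_top x.2.2 y.2.2
  have hmem : X 71 z ∈ twistedE6 K q := by
    rw [show X 71 z = ((y : GL chevE6.Idx K) * x)⁻¹ * ((x : GL chevE6.Idx K) * y) by rw [hz]; group]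
    exact mul_mem (inv_mem (mul_mem y.2.1 x.2.1)) (mul_mem x.2.1 y.2.1)
  have e : radIncl K q x * radIncl K q y =
      radIncl K q y * radIncl K q x * fZ hq hK (Multiplicative.ofAdd ⟨z, top_fix hq hK hmem⟩) :=
    Subtype.ext hz
  rw [← Module.End.mul_apply, ← map_mul, e, map_mul, map_mul, Module.End.mul_apply, Module.End.mul_apply,
    hv]

/-! ## scaling -/

omit hq hK in
/-- a torus element -/
noncomputable def torS (e : Kˣ) : GL chevE6.Idx K := torusHom chevE6 K (Pi.mulSingle (1 : Fin 6) e)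

omit hq hK in
/-- its effect on coordinates -/
def TS (e : K) (F : ℕ → K) (r : ℕ) : K := e ^ (-chevE6.cartan 1 r) * F r

omit hq hK in
theorem conj_torS (e : Kˣ) {s : ℕ} (hs : s < 72) (t : K) :
    (torS e)⁻¹ * X s t * torS e = X s ((e : K) ^ (-chevE6.cartan 1 s) * t) := by
  have h := (acts_torus (F := K) fullE6.cert
    ((Pi.mulSingle (1 : Fin 6) e : Fin 6 → Kˣ)⁻¹)).conj (⟨s, hs⟩ : Fin 72) t
  have hchi : ((CfsgLib.Chevalley.chi chevE6 s ((Pi.mulSingle (1 : Fin 6) e : Fin 6 → Kˣ)⁻¹) : Kˣ) : K) =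
      (e : K) ^ (-chevE6.cartan 1 s) := by
    have := chi_mulSingle (D := chevE6) (F := K) (1 : Fin 6) s e
    erw [map_inv, this]
    simp [Units.val_zpow_eq_zpow_val, zpow_neg]
  erw [map_inv, inv_inv] at h
  rw [← hchi]
  exact h

omit hq hK in
theorem shifts_torS (e : Kˣ) : Shifts (torS e) (TS (e : K)) := by
  have hb : ∀ r ∈ 71 :: qList, r < 72 := by decide +kernel
  intro x
  obtain ⟨x, hx⟩ := x
  show ∃ h : (torS e)⁻¹ * x * torS e ∈ rad K, ∀ F, lin F ⟨_, h⟩ = lin (TS (e : K) F) ⟨x, hx⟩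
  induction hx using rootsU_induction cert_E6 with
  | h1 =>
    refine ⟨by simp [one_mem], fun F => ?_⟩
    have z : ∀ G : ℕ → K, lin G (1 : ↥(rad K)) = 0 := fun G => by
      have := lin_mul G (1 : ↥(rad K)) 1
      rwa [one_mul, left_eq_add] at this
    rw [show (⟨_, _⟩ : ↥(rad K)) = 1 from Subtype.ext (by simp), z]
    exact (z _).symm
  | hx r hr t =>
    refine ⟨by rw [conj_torS e (hb r hr)]; exact X_mem_rad hr _, fun F => ?_⟩
    rw [show (⟨_, _⟩ : ↥(rad K)) = ⟨_, X_mem_rad hr _⟩ from Subtype.ext (conj_torS e (hb r hr) t),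
      lin_X F hr, lin_X _ hr]
    split_ifs
    · show F r * _ = _ * F r * t
      ring
    · rfl
  | hmul a b ha hb' iha ihb =>
    obtain ⟨h1, e1⟩ := iha
    obtain ⟨h2, e2⟩ := ihb
    have eab : (torS e)⁻¹ * (a * b) * torS e = ((torS e)⁻¹ * a * torS e) * ((torS e)⁻¹ * b * torS e) := by
      group
    refine ⟨by rw [eab]; exact mul_mem h1 h2, fun F => ?_⟩
    rw [show (⟨_, _⟩ : ↥(rad K)) = ⟨_, h1⟩ * ⟨_, h2⟩ from Subtype.ext eab, lin_mul, e1, e2]
    exact (lin_mul _ _ _).symm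

theorem torS_mem {e : Kˣ} (he : (e : K) ∈ fixF hq hK) : torS e ∈ twistedE6 K q := by
  have hn : ∀ c ∈ fixF hq hK, nG cert_E6 46 c ∈ twistedE6 K q := fun c hc => refl2_mem hq hK hc
  have h := hG_simple (F := K) fullE6.cert (1 : Fin 6) e.ne_zero
  rw [Units.mk0_val] at h
  rw [torS, ← h, hG]
  exact mul_mem (hn _ he) (hn _ (neg_mem (one_mem _)))

omit hq hK in
theorem TS_top (e : K) (F : ℕ → K) : TS e F 70 = e * F 70 := by
  rw [TS, show -chevE6.cartan 1 70 = 1 from by decide +kernel, zpow_one]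

end E6

end CfsgLib.Twisted
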