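import Cfsg.Agent.Lib.Twisted.D4Roots

/-! The unipotent radical of the parabolic subgroup of E₆ at the highest root, its linear
characters, and the action of root elements of the Levi subgroup on them. -/

set_option autoImplicit false
set_option linter.unusedSectionVars false
set_option maxRecDepth 100000

namespace CfsgLib.Twisted

open Cfsg.Lie
open CfsgLib.Chevalley (cert_E6 xG coe_xG xG_mul xG_zero xG_inv rootsU xG_mem_rootsU rootsU_induction
  xG_injective)

namespace E6

variable {K : Type*} [Field K]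

/-- a root element -/
noncomputable abbrev X (r : ℕ) (t : K) : GL chevE6.Idx K := xG cert_E6 r t

/-- the roots of the radical, the highest one left out -/
def qList : List ℕ := [46, 47, 48, 49, 50, 51, 52, 53, 54, 55, 61, 62, 63, 64, 65, 66, 67, 68, 69, 70]

/-- the root elements of the Levi subgroup which we use -/
def opList : List ℕ := [39, 32, 44, 60, 40, 43, 41, 58, 45, 59, 56, 36, 15, 35, 14, 33, 29, 34, 42, 37, 57, 38]

/-- the linear root elements among them -/
def glList : List ℕ := [56, 36, 15, 35, 14, 33, 29, 34, 42, 37, 57, 38]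

/-- the roots of the abelian radical of the Levi subgroup -/
def hRoot : Fin 9 → ℕ := ![39, 44, 60, 40, 43, 41, 58, 45, 59]

/-- the roots of the radical moved by an element of the Levi subgroup -/
def stepTab : ℕ → List (ℕ × ℕ × ℤ)
  | 39 => [(46, 47, 1), (51, 53, 1), (52, 54, 1), (62, 64, 1), (63, 65, 1), (69, 70, 1)]
  | 32 => [(47, 46, 1), (53, 51, 1), (54, 52, 1), (64, 62, 1), (65, 63, 1), (70, 69, 1)]
  | 44 => [(46, 51, -1), (47, 53, -1), (49, 55, 1), (61, 67, 1), (63, 69, -1), (65, 70, -1)]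
  | 60 => [(46, 63, -1), (47, 65, -1), (48, 66, -1), (50, 68, -1), (51, 69, -1), (53, 70, -1)]
  | 40 => [(46, 48, 1), (50, 53, -1), (52, 55, 1), (61, 64, -1), (63, 66, 1), (68, 70, -1)]
  | 43 => [(46, 50, -1), (48, 53, 1), (49, 54, 1), (62, 67, -1), (63, 68, -1), (66, 70, 1)]
  | 41 => [(46, 49, 1), (50, 54, -1), (51, 55, -1), (61, 65, -1), (62, 66, -1), (67, 70, 1)]
  | 58 => [(46, 61, -1), (48, 64, 1), (49, 65, 1), (51, 67, 1), (52, 68, 1), (55, 70, -1)]
  | 45 => [(46, 52, -1), (47, 54, -1), (48, 55, -1), (61, 68, 1), (62, 69, 1), (64, 70, 1)]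
  | 59 => [(46, 62, -1), (47, 64, -1), (49, 66, 1), (50, 67, -1), (52, 69, 1), (54, 70, 1)]
  | 56 => [(50, 61, -1), (51, 62, -1), (52, 63, -1), (53, 64, -1), (54, 65, -1), (55, 66, -1)]
  | 36 => [(48, 49, 1), (51, 52, 1), (53, 54, 1), (62, 63, 1), (64, 65, 1), (67, 68, 1)]
  | 15 => [(61, 50, -1), (62, 51, -1), (63, 52, -1), (64, 53, -1), (65, 54, -1), (66, 55, -1)]
  | 35 => [(49, 48, 1), (52, 51, 1), (54, 53, 1), (63, 62, 1), (65, 64, 1), (68, 67, 1)]
  | 14 => [(61, 47, 1), (62, 48, 1), (63, 49, 1), (67, 53, -1), (68, 54, -1), (69, 55, -1)]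
  | 33 => [(49, 47, 1), (52, 50, 1), (55, 53, -1), (63, 61, 1), (66, 64, -1), (69, 67, -1)]
  | 29 => [(50, 47, 1), (51, 48, 1), (52, 49, 1), (67, 64, 1), (68, 65, 1), (69, 66, 1)]
  | 34 => [(48, 47, 1), (51, 50, 1), (55, 54, 1), (62, 61, 1), (66, 65, 1), (69, 68, 1)]
  | 42 => [(47, 50, 1), (48, 51, 1), (49, 52, 1), (64, 67, 1), (65, 68, 1), (66, 69, 1)]
  | 37 => [(47, 48, 1), (50, 51, 1), (54, 55, 1), (61, 62, 1), (65, 66, 1), (68, 69, 1)]
  | 57 => [(47, 61, 1), (48, 62, 1), (49, 63, 1), (53, 67, -1), (54, 68, -1), (55, 69, -1)]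
  | 38 => [(47, 49, 1), (50, 52, 1), (53, 55, -1), (61, 63, 1), (64, 66, -1), (67, 69, -1)]
  | _ => []

/-- the same for the abelian radical of the Levi subgroup -/
def herTab : ℕ → List (Fin 9 × Fin 9 × ℤ)
  | 56 => [(1, 8, -1), (4, 6, -1), (7, 2, -1)]
  | 36 => [(1, 7, 1), (3, 5, 1), (8, 2, 1)]
  | 15 => [(2, 7, -1), (6, 4, -1), (8, 1, -1)]
  | 35 => [(2, 8, 1), (5, 3, 1), (7, 1, 1)]
  | 14 => [(2, 5, -1), (6, 0, -1), (8, 3, -1)]
  | 33 => [(2, 6, 1), (5, 0, 1), (7, 4, 1)]
  | 29 => [(1, 3, -1), (4, 0, -1), (7, 5, -1)]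
  | 34 => [(1, 4, 1), (3, 0, 1), (8, 6, 1)]
  | 42 => [(0, 4, -1), (3, 1, -1), (5, 7, -1)]
  | 37 => [(0, 3, 1), (4, 1, 1), (6, 8, 1)]
  | 57 => [(0, 6, -1), (3, 8, -1), (5, 2, -1)]
  | 38 => [(0, 5, 1), (4, 7, 1), (6, 2, 1)]
  | _ => []

/-- the structure constant of a root of the radical and its partner -/
def pairSign : ℕ → ℤ
  | 46 => 1
  | 47 => -1
  | 48 => 1
  | 49 => -1
  | 50 => 1
  | 51 => -1
  | 52 => 1
  | 53 => 1
  | 54 => -1
  | 55 => 1
  | 61 => -1
  | 62 => 1
  | 63 => -1
  | 64 => -1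
  | 65 => 1
  | 66 => -1
  | 67 => 1
  | 68 => -1
  | 69 => 1
  | 70 => -1
  | _ => 1

theorem comm {r s : ℕ} (h : r < 72 ∧ s < 72 ∧ s ≠ r ∧ s ≠ chevE6.neg r ∧
    chevE6.commTerms r s = []) (t u : K) : Commute (X r t) (X s u) := by
  obtain ⟨hr, hs, hsr, hneg, hc⟩ := h
  have h := CfsgLib.Chevalley.x_mul_x (D := chevE6) (by simp) (F := K) hr hs hsr hneg t u
  refine Units.ext ?_
  simp only [Units.val_mul, coe_xG, h, ChevalleyDatum.commWord, hc, List.map_nil,
    ChevalleyDatum.wordMat, List.prod_nil, mul_one]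

theorem push {r s k : ℕ} {M : ℤ} (h : r < 72 ∧ s < 72 ∧ s ≠ r ∧ s ≠ chevE6.neg r ∧
    chevE6.commTerms r s = [(k, M, 1, 1)]) (t u : K) :
    X r t * X s u * X r (-t) = X s u * X k (M * t * u) := by
  obtain ⟨hr, hs, hsr, hneg, hc⟩ := h
  have h := CfsgLib.Chevalley.x_mul_x (D := chevE6) (by simp) (F := K) hr hs hsr hneg (-t) u
  have e : X s u * X r (-t) = X r (-t) * X s u * X k (M * t * u) := by
    refine Units.ext ?_
    simp only [Units.val_mul, coe_xG, h, ChevalleyDatum.commWord, hc, List.map_cons, List.map_nil,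
      neg_neg, pow_one, ChevalleyDatum.wordMat, List.prod_cons, List.prod_nil, mul_one]
  rw [mul_assoc, e, ← mul_assoc, ← mul_assoc, xG_mul, add_neg_cancel, xG_zero, one_mul]

/-- the unipotent radical -/
def rad (K : Type*) [Field K] : Subgroup (GL chevE6.Idx K) :=
  rootsU chevE6 K {r | r ∈ 71 :: qList}

theorem X_mem_rad {r : ℕ} (h : r ∈ 71 :: qList) (t : K) : X r t ∈ rad K :=
  xG_mem_rootsU cert_E6 h t

theorem commute_top {x : GL chevE6.Idx K} (hx : x ∈ rad K) (z : K) : Commute (X 71 z) x := by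
  induction hx using rootsU_induction cert_E6 with
  | h1 => exact Commute.one_right _
  | hx s hs t =>
    by_cases e : s = 71
    · subst e
      show X 71 z * X 71 t = X 71 t * X 71 z
      rw [xG_mul, xG_mul, add_comm]
    · have k : ∀ s ∈ qList, 71 < 72 ∧ s < 72 ∧ s ≠ 71 ∧ s ≠ chevE6.neg 71 ∧ chevE6.commTerms 71 s = [] := by
        decide +kernel
      exact comm (k s ((List.mem_cons.1 hs).resolve_left e)) z t
  | hmul a b _ _ iha ihb => exact iha.mul_right ihb

theorem table_partner : ∀ r ∈ qList, ∀ s ∈ 71 :: qList,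
    (s < 72 ∧ 116 - r < 72 ∧ 116 - r ∈ qList) ∧ (s ≠ 116 - r → 116 - r ≠ chevE6.neg s ∧
      chevE6.commTerms s (116 - r) = if s = r then [(71, pairSign r, 1, 1)] else []) := by
  decide +kernel

theorem partner_ne : ∀ r ∈ qList, r ≠ 116 - r := by decide +kernel

theorem exists_kappa {r : ℕ} (hr : r ∈ qList) {x : GL chevE6.Idx K} (hx : x ∈ rad K) :
    ∃ k : K, x * X (116 - r) 1 * x⁻¹ = X (116 - r) 1 * X 71 k := by
  induction hx using rootsU_induction cert_E6 with
  | h1 => exact ⟨0, by simp [xG_zero]⟩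
  | hx s hs t =>
    obtain ⟨⟨h1, h2, -⟩, h3⟩ := table_partner r hr s hs
    by_cases e : s = 116 - r
    · subst e
      exact ⟨0, by simp only [xG_zero, mul_one, xG_inv, xG_mul]; congr 1; ring⟩
    · obtain ⟨h4, h5⟩ := h3 e
      by_cases e' : s = r
      · rw [if_pos e'] at h5
        refine ⟨(pairSign r : K) * t * 1, ?_⟩
        rw [xG_inv]
        exact push ⟨h1, h2, Ne.symm e, h4, h5⟩ t 1
      · rw [if_neg e'] at h5
        refine ⟨0, ?_⟩
        rw [(comm ⟨h1, h2, Ne.symm e, h4, h5⟩ t 1).eq, mul_inv_cancel_right]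
        simp [xG_zero]
  | hmul a b ha hb iha ihb =>
    obtain ⟨k, hk⟩ := iha
    obtain ⟨l, hl⟩ := ihb
    refine ⟨k + l, ?_⟩
    calc a * b * X (116 - r) 1 * (a * b)⁻¹ = a * (b * X (116 - r) 1 * b⁻¹) * a⁻¹ := by group
      _ = (a * X (116 - r) 1 * a⁻¹) * (a * X 71 l * a⁻¹) := by rw [hl]; group
      _ = _ := by rw [hk, ← (commute_top ha l).eq, mul_inv_cancel_right, mul_assoc, xG_mul]

/-- commutator coordinate -/
noncomputable def kappa (r : ℕ) (x : ↥(rad K)) : K :=
  if h : r ∈ qList then (exists_kappa h x.2).choose else 0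

theorem kappa_eq {r : ℕ} (hr : r ∈ qList) (x : ↥(rad K)) {k : K}
    (h : (x : GL chevE6.Idx K) * X (116 - r) 1 * (x : GL chevE6.Idx K)⁻¹ = X (116 - r) 1 * X 71 k) :
    kappa r x = k := by
  rw [kappa, dif_pos hr]
  exact xG_injective cert_E6 (show 71 < chevE6.nroots by decide)
    (mul_left_cancel ((exists_kappa hr x.2).choose_spec.symm.trans h))

theorem kappa_spec {r : ℕ} (hr : r ∈ qList) (x : ↥(rad K)) :
    (x : GL chevE6.Idx K) * X (116 - r) 1 * (x : GL chevE6.Idx K)⁻¹ = X (116 - r) 1 * X 71 (kappa r x) := by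
  rw [kappa, dif_pos hr]
  exact (exists_kappa hr x.2).choose_spec

/-- the coordinate at a root of the radical -/
noncomputable def coord (r : ℕ) (x : ↥(rad K)) : K := (pairSign r : K) * kappa r x

theorem coord_mul (r : ℕ) (x y : ↥(rad K)) : coord r (x * y) = coord r x + coord r y := by
  by_cases hr : r ∈ qList
  · rw [coord, coord, coord, ← mul_add]
    congr 1
    refine kappa_eq hr _ ?_
    simp only [Subgroup.coe_mul]
    calc (x : GL chevE6.Idx K) * (y : GL chevE6.Idx K) * X (116 - r) 1 *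
        ((x : GL chevE6.Idx K) * (y : GL chevE6.Idx K))⁻¹
        = (x : GL chevE6.Idx K) * ((y : GL chevE6.Idx K) * X (116 - r) 1 * (y : GL chevE6.Idx K)⁻¹) * (x : GL chevE6.Idx K)⁻¹ := by group
      _ = ((x : GL chevE6.Idx K) * X (116 - r) 1 * (x : GL chevE6.Idx K)⁻¹) *
          ((x : GL chevE6.Idx K) * X 71 (kappa r y) * (x : GL chevE6.Idx K)⁻¹) := by rw [kappa_spec hr y]; group
      _ = _ := by rw [kappa_spec hr x, ← (commute_top x.2 _).eq, mul_inv_cancel_right, mul_assoc, xG_mul]
  · simp [coord, kappa, dif_neg hr]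

theorem pairSign_sq : ∀ r ∈ qList, pairSign r * pairSign r = 1 := by decide +kernel

theorem coord_X {r s : ℕ} (hr : r ∈ qList) (hs : s ∈ 71 :: qList) (t : K) :
    coord r (⟨X s t, X_mem_rad hs t⟩ : ↥(rad K)) = if s = r then t else 0 := by
  obtain ⟨⟨h1, h2, -⟩, h3⟩ := table_partner r hr s hs
  by_cases e : s = 116 - r
  · have hne : s ≠ r := fun e' => partner_ne r hr (e' ▸ e)
    rw [if_neg hne, coord, kappa_eq hr _ (k := 0), mul_zero]
    subst e
    simp only [xG_zero, mul_one, xG_inv, xG_mul]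
    congr 1; ring
  · obtain ⟨h4, h5⟩ := h3 e
    by_cases e' : s = r
    · rw [if_pos e'] at h5 ⊢
      rw [coord, kappa_eq hr _ (k := (pairSign r : K) * t * 1), mul_one, ← mul_assoc, ← Int.cast_mul,
        pairSign_sq r hr, Int.cast_one, one_mul]
      show X s t * _ * (X s t)⁻¹ = _
      rw [xG_inv]
      exact push ⟨h1, h2, Ne.symm e, h4, h5⟩ t 1
    · rw [if_neg e'] at h5 ⊢
      rw [coord, kappa_eq hr _ (k := 0), mul_zero]
      show X s t * _ * (X s t)⁻¹ = _
      rw [(comm ⟨h1, h2, Ne.symm e, h4, h5⟩ t 1).eq, mul_inv_cancel_right]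
      simp [xG_zero]

/-- the functional on the radical with the values `F` on the root elements -/
noncomputable def lin (F : ℕ → K) (x : ↥(rad K)) : K := (qList.map fun r => F r * coord r x).sum

theorem lin_mul (F : ℕ → K) (x y : ↥(rad K)) : lin F (x * y) = lin F x + lin F y := by
  rw [lin, lin, lin, ← List.sum_map_add]
  refine congrArg List.sum (List.map_congr_left fun r _ => ?_)
  rw [coord_mul, mul_add]

theorem qList_nodup : qList.Nodup := by decide +kernel

theorem lin_X (F : ℕ → K) {s : ℕ} (hs : s ∈ 71 :: qList) (t : K) :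
    lin F (⟨X s t, X_mem_rad hs t⟩ : ↥(rad K)) = if s ∈ qList then F s * t else 0 := by
  rw [lin, List.map_congr_left (fun r hr => by rw [coord_X hr hs t])]
  split_ifs with h
  · rw [List.sum_map_eq_nsmul_single s, List.Nodup.count (a := s) qList_nodup, if_pos h, if_pos rfl, one_nsmul]
    intro r hne _
    rw [if_neg (Ne.symm hne), mul_zero]
  · refine List.sum_eq_zero fun y hy => ?_
    obtain ⟨r, hr, rfl⟩ := List.mem_map.1 hy
    rw [if_neg (fun e => h (by rw [e]; exact hr)), mul_zero]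

/-- the effect of the root element `x_a(u)` on the values of a functional -/
def stepF (a : ℕ) (u : K) (F : ℕ → K) (r : ℕ) : K :=
  F r - ((stepTab a).map fun e => if r = e.1 then (e.2.2 : K) * u * F e.2.1 else 0).sum

theorem table_step : ∀ a ∈ opList, ∀ r ∈ 71 :: qList,
    a < 72 ∧ r < 72 ∧ r ≠ a ∧ r ≠ chevE6.neg a ∧
    chevE6.commTerms a r = ((stepTab a).filter fun e => decide (r = e.1)).map (fun e => (e.2.1, e.2.2, 1, 1)) ∧
    ((stepTab a).filter fun e => decide (r = e.1)).length ≤ 1 ∧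
    ∀ e ∈ stepTab a, e.1 ∈ qList ∧ e.2.1 ∈ qList := by
  decide +kernel

theorem step_X {a r : ℕ} (ha : a ∈ opList) (hr : r ∈ 71 :: qList) (u t : K) :
    ∃ h : (X a u)⁻¹ * X r t * X a u ∈ rad K, ∀ F : ℕ → K,
      lin F ⟨(X a u)⁻¹ * X r t * X a u, h⟩ = if r ∈ qList then stepF a u F r * t else 0 := by
  obtain ⟨h1, h2, h3, h4, h5, h6, h7⟩ := table_step a ha r hr
  have hsum : ∀ F : ℕ → K, stepF a u F r =
      F r - (((stepTab a).filter fun e => decide (r = e.1)).map fun e => (e.2.2 : K) * u * F e.2.1).sum := by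
    intro F
    rw [stepF]
    congr 1
    induction stepTab a with
    | nil => rfl
    | cons e l ih =>
      by_cases he : r = e.1
      · rw [List.map_cons, List.sum_cons, if_pos he, List.filter_cons_of_pos (by simpa using he),
          List.map_cons, List.sum_cons, ih]
      · rw [List.map_cons, List.sum_cons, if_neg he, zero_add, List.filter_cons_of_neg (by simpa using he), ih]
  have hmem : ∀ e ∈ (stepTab a).filter fun e => decide (r = e.1), r ∈ qList ∧ e.2.1 ∈ qList := by
    intro e he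
    obtain ⟨he1, he2⟩ := List.mem_filter.1 he
    exact ⟨(of_decide_eq_true he2).symm ▸ (h7 e he1).1, (h7 e he1).2⟩
  generalize ((stepTab a).filter fun e => decide (r = e.1)) = l at h5 h6 hsum hmem
  rcases l with _ | ⟨⟨i, k, M⟩, _ | ⟨e', l⟩⟩
  · have e : (X a u)⁻¹ * X r t * X a u = X r t := by
      rw [mul_assoc, ← (comm ⟨h1, h2, h3, h4, by simpa using h5⟩ u t).eq, inv_mul_cancel_left]
    refine ⟨by rw [e]; exact X_mem_rad hr t, fun F => ?_⟩
    rw [show (⟨_, _⟩ : ↥(rad K)) = ⟨X r t, X_mem_rad hr t⟩ from Subtype.ext e, lin_X F hr t, hsum F]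
    simp
  · obtain ⟨hrq, hk⟩ := hmem _ List.mem_cons_self
    have hk' : k ∈ 71 :: qList := List.mem_cons_of_mem _ hk
    have e : (X a u)⁻¹ * X r t * X a u = X r t * X k (M * -u * t) := by
      have h := push ⟨h1, h2, h3, h4, by simpa using h5⟩ (-u) t
      rw [xG_inv]
      rwa [neg_neg] at h
    refine ⟨by rw [e]; exact mul_mem (X_mem_rad hr t) (X_mem_rad hk' _), fun F => ?_⟩
    rw [show (⟨_, _⟩ : ↥(rad K)) = ⟨X r t, X_mem_rad hr t⟩ * ⟨X k (M * -u * t), X_mem_rad hk' _⟩ from
      Subtype.ext e, lin_mul, lin_X F hr t, lin_X F hk', if_pos hrq, if_pos hk, if_pos hrq, hsum F]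
    simp only [List.map_cons, List.map_nil, List.sum_cons, List.sum_nil, add_zero]
    ring
  · simp at h6

theorem conj_mem_rad {a : ℕ} (ha : a ∈ opList) (u : K) {x : GL chevE6.Idx K} (hx : x ∈ rad K) :
    (X a u)⁻¹ * x * X a u ∈ rad K := by
  induction hx using rootsU_induction cert_E6 with
  | h1 => simp [one_mem]
  | hx r hr t => exact (step_X ha hr u t).1
  | hmul x y _ _ ihx ihy =>
    rw [show (X a u)⁻¹ * (x * y) * X a u = ((X a u)⁻¹ * x * X a u) * ((X a u)⁻¹ * y * X a u) by group]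
    exact mul_mem ihx ihy

/-- conjugation by a root element changes a functional by `stepF` -/
theorem lin_conj {a : ℕ} (ha : a ∈ opList) (u : K) (F : ℕ → K) (x : ↥(rad K)) :
    lin F ⟨(X a u)⁻¹ * x * X a u, conj_mem_rad ha u x.2⟩ = lin (stepF a u F) x := by
  obtain ⟨x, hx⟩ := x
  induction hx using rootsU_induction cert_E6 with
  | h1 =>
    have z : ∀ G : ℕ → K, lin G (1 : ↥(rad K)) = 0 := fun G => by
      have := lin_mul G 1 1
      rwa [one_mul, left_eq_add] at this
    rw [show (⟨_, _⟩ : ↥(rad K)) = 1 from Subtype.ext (by simp), z]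
    exact (z _).symm
  | hx r hr t =>
    rw [(step_X ha hr u t).2 F]
    exact (lin_X _ hr t).symm
  | hmul x y hx hy ihx ihy =>
    rw [show (⟨_, _⟩ : ↥(rad K)) = ⟨_, conj_mem_rad ha u hx⟩ * ⟨_, conj_mem_rad ha u hy⟩ from
      Subtype.ext (by simp only [Subgroup.coe_mul]; group), lin_mul, ihx, ihy, ← lin_mul]
    rfl

theorem table_her : ∀ i j : Fin 9, i ≠ j → hRoot i < 72 ∧ hRoot j < 72 ∧ hRoot j ≠ hRoot i ∧
    hRoot j ≠ chevE6.neg (hRoot i) ∧ chevE6.commTerms (hRoot i) (hRoot j) = [] := by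
  decide +kernel

/-- the abelian radical of the Levi subgroup, with nine coordinates -/
noncomputable def hS (K : Type*) [Field K] : (Fin 9 → Multiplicative K) →* GL chevE6.Idx K :=
  MonoidHom.noncommPiCoprod
    (fun i => { toFun := fun t => X (hRoot i) t.toAdd
                map_one' := xG_zero _ _
                map_mul' := fun t u => (xG_mul cert_E6 (hRoot i) t.toAdd u.toAdd).symm })
    (fun i j hij t u => comm (table_her i j hij) t.toAdd u.toAdd)

/-- the element with coordinates `v` -/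
noncomputable def herm (v : Fin 9 → K) : GL chevE6.Idx K := hS K fun i => Multiplicative.ofAdd (v i)

theorem herm_add (v w : Fin 9 → K) : herm (v + w) = herm v * herm w := by
  rw [herm, herm, herm, ← map_mul]; rfl

theorem herm_single (i : Fin 9) (t : K) : herm (Pi.single i t) = X (hRoot i) t := by
  have e : (fun j => Multiplicative.ofAdd ((Pi.single i t : Fin 9 → K) j)) =
      (Pi.mulSingle i (Multiplicative.ofAdd t) : Fin 9 → Multiplicative K) := by
    funext j
    by_cases h : j = i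
    · subst h; simp
    · simp [h]
  rw [herm, e]
  exact MonoidHom.noncommPiCoprod_mulSingle _ _ _

theorem herm_zero : herm (0 : Fin 9 → K) = 1 :=
  left_eq_mul.1 (show herm (0 : Fin 9 → K) = herm 0 * herm 0 by rw [← herm_add, add_zero])

theorem herm_comm (v w : Fin 9 → K) : Commute (herm v) (herm w) := by
  show herm v * herm w = herm w * herm v
  rw [← herm_add, ← herm_add, add_comm]

/-- the effect of a linear root element on the nine coordinates -/
def herStep (a : ℕ) (u : K) (v : Fin 9 → K) (j : Fin 9) : K :=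
  v j + ((herTab a).map fun e => if j = e.2.1 then (e.2.2 : K) * u * v e.1 else 0).sum

theorem table_gl : ∀ a ∈ glList, ∀ i : Fin 9,
    a < 72 ∧ hRoot i < 72 ∧ hRoot i ≠ a ∧ hRoot i ≠ chevE6.neg a ∧
    chevE6.commTerms a (hRoot i) =
      ((herTab a).filter fun e => decide (i = e.1)).map (fun e => (hRoot e.2.1, e.2.2, 1, 1)) ∧
    ((herTab a).filter fun e => decide (i = e.1)).length ≤ 1 := by
  decide +kernel

theorem conj_herm {a : ℕ} (ha : a ∈ glList) (u : K) (v : Fin 9 → K) :
    X a u * herm v * (X a u)⁻¹ = herm (herStep a u v) := by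
  classical
  have hadd : ∀ x y : Fin 9 → K, herStep a u (x + y) = herStep a u x + herStep a u y := by
    intro x y
    funext j
    simp only [herStep, Pi.add_apply]
    rw [add_add_add_comm, ← List.sum_map_add]
    congr 2
    refine List.map_congr_left fun e _ => ?_
    split_ifs <;> ring
  have hzero : herStep a u (0 : Fin 9 → K) = 0 := by
    have := hadd 0 0
    rwa [add_zero, left_eq_add] at this
  rw [← Finset.univ_sum_single v]
  induction (Finset.univ : Finset (Fin 9)) using Finset.induction_on with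
  | empty => simp [herm_zero, hzero]
  | insert i s hi ih =>
    rw [Finset.sum_insert hi, herm_add, hadd, herm_add, ← ih,
      show X a u * (herm (Pi.single i (v i)) * herm (∑ j ∈ s, Pi.single j (v j))) * (X a u)⁻¹ =
        (X a u * herm (Pi.single i (v i)) * (X a u)⁻¹) *
          (X a u * herm (∑ j ∈ s, Pi.single j (v j)) * (X a u)⁻¹) by group]
    refine congrArg (· * _) ?_
    obtain ⟨h1, h2, h3, h4, h5, h6⟩ := table_gl a ha i
    generalize v i = t
    have key : ∀ j : Fin 9, herStep a u (Pi.single i t) j = (Pi.single i t : Fin 9 → K) j +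
        (((herTab a).filter fun e => decide (i = e.1)).map fun e =>
          (Pi.single e.2.1 ((e.2.2 : K) * u * t) : Fin 9 → K) j).sum := by
      intro j
      rw [herStep]
      congr 1
      induction herTab a with
      | nil => rfl
      | cons e l ihl =>
        rw [List.map_cons, List.sum_cons, ihl]
        by_cases he : i = e.1
        · rw [List.filter_cons_of_pos (by simpa using he), List.map_cons, List.sum_cons, ← he,
            Pi.single_eq_same, Pi.single_apply]
        · rw [List.filter_cons_of_neg (by simpa using he), Pi.single_eq_of_ne (Ne.symm he)]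
          simp
    rw [herm_single]
    generalize ((herTab a).filter fun e => decide (i = e.1)) = l at h5 h6 key
    rcases l with _ | ⟨⟨i', k, M⟩, _ | ⟨e', l⟩⟩
    · rw [(comm ⟨h1, h2, h3, h4, by simpa using h5⟩ u t).eq, mul_inv_cancel_right,
        show herStep a u (Pi.single i t) = Pi.single i t from funext fun j => by simpa using key j,
        herm_single]
    · rw [xG_inv, push ⟨h1, h2, h3, h4, by simpa using h5⟩ u t,
        show herStep a u (Pi.single i t) = Pi.single i t + Pi.single k ((M : K) * u * t) from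
          funext fun j => by simpa using key j, herm_add, herm_single, herm_single]
    · simp at h6

end E6

end CfsgLib.Twisted
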