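import Cfsg.Agent.Lib.Twisted.E6Roots
import Cfsg.Agent.Lib.Twisted.FixedGraphData
import Cfsg.Agent.Lib.Twisted.TwistedBN

/-! The radical at the highest root inside ²E₆(q): root elements in the group, the conditions met by
coordinates of fixed elements, and the linear characters of the radical. -/

set_option autoImplicit false
set_option linter.unusedSectionVars false
set_option maxRecDepth 100000

namespace CfsgLib.Twisted

open Cfsg.Lie
open CfsgLib.Chevalley (cert_E6 auxE6 xG xG_mul xG_zero xG_inv nG rootsU xG_mem_rootsU rootsU_induction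
  xG_injective etaAt acts_nG_simple)

namespace E6

theorem X_zero {K : Type*} [Field K] (r : ℕ) : X r (0 : K) = 1 := xG_zero _ _

theorem X_add {K : Type*} [Field K] (r : ℕ) (t u : K) : X r (t + u) = X r t * X r u :=
  (xG_mul cert_E6 r t u).symm

theorem X_neg {K : Type*} [Field K] (r : ℕ) (t : K) : X r (-t) = (X r t)⁻¹ :=
  (xG_inv cert_E6 r t).symm

variable {K : Type*} [Field K] [Fintype K] {q : ℕ} (hq : IsPrimePow q) (hK : Fintype.card K = q ^ 2)
include hq hK

theorem pow_q_add (a b : K) : (a + b) ^ q = a ^ q + b ^ q := by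
  have h := sub_pow_primePow hq two_ne_zero hK (a + b) b
  rw [add_sub_cancel_right] at h
  rw [h, sub_add_cancel]

theorem pow_q_neg (a : K) : (-a) ^ q = -a ^ q := by
  rw [neg_pow, neg_one_pow_primePow hq two_ne_zero hK, neg_one_mul]

theorem pow_q_q (t : K) : (t ^ q) ^ q = t := by
  rw [← pow_mul, ← sq, ← hK, FiniteField.pow_card]

/-- the subfield with `q` elements -/
def fixF : Subfield K where
  carrier := {t | t ^ q = t}
  zero_mem' := zero_pow hq.pos.ne'
  one_mem' := one_pow q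
  add_mem' {a b} ha hb := by
    show (a + b) ^ q = a + b
    rw [pow_q_add hq hK, ha, hb]
  mul_mem' {a b} ha hb := by
    show (a * b) ^ q = a * b
    rw [mul_pow, ha, hb]
  neg_mem' {a} ha := by
    show (-a) ^ q = -a
    rw [pow_q_neg hq hK, ha]
  inv_mem' a ha := by
    show (a⁻¹) ^ q = a⁻¹
    rw [inv_pow, ha]

theorem mem_fixF {t : K} : t ∈ fixF hq hK ↔ t ^ q = t := Iff.rfl

theorem card_fixF : Nat.card (fixF hq hK) = q :=
  card_pow_eq_self hq.two_le hK

theorem add_pow_mem (t : K) : t + t ^ q ∈ fixF hq hK := by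
  rw [mem_fixF, pow_q_add hq hK, pow_q_q hq hK, add_comm]

theorem exists_add_pow {D : K} (hD : D ≠ 0) {l : K} (hl : l ∈ fixF hq hK) :
    ∃ t, D * t + (D * t) ^ q = l := by
  obtain ⟨s, hs⟩ : ∃ s : K, s + s ^ q ≠ 0 := by
    by_contra h
    push Not at h
    classical
    let P : Polynomial K := Polynomial.X ^ q + Polynomial.X
    have hdeg : P.natDegree = q :=
      (Polynomial.natDegree_add_eq_left_of_natDegree_lt (by simpa using hq.one_lt)).trans (Polynomial.natDegree_X_pow q)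
    have hP : P ≠ 0 := fun e => hq.pos.ne' (by rw [← hdeg, e, Polynomial.natDegree_zero])
    have hroots : (Finset.univ : Finset K).val ≤ P.roots := by
      rw [Multiset.le_iff_subset Finset.univ.nodup]
      intro x _
      rw [Polynomial.mem_roots hP]
      simp [P, Polynomial.IsRoot, add_comm, h x]
    have := (Multiset.card_le_card hroots).trans (Polynomial.card_roots' P)
    rw [Finset.card_val, Finset.card_univ, hK, hdeg, sq] at this
    nlinarith [hq.two_le]
  refine ⟨D⁻¹ * (l * (s + s ^ q)⁻¹ * s), ?_⟩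
  rw [mul_inv_cancel_left₀ hD, mul_pow, mul_pow, inv_pow,
    show l ^ q = l from hl, show (s + s ^ q) ^ q = s + s ^ q from add_pow_mem hq hK s, ← mul_add,
    mul_assoc, inv_mul_cancel₀ hs, mul_one]

omit hq hK in
/-- the root element of an orbit of length two -/
noncomputable def PE (q : ℕ) (a : ℕ) (t : K) : GL chevE6.Idx K :=
  X a t * X (graphSigmaE6 a) ((graphEtaE6 a : K) * t ^ q)

theorem moveG_mem_twisted {J : List ℕ} (hJ : J ∈ blocksE6) : moveG cert_E6 J ∈ twistedE6 K q := by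
  have hm := neg_one_pow_primePow hq two_ne_zero hK
  have hfix := graphFixedE6_ok
  simp only [Bool.and_eq_true, beq_iff_eq] at hfix
  obtain ⟨⟨⟨⟨⟨⟨-, -⟩, hB⟩, -⟩, -⟩, hbw⟩, -⟩ := hfix
  refine moveG_mem cert_E6 (List.all_eq_true.1 hB J hJ) _ fun w hw => ?_
  have hmem : blockWords chevE6 J ∈ blocksE6.map (blockWords chevE6) := List.mem_map_of_mem hJ
  rw [hbw] at hmem
  simp only [List.mem_cons, List.not_mem_nil, or_false] at hmem
  rcases hmem with e | e | e | e <;> rw [e] at hw <;> simp only [List.mem_cons, List.not_mem_nil, or_false] at hw <;>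
    rcases hw with rfl | rfl | rfl <;>
    simp only [List.map_cons, List.map_nil, Int.cast_one, Int.cast_neg] <;>
    first
      | exact wordG_mem_gen cert_E6 (Or.inl ⟨_, one_pow q, _, by simp, rfl⟩)
      | exact wordG_mem_gen cert_E6 (Or.inl ⟨_, hm, _, by simp, rfl⟩)
      | (refine wordG_mem_gen cert_E6 (Or.inr ⟨(1 : K), (e6p1, e6p6), ?_, ?_⟩) <;> simp <;> done)
      | (refine wordG_mem_gen cert_E6 (Or.inr ⟨(-1 : K), (e6m1, e6m6), ?_, ?_⟩) <;> simp [hm] <;> done)
      | (refine wordG_mem_gen cert_E6 (Or.inr ⟨(1 : K), (e6p3, e6p5), ?_, ?_⟩) <;> simp <;> done)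
      | (refine wordG_mem_gen cert_E6 (Or.inr ⟨(-1 : K), (e6m3, e6m5), ?_, ?_⟩) <;> simp [hm] <;> done)

/-- how root elements are carried by a product of monomial elements -/
theorem conj_moves {bs : List (List ℕ)} (hbs : ∀ J ∈ bs, J ∈ blocksE6) :
    ∃ g ∈ twistedE6 K q, ∀ s < 72, ∀ t : K, g * X s t * g⁻¹ =
      X (moveRoot sigmaE6 bs.flatten s) ((moveSign sigmaE6 etaE6 bs.flatten s : K) * t) := by
  refine ⟨moveG cert_E6 bs.flatten, ?_, fun s hs t => ?_⟩
  · induction bs with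
    | nil => simp [moveG, one_mem]
    | cons J bs ih =>
      have e : (moveG cert_E6 (J :: bs).flatten : GL chevE6.Idx K) = moveG cert_E6 J * moveG cert_E6 bs.flatten := by
        simp [moveG]
      rw [e]
      exact mul_mem (moveG_mem_twisted hq hK (hbs J (by simp))) (ih fun L hL => hbs L (by simp [hL]))
  · rw [mul_inv_eq_iff_eq_mul]
    refine (moveG_mul_xG cert_E6 rootCertE6 (fun i hi => ?_) hs t).2
    obtain ⟨J, hJ, hiJ⟩ := List.mem_flatten.1 hi
    have key : ∀ J ∈ blocksE6, ∀ i ∈ J, i < chevE6.rank := by decide +kernel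
    exact key J (hbs J hJ) i hiJ

omit hq hK in
/-- the orbits of length one which we use, with their origin -/
def plansOne : List (ℕ × ℕ × List (List ℕ)) :=
  [(25, 25, []), (32, 32, []), (39, 39, []), (46, 46, []), (47, 46, [[3]]), (44, 39, [[2, 4]]), (51, 46, [[2, 4], [3]]),
    (53, 46, [[3], [2, 4], [3]]), (60, 39, [[0, 5], [2, 4]]), (63, 46, [[0, 5], [2, 4], [3]]),
    (65, 46, [[0, 5], [3], [2, 4], [3]]), (69, 46, [[2, 4], [0, 5], [3], [2, 4], [3]]),
    (70, 46, [[3], [2, 4], [0, 5], [3], [2, 4], [3]]), (71, 46, [[1], [3], [2, 4], [0, 5], [3], [2, 4], [3]])]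

omit hq hK in
/-- the orbits of length two which we use, with their origin -/
def plansTwo : List (ℕ × ℕ × List (List ℕ)) :=
  [(56, 56, []), (36, 36, []), (42, 42, []), (37, 37, []), (15, 15, []), (29, 29, []), (14, 15, [[2, 4]]),
    (57, 56, [[2, 4]]), (40, 37, [[3]]), (45, 36, [[2, 4], [3], [2, 4]]), (41, 36, [[3], [2, 4]]),
    (48, 37, [[1], [3]]), (49, 36, [[1], [3], [2, 4]]), (52, 36, [[2, 4], [1], [3], [2, 4]]),
    (54, 36, [[3], [2, 4], [1], [3], [2, 4]]), (55, 36, [[2, 4], [3], [2, 4], [1], [3], [2, 4]]),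
    (66, 36, [[0, 5], [2, 4], [3], [2, 4], [1], [3], [2, 4]])]

theorem X_mem_twisted {r : ℕ} (hr : r ∈ plansOne.map Prod.fst) {t : K} (ht : t ∈ fixF hq hK) :
    X r t ∈ twistedE6 K q := by
  obtain ⟨⟨r', b, bs⟩, hP, rfl⟩ := List.mem_map.1 hr
  have key : ∀ P ∈ plansOne, (P.2.1 ∈ [e6p2, e6m2, e6p4, e6m4] ∧ P.2.1 < 72) ∧ (∀ J ∈ P.2.2, J ∈ blocksE6) ∧
      moveRoot sigmaE6 P.2.2.flatten P.2.1 = P.1 ∧
      moveSign sigmaE6 etaE6 P.2.2.flatten P.2.1 * moveSign sigmaE6 etaE6 P.2.2.flatten P.2.1 = 1 := by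
    decide +kernel
  obtain ⟨⟨hb, hb'⟩, hbs, hroot, hsq⟩ := key _ hP
  obtain ⟨g, hg, hconj⟩ := conj_moves hq hK hbs
  set e : K := ((moveSign sigmaE6 etaE6 bs.flatten b : ℤ) : K) with he
  have hbt : X b (e * t) ∈ twistedE6 K q := by
    have hfix : (e * t) ^ q = e * t := (mul_mem (intCast_mem (fixF hq hK) _) ht : _)
    simpa [wordG, twistedE6] using wordG_mem_gen cert_E6 (S := e6Words K q) (w := [(b, e * t)])
      (Or.inl ⟨e * t, hfix, b, hb, rfl⟩)
  have h := mul_mem (mul_mem hg hbt) (inv_mem hg)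
  rw [hconj b hb', hroot, ← he, ← mul_assoc, he, ← Int.cast_mul, hsq, Int.cast_one, one_mul] at h
  exact h

theorem PE_mem_twisted {r : ℕ} (hr : r ∈ plansTwo.map Prod.fst) (t : K) : PE q r t ∈ twistedE6 K q := by
  obtain ⟨⟨r', b, bs⟩, hP, rfl⟩ := List.mem_map.1 hr
  have key : ∀ P ∈ plansTwo, (((P.2.1, graphSigmaE6 P.2.1) ∈ [(e6p1, e6p6), (e6m1, e6m6), (e6p3, e6p5), (e6m3, e6m5)] ∨
      (graphSigmaE6 P.2.1, P.2.1) ∈ [(e6p1, e6p6), (e6m1, e6m6), (e6p3, e6p5), (e6m3, e6m5)]) ∧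
        P.2.1 < 72 ∧ graphSigmaE6 P.2.1 < 72 ∧ graphEtaE6 P.2.1 = 1 ∧
        chevE6.commTerms P.2.1 (graphSigmaE6 P.2.1) = [] ∧ graphSigmaE6 P.2.1 ≠ P.2.1 ∧
        graphSigmaE6 P.2.1 ≠ chevE6.neg P.2.1) ∧
      (∀ J ∈ P.2.2, J ∈ blocksE6) ∧
      moveRoot sigmaE6 P.2.2.flatten P.2.1 = P.1 ∧
      moveRoot sigmaE6 P.2.2.flatten (graphSigmaE6 P.2.1) = graphSigmaE6 P.1 ∧
      moveSign sigmaE6 etaE6 P.2.2.flatten P.2.1 * moveSign sigmaE6 etaE6 P.2.2.flatten P.2.1 = 1 ∧
      moveSign sigmaE6 etaE6 P.2.2.flatten (graphSigmaE6 P.2.1) * moveSign sigmaE6 etaE6 P.2.2.flatten P.2.1 =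
        graphEtaE6 P.1 := by
    decide +kernel
  obtain ⟨⟨hb, hb1, hb2, heta, hc, hne, hneg⟩, hbs, hroot, hroot', hsq, hsgn⟩ := key _ hP
  obtain ⟨g, hg, hconj⟩ := conj_moves hq hK hbs
  set e : K := ((moveSign sigmaE6 etaE6 bs.flatten b : ℤ) : K) with he
  have hbase : ∀ u : K, PE q b u ∈ twistedE6 K q := by
    intro u
    rw [PE, heta, Int.cast_one, one_mul]
    rcases hb with hb | hb
    · simpa [wordG, twistedE6] using wordG_mem_gen cert_E6 (S := e6Words K q) (w := [(b, u), (graphSigmaE6 b, u ^ q)])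
        (Or.inr ⟨u, (b, graphSigmaE6 b), hb, rfl⟩)
    · have h := wordG_mem_gen cert_E6 (S := e6Words K q) (w := [(graphSigmaE6 b, u ^ q), (b, (u ^ q) ^ q)])
        (Or.inr ⟨u ^ q, (graphSigmaE6 b, b), hb, rfl⟩)
      rw [pow_q_q hq hK] at h
      simpa [wordG, twistedE6, ← (comm ⟨hb1, hb2, hne, hneg, hc⟩ u (u ^ q)).eq] using h
  have he' : e ^ q = e := (intCast_mem (fixF hq hK) _ : _)
  have h := mul_mem (mul_mem hg (hbase (e * t))) (inv_mem hg)
  rw [PE, show g * (X b (e * t) * X (graphSigmaE6 b) ((graphEtaE6 b : K) * (e * t) ^ q)) * g⁻¹ =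
    (g * X b (e * t) * g⁻¹) * (g * X (graphSigmaE6 b) ((graphEtaE6 b : K) * (e * t) ^ q) * g⁻¹) by group,
    hconj b hb1, hconj _ hb2, hroot, hroot', ← mul_assoc, he, ← Int.cast_mul, hsq, Int.cast_one, one_mul,
    heta, Int.cast_one, one_mul, mul_pow, ← he, he', ← mul_assoc, he, ← Int.cast_mul, hsgn] at h
  exact h

/-! ## coordinates of fixed elements -/

omit hq hK in
theorem graphSigma_qList : ∀ r ∈ qList, graphSigmaE6 r ∈ qList ∧ graphSigmaE6 (graphSigmaE6 r) = r ∧ r < 72 := by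
  decide +kernel

theorem coord_twist {x : GL chevE6.Idx K} (hx : x ∈ rad K) (hxG : x ∈ twistedE6 K q) :
    ∀ r ∈ qList, coord (graphSigmaE6 r) (⟨x, hx⟩ : ↥(rad K)) = (graphEtaE6 r : K) * coord r ⟨x, hx⟩ ^ q := by
  obtain ⟨σ, hσ, hσH⟩ := (e6Twist_isTwist (K := K) hq hK).exists_map
  have hgrp : rad K ≤ chevE6.group K := fun y hy => by
    induction hy using rootsU_induction cert_E6 with
    | h1 => exact one_mem _
    | hx r _ t => exact xG_mem_group cert_E6 r t
    | hmul a b _ _ iha ihb => exact mul_mem iha ihb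
  have key : ∀ (y : GL chevE6.Idx K) (hy : y ∈ rad K), ∃ h : σ ⟨y, hgrp hy⟩ ∈ rad K,
      ∀ r ∈ qList, coord (graphSigmaE6 r) ⟨σ ⟨y, hgrp hy⟩, h⟩ = (graphEtaE6 r : K) * coord r ⟨y, hy⟩ ^ q := by
    intro y hy
    induction hy using rootsU_induction cert_E6 with
    | h1 =>
      have e : σ ⟨1, hgrp (one_mem _)⟩ = 1 := map_one σ
      have z : ∀ r, coord r (1 : ↥(rad K)) = 0 := fun r => by
        have := coord_mul r (1 : ↥(rad K)) 1
        rwa [one_mul, left_eq_add] at this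
      refine ⟨by rw [e]; exact one_mem _, fun r _ => ?_⟩
      rw [show (⟨_, _⟩ : ↥(rad K)) = 1 from Subtype.ext e, z,
        show (⟨1, _⟩ : ↥(rad K)) = 1 from rfl, z, zero_pow hq.pos.ne', mul_zero]
    | hx s hs t =>
      have hk : ∀ s ∈ 71 :: qList, s < 72 ∧ graphSigmaE6 s ∈ 71 :: qList := by decide +kernel
      have e := hσ ⟨X s t, hgrp (X_mem_rad hs t)⟩ s t (hk s hs).1 rfl
      refine ⟨by rw [e]; exact X_mem_rad (hk s hs).2 _, fun r hr => ?_⟩
      obtain ⟨hσr, hinv, -⟩ := graphSigma_qList r hr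
      rw [show (⟨_, _⟩ : ↥(rad K)) = ⟨_, X_mem_rad (hk s hs).2 (graphTwist graphEtaE6 q s t)⟩ from Subtype.ext e,
        coord_X hσr (hk s hs).2, coord_X hr hs]
      by_cases hsr : s = r
      · subst hsr
        rw [if_pos rfl, if_pos rfl]
        rfl
      · have : graphSigmaE6 s ≠ graphSigmaE6 r := fun h => by
          rcases List.mem_cons.1 hs with rfl | hs'
          · have k : ∀ r ∈ qList, graphSigmaE6 71 ≠ graphSigmaE6 r := by decide +kernel
            exact k r hr h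
          · exact hsr (by rw [← (graphSigma_qList s hs').2.1, h, hinv])
        rw [if_neg this, if_neg hsr, zero_pow hq.pos.ne', mul_zero]
    | hmul a b ha hb iha ihb =>
      obtain ⟨h1, h2⟩ := iha
      obtain ⟨h3, h4⟩ := ihb
      have e : σ ⟨a * b, hgrp (mul_mem ha hb)⟩ = σ ⟨a, hgrp ha⟩ * σ ⟨b, hgrp hb⟩ := by
        rw [← map_mul]; rfl
      refine ⟨by rw [e]; exact mul_mem h1 h3, fun r hr => ?_⟩
      rw [show (⟨_, _⟩ : ↥(rad K)) = ⟨_, h1⟩ * ⟨_, h3⟩ from Subtype.ext e, coord_mul, h2 r hr, h4 r hr,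
        show (⟨a * b, _⟩ : ↥(rad K)) = ⟨a, ha⟩ * ⟨b, hb⟩ from rfl, coord_mul, pow_q_add hq hK, mul_add]
  intro r hr
  obtain ⟨h, h'⟩ := key x hx
  rw [← h' r hr]
  exact congrArg _ (Subtype.ext (hσH ⟨x, hgrp hx⟩ hxG).symm)

omit hq hK in
theorem commute_mod_top {x y : GL chevE6.Idx K} (hx : x ∈ rad K) (hy : y ∈ rad K) :
    ∃ z : K, x * y = y * x * X 71 z := by
  have k : ∀ r ∈ 71 :: qList, ∀ s ∈ 71 :: qList, s ≠ r →
      r < 72 ∧ s < 72 ∧ s ≠ chevE6.neg r ∧
      (chevE6.commTerms r s = [] ∨ chevE6.commTerms r s = [(71, 1, 1, 1)] ∨ chevE6.commTerms r s = [(71, -1, 1, 1)]) := by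
    decide +kernel
  induction hx using rootsU_induction cert_E6 with
  | h1 => exact ⟨0, by simp [xG_zero]⟩
  | hmul a b ha hb iha ihb =>
    obtain ⟨z, hz⟩ := iha
    obtain ⟨w, hw⟩ := ihb
    refine ⟨z + w, ?_⟩
    calc a * b * y = a * (b * y) := mul_assoc _ _ _
      _ = a * (y * b * X 71 w) := by rw [hw]
      _ = (a * y) * b * X 71 w := by simp only [mul_assoc]
      _ = y * a * X 71 z * b * X 71 w := by rw [hz]
      _ = y * a * (b * X 71 z) * X 71 w := by rw [← (commute_top hb z).eq]; simp only [mul_assoc]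
      _ = _ := by rw [show X 71 (z + w) = X 71 z * X 71 w from (xG_mul cert_E6 71 z w).symm]; simp only [mul_assoc]
  | hx r hr t =>
    induction hy using rootsU_induction cert_E6 with
    | h1 => exact ⟨0, by simp [xG_zero]⟩
    | hmul a b ha hb iha ihb =>
      obtain ⟨z, hz⟩ := iha
      obtain ⟨w, hw⟩ := ihb
      refine ⟨z + w, ?_⟩
      calc X r t * (a * b) = X r t * a * b := (mul_assoc _ _ _).symm
        _ = a * X r t * (X 71 z * b) := by rw [hz]; simp only [mul_assoc]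
        _ = a * (X r t * b) * X 71 z := by rw [(commute_top hb z).eq]; simp only [mul_assoc]
        _ = a * (b * X r t * X 71 w) * X 71 z := by rw [hw]
        _ = _ := by rw [add_comm z, show X 71 (w + z) = X 71 w * X 71 z from (xG_mul cert_E6 71 w z).symm]; simp only [mul_assoc]
    | hx s hs u =>
      by_cases e : s = r
      · subst e
        exact ⟨0, by simp only [xG_zero, mul_one, xG_mul]; rw [add_comm]⟩
      · obtain ⟨h1, h2, h3, h4⟩ := k r hr s hs e
        rcases h4 with h4 | h4 | h4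
        · exact ⟨0, by rw [X_zero, mul_one]; exact (comm ⟨h1, h2, e, h3, h4⟩ t u).eq⟩
        all_goals
          have h := push ⟨h1, h2, e, h3, h4⟩ t u
          rw [X_neg, mul_inv_eq_iff_eq_mul] at h
          exact ⟨_, h.trans (by rw [mul_assoc, (commute_top (X_mem_rad hr t) _).eq, ← mul_assoc])⟩

omit hq hK in
/-- an element of the radical with all coordinates zero is in the highest root group -/
theorem eq_top_of_coord {x : GL chevE6.Idx K} (hx : x ∈ rad K)
    (h : ∀ r ∈ qList, coord r (⟨x, hx⟩ : ↥(rad K)) = 0) : ∃ z : K, x = X 71 z := by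
  classical
  let Zs : Subgroup ↥(rad K) :=
    { carrier := {y | ∃ z : K, (y : GL chevE6.Idx K) = X 71 z}
      one_mem' := ⟨0, (xG_zero _ _).symm⟩
      mul_mem' := fun {a b} ⟨z, hz⟩ ⟨w, hw⟩ => ⟨z + w, by rw [Subgroup.coe_mul, hz, hw, xG_mul]⟩
      inv_mem' := fun {a} ⟨z, hz⟩ => ⟨-z, by rw [Subgroup.coe_inv, hz, xG_inv]⟩ }
  have : Zs.Normal := ⟨fun n hn g => by
    obtain ⟨z, hz⟩ := hn
    exact ⟨z, by rw [Subgroup.coe_mul, Subgroup.coe_mul, Subgroup.coe_inv, hz,
      ← (commute_top g.2 z).eq, mul_inv_cancel_right]⟩⟩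
  let _ : CommGroup (↥(rad K) ⧸ Zs) :=
    { (inferInstance : Group (↥(rad K) ⧸ Zs)) with
      mul_comm := fun a b => by
        induction a using QuotientGroup.induction_on with | H a =>
        induction b using QuotientGroup.induction_on with | H b =>
        obtain ⟨z, hz⟩ := commute_mod_top a.2 b.2
        rw [← QuotientGroup.mk_mul, ← QuotientGroup.mk_mul, QuotientGroup.eq]
        refine ⟨-z, ?_⟩
        simp only [Subgroup.coe_mul, Subgroup.coe_inv, hz, ← xG_inv cert_E6]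
        group }
  let prodC : ↥(rad K) → ↥(rad K) ⧸ Zs := fun y => ∏ r ∈ qList.toFinset,
    if hr : r ∈ qList then QuotientGroup.mk ⟨X r (coord r y), X_mem_rad (List.mem_cons_of_mem _ hr) _⟩ else 1
  have hmul : ∀ a b, prodC (a * b) = prodC a * prodC b := fun a b => by
    rw [← Finset.prod_mul_distrib]
    refine Finset.prod_congr rfl fun r hr => ?_
    rw [dif_pos (List.mem_toFinset.1 hr), dif_pos (List.mem_toFinset.1 hr), dif_pos (List.mem_toFinset.1 hr),
      ← QuotientGroup.mk_mul]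
    congr 1
    exact Subtype.ext (by rw [Subgroup.coe_mul, coord_mul, xG_mul])
  have hone : prodC 1 = 1 := left_eq_mul.1 (show prodC 1 = prodC 1 * prodC 1 by rw [← hmul, mul_one])
  have key : ∀ (y : GL chevE6.Idx K) (hy : y ∈ rad K), prodC ⟨y, hy⟩ = QuotientGroup.mk ⟨y, hy⟩ := by
    intro y hy
    induction hy using rootsU_induction cert_E6 with
    | h1 => exact hone.trans rfl
    | hmul a b ha hb iha ihb => exact (hmul ⟨a, ha⟩ ⟨b, hb⟩).trans (by rw [iha, ihb]; rfl)
    | hx s hs t =>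
      by_cases hs' : s ∈ qList
      · show ∏ r ∈ qList.toFinset, _ = _
        rw [Finset.prod_eq_single s]
        · rw [dif_pos hs']
          congr 1
          exact Subtype.ext (by rw [coord_X hs' hs, if_pos rfl])
        · intro r hr hne
          rw [dif_pos (List.mem_toFinset.1 hr), QuotientGroup.eq_one_iff]
          exact ⟨0, by simp only [coord_X (List.mem_toFinset.1 hr) hs, if_neg (Ne.symm hne), X_zero]⟩
        · exact fun h => (h (List.mem_toFinset.2 hs')).elim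
      · have e : s = 71 := (List.mem_cons.1 hs).resolve_right hs'
        rw [(QuotientGroup.eq_one_iff _).2 (show _ ∈ Zs from ⟨t, by subst e; rfl⟩)]
        refine Finset.prod_eq_one fun r hr => ?_
        rw [dif_pos (List.mem_toFinset.1 hr), QuotientGroup.eq_one_iff]
        have hne : ¬ s = r := fun e' => hs' (by rw [e']; exact List.mem_toFinset.1 hr)
        exact ⟨0, by simp only [coord_X (List.mem_toFinset.1 hr) hs, if_neg hne, X_zero]⟩
  have h1 : (QuotientGroup.mk (⟨x, hx⟩ : ↥(rad K)) : ↥(rad K) ⧸ Zs) = 1 := by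
    rw [← key x hx]
    refine Finset.prod_eq_one fun r hr => ?_
    rw [dif_pos (List.mem_toFinset.1 hr), QuotientGroup.eq_one_iff]
    exact ⟨0, by simp only [h r (List.mem_toFinset.1 hr), X_zero]⟩
  exact (QuotientGroup.eq_one_iff _).1 h1

end E6

end CfsgLib.Twisted
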