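import Cfsg.Agent.Lib.Twisted.ReeSplit
import Cfsg.Agent.Lib.Twisted.ReeUnipotentLaw
import Cfsg.Agent.Lib.Twisted.TorusReeAction

/-! The abelian subgroup of order `q ^ 2` of the unipotent part of ²G₂(q) under conjugation by the
Borel subgroup. -/

set_option autoImplicit false
set_option linter.unusedSectionVars false

namespace CfsgLib.Twisted

open Cfsg.Lie
open CfsgLib.Chevalley (cert_G2 xG prodU chi torusHom coe_torusHom acts_torus)

variable {K : Type*} [Field K] [Fintype K] {m : ℕ} (hK : Fintype.card K = 3 ^ (2 * m + 1))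
include hK

theorem reeU_exists_coord {g : ↥(twistedG2 K (3 ^ m))} (hg : g ∈ reeU K m) :
    ∃ t u v : K, (g : GL chevG2.Idx K) = wordG cert_G2 (reeWordU (3 ^ m) t u v) :=
  (mem_unipotent_g2 hK (g2Twist_isTwist hK) le_rfl _).1 ⟨g.2, mem_reeU.1 hg⟩

theorem reeU_ext {g g' : ↥(twistedG2 K (3 ^ m))} (hg : g ∈ reeU K m) (hg' : g' ∈ reeU K m)
    {t E F : K} (h : ReeCoord (g : GL chevG2.Idx K) t E F)
    (h' : ReeCoord (g' : GL chevG2.Idx K) t E F) : g = g' := by
  obtain ⟨a, u, v, e⟩ := reeU_exists_coord hK hg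
  obtain ⟨a', u', v', e'⟩ := reeU_exists_coord hK hg'
  obtain ⟨r1, r2, r3⟩ := ((e ▸ reeCoord_word hK a u v :) : ReeCoord (g : GL chevG2.Idx K) _ _ _).unique h
  obtain ⟨s1, s2, s3⟩ := ((e' ▸ reeCoord_word hK a' u' v' :) : ReeCoord (g' : GL chevG2.Idx K) _ _ _).unique h'
  subst r1 s1
  obtain rfl : u = u' := add_right_cancel (r2.trans s2.symm)
  obtain rfl : v = v' := add_right_cancel (r3.trans s3.symm)
  exact Subtype.ext (e.trans e'.symm)

/-- The product in coordinates. -/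
theorem reeU_coord_mul {g g' : ↥(twistedG2 K (3 ^ m))} (hg : g ∈ reeU K m) {t E F t' E' F' : K}
    (h : ReeCoord (g : GL chevG2.Idx K) t E F) (h' : ReeCoord (g' : GL chevG2.Idx K) t' E' F') :
    ReeCoord ((g * g' : ↥(twistedG2 K (3 ^ m))) : GL chevG2.Idx K) (t + t')
      (E + E' + t' * (t ^ 3 ^ m) ^ 3) (F + F' + t' ^ 2 * (t ^ 3 ^ m) ^ 3 - E * t') := by
  have h30 : ((3 : ℕ) : K) = 0 := natCast_char_zero (p := 3) (k := 2 * m + 1) (by omega) hK
  obtain ⟨a, u, v, e⟩ := reeU_exists_coord hK hg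
  rw [e] at h
  obtain ⟨r1, r2, r3⟩ := (reeCoord_word hK a u v).unique h
  subst r1 r2 r3
  rw [Subgroup.coe_mul, e]
  exact ReeCoord.mul h30 ⟨u ^ 3 ^ m, v ^ 3 ^ m, (reeWordU_sorted hK a u v).1⟩ h'

/-- The abelian subgroup of coordinates `t = 0`. -/
theorem exists_reeAbel : ∃ y : Multiplicative (K × K) →* ↥(twistedG2 K (3 ^ m)),
    ∀ p : K × K, y (Multiplicative.ofAdd p) ∈ reeU K m ∧
      ReeCoord (y (Multiplicative.ofAdd p) : GL chevG2.Idx K) 0 p.1 p.2 := by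
  have hmem : ∀ p : K × K, wordG cert_G2 (reeWordU (3 ^ m) (0 : K) p.1 p.2) ∈
      twistedG2 K (3 ^ m) ⊓ chevG2.posUnipotent K := fun p =>
    (mem_unipotent_g2 hK (g2Twist_isTwist hK) le_rfl _).2 ⟨0, p.1, p.2, rfl⟩
  let f : K × K → ↥(twistedG2 K (3 ^ m)) := fun p => ⟨_, (hmem p).1⟩
  have hU : ∀ p, f p ∈ reeU K m := fun p => mem_reeU.2 (hmem p).2
  have hco : ∀ p, ReeCoord (f p : GL chevG2.Idx K) 0 p.1 p.2 := fun p => by
    simpa using reeCoord_word hK (0 : K) p.1 p.2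
  have hadd : ∀ p q, f (p + q) = f p * f q := fun p q =>
    reeU_ext hK (hU _) (mul_mem (hU _) (hU _)) (hco _)
      (by simpa using reeU_coord_mul hK (hU p) (hco p) (hco q))
  exact ⟨MonoidHom.mk' (fun a => f a.toAdd) (fun a b => hadd _ _), fun p => ⟨hU p, hco p⟩⟩

variable {y : Multiplicative (K × K) →* ↥(twistedG2 K (3 ^ m))}
  (hy : ∀ p : K × K, y (Multiplicative.ofAdd p) ∈ reeU K m ∧
      ReeCoord (y (Multiplicative.ofAdd p) : GL chevG2.Idx K) 0 p.1 p.2)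
include hy

theorem reeAbel_injective : Function.Injective y := by
  intro a b e
  obtain ⟨-, h1, h2⟩ := (hy a.toAdd).2.unique (e ▸ (hy b.toAdd).2)
  exact Multiplicative.toAdd.injective (Prod.ext h1 h2)

theorem reeAbel_conj_unipotent (t : K) : ∃ x : ↥(twistedG2 K (3 ^ m)), ∀ E F : K,
    x * y (Multiplicative.ofAdd (E, F)) * x⁻¹ = y (Multiplicative.ofAdd (E, F + E * t)) := by
  have hmem := (mem_unipotent_g2 hK (g2Twist_isTwist hK) le_rfl _).2
    (⟨t, 0, 0, rfl⟩ : ∃ a u v : K, wordG cert_G2 (reeWordU (3 ^ m) t 0 0) =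
      wordG cert_G2 (reeWordU (3 ^ m) a u v))
  let x : ↥(twistedG2 K (3 ^ m)) := ⟨_, hmem.1⟩
  have hxU : x ∈ reeU K m := mem_reeU.2 hmem.2
  have hx : ReeCoord (x : GL chevG2.Idx K) t _ _ := reeCoord_word hK t 0 0
  refine ⟨x, fun E F => mul_inv_eq_iff_eq_mul.2 ?_⟩
  refine reeU_ext hK (mul_mem hxU (hy _).1) (mul_mem (hy _).1 hxU)
    (reeU_coord_mul hK hxU hx (hy _).2) ?_
  have h := reeU_coord_mul hK (hy (E, F + E * t)).1 (hy (E, F + E * t)).2 hx
  convert h using 1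
  · ring
  · simp; ring
  · simp; ring

theorem reeAbel_conj_torus {h : ↥(twistedG2 K (3 ^ m))} (hh : h ∈ reeH K m) :
    ∃ α β : K, β ≠ 0 ∧ (β = 1 → h = 1) ∧ ∀ E F : K,
      h * y (Multiplicative.ofAdd (E, F)) * h⁻¹ = y (Multiplicative.ofAdd (α * E, β * F)) := by
  set g : ↥(chevG2.diagonalSubgroup K ⊓ twistedG2 K (3 ^ m)) := ⟨h, mem_reeH.1 hh, h.2⟩ with hg
  obtain ⟨c, hgc, hfix⟩ := reeTorus_fixed hK g.2
  let a : K := ((chi chevG2 7 c : Kˣ) : K)
  have hval : reeTorusVal g = a := by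
    show ((h : GL chevG2.Idx K) : Matrix chevG2.Idx chevG2.Idx K) _ _ = a
    rw [show (h : GL chevG2.Idx K) = torusHom chevG2 K c from hgc, coe_torusHom, Matrix.diagonal_apply_eq]
    rfl
  have ha0 : a ≠ 0 := Units.ne_zero _
  have hb : ((chi chevG2 6 c : Kˣ) : K) = a ^ (3 * 3 ^ m) := by
    have := hfix 7 (by norm_num)
    rw [reeTorus_data.1.2.2.1] at this
    rw [← this, g2Twist, reeTorus_data.1.2.2.2.2.1, mul_comm 3, pow_mul]
    norm_num
    rfl
  have hβ : ((chi chevG2 11 c : Kˣ) : K) = (a ^ (1 + 2 * 3 ^ m)) ^ 3 := by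
    rw [(chi_ree c).2, Units.val_mul, Units.val_pow_eq_pow_val, Units.val_pow_eq_pow_val, hb,
      ← pow_mul, ← pow_mul, ← pow_add]
    congr 1; ring
  refine ⟨((chi chevG2 10 c : Kˣ) : K), ((chi chevG2 11 c : Kˣ) : K), Units.ne_zero _,
    fun e => ?_, fun E F => ?_⟩
  · rw [hβ] at e
    have : CharP K 3 := charP_ree hK
    have : Fact (Nat.Prime 3) := ⟨Nat.prime_three⟩
    have h1 : a ^ (1 + 2 * 3 ^ m) = 1 := by
      refine sub_eq_zero.1 (pow_eq_zero_iff three_ne_zero |>.1 ?_)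
      rw [sub_pow_char, e, one_pow, sub_self]
    have hq : a ^ (3 ^ (2 * m + 1) - 1) = 1 := hK ▸ FiniteField.pow_card_sub_one_eq_one a ha0
    have hexp : (1 + 2 * 3 ^ m) * (6 * 3 ^ m - 3) = (3 ^ (2 * m + 1) - 1) * 4 + 1 := by
      have hT : 1 ≤ (3 : ℕ) ^ m := Nat.one_le_pow _ _ (by norm_num)
      have hQ : 1 ≤ (3 : ℕ) ^ (2 * m + 1) := Nat.one_le_pow _ _ (by norm_num)
      have hQT : (3 : ℕ) ^ (2 * m + 1) = 3 * (3 ^ m * 3 ^ m) := by ring
      generalize (3 : ℕ) ^ m = T at hT hQT ⊢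
      generalize (3 : ℕ) ^ (2 * m + 1) = Q at hQ hQT ⊢
      zify [show 3 ≤ 6 * T by omega, hQ]
      have : (Q : ℤ) = 3 * (T * T) := by exact_mod_cast hQT
      rw [this]; ring
    have ha1 : a = 1 := by
      have h2 : a ^ ((1 + 2 * 3 ^ m) * (6 * 3 ^ m - 3)) = 1 := by rw [pow_mul, h1, one_pow]
      rw [hexp, pow_succ, pow_mul, hq, one_pow, one_mul] at h2
      exact h2
    have hg1 : g = 1 := reeTorusVal_injective hK (by rw [hval, ha1, map_one])
    exact Subtype.ext (congrArg (fun w : ↥(chevG2.diagonalSubgroup K ⊓ twistedG2 K (3 ^ m)) =>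
      (w : GL chevG2.Idx K)) hg1)
  · set z := y (Multiplicative.ofAdd (E, F)) with hz
    have hzU : z ∈ reeU K m := (hy _).1
    have hU : h * z * h⁻¹ ∈ reeU K m :=
      reeBorel_conj_mem hK (mem_borelIn_ree.2 (Subgroup.mem_sup_right (mem_reeH.1 hh))) hzU
    refine reeU_ext hK hU (hy _).1 ?_ (hy _).2
    obtain ⟨a0, c0, d0, e⟩ := (hy (E, F)).2
    have hp := g2Fixed_ok
    simp only [Bool.and_eq_true, beq_iff_eq] at hp
    let G : ℕ → K := fun r => if r = g2b then 0 else if r = g2a then a0 else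
      if r = g2ab then c0 else if r = g2aab then d0 else if r = g2aaab then E else F
    have e' : (z : GL chevG2.Idx K) = prodU cert_G2 chevG2.posRoots G := by
      rw [hz, e, hp.2]
      simp only [reeSorted, prodU, wordG, List.map_cons, List.map_nil, G, g2a, g2b, g2ab, g2aab,
        g2aaab, g2aaabb, Nat.reduceEqDiff, ↓reduceIte]
    have hconj : ((h * z * h⁻¹ : ↥(twistedG2 K (3 ^ m))) : GL chevG2.Idx K) =
        prodU cert_G2 chevG2.posRoots fun r => ((chi chevG2 r c : Kˣ) : K) * G r := by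
      rw [Subgroup.coe_mul, Subgroup.coe_mul, Subgroup.coe_inv, e', prodU, ← MulAut.conj_apply,
        map_list_prod, List.map_map, prodU]
      refine congrArg List.prod (List.map_congr_left fun r hr => ?_)
      have hr' : r < chevG2.nroots := List.mem_range.1 (List.mem_filter.1 hr).1
      rw [Function.comp_apply, MulAut.conj_apply,
        show (h : GL chevG2.Idx K) = torusHom chevG2 K c from hgc]
      exact (acts_torus cert_G2 c).conj ⟨r, hr'⟩ (G r)
    refine ⟨((chi chevG2 g2a c : Kˣ) : K) * a0, ((chi chevG2 g2ab c : Kˣ) : K) * c0,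
      ((chi chevG2 g2aab c : Kˣ) : K) * d0, ?_⟩
    rw [hconj, hp.2]
    simp only [reeSorted, prodU, wordG, List.map_cons, List.map_nil, G, g2a, g2b, g2ab, g2aab,
      g2aaab, g2aaabb, Nat.reduceEqDiff, ↓reduceIte, mul_zero]

end CfsgLib.Twisted
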