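import Cfsg.Agent.Lib.Twisted.ReeHallTori

/-! Solvable subgroups of ²G₂(q) normalise one of the standard subgroups. -/

set_option autoImplicit false
set_option linter.unusedSectionVars false

namespace CfsgLib.Twisted

open Cfsg.Lie

/-- A solvable subgroup normalised by `R` contains an elementary abelian subgroup normalised by
`R`. -/
theorem exists_elementary_invariant {G : Type*} [Group G] [Finite G] {R R1 : Subgroup G}
    (hR : R ≤ Subgroup.normalizer (R1 : Set G)) (hs : Group.IsSolvable R1) (hne : R1 ≠ ⊥) :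
    ∃ (V : Subgroup G) (ℓ : ℕ), ℓ.Prime ∧ V ≤ R1 ∧ R ≤ Subgroup.normalizer (V : Set G) ∧ V ≠ ⊥ ∧
      (∀ x ∈ V, x ^ ℓ = 1) ∧ ∀ x ∈ V, ∀ y ∈ V, x * y = y * x := by
  classical
  set D : ℕ → Subgroup G := fun n => (derivedSeries R1 n).map R1.subtype with hD
  have hD0 : D 0 = R1 := by simp [hD, ← MonoidHom.range_eq_map]
  have hDs : ∀ n, D (n + 1) = ⁅D n, D n⁆ := fun n => by
    simp only [hD, derivedSeries_succ, Subgroup.map_commutator]
  obtain ⟨n0, hn0⟩ := (isSolvable_def R1).1 hs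
  have hex : ∃ n, D n = ⊥ := ⟨n0, by simp [hD, hn0]⟩
  obtain ⟨k, hk⟩ : ∃ k, Nat.find hex = k + 1 := Nat.exists_eq_succ_of_ne_zero fun h => hne (by
    have := Nat.find_spec hex
    rwa [h, hD0] at this)
  have hbot : D (k + 1) = ⊥ := hk ▸ Nat.find_spec hex
  have hDk : D k ≠ ⊥ := Nat.find_min hex (by omega)
  have hcomm : ∀ x ∈ D k, ∀ y ∈ D k, x * y = y * x := fun x hx y hy =>
    commutatorElement_eq_one_iff_mul_comm.1 (Subgroup.mem_bot.1 (by
      rw [← hbot, hDs]; exact Subgroup.commutator_mem_commutator hx hy))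
  have hinv : ∀ n, ∀ g ∈ R, (D n).map (MulAut.conj g).toMonoidHom = D n := by
    intro n g hg
    induction n with
    | zero =>
      rw [hD0]
      refine le_antisymm ?_ fun x hx => ?_
      · rintro _ ⟨x, hx, rfl⟩
        exact (Subgroup.mem_normalizer_iff.1 (hR hg) x).1 hx
      · refine ⟨g⁻¹ * x * g, ?_, by simp [mul_assoc]⟩
        have := (Subgroup.mem_normalizer_iff.1 (hR (inv_mem hg)) x).1 hx
        simpa using this
    | succ n ih => rw [hDs, Subgroup.map_commutator, ih]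
  obtain ⟨ℓ, hℓ, hℓd⟩ := Nat.exists_prime_and_dvd (n := Nat.card (D k))
    (fun h => hDk (Subgroup.card_eq_one.1 h))
  let V : Subgroup G :=
    { carrier := {x | x ∈ D k ∧ x ^ ℓ = 1}
      one_mem' := ⟨one_mem _, one_pow ℓ⟩
      mul_mem' := fun {a b} ha hb => ⟨mul_mem ha.1 hb.1, by
        rw [(show Commute a b from hcomm a ha.1 b hb.1).mul_pow, ha.2, hb.2, one_mul]⟩
      inv_mem' := fun {a} ha => ⟨inv_mem ha.1, by rw [inv_pow, ha.2, inv_one]⟩ }
  have hDR : D k ≤ R1 := Subgroup.map_subtype_le _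
  refine ⟨V, ℓ, hℓ, fun x hx => hDR hx.1, fun g hg => ?_, ?_, fun x hx => hx.2,
    fun x hx y hy => hcomm x hx.1 y hy.1⟩
  · have key : ∀ g ∈ R, ∀ x ∈ V, g * x * g⁻¹ ∈ V := fun g hg x hx => by
      refine ⟨?_, by rw [conj_pow, hx.2, mul_one, mul_inv_cancel]⟩
      have : (MulAut.conj g).toMonoidHom x ∈ (D k).map (MulAut.conj g).toMonoidHom :=
        Subgroup.mem_map_of_mem _ hx.1
      rwa [hinv k g hg] at this
    refine Subgroup.mem_normalizer_iff.2 fun x => ⟨key g hg x, fun hx => ?_⟩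
    simpa [mul_assoc] using key g⁻¹ (inv_mem hg) _ hx
  · have : Fact ℓ.Prime := ⟨hℓ⟩
    obtain ⟨⟨x, hx⟩, ho⟩ := exists_prime_orderOf_dvd_card' ℓ hℓd
    rw [← Subgroup.orderOf_coe] at ho
    change orderOf x = ℓ at ho
    intro e
    have hxV : x ∈ V := ⟨hx, by rw [← ho, pow_orderOf_eq_one]⟩
    rw [e, Subgroup.mem_bot] at hxV
    rw [hxV, orderOf_one] at ho
    exact hℓ.one_lt.ne ho

theorem normalizer_map_conj_le {G : Type*} [Group G] {X Y : Subgroup G}
    (h : Subgroup.normalizer (X : Set G) ≤ Subgroup.normalizer (Y : Set G)) (c : G) :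
    Subgroup.normalizer ((X.map (MulAut.conj c).toMonoidHom : Subgroup G) : Set G) ≤
      Subgroup.normalizer ((Y.map (MulAut.conj c).toMonoidHom : Subgroup G) : Set G) := by
  rw [← Subgroup.map_normalizer_eq_of_bijective X (f := (MulAut.conj c).toMonoidHom) (MulAut.conj c).bijective,
    ← Subgroup.map_normalizer_eq_of_bijective Y (f := (MulAut.conj c).toMonoidHom) (MulAut.conj c).bijective]
  exact Subgroup.map_mono h

variable {K : Type*} [Field K] [Fintype K] {m : ℕ} (hK : Fintype.card K = 3 ^ (2 * m + 1))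
include hK

/-- The conclusion about a subgroup `R`. -/
def ReeNormalizes (K : Type*) [Field K] (m : ℕ) (R : Subgroup ↥(twistedG2 K (3 ^ m))) : Prop :=
  ∃ A : Subgroup ↥(twistedG2 K (3 ^ m)), R ≤ Subgroup.normalizer (A : Set ↥(twistedG2 K (3 ^ m))) ∧
    ((∃ P : Sylow 2 ↥(twistedG2 K (3 ^ m)), A = P) ∨
     (∃ P : Sylow 3 ↥(twistedG2 K (3 ^ m)), A = P) ∨
     (IsCyclic A ∧ (Nat.card A = (3 ^ (2 * m + 1) - 1) / 2 ∨ Nat.card A = (3 ^ (2 * m + 1) + 1) / 4 ∨
        Nat.card A = 3 ^ (2 * m + 1) - 3 ^ (m + 1) + 1 ∨ Nat.card A = 3 ^ (2 * m + 1) + 3 ^ (m + 1) + 1)))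

omit hK in
theorem ree_torus_order (hm : 1 ≤ m) :
    (3 ^ (2 * m + 1)) ^ 2 - 3 ^ (2 * m + 1) + 1 =
      (3 ^ (2 * m + 1) - 3 ^ (m + 1) + 1) * (3 ^ (2 * m + 1) + 3 ^ (m + 1) + 1) := by
  have hr : (3 ^ (m + 1)) ^ 2 = 3 * 3 ^ (2 * m + 1) := by rw [← pow_mul, ← pow_succ']; congr 1; omega
  have hrq : 3 ^ (m + 1) ≤ 3 ^ (2 * m + 1) := Nat.pow_le_pow_right (by norm_num) (by omega)
  generalize 3 ^ (m + 1) = r at *
  generalize 3 ^ (2 * m + 1) = q at *
  have hq : q ≤ q ^ 2 := Nat.le_self_pow two_ne_zero q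
  zify [hrq, hq] at hr ⊢
  linear_combination hr

/-- A normalised subgroup of prime order at least five. -/
theorem normalizes_of_prime (hm : 1 ≤ m) {R : Subgroup ↥(twistedG2 K (3 ^ m))}
    {V : Subgroup ↥(twistedG2 K (3 ^ m))} (hR : R ≤ Subgroup.normalizer (V : Set ↥(twistedG2 K (3 ^ m))))
    {ℓ : ℕ} (hℓ : ℓ.Prime) (h5 : 5 ≤ ℓ) (hne : V ≠ ⊥) (hexp : ∀ x ∈ V, x ^ ℓ = 1) :
    ReeNormalizes K m R := by
  classical
  have : Fact ℓ.Prime := ⟨hℓ⟩
  obtain ⟨h27, hq8, hq3⟩ := ree_q_data (m := m) hm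
  obtain ⟨⟨y, hy⟩, hy1⟩ := (Subgroup.ne_bot_iff_exists_ne_one).1 hne
  have hoy : orderOf y = ℓ :=
    orderOf_eq_prime (hexp y hy) fun e => hy1 (Subtype.ext e)
  have hd : ℓ ∣ Nat.card ↥(twistedG2 K (3 ^ m)) := hoy ▸ orderOf_dvd_natCard y
  obtain ⟨k, hkn, hℓk⟩ : ∃ k, (k = (3 ^ (2 * m + 1) - 1) / 2 ∨ k = (3 ^ (2 * m + 1) + 1) / 4 ∨
      k = 3 ^ (2 * m + 1) - 3 ^ (m + 1) + 1 ∨ k = 3 ^ (2 * m + 1) + 3 ^ (m + 1) + 1) ∧ ℓ ∣ k := by
    rcases ree_prime_cases hK hℓ h5 hd with h | h | h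
    · refine ⟨_, Or.inl rfl, ?_⟩
      rw [show 3 ^ (2 * m + 1) - 1 = 2 * ((3 ^ (2 * m + 1) - 1) / 2) by omega] at h
      rcases hℓ.dvd_mul.1 h with h' | h'
      · have := Nat.le_of_dvd two_pos h'; omega
      · exact h'
    · refine ⟨_, Or.inr (Or.inl rfl), ?_⟩
      rw [show 3 ^ (2 * m + 1) + 1 = 4 * ((3 ^ (2 * m + 1) + 1) / 4) by omega] at h
      rcases hℓ.dvd_mul.1 h with h' | h'
      · have := Nat.le_of_dvd (by norm_num) h'; omega
      · exact h'
    · rw [ree_torus_order hm] at h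
      rcases hℓ.dvd_mul.1 h with h' | h'
      exacts [⟨_, Or.inr (Or.inr (Or.inl rfl)), h'⟩, ⟨_, Or.inr (Or.inr (Or.inr rfl)), h'⟩]
  obtain ⟨n, hn⟩ : ∃ n, ∃ A : Subgroup ↥(twistedG2 K (3 ^ m)), IsCyclic A ∧ Nat.card A = k ∧
      Nat.card (Subgroup.normalizer (A : Set ↥(twistedG2 K (3 ^ m)))) = n ∧
      ∀ A₀ : Subgroup ↥(twistedG2 K (3 ^ m)), A₀ ≤ A → A₀ ≠ ⊥ →
        Subgroup.normalizer (A₀ : Set ↥(twistedG2 K (3 ^ m))) =
          Subgroup.normalizer (A : Set ↥(twistedG2 K (3 ^ m))) := by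
    rcases hkn with h | h | h | h
    exacts [⟨_, ree_hall_tori hK hm k _ (Or.inl ⟨h, rfl⟩)⟩, ⟨_, ree_hall_tori hK hm k _ (Or.inr (Or.inl ⟨h, rfl⟩))⟩,
      ⟨_, ree_hall_tori hK hm k _ (Or.inr (Or.inr ⟨Or.inl h, rfl⟩))⟩,
      ⟨_, ree_hall_tori hK hm k _ (Or.inr (Or.inr ⟨Or.inr h, rfl⟩))⟩]
  obtain ⟨A', hA', hcard, -, hTI⟩ := hn
  obtain ⟨⟨y', hy'⟩, hoy'⟩ := exists_prime_orderOf_dvd_card' ℓ (hcard ▸ hℓk : ℓ ∣ Nat.card A')
  rw [← Subgroup.orderOf_coe] at hoy'
  change orderOf y' = ℓ at hoy'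
  -- `V` is conjugate to a subgroup of `A'`
  have hVp : IsPGroup ℓ V := fun x => ⟨1, Subtype.ext (by
    rw [pow_one]; exact hexp x.1 x.2)⟩
  obtain ⟨S, hS⟩ := hVp.exists_le_sylow
  obtain ⟨c, hc⟩ := exists_conj_mem_of_index (p := ℓ) (S : Subgroup ↥(twistedG2 K (3 ^ m))) S.not_dvd_index
    (k := 1) (show orderOf y' = ℓ ^ 1 by rw [pow_one, hoy'])
  have := isCyclic_sylow_ree hK hm (show 3 < ℓ by omega) S
  set W := Subgroup.zpowers y'
  have hV : V = W.map (MulAut.conj c).toMonoidHom := by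
    refine Subgroup.eq_of_le_of_card_ge (fun x hx => ?_) ?_
    · have hmem := GLSeven.mem_zpowers_of_cyclic (x := (⟨_, hc⟩ : (S : Subgroup ↥(twistedG2 K (3 ^ m)))))
        (y := ⟨x, hS hx⟩) hℓ.pos (by rw [← Subgroup.orderOf_coe]; exact (ree_orderOf_conj hK c y').trans hoy')
        (Subtype.ext (hexp x hx))
      obtain ⟨i, hi⟩ := Subgroup.mem_zpowers_iff.1 hmem
      have hi' : (c * y' * c⁻¹) ^ i = x := congrArg Subtype.val hi
      refine ⟨y' ^ i, zpow_mem (Subgroup.mem_zpowers y') i, ?_⟩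
      show c * y' ^ i * c⁻¹ = x
      rw [← conj_zpow]; exact hi'
    · rw [Subgroup.card_map_of_injective (MulAut.conj c).injective, Nat.card_zpowers, hoy', ← hoy]
      exact Nat.le_of_dvd Nat.card_pos (Subgroup.orderOf_dvd_natCard _ hy)
  refine ⟨A'.map (MulAut.conj c).toMonoidHom, hR.trans ?_, Or.inr (Or.inr ⟨?_, ?_⟩)⟩
  · rw [hV]
    refine normalizer_map_conj_le (hTI W (Subgroup.zpowers_le.2 hy') fun e => ?_).le c
    rw [Subgroup.zpowers_eq_bot] at e
    rw [e, orderOf_one] at hoy'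
    exact hℓ.one_lt.ne hoy'
  · exact isCyclic_of_surjective _ (Subgroup.equivMapOfInjective A' _ (MulAut.conj c).injective).surjective
  · rw [Subgroup.card_map_of_injective (MulAut.conj c).injective, hcard]
    exact hkn

/-- A normalised elementary abelian 2-subgroup of order at least four. -/
theorem normalizes_of_two (hm : 1 ≤ m) {R : Subgroup ↥(twistedG2 K (3 ^ m))}
    {V : Subgroup ↥(twistedG2 K (3 ^ m))} (hR : R ≤ Subgroup.normalizer (V : Set ↥(twistedG2 K (3 ^ m))))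
    (hexp : ∀ x ∈ V, x ^ 2 = 1) (h4 : 4 ≤ Nat.card V) : ReeNormalizes K m R := by
  classical
  have : Fact (Nat.Prime 2) := ⟨Nat.prime_two⟩
  obtain ⟨h27, hq8, hq3⟩ := ree_q_data (m := m) hm
  have hVp : IsPGroup 2 V := fun x => ⟨1, Subtype.ext (by
    rw [pow_one]; exact hexp x.1 x.2)⟩
  obtain ⟨T, hT⟩ := hVp.exists_le_sylow
  obtain ⟨h8, hsq, hcen⟩ := ree_sylow_two' hK T
  by_cases hV8 : Nat.card V = 8
  · refine ⟨T, hR.trans (le_of_eq ?_), Or.inl ⟨T, rfl⟩⟩
    rw [Subgroup.eq_of_le_of_card_ge hT (le_of_eq (h8.trans hV8.symm))]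
  have hV4 : Nat.card V = 4 := by
    have hd := Subgroup.card_dvd_of_le hT
    rw [show Nat.card (T : Subgroup ↥(twistedG2 K (3 ^ m))) = 8 from h8] at hd
    have := Nat.le_of_dvd (by norm_num) hd
    interval_cases h : Nat.card V <;> omega
  obtain ⟨M, A, e, o, hN⟩ := exists_nonsplit hK hm
  obtain ⟨ho, hodd, ho3, ho7⟩ := nonsplit_orderOf_o hK hN hm
  -- a centralising element of prime order
  obtain ⟨⟨t, ht⟩, ht1⟩ := (Subgroup.ne_bot_iff_exists_ne_one (H := V)).1 (fun h => by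
    rw [h, Subgroup.card_bot] at hV4; omega)
  have ht1' : t ≠ 1 := fun h => ht1 (Subtype.ext h)
  obtain ⟨u, hu, hut⟩ : ∃ u ∈ V, u ∉ Subgroup.zpowers t := by
    by_contra hno
    simp only [not_exists, not_and, not_not] at hno
    have h2 := Nat.le_of_dvd (orderOf_pos t) ((Subgroup.card_dvd_of_le (H := V) hno).trans
      (Nat.card_zpowers t).dvd)
    have := Nat.le_of_dvd two_pos (orderOf_dvd_of_pow_eq_one (hexp t ht))
    omega
  obtain ⟨A0, hA0, hA01, hA02⟩ := exists_reeH_involution hK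
  obtain ⟨c, hct⟩ := exists_conj_involution hK hm hA0 hA01 hA02 ht1' (by rw [← pow_two]; exact hexp t ht)
  obtain ⟨Ψ, hΨ, hrange, hΨA⟩ := exists_invHom hK hm hA0 hA01 hA02
  have htu : Commute u t := (Subgroup.mem_centralizer_iff.1 (hcen.ge (hT hu)) t (hT ht)).symm
  obtain ⟨⟨i, s⟩, hx⟩ := (hrange (c * u * c⁻¹)).2 (by
    rw [← hct]; exact (htu.map (MulAut.conj c).toMonoidHom).eq)
  have hsq2 : s * s = 1 := by
    have h2 : (i, s) * (i, s) = 1 := by
      apply hΨ
      rw [map_mul, hx, map_one, ← pow_two, conj_pow, hexp u hu, mul_one, mul_inv_cancel]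
    exact congrArg Prod.snd h2
  have hs1 : s ≠ 1 := by
    rintro rfl
    rcases mulZModTwo_cases i with rfl | rfl
    · have h1 : c * u * c⁻¹ = 1 := by rw [← hx]; exact map_one Ψ
      exact hut (conj_eq_one_iff.1 h1 ▸ one_mem _)
    · rw [hΨA] at hx
      exact hut (mul_left_cancel (mul_right_cancel (hx.symm.trans hct.symm)) ▸ Subgroup.mem_zpowers t)
  obtain ⟨ℓ, hℓ, hℓd⟩ := Nat.exists_prime_and_dvd (n := orderOf o) (by omega)
  have : Fact ℓ.Prime := ⟨hℓ⟩
  have hℓ5 : 5 ≤ ℓ := by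
    by_contra h
    have := hℓ.two_le
    interval_cases ℓ
    · have := Nat.odd_iff.1 hodd; omega
    · exact ho3 hℓd
    · norm_num at hℓ
  have hℓq : ℓ ∣ 3 ^ (2 * m + 1) + 1 := by rw [← hN.order_o]; exact dvd_mul_of_dvd_right hℓd 4
  obtain ⟨⟨z, hz⟩, hoz⟩ := exists_prime_orderOf_dvd_card' ℓ (show ℓ ∣
      Nat.card (Subgroup.centralizer ({s} : Set (Matrix.ProjectiveSpecialLinearGroup (Fin 2) K))) by
    rw [PSLTorus.card_centralizer_involution (three_eq_zero_ree hK) (natCard_ree hK) (by omega) hs1 hsq2]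
    exact hℓq)
  rw [← Subgroup.orderOf_coe] at hoz
  change orderOf z = ℓ at hoz
  set y := c⁻¹ * Ψ (1, z) * c with hy
  have hoy : orderOf y = ℓ := by
    rw [hy, show c⁻¹ * Ψ (1, z) * c = c⁻¹ * Ψ (1, z) * c⁻¹⁻¹ by rw [inv_inv], ree_orderOf_conj hK,
      orderOf_injective Ψ hΨ, Prod.orderOf, orderOf_one, Nat.lcm_one_left, hoz]
  have hyt : Commute y t := by
    have h1 : Commute (Ψ (1, z)) A0 := (hrange _).1 ⟨_, rfl⟩
    have h2 := h1.map (MulAut.conj c⁻¹).toMonoidHom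
    change Commute (c⁻¹ * Ψ (1, z) * c⁻¹⁻¹) (c⁻¹ * A0 * c⁻¹⁻¹) at h2
    rw [inv_inv, show c⁻¹ * A0 * c = t by rw [← hct]; group] at h2
    exact h2
  have hyu : Commute y u := by
    have h1 : Commute (Ψ (1, z)) (c * u * c⁻¹) := by
      rw [← hx]
      refine Commute.map (Prod.ext ?_ ?_) Ψ
      · exact (mul_comm _ _)
      · exact Subgroup.mem_centralizer_singleton_iff.1 hz
    have h2 := h1.map (MulAut.conj c⁻¹).toMonoidHom
    change Commute (c⁻¹ * Ψ (1, z) * c⁻¹⁻¹) (c⁻¹ * (c * u * c⁻¹) * c⁻¹⁻¹) at h2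
    rw [inv_inv, show c⁻¹ * (c * u * c⁻¹) * c = u by group] at h2
    exact h2
  obtain ⟨d, hd⟩ := exists_conj_nonsplit hK hm hN hℓ hℓ5 hℓq hoy
  have hC := centralizer_eq_nonsplit hK hN hm hd hℓ (by omega) ((ree_orderOf_conj hK d y).trans hoy)
  -- `V` is conjugate to the involutions of `M`
  have hVE : V.map (MulAut.conj d).toMonoidHom = invSubgroup M hN.comm := by
    have hmem : ∀ x ∈ V, Commute y x → d * x * d⁻¹ ∈ invSubgroup M hN.comm := fun x hx hc => by
      refine ⟨hC.le (Subgroup.mem_centralizer_singleton_iff.2 ((hc.symm).map (MulAut.conj d).toMonoidHom).eq), ?_⟩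
      rw [← pow_two, conj_pow, hexp x hx, mul_one, mul_inv_cancel]
    have hgen : V ≤ Subgroup.centralizer {y} := by
      -- `V` is generated by `t` and `u`
      have hle : Subgroup.closure {t, u} ≤ V := by
        rw [Subgroup.closure_le]; rintro x (rfl | rfl); exacts [ht, hu]
      have heq : Subgroup.closure {t, u} = V := by
        refine Subgroup.eq_of_le_of_card_ge hle ?_
        have hcl := Subgroup.card_dvd_of_le hle
        rw [hV4] at hcl ⊢
        have h2 : Subgroup.zpowers t ≤ Subgroup.closure {t, u} :=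
          Subgroup.zpowers_le.2 (Subgroup.subset_closure (Set.mem_insert t _))
        have hlt : Subgroup.zpowers t < Subgroup.closure {t, u} :=
          lt_of_le_of_ne h2 fun h => hut (h ▸ Subgroup.subset_closure (Set.mem_insert_of_mem t rfl))
        have hcardlt : Nat.card (Subgroup.zpowers t) < Nat.card (Subgroup.closure ({t, u} : Set _)) := by
          by_contra hge
          exact hlt.ne (Subgroup.eq_of_le_of_card_ge h2 (not_lt.1 hge))
        have ho2 : Nat.card (Subgroup.zpowers t) = 2 := by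
          rw [Nat.card_zpowers]; exact orderOf_eq_prime (hexp t ht) ht1'
        have := Nat.le_of_dvd (by norm_num) hcl
        interval_cases h : Nat.card (Subgroup.closure ({t, u} : Set _)) <;> omega
      rw [← heq, Subgroup.closure_le]
      rintro x (rfl | rfl) <;> rw [SetLike.mem_coe, Subgroup.mem_centralizer_singleton_iff]
      exacts [hyt.eq.symm, hyu.eq.symm]
    refine Subgroup.eq_of_le_of_card_ge ?_ ?_
    · rintro _ ⟨x, hx, rfl⟩
      exact hmem x hx (Subgroup.mem_centralizer_singleton_iff.1 (hgen hx) : Commute x y).symm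
    · rw [Subgroup.card_map_of_injective (MulAut.conj d).injective, card_invSubgroup hK hN hm, hV4]
  -- the normaliser of the involutions normalises the odd part
  set E := invSubgroup M hN.comm
  have hNE : Subgroup.normalizer (E : Set ↥(twistedG2 K (3 ^ m))) ≤
      Subgroup.normalizer (Subgroup.zpowers o : Set ↥(twistedG2 K (3 ^ m))) := by
    have hMC : M ≤ Subgroup.centralizer {A} ⊓ Subgroup.centralizer {e} := fun x hx =>
      ⟨Subgroup.mem_centralizer_singleton_iff.2 (nonsplit_commute hK hN hm hx hN.memA),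
        Subgroup.mem_centralizer_singleton_iff.2 (nonsplit_commute hK hN hm hx hN.meme)⟩
    have hidx2 : (M.subgroupOf (Subgroup.centralizer {A} ⊓ Subgroup.centralizer {e})).index = 2 := by
      have h := (M.subgroupOf (Subgroup.centralizer {A} ⊓ Subgroup.centralizer {e})).card_mul_index
      rw [Nat.card_congr (Subgroup.subgroupOfEquivOfLe hMC).toEquiv, hN.card, hN.card_cent] at h
      exact Nat.eq_of_mul_eq_mul_left (Nat.succ_pos _) (h.trans (mul_comm _ _))
    have hnormal := Subgroup.normal_of_index_eq_two hidx2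
    have hMnorm := (Subgroup.normal_subgroupOf_iff_le_normalizer hMC).1 hnormal
    have key : ∀ g ∈ Subgroup.normalizer (E : Set ↥(twistedG2 K (3 ^ m))), ∀ z ∈ Subgroup.zpowers o,
        g * z * g⁻¹ ∈ Subgroup.zpowers o := by
      intro g hg z hz
      have hzM : z ∈ M := Subgroup.zpowers_le.2 hN.memo hz
      have hzodd : Odd (orderOf z) := hodd.of_dvd_nat (by
        rw [← Nat.card_zpowers o]; exact Subgroup.orderOf_dvd_natCard _ hz)
      have hcomm : ∀ x ∈ E, Commute (g * z * g⁻¹) x := by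
        intro x hx
        have hx' : g⁻¹ * x * g ∈ E := (Subgroup.mem_normalizer_iff.1 hg (g⁻¹ * x * g)).2 (by
          rw [show g * (g⁻¹ * x * g) * g⁻¹ = x by group]; exact hx)
        have := (show Commute z (g⁻¹ * x * g) from nonsplit_commute hK hN hm hzM hx'.1).map (MulAut.conj g).toMonoidHom
        change Commute (g * z * g⁻¹) (g * (g⁻¹ * x * g) * g⁻¹) at this
        rwa [show g * (g⁻¹ * x * g) * g⁻¹ = x by group] at this
      have hpow := Subgroup.pow_index_mem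
        (M.subgroupOf (Subgroup.centralizer {A} ⊓ Subgroup.centralizer {e}))
        ⟨g * z * g⁻¹, Subgroup.mem_inf.2
          ⟨Subgroup.mem_centralizer_singleton_iff.2 (hcomm A ⟨hN.memA, hN.A_sq⟩).eq,
          Subgroup.mem_centralizer_singleton_iff.2 (hcomm e ⟨hN.meme, hN.e_sq⟩).eq⟩⟩
      rw [hidx2] at hpow
      have hsq' : (g * z * g⁻¹) ^ 2 ∈ M := Subgroup.mem_subgroupOf.1 hpow
      obtain ⟨l, hl⟩ := exists_pow_eq_self_of_coprime (x := g * z * g⁻¹) (n := 2) (by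
        rw [ree_orderOf_conj hK]; exact Nat.coprime_two_left.2 hzodd)
      exact hN.odd_mem _ (hl ▸ pow_mem hsq' l) (by rw [ree_orderOf_conj hK]; exact hzodd)
    intro g hg
    refine Subgroup.mem_normalizer_iff.2 fun z => ⟨key g hg z, fun hz => ?_⟩
    simpa [mul_assoc] using key g⁻¹ (inv_mem hg) _ hz
  refine ⟨(Subgroup.zpowers o).map (MulAut.conj d⁻¹).toMonoidHom, hR.trans ?_, Or.inr (Or.inr ⟨?_, ?_⟩)⟩
  · have hV : V = E.map (MulAut.conj d⁻¹).toMonoidHom := by
      rw [← hVE, Subgroup.map_map]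
      conv_lhs => rw [← Subgroup.map_id V]
      congr 1
      ext x
      simp [mul_assoc]
    rw [hV]
    exact normalizer_map_conj_le hNE d⁻¹
  · exact isCyclic_of_surjective _
      (Subgroup.equivMapOfInjective (Subgroup.zpowers o) _ (MulAut.conj d⁻¹).injective).surjective
  · rw [Subgroup.card_map_of_injective (MulAut.conj d⁻¹).injective, Nat.card_zpowers, ho]
    exact Or.inr (Or.inl rfl)

/-- A normalised 3-subgroup. -/
theorem normalizes_of_three {R : Subgroup ↥(twistedG2 K (3 ^ m))}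
    {V : Subgroup ↥(twistedG2 K (3 ^ m))} (hR : R ≤ Subgroup.normalizer (V : Set ↥(twistedG2 K (3 ^ m))))
    (hne : V ≠ ⊥) (hexp : ∀ x ∈ V, x ^ 3 = 1) : ReeNormalizes K m R := by
  have : Fact (Nat.Prime 3) := ⟨Nat.prime_three⟩
  obtain ⟨P, hP⟩ := (show IsPGroup 3 V from fun x => ⟨1, Subtype.ext (by
    rw [pow_one]; exact hexp x.1 x.2)⟩).exists_le_sylow
  refine ⟨P, fun g hg => ?_, Or.inr (Or.inl ⟨P, rfl⟩)⟩
  refine Sylow.smul_eq_iff_mem_normalizer.1 ?_
  by_contra hne'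
  obtain ⟨⟨x, hx⟩, hx1⟩ := (Subgroup.ne_bot_iff_exists_ne_one).1 hne
  have hmem : g * (g⁻¹ * x * g) * g⁻¹ ∈ ((g • P : Sylow 3 _) : Subgroup ↥(twistedG2 K (3 ^ m))) :=
    Subgroup.smul_mem_pointwise_smul (g⁻¹ * x * g) (MulAut.conj g) _ (hP (by
      have := (Subgroup.mem_normalizer_iff.1 (hR (inv_mem hg)) x).1 hx
      rwa [inv_inv] at this))
  rw [show g * (g⁻¹ * x * g) * g⁻¹ = x by group] at hmem
  have := sylow_three_inf hK (g • P) P hne'
  exact hx1 (Subtype.ext (Subgroup.mem_bot.1 (this ▸ Subgroup.mem_inf.2 ⟨hmem, hP hx⟩)))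

/-- Solvable subgroups of ²G₂(q). -/
theorem ree_solvable_subgroup (hm : 1 ≤ m) (R : Subgroup ↥(twistedG2 K (3 ^ m)))
    (hs : Group.IsSolvable R) : ReeNormalizes K m R := by
  classical
  have : Fact (Nat.Prime 2) := ⟨Nat.prime_two⟩
  have : Fact (Nat.Prime 3) := ⟨Nat.prime_three⟩
  obtain ⟨T0⟩ : Nonempty (Sylow 2 ↥(twistedG2 K (3 ^ m))) := inferInstance
  by_cases hR1 : R = ⊥
  · exact ⟨T0, by rw [hR1]; exact bot_le, Or.inl ⟨T0, rfl⟩⟩
  obtain ⟨V, ℓ, hℓ, hVR, hVN, hVne, hexp, hcomm⟩ :=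
    exists_elementary_invariant (R := R) Subgroup.le_normalizer hs hR1
  by_cases h5 : 5 ≤ ℓ
  · exact normalizes_of_prime hK hm hVN hℓ h5 hVne hexp
  have hℓ23 : ℓ = 2 ∨ ℓ = 3 := by
    have := hℓ.two_le
    interval_cases ℓ <;> first
      | omega
      | norm_num at hℓ
  rcases hℓ23 with rfl | rfl
  swap
  · exact normalizes_of_three hK hVN hVne hexp
  by_cases h4 : 4 ≤ Nat.card V
  · exact normalizes_of_two hK hm hVN hexp h4
  -- a normalised involution
  obtain ⟨⟨t, ht⟩, ht1⟩ := (Subgroup.ne_bot_iff_exists_ne_one).1 hVne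
  have ht1' : t ≠ 1 := fun h => ht1 (Subtype.ext h)
  have hot : orderOf t = 2 := orderOf_eq_prime (hexp t ht) ht1'
  have hVt : V = Subgroup.zpowers t := by
    refine (Subgroup.eq_of_le_of_card_ge (Subgroup.zpowers_le.2 ht) ?_).symm
    rw [Nat.card_zpowers, hot]
    have hp : IsPGroup 2 V := fun x => ⟨1, Subtype.ext (by rw [pow_one]; exact hexp x.1 x.2)⟩
    obtain ⟨k, hk⟩ := IsPGroup.iff_card.1 hp
    have h2k : Nat.card V ≤ 2 := by
      rcases Nat.lt_or_ge k 2 with h | h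
      · rw [hk]; exact (Nat.pow_le_pow_right two_pos (show k ≤ 1 by omega)).trans (by rw [pow_one])
      · exfalso; exact h4 (hk ▸ (Nat.pow_le_pow_right two_pos h : 2 ^ 2 ≤ 2 ^ k))
    exact h2k
  have hRt : ∀ g ∈ R, g * t = t * g := by
    intro g hg
    have h := (Subgroup.mem_normalizer_iff.1 (hVN hg) t).1 ht
    rw [hVt] at h
    obtain ⟨i, -, hi⟩ := Finset.mem_image.1 ((mem_zpowers_iff_mem_range_orderOf).1 h)
    have hi2 : t ^ i = 1 ∨ t ^ i = t := by
      rcases Nat.even_or_odd i with ⟨j, rfl⟩ | ⟨j, rfl⟩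
      · left; rw [← two_mul, pow_mul, hexp t ht, one_pow]
      · right; rw [pow_succ, pow_mul, hexp t ht, one_pow, one_mul]
    rcases hi2 with h' | h'
    · rw [h'] at hi; exact absurd (conj_eq_one_iff.1 hi.symm) ht1'
    · rw [h'] at hi; exact mul_inv_eq_iff_eq_mul.1 hi.symm
  obtain ⟨A0, hA0, hA01, hA02⟩ := exists_reeH_involution hK
  obtain ⟨c, hct⟩ := exists_conj_involution hK hm hA0 hA01 hA02 ht1' (by rw [← pow_two]; exact hexp t ht)
  obtain ⟨Ψ, hΨ, hrange, hΨA⟩ := exists_invHom hK hm hA0 hA01 hA02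
  -- the part in `L₂(q)`
  set ι := ((MulAut.conj c⁻¹).toMonoidHom.comp Ψ).comp
    (MonoidHom.inr (Multiplicative (ZMod 2)) (Matrix.ProjectiveSpecialLinearGroup (Fin 2) K))
  set R1 := R ⊓ ι.range with hR1def
  have hι : ∀ z, ι z = c⁻¹ * Ψ (1, z) * c := fun z => by simp [ι]
  have hR1N : R ≤ Subgroup.normalizer (R1 : Set ↥(twistedG2 K (3 ^ m))) := by
    have key : ∀ g ∈ R, ∀ x ∈ R1, g * x * g⁻¹ ∈ R1 := by
      rintro g hg x ⟨hxR, z, rfl⟩
      refine ⟨R.mul_mem (R.mul_mem hg hxR) (R.inv_mem hg), ?_⟩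
      obtain ⟨⟨i, u⟩, hu⟩ := (hrange (c * g * c⁻¹)).2 (by
        rw [← hct]; exact ((show Commute g t from hRt g hg).map (MulAut.conj c).toMonoidHom).eq)
      refine ⟨u * z * u⁻¹, ?_⟩
      have h1 : Ψ (1, u * z * u⁻¹) = Ψ (i, u) * Ψ (1, z) * (Ψ (i, u))⁻¹ := by
        rw [← map_inv, ← map_mul, ← map_mul]
        congr 1
        ext <;> simp
      rw [hι, hι, h1, hu]
      group
    intro g hg
    refine Subgroup.mem_normalizer_iff.2 fun x => ⟨key g hg x, fun hx => ?_⟩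
    simpa [mul_assoc] using key g⁻¹ (inv_mem hg) _ hx
  obtain ⟨T, hT⟩ := (show IsPGroup 2 V from fun x => ⟨1, Subtype.ext (by
    rw [pow_one]; exact hexp x.1 x.2)⟩).exists_le_sylow
  obtain ⟨j2, hj2⟩ : ∃ i : Multiplicative (ZMod 2), i = Multiplicative.ofAdd 1 := ⟨_, rfl⟩
  have ht_notin : t ∉ ι.range := by
    rintro ⟨z, hz⟩
    rw [hι] at hz
    have h1 : Ψ (1, z) = Ψ (j2, 1) := by
      rw [hj2, hΨA, ← hct, ← hz]; group
    exact mulZModTwo_ne ((congrArg Prod.fst (hΨ h1)).trans hj2).symm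
  by_cases hR1bot : R1 = ⊥
  · -- then `R = ⟨t⟩`
    refine ⟨T, fun g hg => Subgroup.le_normalizer ?_, Or.inl ⟨T, rfl⟩⟩
    obtain ⟨⟨i, u⟩, hu⟩ := (hrange (c * g * c⁻¹)).2 (by
      rw [← hct]; exact ((show Commute g t from hRt g hg).map (MulAut.conj c).toMonoidHom).eq)
    have htR : t ∈ R := hVR ht
    have hg' : g = c⁻¹ * Ψ (i, u) * c := by rw [hu]; group
    rcases mulZModTwo_cases i with rfl | rfl
    · have hmem : g ∈ R1 := ⟨hg, u, by rw [hι, hg']⟩
      rw [hR1bot, Subgroup.mem_bot] at hmem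
      rw [hmem]; exact one_mem _
    · have hmem : t * g ∈ R1 := by
        refine ⟨mul_mem htR hg, u, ?_⟩
        rw [hι, show t = c⁻¹ * A0 * c by rw [← hct]; group, ← hΨA, hg',
          show c⁻¹ * Ψ (Multiplicative.ofAdd 1, 1) * c * (c⁻¹ * Ψ (Multiplicative.ofAdd 1, u) * c) =
            c⁻¹ * (Ψ (Multiplicative.ofAdd 1, 1) * Ψ (Multiplicative.ofAdd 1, u)) * c by group,
          ← map_mul, Prod.mk_mul_mk, mulZModTwo_sq, one_mul]
      rw [hR1bot, Subgroup.mem_bot] at hmem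
      rw [eq_inv_of_mul_eq_one_right hmem]
      exact inv_mem (hT ht)
  obtain ⟨V1, ℓ1, hℓ1, hV1R, hV1N, hV1ne, hexp1, hcomm1⟩ := exists_elementary_invariant hR1N
    (solvable_of_solvable_injective (f := Subgroup.inclusion (inf_le_left : R1 ≤ R)) (Subgroup.inclusion_injective _))
    hR1bot
  by_cases h51 : 5 ≤ ℓ1
  · exact normalizes_of_prime hK hm hV1N hℓ1 h51 hV1ne hexp1
  have hℓ123 : ℓ1 = 2 ∨ ℓ1 = 3 := by
    have := hℓ1.two_le
    interval_cases ℓ1 <;> first
      | omega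
      | norm_num at hℓ1
  rcases hℓ123 with rfl | rfl
  swap
  · exact normalizes_of_three hK hV1N hV1ne hexp1
  have hVt1 : ∀ x ∈ V1, Commute x t := fun x hx => hRt x (hV1R hx).1
  have htt : t * t = 1 := by rw [← pow_two]; exact hexp t ht
  let V2 : Subgroup ↥(twistedG2 K (3 ^ m)) :=
    { carrier := {x | x ∈ V1 ∨ x * t ∈ V1}
      one_mem' := Or.inl (one_mem _)
      mul_mem' := fun {a b} ha hb => by
        rcases hb with hb | hb
        · rcases ha with ha | ha
          · exact Or.inl (mul_mem ha hb)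
          · right
            have : a * b * t = a * t * b := by rw [mul_assoc, (hVt1 b hb).eq, ← mul_assoc]
            rw [this]; exact mul_mem ha hb
        · rcases ha with ha | ha
          · right; rw [mul_assoc]; exact mul_mem ha hb
          · left
            have : a * b = a * t * (b * t) := by
              have hc : t * (b * t) = b * t * t := (hVt1 _ hb).eq.symm
              rw [mul_assoc a t, hc, mul_assoc b t t, htt, mul_one]
            rw [this]; exact mul_mem ha hb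
      inv_mem' := fun {a} ha => by
        rcases ha with ha | ha
        · exact Or.inl (inv_mem ha)
        · right
          have h2 : a⁻¹ * t = (a * t)⁻¹ := by
            rw [mul_inv_rev]
            have hc := (hVt1 _ ha).inv_left.eq
            rw [mul_inv_rev, inv_eq_of_mul_eq_one_left htt] at hc
            rw [inv_eq_of_mul_eq_one_left htt]
            calc a⁻¹ * t = t * (t * a⁻¹) * t := by rw [← mul_assoc t t, htt, one_mul]
              _ = t * ((t * a⁻¹) * t) := mul_assoc _ _ _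
              _ = t * (t * (t * a⁻¹)) := by rw [hc]
              _ = t * a⁻¹ := by rw [← mul_assoc t t, htt, one_mul]
          rw [h2]; exact inv_mem ha }
  refine normalizes_of_two hK hm (V := V2) ?_ ?_ ?_
  · have key : ∀ g ∈ R, ∀ x ∈ V2, g * x * g⁻¹ ∈ V2 := by
      rintro g hg x (hx | hx)
      · exact Or.inl ((Subgroup.mem_normalizer_iff.1 (hV1N hg) x).1 hx)
      · refine Or.inr ?_
        have h := (Subgroup.mem_normalizer_iff.1 (hV1N hg) _).1 hx
        rw [show g * x * g⁻¹ * t = g * (x * t) * g⁻¹ by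
          rw [mul_assoc _ g⁻¹ t, ← ((show Commute g t from hRt g hg).inv_left).symm.eq]; group]
        exact h
    intro g hg
    refine Subgroup.mem_normalizer_iff.2 fun x => ⟨key g hg x, fun hx => ?_⟩
    simpa [mul_assoc] using key g⁻¹ (inv_mem hg) _ hx
  · rintro x (hx | hx)
    · exact hexp1 x hx
    · rw [show x = x * t * t by rw [mul_assoc, htt, mul_one], (hVt1 _ hx).mul_pow, hexp1 _ hx, hexp t ht,
        mul_one]
  · obtain ⟨⟨x, hx⟩, hx1⟩ := (Subgroup.ne_bot_iff_exists_ne_one).1 hV1ne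
    have hx1' : x ≠ 1 := fun h => hx1 (Subtype.ext h)
    have htV : t ∉ V1 := fun h => ht_notin (hV1R h).2
    let f : Fin 4 → V2 := ![⟨1, Or.inl (one_mem _)⟩, ⟨t, Or.inr (by rw [htt]; exact one_mem _)⟩,
      ⟨x, Or.inl hx⟩, ⟨x * t, Or.inr (by rw [mul_assoc, htt, mul_one]; exact hx)⟩]
    have hxt : x ≠ t := fun h => htV (h ▸ hx)
    have hxt1 : x * t ≠ 1 := fun h => hxt (by
      rw [eq_inv_of_mul_eq_one_left h, inv_eq_of_mul_eq_one_left htt])
    have hxtt : x * t ≠ t := fun h => hx1' (mul_eq_right.1 h)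
    have hxtx : x * t ≠ x := fun h => ht1' (mul_eq_left.1 h)
    have hf : Function.Injective f := by
      intro i j h
      have h' := congrArg (fun z : V2 => (z : ↥(twistedG2 K (3 ^ m)))) h
      fin_cases i <;> fin_cases j <;>
        simp [f, ht1', ht1'.symm, hx1', hx1'.symm, hxt, hxt.symm, hxt1, hxt1.symm, hxtt, hxtt.symm, hxtx,
          hxtx.symm] at h' ⊢
    have := Nat.card_le_card_of_injective f hf
    rwa [Nat.card_eq_fintype_card, Fintype.card_fin] at this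

end CfsgLib.Twisted
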