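import Mathlib

/-! Simultaneous eigenvectors, independence of eigenvectors for distinct characters, and the trace
of an operator permuting eigenlines without fixed line. -/

set_option autoImplicit false

namespace CfsgLib.Twisted.RepEigen

variable {V : Type*} [AddCommGroup V] [Module ℂ V] [FiniteDimensional ℂ V]

theorem exists_common_eigen {ι : Type*} (f : ι → Module.End ℂ V)
    (hcomm : ∀ i j, Commute (f i) (f j)) (W : Submodule ℂ V) (hW : W ≠ ⊥)
    (hinv : ∀ i, ∀ w ∈ W, f i w ∈ W) :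
    ∃ v ∈ W, v ≠ 0 ∧ ∀ i, ∃ c : ℂ, f i v = c • v := by
  classical
  let P : Submodule ℂ V → Prop := fun U => U ≤ W ∧ U ≠ ⊥ ∧ ∀ i, ∀ u ∈ U, f i u ∈ U
  have hex : ∃ n, ∃ U, P U ∧ Module.finrank ℂ U = n := ⟨_, W, ⟨le_rfl, hW, hinv⟩, rfl⟩
  obtain ⟨U, ⟨hUW, hU0, hUinv⟩, hUn⟩ := Nat.find_spec hex
  obtain ⟨v, hvU, hv0⟩ := Submodule.exists_mem_ne_zero_of_ne_bot hU0
  refine ⟨v, hUW hvU, hv0, fun i => ?_⟩
  have : Nontrivial U := Submodule.nontrivial_iff_ne_bot.2 hU0
  obtain ⟨c, hc⟩ := Module.End.exists_eigenvalue ((f i).restrict (hUinv i))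
  obtain ⟨⟨e, heU⟩, he⟩ := hc.exists_hasEigenvector
  refine ⟨c, ?_⟩
  let E : Submodule ℂ V := U ⊓ LinearMap.ker (f i - c • 1)
  have hE : ∀ {u : V}, u ∈ E ↔ u ∈ U ∧ f i u = c • u := fun {u} => by
    simp [E, sub_eq_zero]
  have he' : f i e = c • e := congrArg Subtype.val he.apply_eq_smul
  have hE0 : E ≠ ⊥ := fun h => he.2 (Subtype.ext ((Submodule.eq_bot_iff _).1 h e (hE.2 ⟨heU, he'⟩)))
  have hEinv : ∀ j, ∀ u ∈ E, f j u ∈ E := fun j u hu => hE.2 ⟨hUinv j u (hE.1 hu).1, by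
    have h := LinearMap.congr_fun (hcomm i j).eq u
    simp only [Module.End.mul_apply] at h
    rw [h, (hE.1 hu).2, map_smul]⟩
  have hle : E ≤ U := inf_le_left
  have hge : Module.finrank ℂ U ≤ Module.finrank ℂ E :=
    hUn ▸ Nat.find_min' hex ⟨E, ⟨hle.trans hUW, hE0, hEinv⟩, rfl⟩
  have hEU : E = U := Submodule.eq_of_le_of_finrank_le hle hge
  exact (hE.1 (hEU.ge hvU)).2

variable {G : Type*} [Monoid G] {ι : Type*} (ρ : Representation ℂ G V) (φ : ι → (G →* ℂ))
  (v : ι → V)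

omit [FiniteDimensional ℂ V] in
theorem linearIndependent_eigen (hφ : Function.Injective φ) (hv : ∀ i, v i ≠ 0)
    (he : ∀ i g, ρ g (v i) = φ i g • v i) : LinearIndependent ℂ v := by
  rw [linearIndependent_iff']
  intro s c hs i hi
  by_contra hci
  have hind := (linearIndependent_monoidHom G ℂ).comp φ hφ
  have key : ∀ ℓ : Module.Dual ℂ V, c i * ℓ (v i) = 0 := fun ℓ => by
    refine linearIndependent_iff'.1 hind s (fun j => c j * ℓ (v j)) ?_ i hi
    funext g
    have h := congrArg (fun x => ℓ (ρ g x)) hs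
    simp only [map_sum, map_smul, he, map_zero, smul_eq_mul] at h
    simp only [Function.comp_apply, Finset.sum_apply, Pi.smul_apply, smul_eq_mul, Pi.zero_apply]
    rw [← h]
    exact Finset.sum_congr rfl fun j _ => by ring
  exact hv i ((Module.forall_dual_apply_eq_zero_iff ℂ (v i)).1 fun ℓ =>
    (mul_eq_zero.1 (key ℓ)).resolve_left hci)

omit [FiniteDimensional ℂ V] in
theorem trace_eq_zero_of_moves [Fintype ι] (b : Module.Basis ι ℂ V)
    (he : ∀ i g, ρ g (b i) = φ i g • b i) (T : Module.End ℂ V)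
    (hT : ∀ i, ∃ χ : G →* ℂ, χ ≠ φ i ∧ ∀ g, ρ g (T (b i)) = χ g • T (b i)) :
    LinearMap.trace ℂ V T = 0 := by
  classical
  rw [LinearMap.trace_eq_matrix_trace ℂ b, Matrix.trace]
  refine Finset.sum_eq_zero fun i _ => ?_
  rw [Matrix.diag_apply, LinearMap.toMatrix_apply]
  obtain ⟨χ, hne, hχ⟩ := hT i
  obtain ⟨g, hg⟩ := DFunLike.ne_iff.1 hne
  have h1 : ∀ x, b.repr (ρ g x) i = φ i g * b.repr x i := by
    have : (b.coord i) ∘ₗ (ρ g) = φ i g • b.coord i := b.ext fun j => by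
      simp only [LinearMap.comp_apply, LinearMap.smul_apply, Module.Basis.coord_apply, he, map_smul,
        Module.Basis.repr_self, Finsupp.single_apply, smul_eq_mul]
      split_ifs with hij
      · rw [hij]
      · simp
    exact fun x => LinearMap.congr_fun this x
  have h2 := h1 (T (b i))
  rw [hχ, map_smul, Finsupp.smul_apply, smul_eq_mul] at h2
  exact (mul_eq_mul_right_iff.1 h2).resolve_left hg

end CfsgLib.Twisted.RepEigen
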