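import Mathlib
import Cfsg.Agent.Lib.Twisted.RepEigen

/-! Dimensions of fixed spaces, and lower bounds for them from eigenvectors of a normalised
subgroup with pairwise different characters. -/

set_option autoImplicit false

namespace CfsgLib.Twisted.RepFix

variable {V : Type*} [AddCommGroup V] [Module ℂ V] [FiniteDimensional ℂ V]
variable {G : Type*} [Group G] (ρ : Representation ℂ G V)

/-- the vectors fixed by the image of a homomorphism -/
def fix {A : Type*} [Monoid A] (f : A →* G) : Submodule ℂ V where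
  carrier := {v | ∀ a, ρ (f a) v = v}
  add_mem' := fun hv hw a => by rw [map_add, hv a, hw a]
  zero_mem' := fun a => map_zero _
  smul_mem' := fun c v hv a => by rw [map_smul, hv a]

omit [FiniteDimensional ℂ V] in
theorem mem_fix {A : Type*} [Monoid A] {f : A →* G} {v : V} : v ∈ fix ρ f ↔ ∀ a, ρ (f a) v = v :=
  Iff.rfl

/-- the number of elements times the dimension of the fixed space is the sum of the traces -/
theorem card_mul_fix {A : Type*} [Group A] [Fintype A] (f : A →* G) :
    (Fintype.card A : ℂ) * Module.finrank ℂ (fix ρ f) = ∑ a, LinearMap.trace ℂ V (ρ (f a)) := by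
  have hne : (Nat.card A : ℂ) ≠ 0 := by
    rw [Nat.card_eq_fintype_card]; exact_mod_cast Fintype.card_ne_zero
  let _ : Invertible (Nat.card A : ℂ) := invertibleOfNonzero hne
  let σ : Representation ℂ A V := ρ.comp f
  have e : Representation.invariants σ = fix ρ f := rfl
  have h := Representation.card_inv_mul_sum_char_eq_finrank (ρ := σ)
  rw [e, inv_mul_eq_iff_eq_mul₀ hne, Nat.card_eq_fintype_card] at h
  exact h.symm

/-- the twist of a representation of `A` by a character -/
noncomputable def twist {A : Type*} [Group A] (f : A →* G) (θ : A →* ℂ) : Representation ℂ A V where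
  toFun a := θ a • ρ (f a)
  map_one' := by simp
  map_mul' a b := by
    rw [map_mul, map_mul, map_mul]
    ext v
    simp [smul_smul, mul_comm]

/-- twisted trace sums are multiples of the order -/
theorem exists_card_mul_eq {A : Type*} [Group A] [Fintype A] (f : A →* G) (θ : A →* ℂ) :
    ∃ e : ℕ, (Fintype.card A : ℂ) * e = ∑ a, θ a * LinearMap.trace ℂ V (ρ (f a)) := by
  have h := card_mul_fix (twist ρ f θ) (MonoidHom.id A)
  refine ⟨_, h.trans (Finset.sum_congr rfl fun a _ => ?_)⟩
  rw [← smul_eq_mul, ← map_smul]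
  rfl

section Orbit

variable {Q : Type*} [Group Q] [Fintype Q] (fQ : Q →* G)

/-- projection to the eigenvectors for a character -/
noncomputable def proj (χ : Q →* ℂ) : Module.End ℂ V :=
  (Fintype.card Q : ℂ)⁻¹ • ∑ x : Q, χ x⁻¹ • ρ (fQ x)

omit [FiniteDimensional ℂ V] in
theorem proj_apply_of_eigen (χ φ : Q →* ℂ) [Decidable (φ = χ)] {v : V}
    (hv : ∀ x, ρ (fQ x) v = φ x • v) : proj ρ fQ χ v = if φ = χ then v else 0 := by
  have hne : (Fintype.card Q : ℂ) ≠ 0 := by exact_mod_cast Fintype.card_ne_zero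
  have h0 : ∀ x, χ x⁻¹ * χ x = 1 := fun x => by rw [← map_mul, inv_mul_cancel, map_one]
  have hs : proj ρ fQ χ v = ((Fintype.card Q : ℂ)⁻¹ * ∑ x : Q, χ x⁻¹ * φ x) • v := by
    simp only [proj, LinearMap.smul_apply, LinearMap.sum_apply, hv, smul_smul, ← Finset.sum_smul]
  rw [hs]
  by_cases h : φ = χ
  · subst h
    rw [if_pos rfl, Finset.sum_congr rfl (fun x _ => h0 x), Finset.sum_const, Finset.card_univ,
      nsmul_one, inv_mul_cancel₀ hne, one_smul]
  · rw [if_neg h]
    let ξ : Q →* ℂ :=
      { toFun := fun x => χ x⁻¹ * φ x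
        map_one' := by simp
        map_mul' := fun a b => by rw [mul_inv_rev, map_mul, map_mul]; ring }
    have : ξ ≠ 1 := fun e => h (MonoidHom.ext fun x => by
      have e1 : χ x⁻¹ * φ x = 1 := DFunLike.congr_fun e x
      calc φ x = χ x⁻¹ * χ x * φ x := by rw [h0, one_mul]
        _ = χ x * (χ x⁻¹ * φ x) := by ring
        _ = χ x := by rw [e1, mul_one])
    rw [show (∑ x : Q, χ x⁻¹ * φ x) = ∑ x : Q, ξ x from rfl, sum_hom_units_eq_zero ξ this, mul_zero,
      zero_smul]

omit [Fintype Q] in
/-- Eigenvectors with different characters, none trivial on `A`, count against the vectors fixed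
by `A`. -/
theorem card_add_fix_le {A : Type*} [Monoid A] (fA : A →* Q) {ι : Type*} [Fintype ι]
    (U : Submodule ℂ V) (φ : ι → (Q →* ℂ)) (v : ι → V) (hφ : Function.Injective φ)
    (hv : ∀ i, v i ≠ 0) (hU : ∀ i, v i ∈ U) (he : ∀ i x, ρ (fQ x) (v i) = φ i x • v i)
    (hne : ∀ i, ∃ a, φ i (fA a) ≠ 1) :
    Fintype.card ι + Module.finrank ℂ ↥(U ⊓ fix ρ (fQ.comp fA)) ≤ Module.finrank ℂ U := by
  classical
  have h1 : LinearIndependent ℂ v := RepEigen.linearIndependent_eigen (ρ.comp fQ) φ v hφ hv he
  have hdisj : Disjoint (Submodule.span ℂ (Set.range v)) (U ⊓ fix ρ (fQ.comp fA)) := by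
    rw [Submodule.disjoint_def]
    intro x hx hxF
    obtain ⟨c, rfl⟩ := (Submodule.mem_span_range_iff_exists_fun ℂ).1 hx
    refine Finset.sum_eq_zero fun i _ => ?_
    obtain ⟨z, hz⟩ := hne i
    have h : ρ (fQ (fA z)) _ = _ := hxF.2 z
    rw [← sub_eq_zero, map_sum, ← Finset.sum_sub_distrib] at h
    simp only [map_smul, he, smul_smul, ← sub_smul] at h
    have := Fintype.linearIndependent_iff.1 h1 _ h i
    rw [← mul_sub_one, mul_eq_zero] at this
    rw [this.resolve_right (sub_ne_zero.2 hz), zero_smul]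
  have hle : Submodule.span ℂ (Set.range v) ⊔ (U ⊓ fix ρ (fQ.comp fA)) ≤ U :=
    sup_le (Submodule.span_le.2 (by rintro _ ⟨i, rfl⟩; exact hU i)) inf_le_left
  have h2 := Submodule.finrank_mono hle
  have h3 := Submodule.finrank_sup_add_finrank_inf_eq (Submodule.span ℂ (Set.range v))
    (U ⊓ fix ρ (fQ.comp fA))
  rw [disjoint_iff.1 hdisj, finrank_bot, add_zero, finrank_span_eq_card h1] at h3
  omega

/-- When eigenvectors with different characters fill everything outside the fixed vectors of `A`, every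
eigenvector not fixed by `A` is a multiple of one of them. -/
theorem exists_eq_smul_of_full {A : Type*} [Monoid A] (fA : A →* Q) {ι : Type*} [Fintype ι]
    (U : Submodule ℂ V) (φ : ι → (Q →* ℂ)) (v : ι → V) (hφ : Function.Injective φ)
    (hv : ∀ i, v i ≠ 0) (hU : ∀ i, v i ∈ U) (he : ∀ i x, ρ (fQ x) (v i) = φ i x • v i)
    (hne : ∀ i, ∃ a, φ i (fA a) ≠ 1)
    (hfull : Module.finrank ℂ U ≤ Fintype.card ι + Module.finrank ℂ ↥(U ⊓ fix ρ (fQ.comp fA)))
    {w : V} (hwU : w ∈ U) (hw : w ≠ 0) (χ : Q →* ℂ) (hwe : ∀ x, ρ (fQ x) w = χ x • w)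
    (hχ : ∃ a, χ (fA a) ≠ 1) : ∃ i, φ i = χ ∧ ∃ c : ℂ, w = c • v i := by
  classical
  have h1 : LinearIndependent ℂ v := RepEigen.linearIndependent_eigen (ρ.comp fQ) φ v hφ hv he
  set F := U ⊓ fix ρ (fQ.comp fA) with hF
  set S := Submodule.span ℂ (Set.range v) with hS
  have hSU : S ≤ U := Submodule.span_le.2 (by rintro _ ⟨i, rfl⟩; exact hU i)
  have hdisj : S ⊓ F = ⊥ := by
    rw [Submodule.eq_bot_iff]
    intro x hx
    obtain ⟨c, rfl⟩ := (Submodule.mem_span_range_iff_exists_fun ℂ).1 hx.1
    refine Finset.sum_eq_zero fun i _ => ?_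
    obtain ⟨z, hz⟩ := hne i
    have h : ρ (fQ (fA z)) _ = _ := hx.2.2 z
    rw [← sub_eq_zero, map_sum, ← Finset.sum_sub_distrib] at h
    simp only [map_smul, he, smul_smul, ← sub_smul] at h
    have := Fintype.linearIndependent_iff.1 h1 _ h i
    rw [← mul_sub_one, mul_eq_zero] at this
    rw [this.resolve_right (sub_ne_zero.2 hz), zero_smul]
  have h3 := Submodule.finrank_sup_add_finrank_inf_eq S F
  rw [hdisj, finrank_bot, add_zero, hS, finrank_span_eq_card h1] at h3
  have htop : S ⊔ F = U := Submodule.eq_of_le_of_finrank_le (sup_le hSU inf_le_left) (by rw [hS]; omega)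
  obtain ⟨s, hs, f, hf, hsf⟩ := Submodule.mem_sup.1 (htop.ge hwU)
  obtain ⟨c, rfl⟩ := (Submodule.mem_span_range_iff_exists_fun ℂ).1 hs
  obtain ⟨a, ha⟩ := hχ
  have e : (χ (fA a) - 1) • w = ∑ i, (c i * (φ i (fA a) - 1)) • v i := by
    have hfix : ρ (fQ (fA a)) f = f := hf.2 a
    rw [sub_smul, one_smul, ← hwe, ← hsf, map_add, map_sum, hfix, add_sub_add_right_eq_sub,
      ← Finset.sum_sub_distrib]
    refine Finset.sum_congr rfl fun i _ => ?_
    rw [map_smul, he, smul_smul, mul_sub, mul_one, sub_smul]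
  have e' := congrArg (proj ρ fQ χ) e
  simp only [map_sum, map_smul, proj_apply_of_eigen ρ fQ χ χ hwe, if_pos, proj_apply_of_eigen ρ fQ χ _ (he _)] at e'
  by_cases hex : ∃ i, φ i = χ
  · obtain ⟨i, hi⟩ := hex
    refine ⟨i, hi, (χ (fA a) - 1)⁻¹ * (c i * (φ i (fA a) - 1)), ?_⟩
    rw [Finset.sum_eq_single i (fun j _ hj => by
      rw [if_neg (fun e'' => hj (hφ (e''.trans hi.symm))), smul_zero]) (fun h => (h (Finset.mem_univ _)).elim),
      if_pos hi] at e'
    rw [mul_smul, ← e', inv_smul_smul₀ (sub_ne_zero.2 ha)]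
  · rw [Finset.sum_eq_zero (fun j _ => by rw [if_neg (fun e'' => hex ⟨j, e''⟩), smul_zero])] at e'
    exact absurd ((smul_eq_zero.1 e').resolve_left (sub_ne_zero.2 ha)) hw

/-- Orbits of `D` on eigencharacters, with trivial action of the stabilisers on the eigenvectors,
give independent fixed vectors. -/
theorem sum_le_card_mul_fix {D : Type*} [Group D] [Fintype D] (fD : D →* G)
    (act : D → (Q →* Q)) (hact : ∀ d x, fQ (act d x) = (fD d)⁻¹ * fQ x * fD d)
    {ι : Type*} [Fintype ι] (U : Submodule ℂ V) (hUinv : ∀ d, ∀ u ∈ U, ρ (fD d) u ∈ U)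
    (φ : ι → (Q →* ℂ)) (v : ι → V) (hφ : Function.Injective φ)
    (hv : ∀ i, v i ≠ 0) (hU : ∀ i, v i ∈ U) (he : ∀ i x, ρ (fQ x) (v i) = φ i x • v i)
    (hstab : ∀ i d, (φ i).comp (act d) = φ i → ρ (fD d) (v i) = v i)
    (s : ι → ℕ) (hs : ∀ i, s i ≤ Nat.card {d : D // (φ i).comp (act d) = φ i}) :
    ∑ i, s i ≤ Fintype.card D * Module.finrank ℂ ↥(U ⊓ fix ρ fD) := by
  classical
  let o : ι → Finset (Q →* ℂ) := fun i => Finset.univ.image fun d => (φ i).comp (act d)
  have heig : ∀ i d x, ρ (fQ x) (ρ (fD d) (v i)) = ((φ i).comp (act d)) x • ρ (fD d) (v i) := by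
    intro i d x
    rw [← Module.End.mul_apply, ← map_mul, show fQ x * fD d = fD d * fQ (act d x) by
      rw [hact]; group, map_mul, Module.End.mul_apply, he, map_smul]
    rfl
  let w : ι → V := fun i => ∑ d, ρ (fD d) (v i)
  have hwfix : ∀ i, w i ∈ U ⊓ fix ρ fD := fun i =>
    ⟨Submodule.sum_mem _ fun d _ => hUinv d _ (hU i), fun e => by
      simp only [w, map_sum]
      exact Fintype.sum_equiv (Equiv.mulLeft e) _ _ fun d => by
        rw [← Module.End.mul_apply, ← map_mul, ← map_mul]; rfl⟩
  have hproj : ∀ i j, proj ρ fQ (φ i) (w j) =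
      ∑ d ∈ Finset.univ.filter (fun d => (φ j).comp (act d) = φ i), ρ (fD d) (v j) := by
    intro i j
    simp only [w, map_sum, Finset.sum_filter]
    exact Finset.sum_congr rfl fun d _ => proj_apply_of_eigen ρ fQ (φ i) _ (heig j d)
  -- one representative for each orbit
  let R : Finset (Finset (Q →* ℂ)) := Finset.univ.image o
  have hrep : ∀ r : ↥R, ∃ i, o i = r.1 := fun r => by
    obtain ⟨i, -, hi⟩ := Finset.mem_image.1 r.2
    exact ⟨i, hi⟩
  choose rep hrep using hrep
  have hind : LinearIndependent ℂ fun r : ↥R => (⟨w (rep r), hwfix _⟩ : ↥(U ⊓ fix ρ fD)) := by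
    rw [Fintype.linearIndependent_iff]
    intro c hc r
    have h := congrArg (fun x : ↥(U ⊓ fix ρ fD) => proj ρ fQ (φ (rep r)) (x : V)) hc
    simp only [Submodule.coe_sum, Submodule.coe_smul, Submodule.coe_zero, map_sum, map_smul, map_zero,
      hproj] at h
    have hone : φ (rep r) ∈ o (rep r) := by
      refine Finset.mem_image.2 ⟨1, Finset.mem_univ _, MonoidHom.ext fun x => ?_⟩
      have := hact 1 x
      rw [map_one, inv_one, one_mul, mul_one] at this
      show φ (rep r) (act 1 x) = φ (rep r) x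
      exact smul_left_injective ℂ (hv (rep r)) (by simp only [← he, this])
    have hkey : ∀ r' : ↥R, r' ≠ r → ∀ d, (φ (rep r')).comp (act d) ≠ φ (rep r) := by
      intro r' hne d hd
      apply hne
      -- the two orbits share a character
      have horb : ∀ i j : ι, ∀ d : D, (φ j).comp (act d) = φ i → o i = o j := by
        intro i j d hd
        have hc : ∀ a b : D, ((φ j).comp (act a)).comp (act b) = (φ j).comp (act (b * a)) := by
          intro a b
          refine MonoidHom.ext fun x => smul_left_injective ℂ (hv j) ?_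
          show φ j (act a (act b x)) • v j = φ j (act (b * a) x) • v j
          rw [← he, ← he, hact, hact, hact, map_mul fD, mul_inv_rev]
          simp only [mul_assoc]
        ext ψ
        simp only [o, Finset.mem_image, Finset.mem_univ, true_and]
        constructor
        · rintro ⟨e, rfl⟩
          exact ⟨e * d, by rw [← hc, hd]⟩
        · rintro ⟨e, rfl⟩
          exact ⟨e * d⁻¹, by rw [← hd, hc, inv_mul_cancel_right]⟩
      exact Subtype.ext ((hrep r').symm.trans ((horb _ _ d hd).symm.trans (hrep r)))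
    rw [Finset.sum_eq_single r (fun r' _ hne => by
      rw [Finset.filter_false_of_mem (fun d _ => hkey r' hne d), Finset.sum_empty, smul_zero])
      (fun h => (h (Finset.mem_univ _)).elim)] at h
    rw [Finset.sum_congr rfl (fun d hd => hstab _ d (Finset.mem_filter.1 hd).2), Finset.sum_const,
      ← Nat.cast_smul_eq_nsmul ℂ, smul_smul, smul_eq_zero] at h
    rcases h with h | h
    · rcases mul_eq_zero.1 h with h | h
      · exact h
      · exfalso
        obtain ⟨d, -, hd⟩ := Finset.mem_image.1 hone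
        rw [Nat.cast_eq_zero, Finset.card_eq_zero] at h
        exact (Finset.eq_empty_iff_forall_notMem.1 h) d (Finset.mem_filter.2 ⟨Finset.mem_univ _, hd⟩)
    · exact absurd h (hv _)
  have hR := hind.fintype_card_le_finrank
  rw [Fintype.card_coe] at hR
  refine le_trans ?_ (Nat.mul_le_mul le_rfl hR)
  calc ∑ i, s i = ∑ r ∈ R, ∑ i ∈ Finset.univ.filter (fun i => o i = r), s i := by
        rw [Finset.sum_fiberwise_of_maps_to (fun i _ => Finset.mem_image_of_mem _ (Finset.mem_univ i))]
    _ ≤ ∑ _r ∈ R, Fintype.card D := ?_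
    _ = _ := by rw [Finset.sum_const, smul_eq_mul, mul_comm]
  refine Finset.sum_le_sum fun r _ => ?_
  -- the stabilisers, translated, are disjoint in `D`
  rcases Finset.eq_empty_or_nonempty (Finset.univ.filter fun i => o i = r) with h | ⟨j, hj⟩
  · rw [h, Finset.sum_empty]; exact Nat.zero_le _
  have hoj := (Finset.mem_filter.1 hj).2
  have hsel : ∀ i, o i = r → ∃ d, (φ j).comp (act d) = φ i := by
    intro i hi
    have : φ i ∈ o i := by
      refine Finset.mem_image.2 ⟨1, Finset.mem_univ _, MonoidHom.ext fun x => ?_⟩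
      have := hact 1 x
      rw [map_one, inv_one, one_mul, mul_one] at this
      show φ i (act 1 x) = φ i x
      exact smul_left_injective ℂ (hv i) (by simp only [← he, this])
    rw [hi, ← hoj] at this
    obtain ⟨d, -, hd⟩ := Finset.mem_image.1 this
    exact ⟨d, hd⟩
  let f : (i : ι) → o i = r → D := fun i hi => (hsel i hi).choose
  calc ∑ i ∈ Finset.univ.filter (fun i => o i = r), s i
      ≤ ∑ i ∈ Finset.univ.filter (fun i => o i = r),
          (Finset.univ.filter fun d => (φ j).comp (act d) = φ i).card := by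
        refine Finset.sum_le_sum fun i hi => (hs i).trans ?_
        have hi' := (Finset.mem_filter.1 hi).2
        rw [Nat.card_eq_fintype_card, Fintype.card_subtype]
        refine Finset.card_le_card_of_injOn (fun d => d * f i hi') (fun d hd => ?_)
          (fun a _ b _ h => mul_right_cancel h)
        have hd' := (Finset.mem_filter.1 hd).2
        refine Finset.mem_filter.2 ⟨Finset.mem_univ _, MonoidHom.ext fun x => ?_⟩
        have h0 : (φ j).comp (act (f i hi')) = φ i := (hsel i hi').choose_spec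
        show φ j (act (d * f i hi') x) = φ i x
        rw [← DFunLike.congr_fun hd' x]
        show _ = φ i (act d x)
        rw [← DFunLike.congr_fun h0 (act d x)]
        refine smul_left_injective ℂ (hv j) ?_
        show φ j (act (d * f i hi') x) • v j = φ j (act (f i hi') (act d x)) • v j
        rw [← he, ← he, hact, hact, hact, map_mul fD, mul_inv_rev]
        simp only [mul_assoc]
    _ = ((Finset.univ.filter fun i => o i = r).biUnion
          fun i => Finset.univ.filter fun d => (φ j).comp (act d) = φ i).card := by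
        refine (Finset.card_biUnion fun a _ b _ hab => Finset.disjoint_left.2 fun d ha hb => ?_).symm
        exact hab (hφ ((Finset.mem_filter.1 ha).2.symm.trans (Finset.mem_filter.1 hb).2))
    _ ≤ _ := Finset.card_le_univ _

end Orbit

end CfsgLib.Twisted.RepFix
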